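/-
Project NS3 (helper40): no standard subgroup is isomorphic to `ON`, `He` or `Suz`.  Generic definitions.

The model is `d : Wr.Dat Γ` with `d.C = Aut(d.L)`, `|d.C : d.L| = 2`; only the fields `L, C, T, z` are used here.
-/
import Cfsg.Agent.Wr.Tools

set_option autoImplicit false
open Cfsg Subgroup CL.Even CL.Grp CL.Wr
open scoped commutatorElement

namespace CL.NS

universe u

section Model

variable {Γ : Type*} [Group Γ]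

/-- `x` is an involution. -/
def Iv (x : Γ) : Prop := x * x = 1 ∧ x ≠ 1

/-- The second derived group of the centraliser of `x` in `L`. -/
def Jc (L : Subgroup Γ) (x : Γ) : Subgroup Γ :=
  ⁅⁅L ⊓ centralizer {x}, L ⊓ centralizer {x}⁆, ⁅L ⊓ centralizer {x}, L ⊓ centralizer {x}⁆⁆

/-- The centre of `Jc L x`. -/
def ZJ (L : Subgroup Γ) (x : Γ) : Subgroup Γ := Jc L x ⊓ 𝒞(Jc L x)

/-- The class of `z` in `L`. -/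
def cl (d : Dat Γ) (x : Γ) : Prop := ∃ g ∈ d.L, x = g * d.z * g⁻¹

/-- The basic facts: `C = Aut(L)`, `T` and `Th` are Sylow 2-subgroups of `L` and `C`, `Z(T) = ⟨z⟩`. -/
structure Base (d : Dat Γ) (Th : Subgroup Γ) : Prop where
  L_le : d.L ≤ d.C
  L_norm : d.C ≤ 𝒩(d.L)
  syl : IsSylowIn 2 d.T d.L
  sylh : IsSylowIn 2 Th d.C
  inf : Th ⊓ d.L = d.T
  simple : IsSimpleGroup d.L
  cL : ∀ c ∈ d.C, c ∈ 𝒞(d.L) → c = 1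
  aut : ∀ φ : MulAut d.L, ∃ c ∈ d.C, ∀ x : d.L, (φ x : Γ) = c * x * c⁻¹
  mul_mem_L : ∀ x ∈ d.C, ∀ y ∈ d.C, x ∉ d.L → y ∉ d.L → x * y ∈ d.L
  out : ∃ σ ∈ Th, σ ∉ d.L
  z_mem : d.z ∈ d.T
  z_sq : d.z * d.z = 1
  z_ne : d.z ≠ 1
  z_T : ∀ x ∈ d.T, x * d.z = d.z * x
  cenT : ∀ c ∈ d.C, c ∈ 𝒞(d.T) → c = 1 ∨ c = d.z
  qv : ∃ q ∈ d.T, ∃ v ∈ d.T, v * v = 1 ∧ ⁅q, v⁆ = d.z
  cenO : ∀ x ∈ d.T, (∀ y ∈ d.T, cl d y → x * y = y * x) → x = 1 ∨ x = d.z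

/-- An involution of `L` which lies in `Jc` (all classes except `2B` of `Suz`). -/
structure Good (d : Dat Γ) (x : Γ) : Prop where
  cen : ∀ c ∈ d.C, c ∈ 𝒞(Jc d.L x) → c ∈ Jc d.L x ∧ Two c
  ctr : ∀ c ∈ d.L, c ∈ 𝒞(d.L ⊓ centralizer {x}) → c = 1 ∨ c = x

/-- The class `2B` of `Suz`. -/
structure Bad (d : Dat Γ) (x : Γ) : Prop where
  conv : ∃ j ∈ Jc d.L x, cl d j ∧ ∃ g ∈ d.L, g * x * g⁻¹ = x * j
  one : ∀ j ∈ Jc d.L x, Iv j → cl d j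
  cen : ∀ c ∈ d.C, c ∈ 𝒞(Jc d.L x) → c ∈ d.L
  ws : ∃ w ∈ d.L ⊓ centralizer {x}, ∃ s ∈ d.L ⊓ centralizer {x}, w * w = 1 ∧ w ∈ 𝒞(Jc d.L x) ∧ ⁅s, w⁆ = x

/-- The involution centralisers. -/
structure Cen (d : Dat Γ) : Prop where
  perf : ∀ x ∈ d.C, Iv x → Jc d.L x ≤ ⁅Jc d.L x, Jc d.L x⁆
  zle : ∀ x ∈ d.C, Iv x → Nat.card (ZJ d.L x) ≤ 4
  ns : ∀ x ∈ d.C, Iv x → ∀ N, N ≤ Jc d.L x → d.L ⊓ centralizer {x} ≤ 𝒩(N) → N ≤ 𝒞(Jc d.L x) ∨ ∃ y ∈ N, cl d y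
  nz : ∀ N, N ≤ Jc d.L d.z → d.L ⊓ centralizer {d.z} ≤ 𝒩(N) → N ≤ 𝒞(Jc d.L d.z) ∨
    ∃ y ∈ N, Iv y ∧ d.L ≤ d.L ⊓ centralizer {d.z} ⊔ d.L ⊓ centralizer {y}
  z_J : d.z ∈ Jc d.L d.z
  num1 : ∀ y ∈ d.C, Iv y → Nat.card (Jc d.L d.z) ∣ Nat.card (ZJ d.L d.z) * Nat.card (Jc d.L y) → cl d y
  num2 : ∀ x ∈ d.C, ∀ y ∈ d.C, Iv x → Iv y → Nat.card (Jc d.L x) ∣ Nat.card (ZJ d.L x) * Nat.card (Jc d.L y) →
    Nat.card (Jc d.L y) ∣ Nat.card (ZJ d.L y) * Nat.card (Jc d.L x) → ∃ g ∈ d.L, y = g * x * g⁻¹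
  num3 : ∀ x ∈ d.C, ∀ y ∈ d.C, x ∉ d.L → y ∉ d.L → x * x = 1 → y * y = 1 →
    ¬ Nat.card (Jc d.L x) * Nat.card (Jc d.L y) ∣ Nat.card (ZJ d.L x) * Nat.card (ZJ d.L y) * Nat.card d.L
  good : ∀ x ∈ d.L, Iv x → x ∈ Jc d.L x → Good d x
  bad : ∀ x ∈ d.L, Iv x → x ∉ Jc d.L x → Bad d x
  out : ∀ x ∈ d.C, x ∉ d.L → x * x = 1 → ∃ j ∈ Jc d.L x, cl d j ∧ ∃ g ∈ d.L, g * x * g⁻¹ = x * j

/-- The orders of the 2-subgroups of involution centralisers. -/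
structure Num (d : Dat Γ) (Th : Subgroup Γ) (σ : Γ) (B mi mo Mo : ℕ) : Prop where
  mem : σ ∈ Th
  not_mem : σ ∉ d.L
  sq : σ * σ = 1
  inn : ∀ x ∈ d.L, x * x = 1 → ∃ g ∈ d.L, g * x * g⁻¹ ∈ d.T ∧
    mi ≤ Nat.card (d.T ⊓ centralizer {g * x * g⁻¹} : Subgroup Γ) ∧
    ∃ c ∈ Th, c ∉ d.L ∧ c * (g * x * g⁻¹) = g * x * g⁻¹ * c
  out : ∀ x ∈ d.C, x ∉ d.L → x * x = 1 → ∃ g ∈ d.L, g * x * g⁻¹ ∈ Th ∧
    mo ≤ Nat.card (d.T ⊓ centralizer {g * x * g⁻¹} : Subgroup Γ)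
  up : ∀ R : Subgroup Γ, IsPGroup 2 R → R ≤ d.L ⊓ centralizer {σ} → Nat.card R ≤ Mo
  n1 : B ≤ mi * mi
  n2 : B ≤ 4 * mi * mo
  n3 : 4 * Nat.card d.T < B
  n4 : 8 * Mo * Mo < B

/-- The facts for the Held group: the local facts of project WREATH. -/
structure Top2 (d : Dat Γ) (Th : Subgroup Γ) : Prop extends Base d Th where
  ok : Ok d
  fake : Fake d
  t_eq : d.t = 1
  maxE : ∀ E, E ≤ d.T → (∀ x ∈ E, x * x = 1) → E ≤ d.A ∨ E ≤ d.B ∨ Nat.card E < Nat.card d.A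
  outE : ∀ x ∈ d.C, x ∉ d.L → x * x = 1 → ∀ R : Subgroup Γ, IsPGroup 2 R → R ≤ d.L ⊓ centralizer {x} →
    2 * Nat.card R < Nat.card d.A
  cardAB : Nat.card d.A = Nat.card d.B
  invD : ∀ x ∈ d.L, x * x = 1 → ∃ g ∈ d.L, g * x * g⁻¹ ∈ d.D

/-- The facts for the fusion in `Suz × Suz`: `V = 2⁶`, `Z = 2⁴` consists of `1` and the conjugates of `z` in `V`. -/
structure FusS (d : Dat Γ) (V Z : Subgroup Γ) (f : Γ) : Prop where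
  V_le : V ≤ d.T
  Z_le : Z ≤ V
  sq : ∀ v ∈ V, v * v = 1
  cardV : Nat.card V = 64
  cardZ : Nat.card Z = 16
  z_mem : d.z ∈ Z
  clZ : ∀ v ∈ Z, v ≠ 1 → cl d v
  clV : ∀ v ∈ V, v ∉ Z → ∃ g ∈ d.L, v = g * f * g⁻¹
  two : ∀ x ∈ d.L, Iv x → cl d x ∨ ∃ g ∈ d.L, x = g * f * g⁻¹
  f_mem : f ∈ V
  f_not : f ∉ Z
  tr : ∀ v ∈ V, cl d v → ∃ n ∈ d.L, n ∈ 𝒩(V) ∧ v = n * d.z * n⁻¹
  maxE : ∀ E, E ≤ d.L → (∀ x ∈ E, x * x = 1) → Nat.card E < 64 ∨ ∃ g ∈ d.L, E = cj g V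

end Model

section Global

variable {G : Type*} [Group G] {Γ : Type*} [Group Γ]

/-- The action of `N(L)` on `L`, which is isomorphic to the model. -/
structure Rh (d : Dat Γ) (L : Subgroup G) (ρ : G → Γ) : Prop extends Rho d L ρ where
  inj : ∀ x ∈ L, x ∈ 𝒞(L) → x = 1

/-- No conjugate of `z` lies in a conjugate of `C(L)`. -/
def NoZ (d : Dat Γ) (L : Subgroup G) (ρ : G → Γ) : Prop := ∀ l ∈ L, cl d (ρ l) → ∀ g : G, l ∉ cj g 𝒞(L)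

/-- `r ∈ C(L)ᵍ` and `κ ∈ C(L)` are commuting involutions, `g ∉ N(L)`. -/
structure Pr (L : Subgroup G) (g r κ : G) : Prop where
  not : g ∉ 𝒩(L)
  r_mem : r ∈ cj g 𝒞(L)
  r_iv : Iv r
  k_mem : κ ∈ 𝒞(L)
  k_iv : Iv κ
  comm : r * κ = κ * r

/-- The elements of `L` over `Jc (ρ r)` are mapped isomorphically onto `Jc (ρ₁ κ)` by `ρ₁ x = ρ (g⁻¹ x g)`. -/
structure Iso (d : Dat Γ) (L : Subgroup G) (ρ : G → Γ) (g r κ : G) : Prop where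
  conj : ∃ h ∈ d.L, ρ (g⁻¹ * κ * g) = h * ρ r * h⁻¹
  mem : ∀ x ∈ L, ρ x ∈ Jc d.L (ρ r) → ρ (g⁻¹ * x * g) ∈ Jc d.L (ρ (g⁻¹ * κ * g))
  surj : ∀ y ∈ Jc d.L (ρ (g⁻¹ * κ * g)), ∃ x ∈ L, ρ x ∈ Jc d.L (ρ r) ∧ ρ (g⁻¹ * x * g) = y
  inj : ∀ x ∈ L, ρ x ∈ Jc d.L (ρ r) → ρ (g⁻¹ * x * g) = 1 → x = 1

/-- The local configuration; `x` moves `t l` to `t` and normalises the odd part of `C(L) ⊓ C(t)`. -/
structure Loc (d : Dat Γ) (t : G) (L : Subgroup G) (ρ : G → Γ) : Prop extends Loc0 d t L ρ where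
  inj : ∀ x ∈ L, x ∈ 𝒞(L) → x = 1
  mv : ∃ l ∈ L, Iv l ∧ ρ l ∈ Jc d.L (ρ l) ∧ ∃ x, x * (t * l) * x⁻¹ = t ∧
    ∀ o ∈ 𝒞(L), o * t = t * o → Odd (orderOf o) → x * o * x⁻¹ ∈ 𝒞(L)

/-- The core configuration: `C(t) / ⟨t⟩` lies between `L` and `Aut(L)`. -/
structure Cr (d : Dat Γ) (t : G) (L : Subgroup G) (π : G → Γ) : Prop where
  t_sq : t * t = 1
  noL : ∀ g : G, g * t * g⁻¹ ∉ L
  L_le : L ≤ centralizer {t}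
  norm : centralizer {t} ≤ 𝒩(L)
  mul : MulOn (centralizer {t}) π
  mem : ∀ c ∈ centralizer {t}, π c ∈ d.C
  pt : π t = 1
  ker : ∀ c ∈ centralizer {t}, π c = 1 → c = 1 ∨ c = t
  memL : ∀ l ∈ L, π l ∈ d.L
  surj : ∀ x ∈ d.L, ∃ l ∈ L, π l = x
  fus : ∃ l ∈ L, Iv l ∧ π l ∈ Jc d.L (π l) ∧ IsConj t (t * l)

/-- The sizes of the 2-subgroups of centralisers. -/
structure Sz (d : Dat Γ) (B : ℕ) (t : G) (M₀ S₀ : Subgroup G) (p : G → Γ) : Prop where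
  notConj : ∀ y ∈ M₀, ¬ IsConj t y
  syl : IsSylowIn 2 (S₀ ⊔ zpowers t : Subgroup G) ⊤
  upper : ∀ w, w * t = t * w → ∀ P : Subgroup G, IsPGroup 2 P → P ≤ centralizer {w} →
    ∃ Q : Subgroup G, IsPGroup 2 Q ∧ Q ≤ M₀ ⊓ centralizer {w} ∧ Nat.card P ≤ 2 * Nat.card Q
  lower : ∀ y ∈ M₀, y * y = 1 → (p y ∈ d.L ∨ p (t * y * t⁻¹) ∈ d.L) →
    ∃ P : Subgroup G, IsPGroup 2 P ∧ P ≤ centralizer {y} ∧ B ≤ Nat.card P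

/-- The final configuration: `T₁ T₂` is a Sylow 2-subgroup of the normal subgroup `X`, `w` is the first component
of `z`. -/
structure Fin0 {d : Dat Γ} {Th : Subgroup Γ} {t : G} {G₀ M₀ S₀ : Subgroup G} {p : G → Γ}
    (c : Cfg d Th t G₀ M₀ S₀ p) (X : Subgroup G) (w : G) : Prop where
  normal : X.Normal
  G_le : G₀ ≤ X
  syl : IsSylowIn 2 (c.E d.T d.T) X
  w_mem : w ∈ S₀
  pw : p w = d.z
  qw : p (t * w * t⁻¹) = 1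

end Global

/-! ### The statements -/

/-- The core theorem for the model `d`. -/
def CoreH {Γ : Type} [Group Γ] (d : Dat Γ) : Prop := ∀ {G : Type u} [Group G] [Finite G] (t : G) (L : Subgroup G)
  (π : G → Γ), Cr d t L π → ∃ L₁, Wrt t L L₁

/-- The fusion of the first component of `z` for the model `d`. -/
def FusH {Γ : Type} [Group Γ] (d : Dat Γ) (Th : Subgroup Γ) : Prop := ∀ {G : Type u} [Group G] [Finite G] (t : G)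
  (G₀ M₀ S₀ : Subgroup G) (p : G → Γ) (c : Cfg d Th t G₀ M₀ S₀ p) (X : Subgroup G) (w : G), Fin0 c X w →
  ∀ g ∈ X, g * w * g⁻¹ ∈ c.E d.T d.T → g * w * g⁻¹ ∈ c.E d.T ⊥

/-- (ACT) the action of `N(K)` on `K / Z(K)`. -/
def ActB : Prop := ∀ {Γ : Type} [Group Γ] [Finite Γ] (d : Dat Γ) (Th : Subgroup Γ) {G : Type u} [Group G]
  (K : Subgroup G) (ψ : G → Γ), Base d Th → K ≤ ⁅K, K⁆ → MulOn K ψ → (∀ x ∈ K, ψ x ∈ d.L) →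
  (∀ y ∈ d.L, ∃ x ∈ K, ψ x = y) → (∀ x ∈ K, ψ x = 1 → x ∈ 𝒞(K)) →
  ∃ ρ : G → Γ, MulOn 𝒩(K) ρ ∧ (∀ n ∈ 𝒩(K), ρ n ∈ d.C) ∧ (∀ n ∈ 𝒩(K), ρ n = 1 ↔ n ∈ 𝒞(K)) ∧ ∀ x ∈ K, ρ x = ψ x

/-- (R) the action on `L`. -/
def RhB : Prop := ∀ {Γ : Type} [Group Γ] [Finite Γ] (d : Dat Γ) (Th : Subgroup Γ) {G : Type u} [Group G] [Finite G]
  (L : Subgroup G), Base d Th → Nonempty (L ≃* d.L) → ∃ ρ, Rh d L ρ

/-- (B1) no conjugate of `z` lies in a conjugate of `C(L)`. -/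
def B1 : Prop := ∀ {Γ : Type} [Group Γ] [Finite Γ] (d : Dat Γ) (Th : Subgroup Γ) {G : Type u} [Group G] [Finite G]
  (L : Subgroup G) (ρ : G → Γ), Base d Th → Cen d → Rh d L ρ → IsStandardSubgroup L → NoZ d L ρ

/-- (B0) commuting involutions of two conjugates of `C(L)`. -/
def B0 : Prop := ∀ {Γ : Type} [Group Γ] [Finite Γ] (d : Dat Γ) (Th : Subgroup Γ) {G : Type u} [Group G] [Finite G]
  (L : Subgroup G) (ρ : G → Γ) (g r κ : G), Base d Th → Cen d → Rh d L ρ → IsStandardSubgroup L → NoZ d L ρ →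
  Pr L g r κ → Iso d L ρ g r κ

/-- (B2) a good pair. -/
def B2 : Prop := ∀ {Γ : Type} [Group Γ] [Finite Γ] (d : Dat Γ) (Th : Subgroup Γ) {G : Type u} [Group G] [Finite G]
  (L : Subgroup G) (ρ : G → Γ) (g l κ : G), Base d Th → Cen d → Rh d L ρ → IsStandardSubgroup L → NoZ d L ρ →
  g ∉ 𝒩(L) → l ∈ L → Iv l → ρ l ∈ Jc d.L (ρ l) → κ ∈ 𝒞(L) → κ * κ = 1 → l * κ ∈ cj g 𝒞(L) →
  κ ≠ 1 ∧ ¬ 4 ∣ Nat.card 𝒞(L) ∧ ∃ x, x * (κ * l) * x⁻¹ = κ ∧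
    ∀ o ∈ 𝒞(L), o * κ = κ * o → Odd (orderOf o) → x * o * x⁻¹ ∈ 𝒞(L)

/-- (B3) the local configuration. -/
def B3 : Prop := ∀ {Γ : Type} [Group Γ] [Finite Γ] (d : Dat Γ) (Th : Subgroup Γ) {G : Type u} [Group G] [Finite G]
  (L : Subgroup G) (ρ : G → Γ), Base d Th → Cen d → Rh d L ρ → IsStandardSubgroup L → NoZ d L ρ →
  (∃ g r : G, g ∉ 𝒩(L) ∧ r ∈ cj g 𝒞(L) ∧ r ∈ 𝒩(L) ∧ r * r = 1 ∧ r ≠ 1) → ∃ t, Loc d t L ρ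

/-- (C) the quotient by the odd part of `C(L) ⊓ C(t)`. -/
def CB : Prop := ∀ {Γ : Type} [Group Γ] [Finite Γ] (d : Dat Γ) (Th : Subgroup Γ) {G : Type u} [Group G] [Finite G]
  (t : G) (L : Subgroup G) (ρ : G → Γ), Base d Th → CoreH.{u} d → Loc d t L ρ → ∃ L₁, Wrt t L L₁

/-- (E1a) the configuration. -/
def E1aB : Prop := ∀ {Γ : Type} [Group Γ] [Finite Γ] (d : Dat Γ) (Th : Subgroup Γ) {G : Type u} [Group G] [Finite G]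
  (t : G) (L L₁ : Subgroup G) (ρ : G → Γ), Base d Th → Loc0 d t L ρ → Wrt t L L₁ →
  ∃ S₀ p, Cfg d Th t (L₁ ⊔ cj t L₁) (𝒩(L₁) ⊓ 𝒩(cj t L₁)) S₀ p

/-- (E1b) Lemma N. -/
def E1bB : Prop := ∀ {Γ : Type} [Group Γ] [Finite Γ] (d : Dat Γ) (Th : Subgroup Γ) {G : Type u} [Group G] [Finite G]
  (t : G) (L L₁ : Subgroup G) (ρ : G → Γ), Base d Th → Loc0 d t L ρ → Wrt t L L₁ →
  LemN t (𝒩(L₁) ⊓ 𝒩(cj t L₁))

/-- (E2a) the lower bounds. -/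
def E2aB : Prop := ∀ {Γ : Type} [Group Γ] [Finite Γ] (d : Dat Γ) (Th : Subgroup Γ) (σ : Γ) (B mi mo Mo : ℕ)
  {G : Type u} [Group G] [Finite G] (t : G) (G₀ M₀ S₀ : Subgroup G) (p : G → Γ), Base d Th →
  Num d Th σ B mi mo Mo → Cfg d Th t G₀ M₀ S₀ p → ∀ y ∈ M₀, y * y = 1 → (p y ∈ d.L ∨ p (t * y * t⁻¹) ∈ d.L) →
    ¬ IsConj t y ∧ ∃ P : Subgroup G, IsPGroup 2 P ∧ P ≤ centralizer {y} ∧ B ≤ Nat.card P

/-- (E2c) `t` is not conjugate to an element with two outer components. -/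
def E2cB : Prop := ∀ {Γ : Type} [Group Γ] [Finite Γ] (d : Dat Γ) (Th : Subgroup Γ) {G : Type u} [Group G] [Finite G]
  (t : G) (G₀ M₀ S₀ : Subgroup G) (p : G → Γ), Base d Th → Cen d → Cfg d Th t G₀ M₀ S₀ p →
  ∀ y ∈ M₀, p y ∉ d.L → p (t * y * t⁻¹) ∉ d.L → ¬ IsConj t y

/-- (E3) transfer. -/
def E3B : Prop := ∀ {Γ : Type} [Group Γ] [Finite Γ] (d : Dat Γ) (Th : Subgroup Γ) (σ : Γ) (B mi mo Mo : ℕ)
  {G : Type u} [Group G] [Finite G] (t : G) (G₀ M₀ S₀ : Subgroup G) (p : G → Γ) (c : Cfg d Th t G₀ M₀ S₀ p)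
  (X : Subgroup G), Base d Th → Num d Th σ B mi mo Mo → Sz d B t M₀ S₀ p → X.Normal → G₀ ≤ X → X ≤ ⁅X, X⁆ →
  IsSylowIn 2 (c.E d.T d.T) X

/-- (H2) `w` is not conjugate to the other involutions of the centre of `T₁ T₂`. -/
def H2B : Prop := ∀ {Γ : Type} [Group Γ] [Finite Γ] (d : Dat Γ) (Th : Subgroup Γ) {G : Type u} [Group G] [Finite G]
  (t : G) (G₀ M₀ S₀ : Subgroup G) (p : G → Γ) (c : Cfg d Th t G₀ M₀ S₀ p) (X : Subgroup G) (w : G), Base d Th →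
  Fin0 c X w → ∀ g ∈ X, g * w * g⁻¹ ≠ t * w * t⁻¹ ∧ g * w * g⁻¹ ≠ w * (t * w * t⁻¹)

/-- (F1) the fusion when `L` has one class of involutions. -/
def FusOne : Prop := ∀ {Γ : Type} [Group Γ] [Finite Γ] (d : Dat Γ) (Th : Subgroup Γ), Base d Th →
  (∀ x ∈ d.L, Iv x → cl d x) → FusH.{u} d Th

/-- (F2) the fusion for the Held group. -/
def FusHe : Prop := ∀ {Γ : Type} [Group Γ] [Finite Γ] (d : Dat Γ) (Th : Subgroup Γ), Top2 d Th → FusH.{u} d Th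

/-- (F3) the fusion for the Suzuki group. -/
def FusSuz : Prop := ∀ {Γ : Type} [Group Γ] [Finite Γ] (d : Dat Γ) (Th V Z : Subgroup Γ) (f : Γ), Base d Th →
  FusS d V Z f → FusH.{u} d Th

/-- (H4) the Z* theorem and the dihedral argument. -/
def H4B : Prop := ∀ {Γ : Type} [Group Γ] [Finite Γ] (d : Dat Γ) (Th : Subgroup Γ) {G : Type u} [Group G] [Finite G]
  (t : G) (G₀ M₀ S₀ : Subgroup G) (p : G → Γ) (c : Cfg d Th t G₀ M₀ S₀ p) (X : Subgroup G) (w : G), Base d Th →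
  Cen d → Fin0 c X w → IsSimpleGroup X →
  (∀ g ∈ X, g * w * g⁻¹ ∈ c.E d.T d.T → g * w * g⁻¹ ∈ c.E d.T ⊥) → False

/-- The core theorem for the Held group. -/
def CoreHe : Prop := ∀ {Γ : Type} [Group Γ] [Finite Γ] (d : Dat Γ) (Th : Subgroup Γ), Top2 d Th → CoreH.{u} d

end CL.NS
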