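/-
Project NS3: tools.
-/
import Cfsg.Agent.NS3.Defs

set_option autoImplicit false
set_option linter.unusedSectionVars false
open Cfsg Subgroup CL.Even CL.Grp CL.Wr
open scoped commutatorElement

namespace CL.NS

variable {G : Type*} [Group G] {Γ : Type*} [Group Γ]

theorem Iv.conj {x : Γ} (h : Iv x) (g : Γ) : Iv (g * x * g⁻¹) :=
  ⟨by rw [conj_mul, h.1]; group, fun e => h.2 (conj_eq_one_iff.1 e)⟩

theorem cj_cen1 {L : Subgroup Γ} [Finite Γ] {g : Γ} (hg : g ∈ 𝒩(L)) (x : Γ) :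
    L ⊓ centralizer {g * x * g⁻¹} = cj g (L ⊓ centralizer {x}) := by
  ext y
  rw [mem_cj, mem_inf, mem_inf, mem_cent1, mem_cent1]
  refine and_congr ⟨fun h => conj_mem' hg h, fun h => by simpa [mul_assoc] using conj_mem hg h⟩ ⟨fun h => ?_, fun h => ?_⟩
  · calc g⁻¹ * y * g * x = g⁻¹ * (y * (g * x * g⁻¹)) * g := by group
      _ = _ := by rw [h]; group
  · calc y * (g * x * g⁻¹) = g * (g⁻¹ * y * g * x) * g⁻¹ := by group
      _ = _ := by rw [h]; group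

theorem Jc_conj {L : Subgroup Γ} [Finite Γ] {g : Γ} (hg : g ∈ 𝒩(L)) (x : Γ) : Jc L (g * x * g⁻¹) = cj g (Jc L x) := by
  rw [Jc, Jc, cj_cen1 hg, cj_commutator, cj_commutator]

theorem ZJ_conj {L : Subgroup Γ} [Finite Γ] {g : Γ} (hg : g ∈ 𝒩(L)) (x : Γ) : ZJ L (g * x * g⁻¹) = cj g (ZJ L x) := by
  rw [ZJ, ZJ, Jc_conj hg, cj_inf, cj_cent]

theorem Jc_le (L : Subgroup Γ) (x : Γ) : Jc L x ≤ L ⊓ centralizer {x} := (comm_le_self _).trans (comm_le_self _)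

theorem Jc_norm (L : Subgroup Γ) (x : Γ) : L ⊓ centralizer {x} ≤ 𝒩(Jc L x) := fun g hg => by
  rw [← cj_eq_iff_mem, Jc, cj_commutator, cj_commutator, cj_eq (le_normalizer hg)]

/-- A perfect subgroup of the centraliser lies in `Jc`. -/
theorem le_Jc {L J : Subgroup Γ} {x : Γ} (h : J ≤ L ⊓ centralizer {x}) (hp : J ≤ ⁅J, J⁆) : J ≤ Jc L x :=
  hp.trans (commutator_mono (hp.trans (commutator_mono h h)) (hp.trans (commutator_mono h h)))

theorem cl_z (d : Dat Γ) : cl d d.z := ⟨1, one_mem _, by group⟩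

theorem cl.conj {d : Dat Γ} {x g : Γ} (h : cl d x) (hg : g ∈ d.L) : cl d (g * x * g⁻¹) := by
  obtain ⟨a, ha, rfl⟩ := h
  exact ⟨g * a, mul_mem hg ha, by group⟩

/-- A perfect group has no proper subgroup of index at most four. -/
theorem lemS [Finite G] {K Y : Subgroup G} (hK : K ≤ ⁅K, K⁆) (hY : Y ≤ K) (hc : Nat.card K ≤ 4 * Nat.card Y) : K ≤ Y := by
  classical
  have h1 : Nat.card (K ⧸ Y.subgroupOf K) ≤ 4 := by
    have := (Y.subgroupOf K).card_mul_index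
    rw [Nat.card_congr (subgroupOfEquivOfLe hY).toEquiv] at this
    rw [← this, mul_comm 4] at hc
    exact Nat.le_of_mul_le_mul_left hc Nat.card_pos
  let _ := Fintype.ofFinite (K ⧸ Y.subgroupOf K)
  obtain ⟨ι⟩ : Nonempty (K ⧸ Y.subgroupOf K ↪ Fin 4) :=
    Function.Embedding.nonempty_of_card_le (by rwa [Fintype.card_fin, ← Nat.card_eq_fintype_card])
  let ψ : K →* Equiv.Perm (Fin 4) := (Equiv.Perm.viaEmbeddingHom ι).comp (MulAction.toPermHom K (K ⧸ Y.subgroupOf K))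
  have hT : (⊤ : Subgroup K) ≤ ⁅(⊤ : Subgroup K), (⊤ : Subgroup K)⁆ := by
    rw [← map_le_map_iff_of_injective K.subtype_injective, map_commutator, ← MonoidHom.range_eq_map, range_subtype]
    exact hK
  have h2 : ψ.range ≤ ⁅ψ.range, ψ.range⁆ := by
    rw [MonoidHom.range_eq_map, ← map_commutator]; exact map_mono hT
  have h3 : ψ.range ≤ alternatingGroup _ := h2.trans (commutator_le.2 fun a _ b _ => by
    simp [commutatorElement_def, Equiv.Perm.mem_alternatingGroup, mul_comm (Equiv.Perm.sign a), mul_assoc])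
  let V : Subgroup (Equiv.Perm (Fin 4)) :=
    { carrier := {a | Equiv.Perm.sign a = 1 ∧ a * a = 1}
      one_mem' := by simp
      mul_mem' := fun {a b} => (by decide +kernel : ∀ a b : Equiv.Perm (Fin 4), (Equiv.Perm.sign a = 1 ∧ a * a = 1) →
        (Equiv.Perm.sign b = 1 ∧ b * b = 1) → Equiv.Perm.sign (a * b) = 1 ∧ a * b * (a * b) = 1) a b
      inv_mem' := fun {a} h => by rw [inv_eq_of_sq h.2]; exact h }
  have h3' : ψ.range ≤ V := h2.trans (commutator_le.2 fun a ha b hb =>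
    (by decide +kernel : ∀ a b : Equiv.Perm (Fin 4), Equiv.Perm.sign a = 1 → Equiv.Perm.sign b = 1 →
      Equiv.Perm.sign (a * b * a⁻¹ * b⁻¹) = 1 ∧ a * b * a⁻¹ * b⁻¹ * (a * b * a⁻¹ * b⁻¹) = 1) a b (h3 ha) (h3 hb))
  have h4 : ψ.range ≤ ⊥ := h2.trans (commutator_le.2 fun a ha b hb => mem_bot.2
    ((by decide +kernel : ∀ a b : Equiv.Perm (Fin 4), (Equiv.Perm.sign a = 1 ∧ a * a = 1) →
      (Equiv.Perm.sign b = 1 ∧ b * b = 1) → a * b * a⁻¹ * b⁻¹ = 1) a b (h3' ha) (h3' hb)))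
  intro x hx
  have h5 : MulAction.toPermHom K (K ⧸ Y.subgroupOf K) ⟨x, hx⟩⁻¹ = 1 :=
    Equiv.Perm.viaEmbeddingHom_injective ι ((mem_bot.1 (h4 ⟨_, rfl⟩)).trans (map_one _).symm)
  have h6 : (((⟨x, hx⟩⁻¹ * 1 : K)) : K ⧸ Y.subgroupOf K) = (1 : K) := Equiv.congr_fun h5 ((1 : K) : K ⧸ Y.subgroupOf K)
  simpa [mem_subgroupOf] using QuotientGroup.eq.1 h6

namespace Base

variable [Finite Γ] {d : Dat Γ} {Th : Subgroup Γ} (m : Base d Th)
include m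

theorem T_le : d.T ≤ Th := m.inf ▸ inf_le_left
theorem T_le_L : d.T ≤ d.L := m.syl.le
theorem Th_le : Th ≤ d.C := m.sylh.le
theorem z_L : d.z ∈ d.L := m.T_le_L m.z_mem
theorem z_iv : Iv d.z := ⟨m.z_sq, m.z_ne⟩
theorem mem_T {x : Γ} (h1 : x ∈ Th) (h2 : x ∈ d.L) : x ∈ d.T := m.inf ▸ ⟨h1, h2⟩
theorem conj_L {c x : Γ} (hc : c ∈ d.C) (hx : x ∈ d.L) : c * x * c⁻¹ ∈ d.L := conj_mem (m.L_norm hc) hx
theorem cl_mem {x : Γ} (h : cl d x) : x ∈ d.L := by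
  obtain ⟨g, hg, rfl⟩ := h
  exact mul_mem (mul_mem hg m.z_L) (inv_mem hg)
theorem cl_iv {x : Γ} (h : cl d x) : Iv x := by
  obtain ⟨g, -, rfl⟩ := h
  exact m.z_iv.conj g

theorem ne_comm : ∃ a ∈ d.T, ∃ b ∈ d.T, a * b ≠ b * a := by
  obtain ⟨q, hq, v, hv, -, e⟩ := m.qv
  exact ⟨q, hq, v, hv, fun h => m.z_ne (e ▸ commutatorElement_eq_one_iff_mul_comm.2 h)⟩

theorem comm_mem {x y : Γ} (hx : x ∈ d.C) (hy : y ∈ d.C) : ⁅x, y⁆ ∈ d.L := by
  by_cases h1 : x ∈ d.L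
  · rw [show ⁅x, y⁆ = x * (y * x⁻¹ * y⁻¹) by rw [commutatorElement_def]; group]
    exact mul_mem h1 (m.conj_L hy (inv_mem h1))
  by_cases h2 : y ∈ d.L
  · exact mul_mem (m.conj_L hx h2) (inv_mem h2)
  · rw [show ⁅x, y⁆ = x * y * (y * x)⁻¹ by rw [commutatorElement_def]; group]
    exact mul_mem (m.mul_mem_L x hx y hy h1 h2) (inv_mem (m.mul_mem_L y hy x hx h2 h1))

theorem comm_le : ⁅d.C, d.C⁆ ≤ d.L := commutator_le.2 fun _ hx _ hy => m.comm_mem hx hy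

theorem sq_mem {x : Γ} (hx : x ∈ d.C) : x * x ∈ d.L := by
  by_cases h : x ∈ d.L
  exacts [mul_mem h h, m.mul_mem_L x hx x hx h h]

theorem decomp {c : Γ} (hc : c ∈ d.C) : ∃ θ ∈ Th, ∃ l ∈ d.L, c = θ * l := by
  by_cases h1 : c ∈ d.L
  · exact ⟨1, one_mem _, c, h1, (one_mul c).symm⟩
  obtain ⟨σ, h2, h3⟩ := m.out
  exact ⟨σ, h2, σ⁻¹ * c, m.mul_mem_L _ (inv_mem (m.Th_le h2)) c hc (fun h => h3 (inv_mem_iff.1 h)) h1, by group⟩

theorem conj_Th {E : Subgroup Γ} (hE : IsPGroup 2 E) (h : E ≤ d.C) : ∃ g ∈ d.L, cj g E ≤ Th := by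
  obtain ⟨c, hc, e⟩ := m.sylh.exists_conj_le hE h
  obtain ⟨θ, hθ, l, hl, rfl⟩ := m.decomp hc
  refine ⟨l, hl, ?_⟩
  rw [conj_smul_eq_map, cj_mul, cj_le_iff] at e
  exact e.trans (cj_le_of_mem le_rfl (inv_mem hθ))

theorem conj_T {E : Subgroup Γ} (hE : IsPGroup 2 E) (h : E ≤ d.L) : ∃ g ∈ d.L, cj g E ≤ d.T :=
  m.syl.exists_conj_le hE h

theorem card_le {E : Subgroup Γ} (hE : IsPGroup 2 E) (h : E ≤ d.C) : Nat.card E ≤ Nat.card Th := m.sylh.card_le hE h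

theorem card_Th : Nat.card Th ≤ 2 * Nat.card d.T := by
  have := card_le_two_mul (H := Th) (K := d.L) fun x hx y hy => m.mul_mem_L x (m.Th_le hx) y (m.Th_le hy)
  rwa [m.inf] at this

theorem normal {N : Subgroup Γ} (h : N ≤ d.L) (hn : d.L ≤ 𝒩(N)) : N = ⊥ ∨ N = d.L := by
  have := m.simple
  have : (N.subgroupOf d.L).Normal := ⟨fun x hx g => conj_mem (H := N) (hn g.2) hx⟩
  rcases this.eq_bot_or_eq_top with h1 | h1
  · exact Or.inl (by rw [← map_subgroupOf_eq_of_le h, h1, Subgroup.map_bot])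
  · exact Or.inr (le_antisymm h (subgroupOf_eq_top.1 h1))

theorem perf : d.L ≤ ⁅d.L, d.L⁆ := by
  obtain ⟨q, hq, v, hv, -, e⟩ := m.qv
  refine ((m.normal (comm_le_self _) fun g hg => ?_).resolve_left fun h => m.z_ne (mem_bot.1 (h.le ?_))).ge
  · rw [← cj_eq_iff_mem, cj_commutator, cj_eq (le_normalizer hg)]
  · exact e ▸ commutator_mem_commutator (m.T_le_L hq) (m.T_le_L hv)

/-- The class of `z` is invariant under `C`. -/
theorem cl_conj {x c : Γ} (h : cl d x) (hc : c ∈ d.C) : cl d (c * x * c⁻¹) := by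
  obtain ⟨a, ha, rfl⟩ := h
  obtain ⟨θ, hθ, l, hl, e⟩ := m.decomp (inv_mem (mul_mem hc (m.L_le ha)))
  have h1 : θ⁻¹ * d.z * θ = d.z := by
    refine (m.cenT _ (mul_mem (mul_mem (inv_mem (m.Th_le hθ)) (m.L_le m.z_L)) (m.Th_le hθ))
      (mem_cent.2 fun y hy => ?_)).resolve_left fun e => m.z_ne (by simpa using (conj_eq_one_iff (a := θ⁻¹)).1 (by simpa using e))
    have h2 := m.z_T _ (m.mem_T (mul_mem (mul_mem hθ (m.T_le hy)) (inv_mem hθ)) (m.conj_L (m.Th_le hθ) (m.T_le_L hy)))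
    calc y * (θ⁻¹ * d.z * θ) = θ⁻¹ * (θ * y * θ⁻¹ * d.z) * θ := by group
      _ = _ := by rw [h2]; group
  refine ⟨l⁻¹, inv_mem hl, ?_⟩
  rw [show c * (a * d.z * a⁻¹) * c⁻¹ = (c * a)⁻¹⁻¹ * d.z * (c * a)⁻¹ by group, e]
  nth_rw 2 [← h1]
  group

end Base

section

variable [Finite Γ] {d : Dat Γ} {Th : Subgroup Γ}

/-- Commutators of `N(L)` act as inner automorphisms. -/
theorem mem_L_of_comm {L : Subgroup G} {ρ : G → Γ} (r : Rho d L ρ) (m : Base d Th) {H : Subgroup G} (hH : H ≤ 𝒩(L))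
    {x : G} (hx : x ∈ ⁅H, H⁆) : ρ x ∈ d.L := by
  have h1 : r.mul.img H ≤ d.C := r.mul.img_le fun y _ hy => r.mem y hy
  refine m.comm_le (commutator_mono h1 h1 ?_)
  rw [← r.mul.img_comm hH hH]
  exact r.mul.mem_img_of hx (hH (comm_le_self H hx))

namespace Rh

variable {L : Subgroup G} {ρ : G → Γ} (r : Rh d L ρ)
include r

theorem conj (g : G) : Rh d (cj g L) fun x => ρ (g⁻¹ * x * g) :=
  { r.toRho.conj g with
    inj := fun x hx h => by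
      rw [← cj_cent, mem_cj] at h
      have := r.inj _ (mem_cj.1 hx) h
      simpa using (conj_eq_one_iff (a := g⁻¹)).1 (by simpa using this) }

theorem eq_of {x y : G} (hx : x ∈ L) (hy : y ∈ L) (e : ρ x = ρ y) : x = y :=
  inv_mul_eq_one.1 (r.inj _ (mul_mem (inv_mem hx) hy) (r.cen_of_eq (Rho.L_le hx) (Rho.L_le hy) e))

/-- Commutation with an element of `L` lifts. -/
theorem comm_of {n x : G} (hn : n ∈ 𝒩(L)) (hx : x ∈ L) (e : ρ n * ρ x = ρ x * ρ n) : n * x = x * n := by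
  rw [← mul_inv_eq_iff_eq_mul]
  refine r.eq_of (conj_mem hn hx) hx ?_
  rw [r.mul.conj hn (Rho.L_le hx), e, mul_inv_cancel_right]

theorem card_preL {P : Subgroup Γ} (h : P ≤ d.L) : Nat.card (r.preL P) = Nat.card P := by
  rw [← r.mul.card_img_of_inj ((r.preL_le P).trans Rho.L_le) fun x hx e =>
    r.eq_of (r.preL_le P hx) (one_mem _) (e.trans r.mul.one.symm), r.img_preL h]

theorem preL_comm {P Q : Subgroup Γ} (h : P ≤ d.L) (h' : Q ≤ d.L) : r.preL ⁅P, Q⁆ = ⁅r.preL P, r.preL Q⁆ := by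
  have h1 := (r.preL_le P).trans (Rho.L_le (L := L))
  have h2 := (r.preL_le Q).trans (Rho.L_le (L := L))
  have h3 : ⁅r.preL P, r.preL Q⁆ ≤ L := (commutator_mono (r.preL_le P) (r.preL_le Q)).trans (comm_le_self L)
  have e := r.mul.img_comm h1 h2
  rw [r.img_preL h, r.img_preL h'] at e
  refine le_antisymm (fun x hx => ?_) fun x hx => r.mem_preL.2 ⟨h3 hx, e ▸ r.mul.mem_img_of hx (Rho.L_le (h3 hx))⟩
  obtain ⟨y, hy, -, e1⟩ := r.mul.mem_img.1 (e.ge (r.mem_preL.1 hx).2)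
  exact r.eq_of (h3 hy) (r.preL_le _ hx) e1 ▸ hy

end Rh

variable {t : G} {G₀ M₀ S₀ : Subgroup G} {p : G → Γ} (c : Cfg d Th t G₀ M₀ S₀ p) (m : Base d Th)
include c m

theorem exists_E {α β : Γ} (hα : α ∈ d.T) (hβ : β ∈ d.T) : ∃ x ∈ S₀, p x = α ∧ p (t * x * t⁻¹) = β := by
  obtain ⟨y, hy, rfl, rfl⟩ := c.G_surj α (m.T_le_L hα) β (m.T_le_L hβ)
  exact c.S_surj y (c.G_le hy) (m.T_le hα) (m.T_le hβ)

omit m in
theorem card_E' {P Q : Subgroup Γ} (h : ∀ α ∈ P, ∀ β ∈ Q, ∃ x ∈ S₀, p x = α ∧ p (t * x * t⁻¹) = β) :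
    Nat.card (c.E P Q) = Nat.card P * Nat.card Q := by
  rw [← Nat.card_prod]
  refine Nat.card_congr (Equiv.ofBijective (fun x => (⟨p x, x.2.2.1⟩, ⟨p (t * x * t⁻¹), x.2.2.2⟩)) ⟨?_, ?_⟩)
  · intro x y e
    simp only [Prod.mk.injEq, Subtype.mk.injEq] at e
    exact Subtype.ext (c.inj x.2.1 y.2.1 e.1 e.2)
  · rintro ⟨α, β⟩
    obtain ⟨x, hx, e1, e2⟩ := h α α.2 β β.2
    exact ⟨⟨x, hx, e1 ▸ α.2, e2 ▸ β.2⟩, Prod.ext (Subtype.ext e1) (Subtype.ext e2)⟩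

theorem card_E {P Q : Subgroup Γ} (h : P ≤ d.T) (h' : Q ≤ d.T) : Nat.card (c.E P Q) = Nat.card P * Nat.card Q :=
  card_E' c fun _ hα _ hβ => exists_E c m (h hα) (h' hβ)

/-- Every element of `E P Q` is the product of its two components. -/
theorem E_decomp {P Q : Subgroup Γ} (h : P ≤ d.T) {x : G} (hx : x ∈ c.E P Q) :
    ∃ x₁ ∈ c.E P ⊥, ∃ x₂ ∈ c.E ⊥ Q, x = x₁ * x₂ ∧ x₁ * x₂ = x₂ * x₁ := by
  obtain ⟨y, hy, e1, e2⟩ := exists_E c m (h hx.2.1) (one_mem _)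
  have h1 : p (y⁻¹ * x) = 1 := (c.mul.eq_iff (c.S_le hy) (c.S_le hx.1)).1 e1
  have h2 : y⁻¹ * x ∈ S₀ := mul_mem (inv_mem hy) hx.1
  refine ⟨y, ⟨hy, e1 ▸ hx.2.1, e2⟩, y⁻¹ * x, ⟨h2, h1, ?_⟩, by group, c.comm hy h2 (by simp [h1]) (by simp [e2])⟩
  have h3 := c.mulq _ (c.S_le (inv_mem hy)) _ (c.S_le hx.1)
  have h4 := c.mulq.inv (c.S_le hy)
  simp only at h3 h4
  rw [h3, h4, e2, inv_one, one_mul]; exact hx.2.2

end

end CL.NS
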