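/-
Project NS3: the quotient by the odd part of `C(L) ⊓ C(t)` (C).
-/
import Cfsg.Agent.NS3.Basic
import Cfsg.Agent.Wr.P6c
import Cfsg.Agent.Wr.P6d

set_option autoImplicit false
set_option linter.unusedSectionVars false
open Cfsg Subgroup CL.Even CL.Grp CL.Wr
open scoped commutatorElement

namespace CL.NS

universe u

open Q6 in
theorem cB : CB.{u} := by
  intro Γ _ _ d Th G _ _ t L ρ m h1 l'
  have l := l'.toLoc0
  have r := l.toRho
  obtain ⟨O, hO, hO'⟩ := odd_compl (K := 𝒞(L) ⊓ centralizer {t}) ⟨l.t_mem, mem_cent1.2 rfl⟩ l.t_ne l.t_sq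
    (fun y hy => mem_cent1.1 hy.2) fun e => l.four (e.trans (card_dvd_of_le inf_le_left))
  have OK : O ≤ 𝒞(L) := fun o ho => ((hO o).1 ho).1.1
  have Ot : ∀ o ∈ O, o * t = t * o := fun o ho => mem_cent1.1 ((hO o).1 ho).1.2
  have cN : ∀ c, c * t = t * c → c ∈ 𝒩(O) := fun c hc => mem_norm_of fun o ho =>
    (hO _).2 ⟨⟨conj_mem (norm_le_norm_cent L (l.cen_le (mem_cent1.2 hc))) (OK ho),
      (centralizer {t}).mul_mem (mul_mem (mem_cent1.2 hc) ((hO o).1 ho).1.2) (inv_mem (mem_cent1.2 hc))⟩,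
      (MulAut.conj c).orderOf_eq o ▸ ((hO o).1 ho).2⟩
  have LN : L ≤ 𝒩(O) := fun x hx => cN x (comm_of_mem l.t_mem hx)
  obtain ⟨y, hy, ⟨y3, y2⟩, y1, x, hx, hx'⟩ := l'.mv
  have xN : x ∈ 𝒩(O) := mem_norm_of fun o ho => by
    have o1 : Commute o (t * y) := Commute.mul_right (Ot o ho) (comm_of_mem (OK ho) hy).symm
    have o2 : Commute (x * o * x⁻¹) (x * (t * y) * x⁻¹) := o1.map (MulAut.conj x)
    exact (hO _).2 ⟨⟨hx' o (OK ho) (Ot o ho) ((hO o).1 ho).2, mem_cent1.2 (hx ▸ o2)⟩,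
      (MulAut.conj x).orderOf_eq o ▸ ((hO o).1 ho).2⟩
  let f := QuotientGroup.mk' (O.subgroupOf 𝒩(O))
  let t' : 𝒩(O) := ⟨t, cN t rfl⟩
  have hf : Function.Surjective f := QuotientGroup.mk'_surjective _
  have fe : ∀ {a b : 𝒩(O)}, f a = f b ↔ (a : G)⁻¹ * b ∈ O := QuotientGroup.eq
  have tt : t' * t' = 1 := Subtype.ext l.t_sq
  have lift : ∀ c ∈ centralizer {f t'}, ∃ n : 𝒩(O), f n = c ∧ (n : G) * t = t * n := fun c hc => by
    obtain ⟨n, rfl⟩ := hf c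
    have o := fe.1 (show f t' = f (n * t' * n⁻¹) by
      rw [map_mul, map_mul, mem_cent1.1 hc, map_inv, mul_inv_cancel_right])
    have := Two.eq_of_mul (a := t) (by simpa [t'] using (Two.of_sq l.t_sq).conj n) (.of_sq l.t_sq) (Ot _ o).symm
      ((hO _).1 o).2
    exact ⟨n, rfl, mul_inv_eq_iff_eq_mul.1 (inv_mul_eq_one.1 this).symm⟩
  let π : 𝒩(O) ⧸ O.subgroupOf 𝒩(O) → Γ := fun y => ρ (y.out : 𝒩(O))
  have hπ : ∀ n : 𝒩(O), (n : G) ∈ 𝒩(L) → π (f n) = ρ n := fun n hn => by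
    obtain ⟨o, e⟩ := QuotientGroup.mk_out_eq_mul (O.subgroupOf 𝒩(O)) n
    have ho : ((o : 𝒩(O)) : G) ∈ 𝒞(L) := OK o.2
    refine (congrArg (fun a : 𝒩(O) => ρ a) e).trans ?_
    rw [coe_mul, r.mul _ hn _ (cent_le_norm L ho), r.eq_one ho, mul_one]
  have cL : ∀ {n : G}, n * t = t * n → n ∈ 𝒩(L) := fun a => l.cen_le (mem_cent1.2 a)
  obtain ⟨K, w⟩ := h1 (f t') ((L.subgroupOf 𝒩(O)).map f) π <| Cr.mk (by rw [← map_mul, tt, map_one])
    (fun g ⟨a, ha, e⟩ => by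
      obtain ⟨n, rfl⟩ := hf g
      have o := fe.1 (show f a = f (n * t' * n⁻¹) by rw [e, map_mul, map_mul, map_inv])
      have := Two.mem_of_mul (a := (a : G)) (by simpa using (Two.of_sq l.t_sq).conj n) (comm_of_mem (OK o) ha)
        ((hO _).1 o).2 ha
      exact l.noL n (by simpa using this))
    (by
      rintro _ ⟨a, ha, rfl⟩
      exact mem_cent1.2 (Commute.map (Subtype.ext (comm_of_mem l.t_mem ha) : Commute a t') f))
    (fun c hc => mem_norm_of (by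
      obtain ⟨n, rfl, hn⟩ := lift c hc
      rintro _ ⟨a, ha, rfl⟩
      exact ⟨n * a * n⁻¹, conj_mem (H := L) (cL hn) ha, by rw [map_mul, map_mul, map_inv]⟩))
    (fun a ha b hb => by
      obtain ⟨n, rfl, hn⟩ := lift a ha
      obtain ⟨n', rfl, hn'⟩ := lift b hb
      rw [← map_mul, hπ _ (mul_mem (cL hn) (cL hn')), hπ _ (cL hn), hπ _ (cL hn'), coe_mul, r.mul _ (cL hn) _ (cL hn')])
    (fun c hc => by
      obtain ⟨n, rfl, hn⟩ := lift c hc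
      exact hπ _ (cL hn) ▸ r.mem _ (cL hn))
    ((hπ t' (cL rfl)).trans (r.eq_one l.t_mem))
    (fun c hc e => by
      obtain ⟨n, rfl, hn⟩ := lift c hc
      rw [hπ _ (cL hn), r.ker _ (cL hn)] at e
      exact (hO' n ⟨e, mem_cent1.2 hn⟩).imp (fun a => (fe.2 (by simpa using a) : f n = f 1))
        fun a => (fe.2 (by rwa [inv_eq_of_sq l.t_sq, ← hn] ) : f t' = f n).symm)
    (by
      rintro _ ⟨a, ha, rfl⟩
      exact hπ a (Rho.L_le ha) ▸ r.memL a ha)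
    (fun α hα => by
      obtain ⟨a, ha, rfl⟩ := r.surj α hα
      exact ⟨_, ⟨⟨a, LN ha⟩, ha, rfl⟩, hπ _ (Rho.L_le ha)⟩)
    ⟨f ⟨y, LN hy⟩, ⟨_, hy, rfl⟩,
      ⟨by rw [← map_mul, show (⟨y, LN hy⟩ * ⟨y, LN hy⟩ : 𝒩(O)) = 1 from Subtype.ext y3, map_one],
        fun e => y2 ((Two.of_sq y3).eq_one ((hO y).1 (by simpa using fe.1 (show f 1 = _ from e.symm))).2)⟩,
      by rw [hπ ⟨y, LN hy⟩ (Rho.L_le hy)]; exact y1,
      (isConj_iff.2 ⟨f ⟨x, xN⟩, by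
        rw [← map_mul, ← map_mul, ← map_inv, ← map_mul]; exact congrArg f (Subtype.ext hx)⟩).symm⟩
  have hk : ∀ a : 𝒩(O), (∀ o ∈ O, o * a = a * o) → a ∈ 𝒞(f.ker) := fun a ha => mem_cent.2 fun o ho =>
    Subtype.ext (ha o (by rwa [QuotientGroup.ker_mk'] at ho))
  obtain ⟨L₁, w₁⟩ := p6d f t' (L.subgroupOf 𝒩(O)) K hf tt (hk t' Ot)
    (fun a ha => hk a fun o ho => (comm_of_mem (OK ho) ha).symm)
    (by rw [← map_le_map_iff_of_injective (subtype_injective _), map_commutator, map_subgroupOf_eq_of_le LN]; exact r.perf) w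
  exact ⟨_, push LN cN w₁⟩

end CL.NS
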