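/-
Project NS3: Lemma N.
-/
import Cfsg.Agent.NS3.Basic
import Cfsg.Agent.Wr.E1b

set_option autoImplicit false
set_option linter.unusedSectionVars false
open Cfsg Subgroup CL.Even CL.Grp CL.Wr
open scoped commutatorElement

namespace CL.NS

universe u

open CL.Wr.E1bA hiding perf_le ns ncomm cj_eq_img

namespace Cp

variable {G : Type*} [Group G] [Finite G] {Γ : Type*} [Group Γ] [Finite Γ] {d : Dat Γ} {Th : Subgroup Γ} {t : G} {L L₁ : Subgroup G}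
  {ρ : G → Γ} (m : Base d Th) (l : Loc0 d t L ρ) (w : Wrt t L L₁)
include m l

theorem perf_le {J : Subgroup G} (hJ : J ≤ ⁅J, J⁆) (h : J ≤ centralizer {t}) : J ≤ L := by
  refine le_of_sol hJ (Cfsg.Agent.S3996.solvable_of_not_four l.four) (cent_le_norm L) fun j hj => ?_
  obtain ⟨a, ha, κ, hκ, rfl⟩ := l.toRho.decomp (l.cen_le (h hj)) (mem_L_of_comm l.toRho m (h.trans l.cen_le) (hJ hj))
  exact mul_mem (mem_sup_left ha) (mem_sup_right hκ)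

include w

theorem ns : NS L₁ := by
  intro N h1 h2
  have hψ := ψ_mul l w
  rcases m.normal (N := hψ.img N) (hψ.img_le fun x _ hx => l.memL _ (w.mem x hx)) (fun α hα => by
    obtain ⟨x, hx, rfl⟩ := ψ_surj l w hα
    exact hψ.img_norm hx (h2 hx)) with e | e
  · exact Or.inl fun x hx => (ψ_ker l w (h1 hx)).1 (mem_bot.1 (e ▸ hψ.mem_img_of hx (h1 hx)))
  · refine Or.inr ((le_of_perfect w.perf fun x hx => ?_).trans (comm_le_self N))
    obtain ⟨a, ha, ha', e'⟩ := hψ.mem_img.1 (e ▸ l.memL _ (w.mem x hx) : _ ∈ hψ.img N)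
    exact ⟨a, ha, ha', (ψ_ker l w (mul_mem (inv_mem ha') hx)).1 ((hψ.eq_iff ha' hx).1 e')⟩

theorem ncomm : ¬ L₁ ≤ 𝒞(L₁) := fun h => by
  obtain ⟨a, ha, b, hb, ab⟩ := m.ne_comm
  obtain ⟨x, hx, e⟩ := ψ_surj l w (m.T_le_L ha)
  obtain ⟨y, hy, e'⟩ := ψ_surj l w (m.T_le_L hb)
  exact ab (e ▸ e' ▸ (ψ_mul l w).mul_comm hx hy (h hy x hx))

/-- the conjugate of `L` centralised by a conjugate of `t` that swaps the factors -/
theorem cj_eq_img {g : G} (hc : ∀ x ∈ L₁, ∀ y ∈ L₁, Commute x (g * t * g⁻¹ * y * (g * t * g⁻¹)⁻¹)) :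
    cj g L = (δ_mulOn hc).img L₁ := by
  set u := g * t * g⁻¹ with hu
  have hδ := δ_mulOn hc
  have uu : u * u = 1 := by rw [hu, conj_mul, l.t_sq]; group
  have h1 : cj g⁻¹ ((δ_mulOn hc).img L₁) ≤ L := by
    refine perf_le m l ?_ fun y hy => ?_
    · rw [← cj_commutator, ← hδ.img_comm le_rfl le_rfl]
      exact cj_mono _ (hδ.img_mono w.perf)
    · obtain ⟨x, -, hx, e⟩ := hδ.mem_img.1 (mem_cj.1 hy)
      have h2 : u * (x * (u * x * u⁻¹)) * u⁻¹ = x * (u * x * u⁻¹) := by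
        calc _ = u * x * u⁻¹ * (u * u * x * (u * u)⁻¹) := by group
          _ = _ := by rw [uu, (hc x hx x hx).eq]; group
      rw [mem_centralizer_singleton_iff]
      rw [e, hu] at h2
      calc y * t = g⁻¹ * (g⁻¹⁻¹ * y * g⁻¹) * g * t := by group
        _ = _ := by rw [← h2]; group
  have hm : ∀ x ∈ L₁, g⁻¹ * (x * (u * x * u⁻¹)) * g ∈ L := fun x hx =>
    h1 (by simpa using conj_mem_cj g⁻¹ (hδ.mem_img_of hx hx))
  have hθ : MulOn L₁ fun x => ρ (g⁻¹ * (x * (u * x * u⁻¹)) * g) := fun x hx y hy => by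
    have h2 := hδ x hx y hy
    simp only at h2 ⊢
    rw [h2, ← l.toRho.mulL _ (hm x hx) _ (hm y hy)]
    congr 1; group
  have hψ := ψ_mul l w
  have h2 : L₁ ⊓ hθ.pre ⊥ ≤ L₁ ⊓ hψ.pre ⊥ := by
    rintro x ⟨hx, h3⟩
    refine ⟨hx, hψ.mem_pre.2 ⟨hx, (ψ_ker l w hx).2 (cen_of_δ w.perf hc hx fun y hy => ?_)⟩⟩
    have h4 := (l.ker _ (Rho.L_le (hm x hx))).1 (hθ.mem_pre.1 h3).2 _ (hm y hy)
    show _ = _
    calc _ = g * (g⁻¹ * (x * (u * x * u⁻¹)) * g * (g⁻¹ * (y * (u * y * u⁻¹)) * g)) * g⁻¹ := by group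
      _ = _ := by rw [← h4]; group
  have h3 : hψ.img L₁ = d.L := le_antisymm (hψ.img_le fun x _ hx => l.memL _ (w.mem x hx)) fun α hα => by
    obtain ⟨x, hx, rfl⟩ := ψ_surj l w hα
    exact hψ.mem_img_of hx hx
  have h4 : hθ.img L₁ = d.L := by
    refine eq_of_le_of_card_ge (hθ.img_le fun x _ hx => l.memL _ (hm x hx)) ?_
    have h5 := hθ.card_img le_rfl
    rw [hψ.card_img le_rfl, h3] at h5
    exact Nat.le_of_mul_le_mul_right (h5.le.trans (Nat.mul_le_mul_left _ (card_le_of_le h2))) Nat.card_pos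
  refine le_antisymm (cj_le_iff.2 (l.toRho.le_of_surj fun α hα => ?_)) (le_cj_iff.2 h1)
  obtain ⟨x, hx, -, e⟩ := hθ.mem_img.1 (h4 ▸ hα : α ∈ hθ.img L₁)
  have h5 := conj_mem_cj g⁻¹ (hδ.mem_img_of hx hx)
  rw [inv_inv] at h5
  exact ⟨_, h5, hm x hx, e⟩

end Cp

open Cp in
theorem e1bB : E1bB.{u} := by
  intro Γ _ _ d Th G _ _ t L L₁ ρ m l w g P hP htP huP hμ hgg
  have tt : cj t (cj t L₁) = L₁ := by rw [← cj_mul, l.t_sq, cj_one]
  have ti : t⁻¹ = t := inv_eq_of_mul_eq_one_right l.t_sq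
  have fin : cj g L₁ = L₁ ∧ cj g (cj t L₁) = cj t L₁ ∨ cj g L₁ = cj t L₁ ∧ cj g (cj t L₁) = L₁ →
      g ∈ 𝒩(L₁) ⊓ 𝒩(cj t L₁) ∨ g * t ∈ 𝒩(L₁) ⊓ 𝒩(cj t L₁) := fun h =>
    h.imp (fun e => ⟨cj_eq_iff_mem.1 e.1, cj_eq_iff_mem.1 e.2⟩) fun e =>
      ⟨cj_eq_iff_mem.1 (by rw [cj_mul, e.2]), cj_eq_iff_mem.1 (by rw [cj_mul, tt, e.1])⟩
  have hu : ∀ y : G, g * t * g⁻¹ * y * (g * t * g⁻¹)⁻¹ = g * t * g⁻¹ * t * (t * y * t⁻¹) * (g * t * g⁻¹ * t)⁻¹ := by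
    intro y
    calc _ = g * t * g⁻¹ * (t * t) * y * (t * t)⁻¹ * (g * t * g⁻¹)⁻¹ := by rw [l.t_sq]; group
      _ = _ := by group
  have hu2 : ∀ y ∈ L₁, g * t * g⁻¹ * y * (g * t * g⁻¹)⁻¹ ∈ cj t L₁ := fun y hy => by
    rw [hu]; exact conj_mem hμ.2 (conj_mem_cj t hy)
  have hc : ∀ x ∈ L₁, ∀ y ∈ L₁, Commute x (g * t * g⁻¹ * y * (g * t * g⁻¹)⁻¹) := fun x hx y hy =>
    w.le_cent (hu2 y hy) x hx
  have hI := cj_eq_img m l w hc
  have hδ := δ_mulOn hc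
  have hIG : cj g L ≤ L₁ ⊔ cj t L₁ := hI ▸ hδ.img_le fun x _ hx => mul_mem (mem_sup_left hx) (mem_sup_right (hu2 x hx))
  have ns1 := ns m l w
  have ns2 := ns1.conj t
  have nc1 := ncomm m l w
  have p2 : cj t L₁ ≤ ⁅cj t L₁, cj t L₁⁆ := by rw [← cj_commutator]; exact cj_mono t w.perf
  have c21 := w.le_cent
  have c12 : L₁ ≤ 𝒞(cj t L₁) := fun x hx y hy => (c21 hy x hx).symm
  rcases ns2 ((L ⊔ cj g L) ⊓ cj t L₁) inf_le_right (le_norm_of_cj_le fun y hy n hn => by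
      obtain ⟨h1, h2⟩ := mem_cj.1 hn
      have h3 : n ∈ cj t L₁ := by simpa [mul_assoc] using conj_mem (le_normalizer hy) h2
      refine mem_inf.2 ⟨?_, h3⟩
      have h4 := mem_cj.1 hy
      have h5 := conj_mem (le_normalizer (mem_sup_left (w.mem _ h4) : _ ∈ L ⊔ cj g L)) h1
      convert h5 using 1
      calc n = t⁻¹ * y * t * n * (t⁻¹ * y * t)⁻¹ := (conj_eq_of_mem (c12 h4) h3).symm
        _ = _ := by group) with e | e
  · -- `g` normalises `L`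
    have h1 : g * t * g⁻¹ * t ∈ 𝒞(cj t L₁) := mem_cent_of_perfect p2 fun y hy => by
      have h2 := mem_cj.1 hy
      have h3 : g * t * g⁻¹ * t * y * (g * t * g⁻¹ * t)⁻¹ * y⁻¹ ∈ cj t L₁ := mul_mem (conj_mem hμ.2 hy) (inv_mem hy)
      refine ⟨h3, e (mem_inf.2 ⟨?_, h3⟩)⟩
      have h4 := mul_mem (mem_sup_right (hI ▸ hδ.mem_img_of h2 h2 : _ ∈ cj g L) : _ ∈ L ⊔ cj g L)
        (inv_mem (mem_sup_left (w.mem _ h2)))
      convert h4 using 1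
      rw [← conj_eq_of_mem (c12 h2) h3, hu]
      group
    have h2 : cj g L = L := by
      refine (eq_of_le_of_card_ge (fun a ha => ?_) (card_cj g L).le).symm
      obtain ⟨x, hx, rfl⟩ := w.surj a ha
      have h3 := hδ.mem_img_of hx hx
      rwa [hu, conj_eq_of_mem h1 (conj_mem_cj t hx), ← hI] at h3
    have h3 : g * t * g⁻¹ ∈ 𝒞(L) := conj_mem (norm_le_norm_cent L (cj_eq_iff_mem.1 h2)) l.t_mem
    have h4 : g * t * g⁻¹ = t := by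
      by_contra hne
      have h5 := two_mul_card_le (H := zpowers t) (K := P ⊓ 𝒞(L)) ((zpowers_le).2 ⟨htP, l.t_mem⟩) ⟨huP, h3⟩ fun h6 => by
        rcases (mem_sup_inv (H := ⊥) l.t_sq (le_normalizer_of_normal (mem_top t))).1 (mem_sup_right h6) with h7 | h7
        · exact l.t_ne (by simpa using h7)
        · exact hne ((eq_inv_of_mul_eq_one_left (mem_bot.1 h7)).trans ti)
      rw [Nat.card_zpowers, orderOf_eq_prime (p := 2) (by rw [sq, l.t_sq]) l.t_ne] at h5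
      obtain ⟨n, hn⟩ := IsPGroup.iff_card.1 (hP.to_le (inf_le_left : P ⊓ 𝒞(L) ≤ P))
      refine l.four (dvd_trans ?_ (card_dvd_of_le (inf_le_right : P ⊓ 𝒞(L) ≤ _)))
      rw [hn] at h5 ⊢
      exact pow_dvd_pow 2 ((Nat.pow_le_pow_iff_right (n := 2) (by decide : 1 < 2)).1 h5)
    have h5 := mul_inv_eq_iff_eq_mul.1 h4
    refine fin ((w.perm g h5).imp (fun e => ⟨e, ?_⟩) fun e => ⟨e, ?_⟩) <;> rw [← cj_mul, h5, cj_mul, e]
    exact tt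
  -- `g` normalises `L₁ L₂`
  have h1 : L₁ ⊔ cj t L₁ ≤ L ⊔ cj g L := sup_le (fun x hx => by
    have h1 := mul_mem (mem_sup_left (w.mem x hx) : _ ∈ L ⊔ cj g L) (inv_mem (e (conj_mem_cj t hx)).1)
    rwa [mul_inv_cancel_right] at h1)
    (e.trans inf_le_left)
  have hM : 𝒩(L₁) ⊓ 𝒩(cj t L₁) ≤ 𝒩(L₁ ⊔ cj t L₁) := le_norm_sup inf_le_left inf_le_right
  have htG : t ∈ 𝒩(L₁ ⊔ cj t L₁) := cj_eq_iff_mem.1 (by rw [cj_sup, tt, sup_comm])
  have h2 : g * g ∈ 𝒩(L₁ ⊔ cj t L₁) := hgg.elim (fun e => hM e) fun e => by simpa using mul_mem (hM e) (inv_mem htG)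
  have h3 : cj g (L₁ ⊔ cj t L₁) = L₁ ⊔ cj t L₁ := cj_eq (mem_norm_of_cj_le ((cj_mono g h1).trans (by
    rw [cj_sup, ← cj_mul]; exact sup_le hIG (cj_le_of_le w.L_le h2))))
  have n1 : L₁ ⊔ cj t L₁ ≤ 𝒩(L₁) := sup_le le_normalizer (c21.trans (cent_le_norm _))
  have n2 : L₁ ⊔ cj t L₁ ≤ 𝒩(cj t L₁) := sup_le (c12.trans (cent_le_norm _)) le_normalizer
  have k1 : L₁ ⊔ cj t L₁ ≤ 𝒩(cj g L₁) := by rw [← cj_norm, ← h3]; exact cj_mono g n1
  have k2 : L₁ ⊔ cj t L₁ ≤ 𝒩(cj g (cj t L₁)) := by rw [← cj_norm g, ← h3]; exact cj_mono g n2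
  rw [cj_sup] at h3
  have key : ∀ K : Subgroup G, NS K → K ≤ ⁅K, K⁆ → ¬ K ≤ 𝒞(K) → K ≤ L₁ ⊔ cj t L₁ → L₁ ⊔ cj t L₁ ≤ 𝒩(K) →
      Nat.card K = Nat.card L₁ → cj g L₁ = K ∨ cj g (cj t L₁) = K := by
    intro K a1 a2 a3 a4 a5 a6
    rcases a1.dich a2 (a4.trans k1) ((le_sup_left.trans h3.le).trans a5) with b | b
    · exact Or.inl (eq_of_le_of_card_ge b (by rw [card_cj, a6])).symm
    rcases a1.dich a2 (a4.trans k2) ((le_sup_right.trans h3.le).trans a5) with b' | b'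
    · exact Or.inr (eq_of_le_of_card_ge b' (by rw [card_cj, card_cj, a6])).symm
    · exact absurd (a4.trans (h3.ge.trans (sup_le b b'))) a3
  have hne : L₁ ≠ cj t L₁ := fun e => nc1 (e.le.trans c21)
  rcases key L₁ ns1 w.perf nc1 le_sup_left n1 rfl with a | a <;>
    rcases key _ ns2 p2 (fun e => nc1 (cj_le_cj.1 (cj_cent t L₁ ▸ e))) le_sup_right n2 (card_cj t L₁) with b | b
  · exact absurd (a.symm.trans b) hne
  · exact fin (Or.inl ⟨a, b⟩)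
  · exact fin (Or.inr ⟨b, a⟩)
  · exact absurd (a.symm.trans b) hne

end CL.NS
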