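/-
Project NS3: the core theorems for `ON` and `Suz`.  Definitions, and the section `s` of `π` over `L`.
-/
import Cfsg.Agent.NS3.Basic

set_option autoImplicit false
set_option linter.unusedSectionVars false
open Cfsg Subgroup CL.Even CL.Grp CL.Wr
open scoped commutatorElement

namespace CL.NS

universe u

section Model

variable {Γ : Type*} [Group Γ]

/-- The centraliser of `C_L(z)` is `⟨z⟩`. -/
def CenH (d : Dat Γ) : Prop := ∀ c ∈ d.C, c ∈ 𝒞(d.L ⊓ centralizer {d.z}) → c = 1 ∨ c = d.z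

/-- The automorphisms of `Jc z`. -/
structure ZF (d : Dat Γ) (A : Subgroup Γ) (σ e g : Γ) : Prop where
  good : ∀ x ∈ d.L, Iv x → x ∈ Jc d.L x → cl d x
  aut : ∀ φ : MulAut (Jc d.L d.z), ∃ c ∈ d.C, ∀ x : Jc d.L d.z, (φ x : Γ) = c * x * c⁻¹
  A_le : A ≤ Jc d.L d.z
  cenA : ∀ c ∈ d.C, c ∈ 𝒞(A) → c ∈ d.L
  σ_mem : σ ∈ d.C
  σ_not : σ ∉ d.L
  σ_z : σ * d.z = d.z * σ
  σ_A : σ ∈ 𝒩(A)
  e_mem : e ∈ A
  σ_e : σ * e * σ⁻¹ = e * d.z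
  g_mem : g ∈ d.L
  g_A : g ∈ 𝒩(A)
  g_z : g * d.z * g⁻¹ = e

/-- `ρⁱ x ρ⁻ⁱ`. -/
def rt (ρ : Γ) (i : ℕ) (x : Γ) : Γ := ρ ^ i * x * (ρ ^ i)⁻¹

/-- `ON`: `V = 4³`, `⟨u⟩ = Z(K)`, `K = Jc z = 4.L₃(4)`, `ρ` of order 7 normalises `V`, `C_L(z) = K ⟨τ⟩`. -/
structure ONF (d : Dat Γ) (V : Subgroup Γ) (u ρ κ τ : Γ) : Prop where
  V_le : V ≤ Jc d.L d.z
  V_comm : ∀ v ∈ V, ∀ w ∈ V, v * w = w * v
  u_mem : u ∈ V
  u_sq : u * u = d.z
  u_cen : u ∈ 𝒞(Jc d.L d.z)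
  cenK : ∀ c ∈ d.C, c ∈ 𝒞(Jc d.L d.z) → c ∈ zpowers u
  cenV : ∀ c ∈ d.C, c ∈ 𝒞(V) → c ∈ V
  ρ_mem : ρ ∈ d.L
  ρ_V : ρ ∈ 𝒩(V)
  ρ7 : ρ ^ 7 = 1
  e013 : d.z * rt ρ 1 d.z = rt ρ 3 d.z
  f1 : ∀ v ∈ V, v * v = 1 → v * rt ρ 6 v = rt ρ 4 v → v = 1
  f2 : ∀ v ∈ V, v * v = 1 → v * rt ρ 1 v * rt ρ 2 v * rt ρ 4 v = 1 → v = 1
  κ_mem : κ ∈ Jc d.L d.z
  κ_V : κ ∈ 𝒩(V)
  κ_sq : κ * κ ∈ V
  κ_e : κ * rt ρ 1 d.z * κ⁻¹ = rt ρ 1 d.z * d.z
  κ_u : ∀ v ∈ V, v * (κ * v * κ⁻¹) ≠ u ∧ v * (κ * v * κ⁻¹) ≠ u⁻¹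
  τ_mem : τ ∈ d.L
  τ_z : τ * d.z = d.z * τ
  τ_e : τ * rt ρ 1 d.z = rt ρ 1 d.z * τ
  τ_K : ρ⁻¹ * τ * ρ ∈ Jc d.L d.z
  H_eq : ∀ h ∈ d.L, h * d.z = d.z * h → h ∈ Jc d.L d.z ∨ h * τ⁻¹ ∈ Jc d.L d.z

/-- The pairs of distinct members of the generating set `S` are conjugate to `(y, y')`. -/
structure Clq (d : Dat Γ) (S : Set Γ) (y y' : Γ) : Prop where
  gen : d.L ≤ closure S
  mem : ∀ x ∈ S, cl d x
  pair : ∀ x ∈ S, ∀ x' ∈ S, x = x' ∨ (∃ g ∈ d.L, g * x * g⁻¹ = y ∧ g * x' * g⁻¹ = y') ∨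
    ∃ g ∈ d.L, g * x * g⁻¹ = y' ∧ g * x' * g⁻¹ = y

/-- `ON`: `Q = 4 ∘ 2¹⁺⁴ ≤ K`, three involutions of `Q` with product `u`. -/
structure ONQ (d : Dat Γ) (Q : Subgroup Γ) (u e b y y' ν : Γ) : Prop where
  Q_le : Q ≤ Jc d.L d.z
  u_cen : u ∈ 𝒞(Jc d.L d.z)
  u_mem : u ∈ d.L
  cenQ : ∀ c ∈ d.C, c ∈ 𝒞(Q) → c ∈ 𝒞(Jc d.L d.z)
  tri : ∀ x, x = b ∨ x = y ∨ x = y' → x ∈ Q ∧ (∃ h ∈ d.L, h * d.z = d.z * h ∧ x = h * e * h⁻¹) ∧
    ∀ q ∈ Q, q * x * q⁻¹ = x ∨ q * x * q⁻¹ = x * d.z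
  e_cl : cl d e
  prod : b * y * y' = u
  yy : y' * y * y'⁻¹ = y * d.z
  ν_mem : ν ∈ Jc d.L d.z
  ν_y : ν * y * ν⁻¹ = y'
  ν_y' : ν * y' * ν⁻¹ = y

/-- The four-group `⟨x, y⟩` is its own double centraliser, and an element of `L` rotates it. -/
def Pc (d : Dat Γ) (x y : Γ) : Prop :=
  (∀ c ∈ d.C, c ∈ 𝒞(d.L ⊓ centralizer {x} ⊓ centralizer {y}) → c = 1 ∨ c = x ∨ c = y ∨ c = x * y) ∧
    ∃ g ∈ d.L, g * x * g⁻¹ = y ∧ g * y * g⁻¹ = x * y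

/-- Distinct involutions which are simultaneously conjugate into `U`. -/
def TZ (d : Dat Γ) (U : Subgroup Γ) (x y : Γ) : Prop :=
  x ≠ 1 ∧ y ≠ 1 ∧ x ≠ y ∧ ∃ g ∈ d.L, g * x * g⁻¹ ∈ U ∧ g * y * g⁻¹ ∈ U

/-- A dihedral group of order 8 with centre `⟨c⟩`. -/
def DF (d : Dat Γ) (x y c : Γ) : Prop := cl d x ∧ cl d y ∧ cl d c ∧ x * y * (x * y) = c ∧
  ∃ g ∈ d.L, g * x * g⁻¹ = y ∧ g * y * g⁻¹ = x ∧ ∀ γ ∈ d.C, γ ∈ 𝒞(d.L ⊓ centralizer {x} ⊓ centralizer {y}) →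
    γ * x = x * γ → γ * y = y * γ → g * γ * g⁻¹ = γ⁻¹ → γ = 1 ∨ γ = c

/-- `Suz`: `C_L(z)` is perfect, `U` is a pure elementary abelian group of rank at least 3. -/
structure SzU (d : Dat Γ) (U : Subgroup Γ) : Prop where
  H_eq : d.L ⊓ centralizer {d.z} ≤ Jc d.L d.z
  sq : ∀ x ∈ U, x * x = 1
  card : 4 < Nat.card U
  pure : ∀ x ∈ U, x ≠ 1 → cl d x
  pc : ∀ x ∈ U, ∀ y ∈ U, x ≠ 1 → y ≠ 1 → x ≠ y → Pc d x y

/-- `Suz`: the four-group `⟨b, b'⟩ ≤ O₂(C(z))` does not act quadratically on `2⁴ = ⟨z, n, n', w⟩`. -/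
structure SzD (d : Dat Γ) (U : Subgroup Γ) (b b' w n n' g : Γ) : Prop where
  d1 : DF d b w n
  d2 : DF d b n' d.z
  g_mem : g ∈ d.L
  g_b : g * b * g⁻¹ = b'
  g_b' : g * b' * g⁻¹ = b * b'
  g_w : g * w * g⁻¹ = w
  g_n : g * n * g⁻¹ = n'
  g_n' : g * n' * g⁻¹ = n * n' * d.z
  t1 : TZ d U b n
  t2 : TZ d U w n
  t3 : TZ d U b d.z
  t4 : TZ d U n' d.z
  t5 : TZ d U b b'
  t6 : TZ d U n n'
  t7 : TZ d U (n * n') d.z
  t8 : TZ d U n d.z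

end Model

section Global

variable {G : Type*} [Group G] {Γ : Type*} [Group Γ]

/-- `s` inverts `π` on `L`. -/
structure Sec (d : Dat Γ) (t : G) (L : Subgroup G) (π : G → Γ) (s : Γ → G) : Prop extends Cr d t L π where
  s_mem : ∀ x ∈ d.L, s x ∈ L
  π_s : ∀ x ∈ d.L, π (s x) = x

/-- `w` moves `t` to `t z` and centralises `Jc z`. -/
def W0 (d : Dat Γ) (t : G) (s : Γ → G) (w : G) : Prop :=
  w * t * w⁻¹ = t * s d.z ∧ ∀ x ∈ Jc d.L d.z, w * s x = s x * w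

/-- `k x` is the first component of `x`. -/
structure Cmp (d : Dat Γ) (t : G) (s k : Γ → G) : Prop where
  sq : ∀ x, cl d x → k x * k x = 1
  tc : ∀ x, cl d x → k x * t * k x = t * s x
  eqv : ∀ x, cl d x → ∀ g ∈ d.L, k (g * x * g⁻¹) = s g * k x * (s g)⁻¹

/-- Additivity of the components. -/
def Ad (k : Γ → G) (x y : Γ) : Prop := k x * k y = k (x * y) ∧ k x * k y = k y * k x

/-- The first component of `x` commutes with the second component of `y`. -/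
def Gd (s k : Γ → G) (x y : Γ) : Prop := k x * (k y * s y) = k y * s y * k x

variable {d : Dat Γ} {t : G} {L : Subgroup G} {π : G → Γ} {s : Γ → G}

theorem Cr.sec (c : Cr d t L π) : ∃ s, Sec d t L π s := by
  classical
  exact ⟨fun x => if h : x ∈ d.L then (c.surj x h).choose else 1, c,
    fun x h => by simpa only [dif_pos h] using (c.surj x h).choose_spec.1,
    fun x h => by simpa only [dif_pos h] using (c.surj x h).choose_spec.2⟩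

namespace Sec

variable (c : Sec d t L π s)
include c

theorem t_not : t ∉ L := by simpa using c.noL 1
theorem t_mem : t ∈ centralizer {t} := mem_cent1.2 rfl
theorem t_inv : t⁻¹ = t := inv_eq_of_mul_eq_one_right c.t_sq
theorem s_cen {x : Γ} (hx : x ∈ d.L) : s x ∈ centralizer {t} := c.L_le (c.s_mem x hx)
theorem s_t {x : Γ} (hx : x ∈ d.L) : s x * t = t * s x := mem_cent1.1 (c.s_cen hx)
theorem π_one : π 1 = 1 := by simpa using c.mul 1 (one_mem _) 1 (one_mem _)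
theorem π_inv {a : G} (ha : a ∈ centralizer {t}) : π a⁻¹ = (π a)⁻¹ :=
  eq_inv_of_mul_eq_one_left (by rw [← c.mul _ (inv_mem ha) _ ha, inv_mul_cancel, c.π_one])
theorem π_conj {a b : G} (ha : a ∈ centralizer {t}) (hb : b ∈ centralizer {t}) : π (a * b * a⁻¹) = π a * π b * (π a)⁻¹ := by
  rw [c.mul _ (mul_mem ha hb) _ (inv_mem ha), c.mul _ ha _ hb, c.π_inv ha]

/-- Elements of `C(t)` with the same image. -/
theorem eq_or {a b : G} (ha : a ∈ centralizer {t}) (hb : b ∈ centralizer {t}) (e : π a = π b) : a = b ∨ a = t * b :=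
  (c.ker _ (mul_mem ha (inv_mem hb)) (by rw [c.mul _ ha _ (inv_mem hb), c.π_inv hb, e, mul_inv_cancel])).imp
    mul_inv_eq_one.1 mul_inv_eq_iff_eq_mul.1

theorem inj {a b : G} (ha : a ∈ L) (hb : b ∈ L) (e : π a = π b) : a = b :=
  (c.eq_or (c.L_le ha) (c.L_le hb) e).resolve_right fun h => c.t_not ((mul_mem_cancel_right hb).1 (h ▸ ha))

theorem s_π {l : G} (hl : l ∈ L) : s (π l) = l := c.inj (c.s_mem _ (c.memL l hl)) hl (c.π_s _ (c.memL l hl))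
theorem s_one : s 1 = 1 := by rw [← c.π_one, c.s_π (one_mem _)]
theorem s_mul {x y : Γ} (hx : x ∈ d.L) (hy : y ∈ d.L) : s (x * y) = s x * s y :=
  c.inj (c.s_mem _ (mul_mem hx hy)) (mul_mem (c.s_mem x hx) (c.s_mem y hy)) (by
    rw [c.mul _ (c.s_cen hx) _ (c.s_cen hy), c.π_s _ (mul_mem hx hy), c.π_s x hx, c.π_s y hy])
theorem s_inv {x : Γ} (hx : x ∈ d.L) : s x⁻¹ = (s x)⁻¹ :=
  eq_inv_of_mul_eq_one_left (by rw [← c.s_mul (inv_mem hx) hx, inv_mul_cancel, c.s_one])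
theorem s_pow {x : Γ} (hx : x ∈ d.L) : ∀ n : ℕ, s (x ^ n) = s x ^ n
  | 0 => by simpa using c.s_one
  | n + 1 => by rw [pow_succ, pow_succ, c.s_mul (pow_mem hx n) hx, s_pow hx n]
theorem s_cj {g x : Γ} (hg : g ∈ d.L) (hx : x ∈ d.L) : s (g * x * g⁻¹) = s g * s x * (s g)⁻¹ := by
  rw [c.s_mul (mul_mem hg hx) (inv_mem hg), c.s_mul hg hx, c.s_inv hg]
theorem s_inj {x y : Γ} (hx : x ∈ d.L) (hy : y ∈ d.L) (e : s x = s y) : x = y := by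
  rw [← c.π_s x hx, e, c.π_s y hy]
theorem s_ne {x y : Γ} (hx : x ∈ d.L) (hy : y ∈ d.L) : s x ≠ t * s y := fun e =>
  c.t_not ((mul_mem_cancel_right (c.s_mem y hy)).1 (e ▸ c.s_mem x hx))
theorem s_comm {x y : Γ} (hx : x ∈ d.L) (hy : y ∈ d.L) (e : x * y = y * x) : s x * s y = s y * s x := by
  rw [← c.s_mul hx hy, e, c.s_mul hy hx]

/-- An element of `C(t)` over `L`. -/
theorem lift {a : G} (ha : a ∈ centralizer {t}) (h : π a ∈ d.L) : a = s (π a) ∨ a = t * s (π a) :=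
  c.eq_or ha (c.s_cen h) (c.π_s _ h).symm

/-- The action of `C(t)` on `L`. -/
theorem conj {a : G} (ha : a ∈ centralizer {t}) {x : Γ} (hx : x ∈ d.L) : a * s x * a⁻¹ = s (π a * x * (π a)⁻¹) := by
  rw [← c.s_π (conj_mem (c.norm ha) (c.s_mem x hx)), c.π_conj ha (c.s_cen hx), c.π_s x hx]

theorem π_comm {a : G} (ha : a ∈ centralizer {t}) {x : Γ} (hx : x ∈ d.L) (e : a * s x = s x * a) : π a * x = x * π a := by
  have := congrArg π e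
  rwa [c.mul _ ha _ (c.s_cen hx), c.mul _ (c.s_cen hx) _ ha, c.π_s x hx] at this

theorem π_cent {a : G} (ha : a ∈ centralizer {t}) {P : Subgroup Γ} (hP : P ≤ d.L) (e : ∀ x ∈ P, a * s x = s x * a) :
    π a ∈ 𝒞(P) := mem_cent.2 fun x hx => (c.π_comm ha (hP hx) (e x hx)).symm

/-- The components from the first component of `z`. -/
theorem cmp {z₁ : G} (h1 : z₁ * z₁ = 1) (h2 : z₁ * t * z₁ = t * s d.z) (hz : d.z ∈ d.L)
    (h3 : ∀ h ∈ d.L, h * d.z = d.z * h → s h * z₁ = z₁ * s h) : ∃ k, Cmp d t s k ∧ k d.z = z₁ := by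
  classical
  have key : ∀ g ∈ d.L, ∀ g' ∈ d.L, g * d.z * g⁻¹ = g' * d.z * g'⁻¹ → s g * z₁ * (s g)⁻¹ = s g' * z₁ * (s g')⁻¹ :=
    fun g hg g' hg' e => by
      have := h3 _ (mul_mem (inv_mem hg') hg) (by
        calc g'⁻¹ * g * d.z = g'⁻¹ * (g * d.z * g⁻¹) * g := by group
          _ = _ := by rw [e]; group)
      rw [c.s_mul (inv_mem hg') hg, c.s_inv hg'] at this
      calc _ = s g' * ((s g')⁻¹ * s g * z₁) * (s g)⁻¹ := by group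
        _ = _ := by rw [this]; group
  obtain ⟨k, hk⟩ : ∃ k : Γ → G, ∀ g ∈ d.L, k (g * d.z * g⁻¹) = s g * z₁ * (s g)⁻¹ :=
    ⟨fun x => if h : cl d x then s h.choose * z₁ * (s h.choose)⁻¹ else 1, fun g hg => by
      have h : cl d (g * d.z * g⁻¹) := ⟨g, hg, rfl⟩
      simpa only [dif_pos h] using key _ h.choose_spec.1 g hg h.choose_spec.2.symm⟩
  refine ⟨k, ⟨?_, ?_, ?_⟩, by simpa [c.s_one] using hk 1 (one_mem _)⟩
  · rintro _ ⟨g, hg, rfl⟩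
    rw [hk g hg, conj_mul, h1]; group
  · rintro _ ⟨g, hg, rfl⟩
    rw [hk g hg, c.s_cj hg hz]
    calc _ = s g * z₁ * ((s g)⁻¹ * (t * s g)) * z₁ * (s g)⁻¹ := by group
      _ = s g * (z₁ * t * z₁) * (s g)⁻¹ := by rw [← c.s_t hg]; group
      _ = _ := by rw [h2, ← mul_assoc, c.s_t hg]; group
  · rintro _ ⟨g, hg, rfl⟩ a ha
    rw [show a * (g * d.z * g⁻¹) * a⁻¹ = a * g * d.z * (a * g)⁻¹ by group, hk _ (mul_mem ha hg), hk g hg, c.s_mul ha hg]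
    group

end Sec

end Global

/-! ### The statements -/

/-- (PJ) an element which moves `C(t) ⊓ C(z)`-centralising data normalises `Jc z` and acts as an element of `C`. -/
def NJB : Prop := ∀ {Γ : Type} [Group Γ] [Finite Γ] (d : Dat Γ) (Th A : Subgroup Γ) (σ e g : Γ) {G : Type u} [Group G]
  [Finite G] (t : G) (L : Subgroup G) (π : G → Γ) (s : Γ → G) (x : G), Base d Th → Cen d → ZF d A σ e g → Sec d t L π s →
  (∀ j ∈ Jc d.L d.z, x * s j * x⁻¹ * t = t * (x * s j * x⁻¹) ∧ x * s j * x⁻¹ * s d.z = s d.z * (x * s j * x⁻¹)) →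
  ∃ c ∈ d.C, ∀ j ∈ Jc d.L d.z, c * j * c⁻¹ ∈ Jc d.L d.z ∧ x * s j * x⁻¹ = s (c * j * c⁻¹)

/-- (Z0) the element `w`. -/
def Z0B : Prop := ∀ {Γ : Type} [Group Γ] [Finite Γ] (d : Dat Γ) (Th A : Subgroup Γ) (σ e g : Γ) {G : Type u} [Group G]
  [Finite G] (t : G) (L : Subgroup G) (π : G → Γ) (s : Γ → G), Base d Th → Cen d → ZF d A σ e g → Sec d t L π s →
  ∃ w, W0 d t s w

/-- (FIN) the wreath product from a clique. -/
def FinB : Prop := ∀ {Γ : Type} [Group Γ] [Finite Γ] (d : Dat Γ) (Th : Subgroup Γ) (S : Set Γ) (y y' : Γ) {G : Type u}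
  [Group G] [Finite G] (t : G) (L : Subgroup G) (π : G → Γ) (s k : Γ → G), Base d Th → CenH d → Clq d S y y' →
  Sec d t L π s → Cmp d t s k → Gd s k y y' → ∃ L₁, Wrt t L L₁

/-- (ON1) the components for `ON`. -/
def ON1B : Prop := ∀ {Γ : Type} [Group Γ] [Finite Γ] (d : Dat Γ) (Th V : Subgroup Γ) (u ρ κ τ : Γ) {G : Type u} [Group G]
  [Finite G] (t : G) (L : Subgroup G) (π : G → Γ) (s : Γ → G) (w : G), Base d Th → ONF d V u ρ κ τ → Sec d t L π s →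
  W0 d t s w → ∃ k, Cmp d t s k ∧ Ad k d.z (rt ρ 1 d.z)

/-- (ON2) the good pair for `ON`. -/
def ON2B : Prop := ∀ {Γ : Type} [Group Γ] [Finite Γ] (d : Dat Γ) (Th A Q : Subgroup Γ) (σ e₀ g u e b y y' ν : Γ)
  {G : Type u} [Group G] [Finite G] (t : G) (L : Subgroup G) (π : G → Γ) (s k : Γ → G), Base d Th → Cen d →
  ZF d A σ e₀ g → ONQ d Q u e b y y' ν → Sec d t L π s → Cmp d t s k → Ad k d.z e → Gd s k y y'

/-- (SZ1) the components for `Suz`. -/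
def SZ1B : Prop := ∀ {Γ : Type} [Group Γ] [Finite Γ] (d : Dat Γ) (Th U : Subgroup Γ) {G : Type u} [Group G]
  [Finite G] (t : G) (L : Subgroup G) (π : G → Γ) (s : Γ → G) (w : G), Base d Th → CenH d → SzU d U → Sec d t L π s →
  W0 d t s w → ∃ k, Cmp d t s k ∧ ∀ x y, TZ d U x y → Ad k x y

/-- (SZ2) the good pair for `Suz`. -/
def SZ2B : Prop := ∀ {Γ : Type} [Group Γ] [Finite Γ] (d : Dat Γ) (Th U : Subgroup Γ) (b b' w n n' g : Γ) {G : Type u}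
  [Group G] [Finite G] (t : G) (L : Subgroup G) (π : G → Γ) (s k : Γ → G), Base d Th → SzD d U b b' w n n' g →
  Sec d t L π s → Cmp d t s k → (∀ x y, TZ d U x y → Ad k x y) → Gd s k b w

end CL.NS
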