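/-
Project NS3: large 2-subgroups of centralisers, and transfer.
-/
import Cfsg.Agent.NS3.Basic
import Cfsg.Agent.Wr.E2a
import Cfsg.Agent.Wr.E3

set_option autoImplicit false
set_option linter.unusedSectionVars false
open Cfsg Subgroup CL.Even CL.Grp CL.Wr
open scoped commutatorElement

namespace CL.NS

universe u

namespace E23

open CL.Wr.E2ax (Big)
open CL.Wr.E3x (tt ttg)

variable {G : Type*} [Group G] [Finite G] {Γ : Type*} [Group Γ] [Finite Γ]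
variable {d : Dat Γ} {Th : Subgroup Γ} {t : G} {G₀ M₀ S₀ : Subgroup G} {p : G → Γ} (c : Cfg d Th t G₀ M₀ S₀ p)
  (m : Base d Th)
include c m

theorem upper {n : ℕ} (h : Big t n) : n ≤ 2 * Nat.card Th := by
  obtain ⟨P, h1, h2, h3⟩ := h
  have a1 := card_le_two_mul (H := P) (K := M₀) fun x hx y hy hx' hy' => by
    have := mul_mem ((c.cent x (mem_cent1.1 (h2 hx))).resolve_left hx')
      (c.tM ((c.cent y (mem_cent1.1 (h2 hy))).resolve_left hy'))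
    rwa [mul_assoc t, mul_inv_cancel_right, mul_assoc, ← mul_assoc t, c.t_sq, one_mul] at this
  have a2 := m.card_le (c.mul.isP_img (h1.to_inf_left (K := M₀))) (c.mul.img_le fun x _ hx => c.mem x hx)
  rw [c.mul.card_img_of_inj inf_le_right fun x hx e => c.eq_one hx.2 (Two.of_mem h1 hx.1) e (by
    rw [← mem_cent1.1 (h2 hx.1), mul_inv_cancel_right, e])] at a2
  omega

theorem allS {w : G} (hw : w ∈ M₀) (h1 : p w ∉ d.L) (h2 : p (t * w * t⁻¹) ∈ d.L) {a b : Γ} (ha : a ∈ Th)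
    (hb : b ∈ Th) : ∃ x ∈ S₀, p x = a ∧ p (t * x * t⁻¹) = b := by
  have k : ∀ {x y}, x ∈ d.C → y ∈ Th → (x ∈ d.L ↔ y ∈ d.L) → x⁻¹ * y ∈ d.L := fun {x y} hx hy e => by
    by_cases i : x ∈ d.L
    exacts [mul_mem (inv_mem i) (e.1 i),
      m.mul_mem_L _ (inv_mem hx) _ (m.Th_le hy) (fun j => i (inv_mem_iff.1 j)) fun j => i (e.2 j)]
  have key : ∀ μ ∈ M₀, (p μ ∈ d.L ↔ a ∈ d.L) → (p (t * μ * t⁻¹) ∈ d.L ↔ b ∈ d.L) →
      ∃ x ∈ S₀, p x = a ∧ p (t * x * t⁻¹) = b := fun μ hμ e1 e2 => by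
    obtain ⟨x, hx, f1, f2⟩ := c.G_surj _ (k (c.mem μ hμ) ha e1) _ (k (c.mem _ (c.tM hμ)) hb e2)
    have f3 := c.mul μ hμ x (c.G_le hx)
    have f4 : p (t * (μ * x) * t⁻¹) = p (t * μ * t⁻¹) * p (t * x * t⁻¹) := c.mulq μ hμ x (c.G_le hx)
    rw [f1, mul_inv_cancel_left] at f3
    rw [f2, mul_inv_cancel_left] at f4
    exact f3 ▸ f4 ▸ c.S_surj _ (mul_mem hμ (c.G_le hx)) (f3 ▸ ha) (f4 ▸ hb)
  by_cases i : a ∈ d.L <;> by_cases j : b ∈ d.L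
  · exact key 1 (one_mem _) (by simp [c.mul.one, i]) (by simp [c.mul.one, j])
  · exact key _ (c.tM hw) (by simp [h2, i]) (by simp [c.tt, h1, j])
  · exact key w hw (by simp [h1, i]) (by simp [h2, j])
  · have f4 : p (t * (w * (t * w * t⁻¹)) * t⁻¹) = p (t * w * t⁻¹) * p (t * (t * w * t⁻¹) * t⁻¹) :=
      c.mulq w hw _ (c.tM hw)
    exact key _ (mul_mem hw (c.tM hw)) (by rw [c.mul w hw _ (c.tM hw), mul_mem_cancel_right h2]; simp [h1, i])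
      (by rw [f4, c.tt, mul_mem_cancel_left h2]; simp [h1, j])

omit m in
theorem cenE {w : G} (hw : w ∈ S₀) (P Q : Subgroup Γ) :
    c.E (P ⊓ centralizer {p w}) (Q ⊓ centralizer {p (t * w * t⁻¹)}) ≤ centralizer {w} := fun _ hx =>
  mem_cent1.2 (c.comm hx.1 hw (mem_cent1.1 hx.2.1.2) (mem_cent1.1 hx.2.2.2))

theorem memR {y : G} (hy : y ∈ S₀) (h1 : p y ∈ d.L) (h2 : p (t * y * t⁻¹) ∈ d.L) : y ∈ c.E d.T d.T :=
  ⟨hy, m.mem_T (c.S_mem y hy) h1, m.mem_T (c.S_mem _ (c.tS hy)) h2⟩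

variable {σ : Γ} {B mi mo Mo : ℕ} (o : Num d Th σ B mi mo Mo)
include o

theorem one {y : G} (hy : y ∈ M₀) (yy : y * y = 1) (h1 : p y ∉ d.L) (h2 : p (t * y * t⁻¹) ∈ d.L) : Big y B := by
  obtain ⟨g₁, a1, e1, k1⟩ := o.out _ (c.mem y hy) h1 (c.mul.sq hy yy)
  obtain ⟨g₂, a2, e2, k2, γ, c1, c2, c3⟩ := o.inn _ h2 (c.mulq.sq hy yy)
  obtain ⟨w, hw, f1, f2, f3⟩ := E2ax.nf c hy yy a1 a2 rfl rfl e1 (m.T_le e2)
  have f4 : p w ∉ d.L := by rwa [f1, mul_mem_cancel_right (inv_mem a1), mul_mem_cancel_left a1]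
  rw [← f1] at e1 k1
  rw [← f2] at k2 c3
  have b1 := two_mul_card_le (inf_le_inf_right (centralizer {p w}) m.T_le) ⟨e1, mem_cent1.2 rfl⟩
    fun e => f4 (m.T_le_L e.1)
  have b2 := two_mul_card_le (inf_le_inf_right (centralizer {p (t * w * t⁻¹)}) m.T_le) ⟨c1, mem_cent1.2 c3⟩
    fun e => c2 (m.T_le_L e.1)
  refine Big.conj ⟨_, c.E_isP _ _, cenE c hw Th Th, ?_⟩ f3
  rw [card_E' c (P := Th ⊓ _) (Q := Th ⊓ _) fun _ ha _ hb => allS c m hy h1 h2 ha.1 hb.1]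
  refine o.n2.trans (le_trans (le_of_eq (by ring)) (Nat.mul_le_mul ((Nat.mul_le_mul_left 2 k1).trans b1)
    ((Nat.mul_le_mul_left 2 k2).trans b2)))

theorem lower {y : G} (hy : y ∈ M₀) (yy : y * y = 1) (h : p y ∈ d.L ∨ p (t * y * t⁻¹) ∈ d.L) : Big y B := by
  by_cases h1 : p y ∈ d.L <;> by_cases h2 : p (t * y * t⁻¹) ∈ d.L
  · obtain ⟨g₁, a1, e1, k1, -⟩ := o.inn _ h1 (c.mul.sq hy yy)
    obtain ⟨g₂, a2, e2, k2, -⟩ := o.inn _ h2 (c.mulq.sq hy yy)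
    obtain ⟨w, hw, f1, f2, f3⟩ := E2ax.nf c hy yy a1 a2 rfl rfl (m.T_le e1) (m.T_le e2)
    rw [← f1] at k1
    rw [← f2] at k2
    exact Big.conj ⟨_, c.E_isP _ _, cenE c hw d.T d.T, by
      rw [card_E c m inf_le_left inf_le_left]; exact o.n1.trans (Nat.mul_le_mul k1 k2)⟩ f3
  · exact (one c m o (c.tM hy) (by rw [conj_mul, yy, mul_one, mul_inv_cancel]) h2 ((c.tt y).symm ▸ h1)).conj
      (isConj_iff.2 ⟨t, rfl⟩)
  · exact one c m o hy yy h1 h2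
  · exact absurd h (not_or.2 ⟨h1, h2⟩)

theorem nf {y : G} (hy : y ∈ S₀) : ∃ r ∈ c.E d.T d.T, (p y ∈ d.L → p (y * r) = 1) ∧ (p y ∉ d.L → p (y * r) = σ) ∧
    (p (t * y * t⁻¹) ∈ d.L → p (t * (y * r) * t⁻¹) = 1) ∧ (p (t * y * t⁻¹) ∉ d.L → p (t * (y * r) * t⁻¹) = σ) := by
  have k : ∀ γ ∈ Th, ∃ α ∈ d.T, (γ ∈ d.L → γ * α = 1) ∧ (γ ∉ d.L → γ * α = σ) := fun γ hγ => by
    by_cases e : γ ∈ d.L
    · exact ⟨γ⁻¹, inv_mem (m.mem_T hγ e), fun _ => mul_inv_cancel γ, fun k => absurd e k⟩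
    · exact ⟨γ⁻¹ * σ, m.mem_T (mul_mem (inv_mem hγ) o.mem) (m.mul_mem_L _ (inv_mem (m.Th_le hγ)) _ (m.Th_le o.mem)
        (fun k => e (inv_mem_iff.1 k)) o.not_mem), fun k => absurd k e, fun _ => mul_inv_cancel_left γ σ⟩
  obtain ⟨α, hα, a1, a2⟩ := k _ (c.S_mem y hy)
  obtain ⟨β, hβ, b1, b2⟩ := k _ (c.S_mem _ (c.tS hy))
  obtain ⟨r, hr, rfl, rfl⟩ := exists_E c m hα hβ
  rw [← c.mul y (c.S_le hy) r (c.S_le hr)] at a1 a2
  rw [← c.mulq y (c.S_le hy) r (c.S_le hr)] at b1 b2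
  exact ⟨r, ⟨hr, hα, hβ⟩, a1, a2, b1, b2⟩

variable (s : Sz d B t M₀ S₀ p)
include s

theorem big {v y : G} (hv : v * t = t * v) (vv : v * v = 1) (hy : y ∈ M₀) (hi : p y ∈ d.L ∨ p (t * y * t⁻¹) ∈ d.L)
    (hc : IsConj v y) : ∃ Q : Subgroup G, IsPGroup 2 Q ∧ Q ≤ M₀ ⊓ centralizer {v} ∧ B ≤ 2 * Nat.card Q := by
  obtain ⟨g, rfl⟩ := isConj_iff.1 hc
  obtain ⟨P, h1, h2, h3⟩ := s.lower _ hy (by rw [conj_mul, vv]; simp) hi
  obtain ⟨Q, k1, k2, k3⟩ := s.upper v hv (cj g⁻¹ P) (isPGroup_cj h1 _) fun x hx => by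
    have := mem_cent1.1 (h2 (mem_cj.1 hx))
    rw [inv_inv, conj_mul, conj_mul] at this
    exact mem_cent1.2 (by simpa using this)
  rw [card_cj] at k3
  exact ⟨Q, k1, k2, by omega⟩

omit s c in
theorem card_cen {R : Subgroup Γ} (hR : IsPGroup 2 R) (h : R ≤ d.C ⊓ centralizer {σ}) : Nat.card R ≤ 2 * Mo :=
  (card_le_two_mul (K := d.L) fun x hx y hy => m.mul_mem_L x (h hx).1 y (h hy).1).trans
    (Nat.mul_le_mul_left 2 (o.up _ hR.to_inf_left fun _ hx => ⟨hx.2, (h hx.1).2⟩))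

omit s in
theorem ww {w : G} (hw : w ∈ S₀) (h1 : p w = σ) (h2 : p (t * w * t⁻¹) = σ) : w * w = 1 ∧ w * t = t * w :=
  ⟨(sq w).symm.trans (c.pow_eq_one hw (by rw [h1, sq, o.sq]) (by rw [h2, sq, o.sq])),
    (mul_inv_eq_iff_eq_mul.1 (c.inj (c.tS hw) hw (h2.trans h1.symm) (by rw [c.tt, h1, h2]))).symm⟩

theorem w1 {w y : G} (hw : w ∈ S₀) (h1 : p w = σ) (h2 : p (t * w * t⁻¹) = σ) (hy : y ∈ M₀)
    (hi : p y ∈ d.L ∨ p (t * y * t⁻¹) ∈ d.L) : ¬ IsConj w y := fun hc => by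
  obtain ⟨k1, k2⟩ := ww c m o hw h1 h2
  obtain ⟨Q, q1, q2, q3⟩ := big c m o s k2 k1 hy hi hc
  have q4 : Q ≤ M₀ := q2.trans inf_le_left
  have a1 := card_cen m o (c.mul.isP_img q1) (c.mul.img_le fun x hx hx' => ⟨c.mem x hx', mem_cent1.2
    (h1 ▸ c.mul.mul_comm hx' (c.S_le hw) (mem_cent1.1 (q2 hx).2))⟩)
  have a2 := card_cen m o (c.mulq.isP_img (q1.to_inf_left (K := c.mul.pre ⊥))) (c.mulq.img_le fun x hx hx' =>
    ⟨c.mem _ (c.tM hx'), mem_cent1.2 (h2 ▸ c.mulq.mul_comm hx' (c.S_le hw) (mem_cent1.1 (q2 hx.1).2))⟩)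
  rw [c.mulq.card_img_of_inj (inf_le_left.trans q4) fun x hx e =>
    c.eq_one (q4 hx.1) (Two.of_mem q1 hx.1) (mem_bot.1 (c.mul.mem_pre.1 hx.2).2) e] at a2
  have a3 := c.mul.card_img q4
  have := Nat.mul_le_mul a1 a2
  have := o.n4
  nlinarith

theorem w2 {w y : G} (hw : w ∈ S₀) (h1 : p w = σ) (h2 : p (t * w * t⁻¹) = σ) (hy : y ∈ M₀)
    (hi : p y ∈ d.L ∨ p (t * y * t⁻¹) ∈ d.L) : ¬ IsConj (w * t) y := fun hc => by
  obtain ⟨k1, k2⟩ := ww c m o hw h1 h2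
  obtain ⟨Q, q1, q2, q3⟩ := big c m o s (by rw [← mul_assoc, ← k2]) (by
    rw [mul_assoc, ← mul_assoc t, ← k2, mul_assoc, c.t_sq, mul_one, k1]) hy hi hc
  have q4 : Q ≤ M₀ := q2.trans inf_le_left
  have a1 := (m.card_le (c.mul.isP_img q1) (c.mul.img_le fun x _ hx' => c.mem x hx')).trans m.card_Th
  rw [c.mul.card_img_of_inj q4 fun x hx e => c.eq_one (q4 hx) (Two.of_mem q1 hx) e (by
    have a2 : t * x * t⁻¹ = w⁻¹ * x * w := by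
      calc t * x * t⁻¹ = w⁻¹ * (w * t * x) * t⁻¹ := by group
        _ = _ := by rw [← mem_cent1.1 (q2 hx).2]; group
    rw [a2, c.mul.conj' (c.S_le hw) (q4 hx), e, mul_one, inv_mul_cancel])] at a1
  have := o.n3
  omega

end E23

theorem e2aB : E2aB.{u} := by
  intro Γ _ _ d Th σ B mi mo Mo G _ _ t G₀ M₀ S₀ p m o c y hy yy h
  refine ⟨fun hc => ?_, E23.lower c m o hy yy h⟩
  have := E23.upper c m ((E23.lower c m o hy yy h).conj hc)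
  have := m.card_Th
  have := o.n3
  omega

open CL.Wr.E3x (tt ttg) in
theorem e3B : E3B.{u} := by
  intro Γ _ _ d Th σ B mi mo Mo G _ _ t G₀ M₀ S₀ p c X m o s hn hG hX
  have syl : IsSylowIn 2 ((S₀ ⊔ zpowers t) ⊓ X) X := s.syl.inf_of_normalized le_top (normalizer_eq_top X).ge
  have RX : c.E d.T d.T ≤ X := (c.E_G m.T_le_L m.T_le_L).trans hG
  have memS : ∀ {x}, x ∈ S₀ ⊔ zpowers t ↔ x ∈ S₀ ∨ x * t ∈ S₀ := mem_sup_inv c.t_sq c.t_S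
  have tS : t ∉ S₀ := fun e => c.t_not (c.S_le e)
  have mq : ∀ x ∈ M₀, ∀ y ∈ M₀, p (t * (x * y) * t⁻¹) = p (t * x * t⁻¹) * p (t * y * t⁻¹) := c.mulq
  have iq : ∀ x ∈ M₀, p (t * x⁻¹ * t⁻¹) = (p (t * x * t⁻¹))⁻¹ := fun x hx => c.mulq.inv hx
  have mulS : ∀ x ∈ (S₀ ⊔ zpowers t) ⊓ X, ∀ y ∈ (S₀ ⊔ zpowers t) ⊓ X, x ∉ S₀ → y ∉ S₀ → x * y ∈ S₀ :=
    fun x hx y hy h1 h2 => by
      have := mul_mem ((memS.1 hx.1).resolve_left h1) (c.tS ((memS.1 hy.1).resolve_left h2))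
      rwa [mul_assoc t, mul_inv_cancel_right, mul_assoc, ← mul_assoc t, c.t_sq, one_mul] at this
  have tX : t ∉ X := fun e => by
    obtain ⟨y, -, h1, h2⟩ := tt hX syl ⟨mem_sup_right (mem_zpowers t), e⟩ tS mulS c.t_sq
    exact s.notConj y (c.S_le h1) h2
  have tt' : ∀ x : G, x * t * t = x := fun x => by rw [mul_assoc, c.t_sq, mul_one]
  have nX : ∀ μ ∈ X, μ * t ∉ X := fun μ h1 h2 => tX ((mul_mem_cancel_left h1).1 h2)
  refine (le_antisymm (fun x hx => by_contra fun hx' => ?_) (le_inf ((c.E_le _ _).trans le_sup_left) RX)) ▸ syl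
  have out : ∀ {α β}, α ∈ d.L → β ∉ d.L → α * β ∉ d.L := fun h1 h2 e => h2 ((mul_mem_cancel_left h1).1 e)
  have out' : ∀ {α β}, α ∉ d.L → β ∈ d.L → α * β ∉ d.L := fun h1 h2 e => h1 ((mul_mem_cancel_right h2).1 e)
  by_cases hI : (S₀ ⊔ zpowers t) ⊓ X ≤ S₀
  · obtain ⟨v, v1, v2, v3, v4⟩ : ∃ v ∈ S₀, v ∈ X ∧ p v ∉ d.L ∧ p (t * v * t⁻¹) ∉ d.L := by
      have h1 := hI hx
      have e1 := c.mul x (c.S_le h1) _ (c.S_le (c.tS h1))
      have e2 := mq x (c.S_le h1) _ (c.S_le (c.tS h1))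
      rw [c.tt] at e2
      by_cases a1 : p x ∈ d.L <;> by_cases a2 : p (t * x * t⁻¹) ∈ d.L
      · exact absurd (E23.memR c m h1 a1 a2) hx'
      · exact ⟨_, mul_mem h1 (c.tS h1), mul_mem hx.2 (hn.conj_mem x hx.2 t), e1 ▸ out a1 a2, e2 ▸ out' a2 a1⟩
      · exact ⟨_, mul_mem h1 (c.tS h1), mul_mem hx.2 (hn.conj_mem x hx.2 t), e1 ▸ out' a1 a2, e2 ▸ out a2 a1⟩
      · exact ⟨x, h1, hx.2, a1, a2⟩
    obtain ⟨r, hr, -, a1, -, a2⟩ := E23.nf c m o v1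
    have w0 := mul_mem v1 hr.1
    obtain ⟨y, -, h1, h2⟩ := tt (M := c.mulq.pre d.L) hX syl ⟨mem_sup_left w0, mul_mem v2 (RX hr)⟩
      (fun e => o.not_mem (a2 v4 ▸ (c.mulq.mem_pre.1 e).2)) (fun a ha b hb h1 h2 => by
        have a0 := c.S_le (hI ha)
        have b0 := c.S_le (hI hb)
        refine c.mulq.mem_pre.2 ⟨mul_mem a0 b0, ?_⟩
        rw [mq a a0 b b0]
        exact m.mul_mem_L _ (c.mem _ (c.tM a0)) _ (c.mem _ (c.tM b0)) (fun e => h1 (c.mulq.mem_pre.2 ⟨a0, e⟩))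
          fun e => h2 (c.mulq.mem_pre.2 ⟨b0, e⟩)) (E23.ww c m o w0 (a1 v3) (a2 v4)).1
    exact E23.w1 c m o s w0 (a1 v3) (a2 v4) (c.mulq.mem_pre.1 h1).1 (.inr (c.mulq.mem_pre.1 h1).2) h2
  obtain ⟨x', hx1, hx2⟩ := SetLike.not_le_iff_exists.1 hI
  have mR : ∀ μ, μ * t ∈ X → ∀ r ∈ c.E d.T d.T, μ * r * t ∈ X := fun μ h r hr => by
    have := mul_mem h (hn.conj_mem r (RX hr) t⁻¹)
    rwa [inv_inv, ← mul_assoc, ← mul_assoc, mul_inv_cancel_right] at this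
  have mem : ∀ μ ∈ S₀, μ * t ∈ X → μ * t ∈ (S₀ ⊔ zpowers t) ⊓ X ∧ μ * t ∉ S₀ := fun μ h1 h2 =>
    ⟨⟨memS.2 (.inr ((tt' μ).symm ▸ h1)), h2⟩, fun e => tS ((mul_mem_cancel_left h1).1 e)⟩
  have main : ∀ μ ∈ S₀, μ * t ∈ X → p μ ∉ d.L → False := fun μ₀ h0 h0' a0 => by
    obtain ⟨r, hr, -, a1, a2, a3⟩ := E23.nf c m o h0
    have h1 := mul_mem h0 hr.1
    have h2 := mR μ₀ h0' r hr
    replace a1 := a1 a0
    by_cases b0 : p (t * μ₀ * t⁻¹) ∈ d.L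
    swap
    · replace a3 := a3 b0
      generalize μ₀ * r = w at *
      obtain ⟨k1, k2⟩ := E23.ww c m o h1 a1 a3
      obtain ⟨y, y1, y2, y3⟩ := tt hX syl (mem w h1 h2).1 (mem w h1 h2).2 mulS (by
        rw [mul_assoc, ← mul_assoc t, ← k2, mul_assoc, c.t_sq, mul_one, k1])
      have y4 := not_or.1 fun e => E23.w2 c m o s h1 a1 a3 (c.S_le y2) e y3
      obtain ⟨r', hr', -, b1, -, b2⟩ := E23.nf c m o y2
      exact nX w (c.inj (mul_mem y2 hr'.1) h1 ((b1 y4.1).trans a1.symm) ((b2 y4.2).trans a3.symm) ▸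
        mul_mem y1 (RX hr')) h2
    replace a2 := a2 b0
    generalize μ₀ * r = μ at *
    have typ : ∀ y ∈ S₀, y ∈ X → p y ∉ d.L → p (t * y * t⁻¹) ∉ d.L := fun y y1 y2 y3 y4 => by
      obtain ⟨r', hr', -, b1, b2, -⟩ := E23.nf c m o y1
      exact nX μ (c.inj (mul_mem y1 hr'.1) h1 ((b1 y3).trans a1.symm) ((b2 y4).trans a2.symm) ▸ mul_mem y2 (RX hr')) h2
    have e0 : ∀ ν : G, ν * t * (ν * t) = ν * (t * ν * t⁻¹) := fun ν => by rw [c.t_inv]; group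
    have w0 := mul_mem h1 (c.tS h1)
    have p1 : p (μ * (t * μ * t⁻¹)) = σ := by rw [c.mul μ (c.S_le h1) _ (c.S_le (c.tS h1)), a1, a2, mul_one]
    have p2 : p (t * (μ * (t * μ * t⁻¹)) * t⁻¹) = σ := by
      rw [mq μ (c.S_le h1) _ (c.S_le (c.tS h1)), c.tt, a1, a2, one_mul]
    have k1 := (E23.ww c m o w0 p1 p2).1
    have e1 : ∀ (g : G) (k : ℕ), g⁻¹ * (μ * t) ^ k * g * (g⁻¹ * (μ * t) ^ k * g) = g⁻¹ * (μ * (t * μ * t⁻¹)) ^ k * g :=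
      fun g k => by rw [← e0, ← sq (μ * t), ← pow_mul, two_mul, pow_add]; group
    refine ttg hX syl (mem μ h1 h2).1 (mem μ h1 h2).2 mulS h2 (fun k g hg ⟨j, hk⟩ e => ?_) fun k g hg ⟨j, hk⟩ e => ?_
    · refine E23.w1 c m o s w0 p1 p2 (c.S_le (mul_mem e e)) (.inl ?_) ?_
      · rw [c.mul _ (c.S_le e) _ (c.S_le e)]
        by_cases i : p (g⁻¹ * (μ * t) ^ k * g) ∈ d.L
        exacts [mul_mem i i, m.mul_mem_L _ (c.mem _ (c.S_le e)) _ (c.mem _ (c.S_le e)) i i]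
      · rw [e1, hk, pow_succ, pow_mul, sq, k1, one_pow, one_mul]
        exact isConj_iff.2 ⟨g⁻¹, by rw [inv_inv]⟩
    · have e2 := (e1 g k).trans (show _ = 1 by
        rw [hk, ← two_mul, pow_mul, sq, k1, one_pow, mul_one, inv_mul_cancel])
      generalize g⁻¹ * (μ * t) ^ k * g = y at e e2
      by_contra i
      have y1 := (memS.1 e.1).resolve_left i
      obtain ⟨ν, rfl⟩ : ∃ ν, y = ν * t := ⟨y * t, (tt' y).symm⟩
      rw [tt'] at y1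
      have y2 : ν * μ⁻¹ ∈ X := by
        have := X.mul_mem e.2 (X.inv_mem h2)
        rwa [mul_inv_rev, mul_assoc, mul_inv_cancel_left] at this
      have y3 := mul_mem y1 (inv_mem h1)
      have f1 := c.mul ν (c.S_le y1) _ (c.S_le (inv_mem h1))
      have f2 := mq ν (c.S_le y1) _ (c.S_le (inv_mem h1))
      have f3 := c.mul ν (c.S_le y1) _ (c.S_le (c.tS y1))
      rw [c.mul.inv (c.S_le h1), a1] at f1
      rw [iq _ (c.S_le h1), a2, inv_one, mul_one] at f2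
      rw [← e0, e2, c.mul.one] at f3
      have f4 : p (t * ν * t⁻¹) ∈ d.L ↔ p ν ∈ d.L := by rw [eq_inv_of_mul_eq_one_right f3.symm, inv_mem_iff]
      by_cases i' : p ν ∈ d.L
      · exact typ _ y3 y2 (f1 ▸ out i' fun k => o.not_mem (inv_mem_iff.1 k)) (f2 ▸ f4.2 i')
      · refine typ _ (c.tS y3) (hn.conj_mem _ y2 t) (f2 ▸ fun k => i' (f4.1 k)) ?_
        rw [c.tt, f1]
        exact m.mul_mem_L _ (c.mem _ (c.S_le y1)) _ (inv_mem (m.Th_le o.mem)) i' fun k => o.not_mem (inv_mem_iff.1 k)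
  have h1 := (memS.1 hx1.1).resolve_left hx2
  have h2 : x' * t * t ∈ X := (tt' x').symm ▸ hx1.2
  by_cases a1 : p (x' * t) ∈ d.L
  · by_cases a2 : p (t * (x' * t) * t⁻¹) ∈ d.L
    · exact nX _ (RX (E23.memR c m h1 a1 a2)) h2
    · refine main _ (c.tS h1) ?_ a2
      have := hn.conj_mem _ h2 t
      rwa [mul_assoc, mul_inv_cancel_right, ← inv_mul_cancel_right (t * (x' * t)) t] at this
  · exact main _ h1 h2 a1

end CL.NS
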