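/-
Project NS3: the fusion for the Suzuki group.
-/
import Cfsg.Agent.NS3.Basic

set_option autoImplicit false
set_option linter.unusedSectionVars false
open Cfsg Subgroup CL.Even CL.Grp CL.Wr
open scoped commutatorElement

namespace CL.NS

universe u

namespace FS

section
variable {Γ : Type*} [Group Γ]

/-- conjugacy under `L` -/
def Sim (d : Dat Γ) (a b : Γ) : Prop := ∃ g ∈ d.L, a = g * b * g⁻¹

theorem Sim.refl (d : Dat Γ) (a : Γ) : Sim d a a := ⟨1, one_mem _, by group⟩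

theorem Sim.symm {d : Dat Γ} {a b : Γ} (h : Sim d a b) : Sim d b a :=
  let ⟨g, hg, e⟩ := h
  ⟨g⁻¹, inv_mem hg, by rw [e]; group⟩

theorem Sim.one {d : Dat Γ} {a : Γ} (h : Sim d a 1) : a = 1 := by
  obtain ⟨g, -, rfl⟩ := h
  group

variable {d : Dat Γ} {V Z : Subgroup Γ} {f : Γ} (s : FusS d V Z f)
include s

theorem typ1 {y : Γ} (hy : y ∈ V) : Sim d y 1 ∨ Sim d y d.z ∨ Sim d y f := by
  by_cases h1 : y = 1
  · exact Or.inl (h1 ▸ Sim.refl d _)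
  by_cases h2 : y ∈ Z
  exacts [Or.inr (Or.inl (s.clZ y h2 h1)), Or.inr (Or.inr (s.clV y hy h2))]

theorem typ2 {x : Γ} (hx : x ∈ V) : (Sim d x 1 ∧ Sim d (d.z * x) d.z) ∨ (Sim d x d.z ∧ Sim d (d.z * x) 1) ∨
    (Sim d x d.z ∧ Sim d (d.z * x) d.z) ∨ (Sim d x f ∧ Sim d (d.z * x) f) := by
  have zV := s.Z_le s.z_mem
  by_cases h1 : x = 1
  · subst h1
    exact Or.inl ⟨Sim.refl d _, by rw [mul_one]; exact Sim.refl d _⟩
  by_cases h2 : x ∈ Z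
  · by_cases h3 : d.z * x = 1
    · exact Or.inr (Or.inl ⟨s.clZ x h2 h1, h3 ▸ Sim.refl d _⟩)
    · exact Or.inr (Or.inr (Or.inl ⟨s.clZ x h2 h1, s.clZ _ (mul_mem s.z_mem h2) h3⟩))
  · exact Or.inr (Or.inr (Or.inr ⟨s.clV x hx h2,
      s.clV _ (mul_mem zV hx) fun h => h2 ((mul_mem_cancel_left s.z_mem).1 h)⟩))

/-- the combinatorial part -/
theorem comb [Finite Γ] {Q : Γ → Γ → Prop} (inv : ∀ {a a' b b'}, Sim d a a' → Sim d b b' → Q a b → Q a' b')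
    (asym : ∀ a b, Q a b → ¬ Q b a) (qz : Q d.z 1)
    (bur : ∀ a ∈ V, ∀ b ∈ V, Q a b → ∀ x ∈ V, ∀ y ∈ V, ∃ x' ∈ V, ∃ y' ∈ V, (Q x y ↔ Q x' y') ∧
      (Q (a * x) (b * y) ↔ Q (d.z * x') y') ∧ (Q (b * y) (a * x) ↔ Q y' (d.z * x')) ∧
      (d.z * x' = 1 → y' = 1 → a * x = 1)) : ¬ Q 1 f ∧ ¬ Q d.z f ∧ ¬ Q f d.z := by
  have zV := s.Z_le s.z_mem
  have fV := s.f_mem
  have nd : ∀ a, ¬ Q a a := fun a h => asym a a h h
  have n1z : ¬ Q 1 d.z := asym _ _ qz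
  have fz : f * d.z ∉ Z := fun h => s.f_not ((mul_mem_cancel_right s.z_mem).1 h)
  have sfz : Sim d (f * d.z) f := s.clV _ (mul_mem fV zV) fz
  have ffz : f * (f * d.z) = d.z := by rw [← mul_assoc, s.sq f fV, one_mul]
  have hc : ∀ a ∈ V, ∀ b ∈ V, Q a b → ∀ x ∈ V, ∀ y ∈ V, Q x y → Q (b * y) (a * x) →
      (Q 1 f ∧ Q f d.z) ∨ (Q d.z f ∧ Q f 1) := fun a ha b hb h x hx y hy k1 k2 => by
    obtain ⟨x', hx', y', hy', e1, -, e3, -⟩ := bur a ha b hb h x hx y hy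
    rcases typ2 s hx' with ⟨t1, t2⟩ | ⟨t1, t2⟩ | ⟨t1, t2⟩ | ⟨t1, t2⟩ <;> rcases typ1 s hy' with t3 | t3 | t3 <;>
      have m1 := inv t1 t3 (e1.1 k1) <;> have m2 := inv t3 t2 (e3.1 k2) <;>
      first
      | exact absurd m1 (nd _)
      | exact absurd m2 (nd _)
      | exact absurd m2 (asym _ _ m1)
      | exact absurd m1 n1z
      | exact Or.inl ⟨m1, m2⟩
      | exact Or.inr ⟨m1, m2⟩
  have hd : ∀ a ∈ V, ∀ b ∈ V, Q a b → ∀ x ∈ V, ∀ y ∈ V, Q x y → a * x ∉ Z → b * y ∉ Z →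
      ¬ ((Q 1 f ∧ Q f d.z) ∨ (Q d.z f ∧ Q f 1)) := fun a ha b hb h x hx y hy k1 k2 k3 k4 => by
    obtain ⟨x', hx', y', hy', e1, e2, e3, e4⟩ := bur a ha b hb h x hx y hy
    have s1 : Sim d (a * x) f := s.clV _ (mul_mem ha hx) k2
    have s2 : Sim d (b * y) f := s.clV _ (mul_mem hb hy) k3
    have r1 : ∀ {i j}, Sim d (d.z * x') i → Sim d y' j → ¬ Q i j := fun t2 t3 k =>
      nd f (inv s1 s2 (e2.2 (inv t2.symm t3.symm k)))
    have r2 : ∀ {i j}, Sim d (d.z * x') i → Sim d y' j → ¬ Q j i := fun t2 t3 k =>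
      nd f (inv s2 s1 (e3.2 (inv t3.symm t2.symm k)))
    have r3 : Sim d (d.z * x') 1 → ¬ Sim d y' 1 := fun t2 t3 => k2 (e4 t2.one t3.one ▸ one_mem Z)
    rcases typ2 s hx' with ⟨t1, t2⟩ | ⟨t1, t2⟩ | ⟨t1, t2⟩ | ⟨t1, t2⟩ <;> rcases typ1 s hy' with t3 | t3 | t3 <;>
      have m1 := inv t1 t3 (e1.1 k1) <;> have m2 := r1 t2 t3 <;> have m3 := r2 t2 t3 <;>
      first
      | exact nd _ m1
      | exact n1z m1
      | exact r3 t2 t3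
      | exact m2 qz
      | exact m3 qz
      | (rcases k4 with ⟨k5, k6⟩ | ⟨k5, k6⟩ <;> first | exact m2 k5 | exact m2 k6 | exact m3 k5 | exact m3 k6)
  have fin : ¬ ((Q 1 f ∧ Q f d.z) ∨ (Q d.z f ∧ Q f 1)) := fun k => by
    rcases id k with ⟨k1, k2⟩ | ⟨k1, k2⟩
    · exact hd 1 (one_mem V) f fV k1 f fV _ zV k2 (by rw [one_mul]; exact s.f_not) fz k
    · exact hd f fV 1 (one_mem V) k2 _ zV f fV k1 fz (by rw [one_mul]; exact s.f_not) k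
  refine ⟨fun k => fin ?_, fun k => fin ?_, fun k => fin ?_⟩
  · exact hc 1 (one_mem V) f fV k 1 (one_mem V) _ (mul_mem fV zV) (inv (Sim.refl d _) sfz.symm k)
      (by rwa [ffz, one_mul])
  · exact hc _ zV f fV k _ zV _ (mul_mem fV zV) (inv (Sim.refl d _) sfz.symm k) (by rwa [ffz, s.sq _ zV])
  · obtain ⟨z', h1, h2⟩ : ∃ z' ∈ Z, z' ∉ zpowers d.z := SetLike.not_le_iff_exists.1 fun h => by
      have h3 := card_le_of_le h
      have h4 := Nat.le_of_dvd two_pos (orderOf_dvd_of_pow_eq_one (x := d.z) (n := 2) (by rw [pow_two, s.sq _ zV]))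
      rw [s.cardZ, Nat.card_zpowers] at h3
      omega
    have h3 : Sim d z' d.z := s.clZ z' h1 fun e => h2 (e ▸ one_mem _)
    have h4 : Sim d (d.z * z') d.z := s.clZ _ (mul_mem s.z_mem h1) fun e =>
      h2 (eq_inv_of_mul_eq_one_right e ▸ inv_mem (mem_zpowers _))
    exact hc f fV _ zV k f fV z' (s.Z_le h1) (inv (Sim.refl d _) h3.symm k)
      (by rw [s.sq f fV]; exact inv h4.symm (Sim.refl d _) qz)

end

variable {G : Type*} [Group G] [Finite G] {Γ : Type*} [Group Γ] [Finite Γ] {d : Dat Γ} {Th V Z : Subgroup Γ} {f : Γ}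
  {t w : G} {G₀ M₀ S₀ X : Subgroup G} {p : G → Γ} {c : Cfg d Th t G₀ M₀ S₀ p} (m : Base d Th)
include m

theorem memE {P Q : Subgroup Γ} (hP : P ≤ d.T) (hQ : Q ≤ d.T) {e : G} (he : e ∈ G₀) (h2 : Two e) (h3 : p e ∈ P)
    (h4 : p (t * e * t⁻¹) ∈ Q) : e ∈ c.E P Q := by
  obtain ⟨x, hx, e1, e2⟩ := exists_E c m (hP h3) (hQ h4)
  exact ⟨c.two_eq he (c.S_le hx) h2 (c.two hx) e1.symm e2.symm ▸ hx, h3, h4⟩

theorem wG (F : Fin0 c X w) : w ∈ G₀ := c.S_G w F.w_mem (F.pw ▸ m.z_L) (F.qw ▸ one_mem _)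

/-- Burnside's argument in the normalizer of `V × V` -/
theorem burn (s : FusS d V Z f) (F : Fin0 c X w) {g : G} (hg : g ∈ X) (hu : g * w * g⁻¹ ∈ c.E V V) :
    ∃ n ∈ X, n ∈ 𝒩(c.E V V) ∧ n * (g * w * g⁻¹) * n⁻¹ = w := by
  have : Fact (Nat.Prime 2) := ⟨Nat.prime_two⟩
  have WG : c.E V V ≤ G₀ := c.E_G (s.V_le.trans m.T_le_L) (s.V_le.trans m.T_le_L)
  have RG : c.E d.T d.T ≤ G₀ := c.E_G m.T_le_L m.T_le_L
  have sq : ∀ x ∈ c.E V V, x * x = 1 := fun x hx => by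
    rw [← pow_two]
    exact c.pow_eq_one hx.1 (by rw [pow_two, s.sq _ hx.2.1]) (by rw [pow_two, s.sq _ hx.2.2])
  have h1 : IsSylowIn 2 (c.E d.T d.T) (X ⊓ centralizer {w}) := F.syl.of_le
    (le_inf F.syl.le fun x hx => mem_cent1.2 (c.comm hx.1 F.w_mem (by rw [F.pw, m.z_T _ hx.2.1]) (by simp [F.qw])))
    inf_le_left
  have h2 : cj g⁻¹ (c.E V V) ≤ X ⊓ centralizer {w} := by
    rintro _ ⟨x, hx, rfl⟩
    refine ⟨X.mul_mem (X.mul_mem (X.inv_mem hg) (F.G_le (WG hx))) (X.inv_mem (X.inv_mem hg)), mem_cent1.2 ?_⟩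
    calc g⁻¹ * x * g⁻¹⁻¹ * w = g⁻¹ * (x * (g * w * g⁻¹)) * g := by group
      _ = w * (g⁻¹ * x * g⁻¹⁻¹) := by rw [comm_of_sq sq hx hu]; group
  obtain ⟨c0, hc0, h3⟩ := h1.exists_conj_le (isPGroup_cj (c.E_isP V V) g⁻¹) h2
  rw [conj_smul_eq_map, ← cj_mul] at h3
  have h4 : c0 * g⁻¹ * (g * w * g⁻¹) * (c0 * g⁻¹)⁻¹ = w := by
    calc _ = c0 * w * c0⁻¹ := by group
      _ = w := by rw [mem_cent1.1 hc0.2, mul_inv_cancel_right]
  have kX : c0 * g⁻¹ ∈ X := mul_mem hc0.1 (inv_mem hg)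
  generalize c0 * g⁻¹ = k at h3 h4 kX
  have wE : w ∈ cj k (c.E V V) := h4 ▸ conj_mem_cj k hu
  have hE : Nat.card (cj k (c.E V V)) = 64 * 64 := by rw [card_cj, card_E c m s.V_le s.V_le, s.cardV]
  have sqE : ∀ x ∈ cj k (c.E V V), x * x = 1 := by
    rintro _ ⟨x, hx, rfl⟩
    exact conj_mul.trans (by rw [sq x hx]; group)
  have EM : cj k (c.E V V) ≤ M₀ := h3.trans (RG.trans c.G_le)
  have key : ∀ {q : G → Γ} (hq : MulOn M₀ q), (∀ x ∈ c.E d.T d.T, q x ∈ d.T) →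
      Nat.card (hq.img (cj k (c.E V V))) ≤ 64 ∧
        (Nat.card (hq.img (cj k (c.E V V))) < 64 ∨ ∃ a ∈ d.L, hq.img (cj k (c.E V V)) = cj a V) := fun hq hT => by
    have := s.maxE (hq.img (cj k (c.E V V))) (hq.img_le fun x hx _ => m.T_le_L (hT x (h3 hx))) fun y hy => by
      obtain ⟨x, hx, hM, rfl⟩ := hq.mem_img.1 hy
      exact hq.sq hM (sqE x hx)
    refine ⟨?_, this⟩
    rcases this with h | ⟨a, -, h⟩
    · exact h.le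
    · rw [h, card_cj, s.cardV]
  obtain ⟨a1, a2⟩ := key c.mul fun x hx => hx.2.1
  obtain ⟨b1, b2⟩ := key c.mulq fun x hx => hx.2.2
  have h5 : Nat.card (cj k (c.E V V) ⊓ c.mul.pre ⊥ : Subgroup G) ≤ Nat.card (c.mulq.img (cj k (c.E V V))) := by
    rw [← c.mulq.card_img_of_inj (inf_le_left.trans EM) fun x hx e =>
      c.eq_one (EM hx.1) (.of_sq (sqE x hx.1)) (c.mul.mem_pre.1 hx.2).2 e]
    exact card_le_of_le (c.mulq.img_mono inf_le_left)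
  have h6 := (hE.symm.trans (c.mul.card_img EM)).le.trans (Nat.mul_le_mul_left _ h5)
  obtain ⟨α, hα, eα⟩ := a2.resolve_left fun h => by nlinarith
  obtain ⟨β, hβ, eβ⟩ := b2.resolve_left fun h => by nlinarith
  have h7 : α⁻¹ * d.z * α ∈ V := mem_cj.1 (eα ▸ F.pw ▸ c.mul.mem_img_of wE (EM wE))
  obtain ⟨n0, n1, n2, n3⟩ := s.tr _ h7 ⟨α⁻¹, inv_mem hα, by rw [inv_inv]⟩
  obtain ⟨γ, hγ, g1, g2⟩ := c.G_surj _ (inv_mem (mul_mem hα n1)) _ (inv_mem hβ)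
  have g3 : ∀ x ∈ M₀, p (γ * x * γ⁻¹) = n0⁻¹ * (α⁻¹ * p x * α) * n0 := fun x hx => by
    rw [c.mul.conj (c.G_le hγ) hx, g1]; group
  have g4 : ∀ x ∈ M₀, p (t * (γ * x * γ⁻¹) * t⁻¹) = β⁻¹ * p (t * x * t⁻¹) * β := fun x hx => by
    rw [c.mulq.conj (c.G_le hγ) hx, g2, inv_inv]
  refine ⟨γ * k, mul_mem (F.G_le hγ) kX, mem_norm_of fun x hx => ?_, ?_⟩
  · have hx' := conj_mem_cj k hx
    rw [show γ * k * x * (γ * k)⁻¹ = γ * (k * x * k⁻¹) * γ⁻¹ by group]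
    refine memE m s.V_le s.V_le (mul_mem (mul_mem hγ (RG (h3 hx'))) (inv_mem hγ)) ((Two.of_sq (sqE _ hx')).conj γ) ?_ ?_
    · rw [g3 _ (EM hx')]
      exact conj_mem' n2 (mem_cj.1 (eα ▸ c.mul.mem_img_of hx' (EM hx')))
    · rw [g4 _ (EM hx')]
      exact mem_cj.1 (eβ ▸ c.mulq.mem_img_of hx' (EM hx'))
  · rw [show γ * k * (g * w * g⁻¹) * (γ * k)⁻¹ = γ * (k * (g * w * g⁻¹) * k⁻¹) * γ⁻¹ by group, h4]
    refine c.two_eq (mul_mem (mul_mem hγ (wG m F)) (inv_mem hγ)) (EM wE) ((c.two F.w_mem).conj γ) (c.two F.w_mem) ?_ ?_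
    · rw [g3 _ (EM wE), F.pw, n3]; group
    · rw [g4 _ (EM wE), F.qw]; group

end FS

open FS in
theorem fusSuz (h : H2B.{u}) : FusSuz.{u} := by
  intro Γ _ _ d Th V Z f m s G _ _ t G₀ M₀ S₀ p c X w F g hg hy
  let O : G → Prop := fun e => ∃ g ∈ X, e = g * w * g⁻¹
  let Q : Γ → Γ → Prop := fun a b => ∃ e ∈ G₀, O e ∧ p e = a ∧ p (t * e * t⁻¹) = b
  have O2 : ∀ {e}, O e → Two e := by
    rintro _ ⟨g, -, rfl⟩
    exact (c.two F.w_mem).conj g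
  have Oc : ∀ {n e}, n ∈ X → O e → O (n * e * n⁻¹) := by
    rintro n _ hn ⟨g, hg, rfl⟩
    exact ⟨n * g, mul_mem hn hg, by group⟩
  have Oc' : ∀ {n e}, n ∈ X → (O e ↔ O (n * e * n⁻¹)) := fun {n e} hn =>
    ⟨Oc hn, fun k => by simpa [mul_assoc] using Oc (inv_mem hn) k⟩
  have QO : ∀ {e}, e ∈ G₀ → Two e → (Q (p e) (p (t * e * t⁻¹)) ↔ O e) := fun {e} he h2 =>
    ⟨fun ⟨e', h3, h4, h5, h6⟩ => c.two_eq h3 (c.G_le he) (O2 h4) h2 h5 h6 ▸ h4, fun k => ⟨e, he, k, rfl, rfl⟩⟩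
  have QO' : ∀ {e}, e ∈ G₀ → Two e → (Q (p (t * e * t⁻¹)) (p e) ↔ O (t * e * t⁻¹)) := fun {e} he h2 => by
    have := QO (c.tG he) (h2.conj t)
    rwa [c.tt] at this
  have inv : ∀ {a a' b b'}, Sim d a a' → Sim d b b' → Q a b → Q a' b' := by
    rintro _ a' _ b' h1 h2 ⟨e, he, k, rfl, rfl⟩
    obtain ⟨α, hα, rfl⟩ := h1.symm
    obtain ⟨β, hβ, rfl⟩ := h2.symm
    obtain ⟨γ, hγ, rfl, rfl⟩ := c.G_surj α hα β hβ
    exact ⟨_, mul_mem (mul_mem hγ he) (inv_mem hγ), Oc (F.G_le hγ) k, c.mul.conj (c.G_le hγ) (c.G_le he),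
      c.mulq.conj (c.G_le hγ) (c.G_le he)⟩
  have asym : ∀ a b, Q a b → ¬ Q b a := by
    rintro _ _ ⟨e, he, k, rfl, rfl⟩ k'
    obtain ⟨g', hg', e'⟩ := (QO' he (O2 k)).1 k'
    obtain ⟨g, hg, rfl⟩ := k
    refine (h d Th t G₀ M₀ S₀ p c X w m F ((t * g * t⁻¹)⁻¹ * g')
      (mul_mem (inv_mem (F.normal.conj_mem g hg t)) hg')).1 ?_
    calc _ = (t * g * t⁻¹)⁻¹ * (g' * w * g'⁻¹) * (t * g * t⁻¹) := by group
      _ = _ := by rw [← e']; group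
  have qz : Q d.z 1 := ⟨w, wG m F, ⟨1, one_mem _, by group⟩, F.pw, F.qw⟩
  have WG : c.E V V ≤ G₀ := c.E_G (s.V_le.trans m.T_le_L) (s.V_le.trans m.T_le_L)
  obtain ⟨k1, k2, k3⟩ := comb s (Q := Q) inv asym qz (by
    rintro _ ha _ hb ⟨_, he, ⟨g, hg, rfl⟩, rfl, rfl⟩ x hx y hy
    have hu := memE (c := c) m s.V_le s.V_le he ((c.two F.w_mem).conj g) ha hb
    obtain ⟨n, n1, n2, n3⟩ := burn m s F hg hu
    generalize g * w * g⁻¹ = v at hu n3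
    obtain ⟨e, e1, rfl, rfl⟩ := exists_E c m (s.V_le hx) (s.V_le hy)
    have eW : e ∈ c.E V V := ⟨e1, hx, hy⟩
    have e2 := conj_mem n2 eW
    have e3 := mul_mem hu eW
    have e4 := conj_mem n2 e3
    have e5 : n * (v * e) * n⁻¹ = w * (n * e * n⁻¹) := by rw [← conj_mul, n3]
    have p1 : p v * p e = p (v * e) := (c.mul _ (c.S_le hu.1) _ (c.S_le e1)).symm
    have p2 : p (t * v * t⁻¹) * p (t * e * t⁻¹) = p (t * (v * e) * t⁻¹) :=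
      (c.mulq _ (c.S_le hu.1) _ (c.S_le e1)).symm
    have p3 : d.z * p (n * e * n⁻¹) = p (n * (v * e) * n⁻¹) := by
      rw [e5, c.mul _ (c.S_le F.w_mem) _ (c.S_le e2.1), F.pw]
    have p4 : p (t * (n * e * n⁻¹) * t⁻¹) = p (t * (n * (v * e) * n⁻¹) * t⁻¹) := by
      have := c.mulq _ (c.S_le F.w_mem) _ (c.S_le e2.1)
      simp only at this
      rw [e5, this, F.qw, one_mul]
    refine ⟨_, e2.2.1, _, e2.2.2, ?_, ?_, ?_, fun i1 i2 => ?_⟩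
    · rw [QO (WG eW) (c.two e1), QO (WG e2) (c.two e2.1)]
      exact Oc' n1
    · rw [p1, p2, p3, p4, QO (WG e3) (c.two e3.1), QO (WG e4) (c.two e4.1)]
      exact Oc' n1
    · rw [p1, p2, p3, p4, QO' (WG e3) (c.two e3.1), QO' (WG e4) (c.two e4.1),
        show t * (n * (v * e) * n⁻¹) * t⁻¹ = t * n * t⁻¹ * (t * (v * e) * t⁻¹) * (t * n * t⁻¹)⁻¹ by group]
      exact Oc' (F.normal.conj_mem n n1 t)
    · rw [p1, conj_eq_one_iff.1 (c.eq_one (c.S_le e4.1) (c.two e4.1) (p3 ▸ i1) (p4 ▸ i2)), c.mul.one])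
  have hQ : Q _ _ := (QO (c.E_G m.T_le_L m.T_le_L hy) (c.two hy.1)).2 ⟨g, hg, rfl⟩
  have ww : w * w = 1 := by
    rw [← pow_two]
    exact c.pow_eq_one F.w_mem (by rw [F.pw, pow_two, m.z_sq]) (by rw [F.qw, one_pow])
  have yy : g * w * g⁻¹ * (g * w * g⁻¹) = 1 := by rw [conj_mul, ww]; group
  refine ⟨hy.1, hy.2.1, mem_bot.2 ?_⟩
  by_contra hq
  have nd : ∀ a, ¬ Q a a := fun a h => asym a a h h
  have t2 := s.two _ (m.T_le_L hy.2.2) ⟨c.mulq.sq (c.S_le hy.1) yy, hq⟩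
  by_cases hp : p (g * w * g⁻¹) = 1
  · rcases t2 with t2 | t2
    · exact asym _ _ qz (inv (hp ▸ Sim.refl d _) t2 hQ)
    · exact k1 (inv (hp ▸ Sim.refl d _) t2 hQ)
  · rcases s.two _ (m.T_le_L hy.2.1) ⟨c.mul.sq (c.S_le hy.1) yy, hp⟩ with t1 | t1 <;> rcases t2 with t2 | t2
    exacts [nd _ (inv t1 t2 hQ), k2 (inv t1 t2 hQ), k3 (inv t1 t2 hQ), nd _ (inv t1 t2 hQ)]

end CL.NS
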