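/-
Project NS3, job H2: the first component of `z` is not conjugate to the other central involutions of `T₁ T₂`.
-/
import Cfsg.Agent.NS3.Basic

set_option autoImplicit false
set_option linter.unusedSectionVars false
open Cfsg Subgroup CL.Even CL.Grp CL.Wr
open scoped commutatorElement

namespace CL.NS

universe u

namespace H2

theorem sec {T : Type*} [Group T] [Finite T] (hT : IsPGroup 2 T) {a b : T} (h : a * b ≠ b * a) :
    ∃ x : T, x ∉ center T ∧ ∀ y : T, ⁅y, x⁆ ∈ center T := by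
  have := Fact.mk Nat.prime_two
  have : Nontrivial (T ⧸ center T) :=
    ⟨⟨(b : T ⧸ center T), 1, fun e => h (mem_center_iff.1 ((QuotientGroup.eq_one_iff b).1 e) a)⟩⟩
  have := (hT.to_quotient (center T)).center_nontrivial
  obtain ⟨⟨x, hx⟩, h1⟩ := exists_ne (1 : center (T ⧸ center T))
  induction x using QuotientGroup.induction_on with | H x => ?_
  refine ⟨x, fun e => h1 (Subtype.ext ((QuotientGroup.eq_one_iff x).2 e)), fun y =>
    (QuotientGroup.eq_one_iff _).1 ?_⟩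
  exact (map_commutatorElement (QuotientGroup.mk' (center T)) y x).trans
    (commutatorElement_eq_one_iff_mul_comm.2 (mem_center_iff.1 hx _))

variable {G : Type*} [Group G] [Finite G] {Γ : Type*} [Group Γ] [Finite Γ] {d : Dat Γ} {Th : Subgroup Γ} {t w : G}
  {G₀ M₀ S₀ X : Subgroup G} {p : G → Γ} {c : Cfg d Th t G₀ M₀ S₀ p} (m : Base d Th)
include m

theorem sec' : ∃ x ∈ d.T, x ∉ 𝒞(d.T) ∧ ∀ y ∈ d.T, ⁅y, x⁆ = 1 ∨ ⁅y, x⁆ = d.z := by
  obtain ⟨a, ha, b, hb, h⟩ := m.ne_comm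
  obtain ⟨x, h1, h2⟩ := sec m.syl.isPGroup (a := ⟨a, ha⟩) (b := ⟨b, hb⟩) fun e => h (congrArg Subtype.val e)
  refine ⟨x, x.2, fun e => h1 (mem_center_iff.2 fun y => Subtype.ext (e y y.2)), fun y hy => ?_⟩
  exact m.cenT _ (m.L_le (m.T_le_L (⁅(⟨y, hy⟩ : d.T), x⁆ : d.T).2)) fun v hv =>
    congrArg Subtype.val (mem_center_iff.1 (h2 ⟨y, hy⟩) ⟨v, hv⟩)

theorem cenP {u : G} (hu : u ∈ S₀) (h : ∀ r ∈ c.E d.T ⊥, r * u = u * r) : p u ∈ 𝒞(d.T) := fun a ha => by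
  obtain ⟨x, hx, rfl, e⟩ := exists_E c m ha (one_mem _)
  exact c.mul.mul_comm (c.S_le hx) (c.S_le hu) (h x ⟨hx, ha, mem_bot.2 e⟩)

omit m in
theorem cen_t {P Q : Subgroup Γ} {y : G} (h : ∀ r ∈ c.E P Q, r * y = y * r) :
    ∀ r ∈ c.E Q P, r * (t * y * t⁻¹) = t * y * t⁻¹ * r := fun r hr => by
  simpa only [c.tt] using (Commute.conj (h _ (c.t_E hr)) t).eq

variable (f : Fin0 c X w)
include f

theorem wR : w ∈ c.E d.T d.T := ⟨f.w_mem, f.pw ▸ m.z_mem, f.qw ▸ one_mem _⟩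

theorem w_cen : ∀ r ∈ c.E d.T d.T, r * w = w * r := fun _ hr =>
  c.comm hr.1 f.w_mem (by rw [f.pw]; exact m.z_T _ hr.2.1) (by rw [f.qw, mul_one, one_mul])

theorem w_sq : w * w = 1 := by
  rw [← pow_two]
  exact c.pow_eq_one f.w_mem (by rw [f.pw, pow_two, m.z_sq]) (by rw [f.qw, one_pow])

omit m in
theorem q2 : p (t * (t * w * t⁻¹) * t⁻¹) = d.z := by rw [c.tt, f.pw]

omit m in
theorem p3 : p (w * (t * w * t⁻¹)) = d.z := by
  rw [c.mul _ (c.S_le f.w_mem) _ (c.tM (c.S_le f.w_mem)), f.pw, f.qw, mul_one]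

omit m in
theorem q3 : p (t * (w * (t * w * t⁻¹)) * t⁻¹) = d.z :=
  (c.mulq _ (c.S_le f.w_mem) _ (c.tM (c.S_le f.w_mem))).trans (by simp only [f.qw, q2 f, one_mul])

theorem w_ne2 : w ≠ t * w * t⁻¹ := fun e => m.z_ne (by rw [← f.pw, e, f.qw])

theorem w_ne : w ≠ 1 := fun e => w_ne2 m f (by rw [e, mul_one, mul_inv_cancel])

/-- the centre of `R` -/
theorem zc {u : G} (hu : u ∈ S₀) (h : ∀ r ∈ c.E d.T d.T, r * u = u * r) :
    u = 1 ∨ u = w ∨ u = t * w * t⁻¹ ∨ u = w * (t * w * t⁻¹) := by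
  have hw := f.w_mem
  rcases m.cenT _ (c.mem u (c.S_le hu)) (cenP m hu fun r hr => h r (c.E_mono le_rfl bot_le hr)) with e | e <;>
    rcases m.cenT _ (c.mem _ (c.tM (c.S_le hu))) (cenP m (c.tS hu) fun r hr =>
      cen_t h r (c.E_mono le_rfl bot_le hr)) with e' | e'
  · exact .inl (c.eq_one (c.S_le hu) (c.two hu) e e')
  · exact .inr (.inr (.inl (c.inj hu (c.tS hw) (e.trans f.qw.symm) (e'.trans (q2 f).symm))))
  · exact .inr (.inl (c.inj hu hw (e.trans f.pw.symm) (e'.trans f.qw.symm)))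
  · exact .inr (.inr (.inr (c.inj hu (mul_mem hw (c.tS hw)) (e.trans (p3 f).symm) (e'.trans (q3 f).symm))))

theorem nz {n : G} (hn : n ∈ 𝒩(c.E d.T d.T)) : n * w * n⁻¹ ≠ w * (t * w * t⁻¹) := fun e => by
  obtain ⟨x0, hx0, n0, h0⟩ := sec' m
  obtain ⟨x, hx, rfl, qx⟩ := exists_E c m hx0 (one_mem _)
  have xR : x ∈ c.E d.T d.T := ⟨hx, hx0, qx ▸ one_mem _⟩
  have k1 : ∀ r ∈ c.E d.T d.T, ⁅r, x⁆ = 1 ∨ ⁅r, x⁆ = w := fun r hr => by
    have a1 : ⁅r, x⁆ ∈ S₀ := mul_mem (mul_mem (mul_mem hr.1 hx) (inv_mem hr.1)) (inv_mem hx)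
    have a2 := c.mul.comm (c.S_le hr.1) (c.S_le hx)
    have a3 : p (t * ⁅r, x⁆ * t⁻¹) = 1 :=
      (c.mulq.comm (c.S_le hr.1) (c.S_le hx)).trans (by rw [qx, commutatorElement_one_right])
    exact (h0 _ hr.2.1).imp (fun e => c.eq_one (c.S_le a1) (c.two a1) (a2.trans e) a3)
      fun e => c.inj a1 f.w_mem ((a2.trans e).trans f.pw.symm) (a3.trans f.qw.symm)
  have k2 : ∀ r ∈ c.E d.T d.T, ⁅r, n * x * n⁻¹⁆ = 1 ∨ ⁅r, n * x * n⁻¹⁆ = w * (t * w * t⁻¹) := fun r hr => by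
    rw [show ⁅r, n * x * n⁻¹⁆ = n * ⁅n⁻¹ * r * n, x⁆ * n⁻¹ by simp only [commutatorElement_def]; group]
    rcases k1 _ (conj_mem' hn hr) with e' | e' <;> rw [e']
    exacts [.inl (by simp), .inr e]
  have hy := conj_mem hn xR
  have k3 : ∀ r ∈ c.E d.T ⊥, r * (n * x * n⁻¹) = n * x * n⁻¹ * r := fun r hr =>
    commutatorElement_eq_one_iff_mul_comm.1 ((k2 r (c.E_mono le_rfl bot_le hr)).resolve_right fun e => m.z_ne (by
      rw [← q3 f, ← e]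
      exact (c.mulq.comm (c.S_le hr.1) (c.S_le hy.1)).trans (by rw [mem_bot.1 hr.2.2, commutatorElement_one_left])))
  have k4 : ∀ r ∈ c.E ⊥ d.T, r * (n * x * n⁻¹) = n * x * n⁻¹ * r := fun r hr =>
    commutatorElement_eq_one_iff_mul_comm.1 ((k2 r (c.E_mono bot_le le_rfl hr)).resolve_right fun e => m.z_ne (by
      rw [← p3 f, ← e, c.mul.comm (c.S_le hr.1) (c.S_le hy.1), mem_bot.1 hr.2.1, commutatorElement_one_left]))
  refine n0 (cenP (c := c) m hx fun r hr => ?_)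
  have hr' := conj_mem hn (c.E_mono le_rfl (bot_le (a := d.T)) hr)
  simpa [mul_assoc] using (Commute.conj (c.comm hr'.1 hy.1 (cenP m hy.1 k3 _ hr'.2.1)
    (cenP m (c.tS hy.1) (cen_t k4) _ hr'.2.2)) n⁻¹).eq

theorem red {g : G} (hg : g ∈ X) (h : ∀ r ∈ c.E d.T d.T, r * (g * w * g⁻¹) = g * w * g⁻¹ * r) :
    ∃ n ∈ X, n ∈ 𝒩(c.E d.T d.T) ∧ n * w * n⁻¹ = g * w * g⁻¹ := by
  have := Fact.mk Nat.prime_two
  have s1 : IsSylowIn 2 (c.E d.T d.T) (X ⊓ centralizer {g * w * g⁻¹}) :=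
    f.syl.of_le (le_inf f.syl.le fun r hr => mem_cent1.2 (h r hr)) inf_le_left
  have s2 : IsSylowIn 2 (cj g (c.E d.T d.T)) (X ⊓ centralizer {g * w * g⁻¹}) :=
    (syl_cj_of_mem_norm f.syl (le_normalizer hg)).of_le (le_inf (cj_le_of_mem f.syl.le hg) (by
      rintro _ ⟨r, hr, rfl⟩
      exact mem_cent1.2 (Commute.conj (w_cen m f r hr) g).eq)) inf_le_left
  obtain ⟨k, hk, e1⟩ := syl_conj s2 s1
  exact ⟨k * g, mul_mem hk.1 hg, cj_eq_iff_mem.1 (by rw [cj_mul, e1]), by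
    rw [show k * g * w * (k * g)⁻¹ = k * (g * w * g⁻¹) * k⁻¹ by group, mem_cent1.1 hk.2, mul_inv_cancel_right]⟩

theorem nc {n : G} (h1 : n ∈ X) (hn : n ∈ 𝒩(c.E d.T d.T)) : n * w * n⁻¹ ≠ t * w * t⁻¹ := fun e => by
  have := Fact.mk Nat.prime_two
  have a1 : n * n * w * (n * n)⁻¹ = n * (t * w * t⁻¹) * n⁻¹ := by rw [← e]; group
  have a2 : Commute (n * n) w := by
    rcases zc m f (conj_mem hn (c.t_E (wR m f))).1 (fun r hr => by
      simpa [mul_assoc] using (Commute.conj (cen_t (w_cen m f) _ (conj_mem' hn hr)) n).eq) with e' | e' | e' | e'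
    · exact absurd (conj_eq_one_iff.1 (conj_eq_one_iff.1 e')) (w_ne m f)
    · exact mul_inv_eq_iff_eq_mul.1 (a1.trans e')
    · exact absurd (mul_left_cancel (mul_right_cancel (e.trans e'.symm))) (w_ne2 m f)
    · exact absurd (a1.trans e') (nz m f (mul_mem hn hn))
  obtain ⟨i, _, ⟨j, rfl⟩, e'⟩ := Nat.exists_eq_two_pow_mul_odd (orderOf_pos n).ne'
  obtain ⟨k, hk, a3⟩ := syl_conj_le (f.syl.of_le (le_inf f.syl.le le_normalizer) (inf_le_left (b := 𝒩(c.E d.T d.T))))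
    (isPGroup_zpowers (x := n ^ (2 * j + 1)) (k := i) (by rw [← pow_mul, mul_comm, ← e', pow_orderOf_eq_one]))
    (zpowers_le.2 (pow_mem (⟨h1, hn⟩ : n ∈ X ⊓ 𝒩(c.E d.T d.T)) _))
  have a4 := w_cen m f _ ((mem_normalizer_iff.1 hk.2 _).2 (a3 (conj_mem_cj k (mem_zpowers _))))
  rw [pow_succ', pow_mul, pow_two, mul_assoc, (a2.pow_left j).eq, ← mul_assoc, ← mul_assoc, mul_left_inj,
    ← mul_inv_eq_iff_eq_mul, e] at a4
  exact w_ne2 m f a4.symm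

end H2

open H2 in
theorem h2B : H2B.{u} := by
  intro Γ _ _ d Th G _ _ t G₀ M₀ S₀ p c X w m f g hg
  refine ⟨fun e => ?_, fun e => ?_⟩
  · obtain ⟨n, h1, h2, h3⟩ := red m f hg (e ▸ cen_t (w_cen m f))
    exact nc m f h1 h2 (h3.trans e)
  · obtain ⟨n, -, h2, h3⟩ := red m f hg fun r hr => e ▸
      (Commute.mul_right (w_cen m f r hr) (cen_t (w_cen m f) r hr)).eq
    exact nz m f h2 (h3.trans e)

open H2 in
theorem fusOne (h : H2B.{u}) : FusOne.{u} := by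
  intro Γ _ _ d Th m one G _ _ t G₀ M₀ S₀ p c X w f g hg hy
  refine ⟨hy.1, hy.2.1, mem_bot.2 (by_contra fun hb => ?_)⟩
  have y2 : g * w * g⁻¹ * (g * w * g⁻¹) = 1 := by rw [conj_mul, w_sq m f, mul_one, mul_inv_cancel]
  have yM := c.S_le hy.1
  have wM := c.S_le f.w_mem
  obtain ⟨b, b1, b2⟩ := one _ (m.T_le_L hy.2.2) ⟨c.mulq.sq yM y2, hb⟩
  obtain ⟨a, a1, a2⟩ : ∃ a ∈ d.L, p (g * w * g⁻¹) = a * 1 * a⁻¹ ∨ p (g * w * g⁻¹) = a * d.z * a⁻¹ := by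
    by_cases e : p (g * w * g⁻¹) = 1
    · exact ⟨1, one_mem _, .inl (by simp [e])⟩
    · exact (one _ (m.T_le_L hy.2.1) ⟨c.mul.sq yM y2, e⟩).imp fun a ha => ⟨ha.1, .inr ha.2⟩
  obtain ⟨γ, g1, g2, g3⟩ := c.G_surj _ (inv_mem a1) _ (inv_mem b1)
  obtain ⟨n1, n2⟩ := h d Th t G₀ M₀ S₀ p c X w m f (γ * g) (mul_mem (f.G_le g1) hg)
  rw [show γ * g * w * (γ * g)⁻¹ = γ * (g * w * g⁻¹) * γ⁻¹ by group] at n1 n2
  have k1 : γ * (g * w * g⁻¹) * γ⁻¹ ∈ G₀ := mul_mem (mul_mem g1 (c.E_G m.T_le_L m.T_le_L hy)) (inv_mem g1)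
  have k2 := (Two.of_sq y2).conj γ
  have k3 := c.mul.conj (c.G_le g1) yM
  have k4 : p (t * (γ * (g * w * g⁻¹) * γ⁻¹) * t⁻¹) = d.z :=
    (c.mulq.conj (c.G_le g1) yM).trans (by rw [g3, b2]; group)
  rcases a2 with e | e
  · exact n1 (c.two_eq k1 (c.tM wM) k2 (c.two (c.tS f.w_mem)) (by rw [k3, g2, e, f.qw]; group)
      (k4.trans (q2 f).symm))
  · exact n2 (c.two_eq k1 (mul_mem wM (c.tM wM)) k2 (c.two (mul_mem f.w_mem (c.tS f.w_mem)))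
      (by rw [k3, g2, e, p3 f]; group) (k4.trans (q3 f).symm))

end CL.NS
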