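/-
Project NS3: the facts about involution centralisers from class representatives.
-/
import Cfsg.Agent.NS3.Basic
import Cfsg.Agent.Loc.Quasisimple
import Cfsg.Agent.Grp.PGroupBasic

set_option autoImplicit false
set_option linter.unusedSectionVars false
open Cfsg Subgroup CL.Even CL.Grp CL.Wr
open scoped commutatorElement

namespace CL.NS

variable {Γ : Type*} [Group Γ] [Finite Γ] {d : Dat Γ} {Th : Subgroup Γ}

/-- A representative `x` of a class of involutions of `C`, with `|Jc x| = n` and `|Z(Jc x)| = c`. -/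
structure Rep (d : Dat Γ) (x : Γ) (n c : ℕ) : Prop where
  mem : x ∈ d.C
  iv : Iv x
  perf : Jc d.L x ≤ ⁅Jc d.L x, Jc d.L x⁆
  card : Nat.card (Jc d.L x) = n
  cardZ : Nat.card (ZJ d.L x) = c
  ns : ∀ N, N ≤ Jc d.L x → d.L ⊓ centralizer {x} ≤ 𝒩(N) → N ≤ 𝒞(Jc d.L x) ∨ ∃ y ∈ N, cl d y
  good : x ∈ d.L → x ∈ Jc d.L x → Good d x
  bad : x ∈ d.L → x ∉ Jc d.L x → Bad d x
  out : x ∉ d.L → ∃ j ∈ Jc d.L x, cl d j ∧ ∃ g ∈ d.L, g * x * g⁻¹ = x * j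

/-- `Jc` from an explicit perfect subgroup containing the second derived group. -/
theorem Jc_eq {L H J : Subgroup Γ} {x : Γ} (hH : L ⊓ centralizer {x} = H) (h1 : J ≤ H) (hp : J ≤ ⁅J, J⁆)
    (h2 : ⁅⁅H, H⁆, ⁅H, H⁆⁆ ≤ J) : Jc L x = J :=
  le_antisymm (by rw [Jc, hH]; exact h2) (le_Jc (hH ▸ h1) hp)

/-- Normal subgroups of a quasisimple group. -/
theorem ns_of_quasi {J N : Subgroup Γ} (h : IsQuasisimple J) (h1 : N ≤ J) (h2 : J ≤ 𝒩(N)) : N ≤ 𝒞(J) ∨ J ≤ N := by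
  have : (N.subgroupOf J).Normal := ⟨fun x hx g => conj_mem (H := N) (h2 g.2) hx⟩
  rcases CL.Loc.IsQuasisimple.normal_eq_top_or_le_center h (N.subgroupOf J) with e | e
  · exact Or.inr (subgroupOf_eq_top.1 e)
  · exact Or.inl fun x hx => mem_cent.2 fun y hy =>
      congrArg Subtype.val (mem_center_iff.1 (e (show (⟨x, h1 hx⟩ : J) ∈ N.subgroupOf J from hx)) ⟨y, hy⟩)

/-- Nontrivial normal subgroups of a constrained group contain the centre of `Q`. -/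
theorem ns_of_two {J N Q : Subgroup Γ} {z : Γ} (hQ : IsPGroup 2 Q) (h0 : Q ≤ J) (hn : J ≤ 𝒩(Q))
    (hc : ∀ x ∈ J, x ∈ 𝒞(Q) → x = 1 ∨ x = z) (h1 : N ≤ J) (h2 : J ≤ 𝒩(N)) : N = ⊥ ∨ z ∈ N := by
  have := Fact.mk Nat.prime_two
  refine or_iff_not_imp_left.2 fun hN => ?_
  have key : ∀ x ∈ N, x ∈ 𝒞(Q) → x ≠ 1 → z ∈ N := fun x hx h h' => (hc x (h1 hx) h).resolve_left h' ▸ hx
  by_cases h3 : N ⊓ Q = ⊥
  · obtain ⟨x, hx, h4⟩ := (N.bot_or_exists_ne_one).resolve_left hN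
    refine key x hx (mem_cent.2 fun q hq => ?_) h4
    have h5 : q * x * q⁻¹ * x⁻¹ ∈ N ⊓ Q := ⟨N.mul_mem (conj_mem (h2 (h0 hq)) hx) (N.inv_mem hx), by
      rw [show q * x * q⁻¹ * x⁻¹ = q * (x * q⁻¹ * x⁻¹) by group]
      exact Q.mul_mem hq (conj_mem (hn (h1 hx)) (Q.inv_mem hq))⟩
    rw [h3, mem_bot, mul_inv_eq_one, mul_inv_eq_iff_eq_mul] at h5
    exact h5
  · have : ((N ⊓ Q).subgroupOf Q).Normal := ⟨fun x hx g =>
      ⟨conj_mem (H := N) (h2 (h0 g.2)) hx.1, Q.mul_mem (Q.mul_mem g.2 hx.2) (Q.inv_mem g.2)⟩⟩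
    have h4 : (N ⊓ Q).subgroupOf Q ≠ ⊥ := fun e => h3 (by
      rw [← map_subgroupOf_eq_of_le (inf_le_right : N ⊓ Q ≤ Q), e, Subgroup.map_bot])
    obtain ⟨x, hx, h5⟩ := ((N ⊓ Q).subgroupOf Q ⊓ center Q).bot_or_exists_ne_one.resolve_left
      (haveI := hQ.isNilpotent; inf_center_ne_bot h4)
    exact key x hx.1.1 (mem_cent.2 fun q hq => congrArg Subtype.val (mem_center_iff.1 hx.2 ⟨q, hq⟩))
      fun e => h5 (Subtype.ext e)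

theorem cen_conj {g x c : Γ} (hg : g ∈ 𝒩(d.L)) (h : c ∈ 𝒞(Jc d.L (g * x * g⁻¹))) : g⁻¹ * c * g ∈ 𝒞(Jc d.L x) := by
  rwa [Jc_conj hg, ← cj_cent, mem_cj] at h

theorem Good.conj (m : Base d Th) {x g : Γ} (h : Good d x) (hg : g ∈ d.L) : Good d (g * x * g⁻¹) := by
  have gn := le_normalizer hg
  have gC := m.L_le hg
  refine ⟨fun c hc h1 => ?_, fun c hc h1 => ?_⟩
  · obtain ⟨h2, h3⟩ := h.cen _ (mul_mem (mul_mem (inv_mem gC) hc) gC) (cen_conj gn h1)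
    exact ⟨by rwa [Jc_conj gn, mem_cj], by simpa [mul_assoc] using h3.conj g⟩
  · rw [cj_cen1 gn, ← cj_cent, mem_cj] at h1
    refine (h.ctr _ (mul_mem (mul_mem (inv_mem hg) hc) hg) h1).imp (fun e => ?_) fun e => by rw [← e]; group
    rw [show c = g * (g⁻¹ * c * g) * g⁻¹ by group, e]; group

theorem Bad.conj (m : Base d Th) {x g : Γ} (h : Bad d x) (hg : g ∈ d.L) : Bad d (g * x * g⁻¹) := by
  have gn := le_normalizer hg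
  have gC := m.L_le hg
  obtain ⟨j, j1, j2, a, ha, e⟩ := h.conv
  obtain ⟨w, hw, s, hs, w2, wc, e'⟩ := h.ws
  refine ⟨⟨g * j * g⁻¹, Jc_conj gn x ▸ conj_mem_cj g j1, j2.conj hg, g * a * g⁻¹, mul_mem (mul_mem hg ha) (inv_mem hg), by
      rw [show g * x * g⁻¹ * (g * j * g⁻¹) = g * (x * j) * g⁻¹ by group, ← e]; group⟩, fun k hk k2 => ?_, fun c hc h1 => ?_,
    g * w * g⁻¹, cj_cen1 gn x ▸ conj_mem_cj g hw, g * s * g⁻¹, cj_cen1 gn x ▸ conj_mem_cj g hs,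
    by rw [conj_mul, w2]; group, by rw [Jc_conj gn, ← cj_cent]; exact conj_mem_cj g wc,
    by rw [← conjugate_commutatorElement, e']⟩
  · rw [Jc_conj gn, mem_cj] at hk
    simpa [mul_assoc] using (h.one _ hk (by simpa using k2.conj g⁻¹)).conj hg
  · simpa [mul_assoc] using mul_mem (mul_mem hg (h.cen _ (mul_mem (mul_mem (inv_mem gC) hc) gC) (cen_conj gn h1)))
      (inv_mem hg)

theorem Rep.conj (m : Base d Th) {x g : Γ} {n c : ℕ} (h : Rep d x n c) (hg : g ∈ d.L) : Rep d (g * x * g⁻¹) n c := by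
  have gn := le_normalizer hg
  have gC := m.L_le hg
  have k : g * x * g⁻¹ ∈ d.L ↔ x ∈ d.L := by rw [mul_mem_cancel_right (inv_mem hg), mul_mem_cancel_left hg]
  have k' : g * x * g⁻¹ ∈ Jc d.L (g * x * g⁻¹) ↔ x ∈ Jc d.L x := by rw [Jc_conj gn, mem_cj]; simp [mul_assoc]
  refine ⟨mul_mem (mul_mem gC h.mem) (inv_mem gC), h.iv.conj g, ?_, by rw [Jc_conj gn, card_cj, h.card],
    by rw [ZJ_conj gn, card_cj, h.cardZ], fun N h1 h2 => ?_, fun a b => (h.good (k.1 a) (k'.1 b)).conj m hg,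
    fun a b => (h.bad (k.1 a) fun e => b (k'.2 e)).conj m hg, fun a => ?_⟩
  · rw [Jc_conj gn, ← cj_commutator]; exact cj_mono g h.perf
  · rw [Jc_conj gn] at h1 ⊢
    rw [cj_cen1 gn] at h2
    refine (h.ns (cj g⁻¹ N) (le_cj_iff.1 h1) (by rw [← cj_norm]; exact cj_le_iff.1 h2)).imp (fun e => ?_)
      fun ⟨y, hy, e⟩ => ⟨g * y * g⁻¹, by simpa using mem_cj.1 hy, e.conj hg⟩
    rw [← cj_cent]; exact le_cj_iff.2 e
  · obtain ⟨j, j1, j2, b, hb, e⟩ := h.out fun e => a (k.2 e)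
    exact ⟨g * j * g⁻¹, Jc_conj gn x ▸ conj_mem_cj g j1, j2.conj hg, g * b * g⁻¹, mul_mem (mul_mem hg hb) (inv_mem hg), by
      rw [show g * x * g⁻¹ * (g * j * g⁻¹) = g * (x * j) * g⁻¹ by group, ← e]; group⟩

/-- The facts `Cen` from a list of representatives `(x, n, c)`; `(z, n₀, c₀)` is not in the list `R`, and `R'` contains
the outer representatives. -/
theorem cen_of (m : Base d Th) {n₀ c₀ l : ℕ} (R R' : List (Γ × ℕ × ℕ)) (hz : Rep d d.z n₀ c₀) (zJ : d.z ∈ Jc d.L d.z)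
    (hR : ∀ r ∈ R ++ R', Rep d r.1 r.2.1 r.2.2) (hL : ∀ r ∈ R, r.1 ∈ d.L)
    (cls : ∀ x ∈ d.C, Iv x → cl d x ∨ ∃ r ∈ R ++ R', ∃ g ∈ d.L, x = g * r.1 * g⁻¹)
    (nz : ∀ N, N ≤ Jc d.L d.z → d.L ⊓ centralizer {d.z} ≤ 𝒩(N) → N ≤ 𝒞(Jc d.L d.z) ∨
      ∃ y ∈ N, Iv y ∧ d.L ≤ d.L ⊓ centralizer {d.z} ⊔ d.L ⊓ centralizer {y})
    (hl : Nat.card d.L = l) (h0 : c₀ ≤ 4) (h1 : ∀ r ∈ R ++ R', r.2.2 ≤ 4 ∧ ¬ n₀ ∣ c₀ * r.2.1)
    (h2 : ∀ r ∈ R ++ R', ∀ s ∈ R ++ R', r.2.1 ∣ r.2.2 * s.2.1 → s.2.1 ∣ s.2.2 * r.2.1 → s.1 = r.1)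
    (h3 : ∀ r ∈ R', ∀ s ∈ R', ¬ r.2.1 * s.2.1 ∣ r.2.2 * s.2.2 * l) : Cen d := by
  have k : ∀ x ∈ d.C, Iv x → (cl d x ∧ Rep d x n₀ c₀) ∨
      ∃ r ∈ R ++ R', (∃ g ∈ d.L, x = g * r.1 * g⁻¹) ∧ Rep d x r.2.1 r.2.2 := fun x hx hi =>
    (cls x hx hi).imp (fun ⟨g, hg, e⟩ => ⟨⟨g, hg, e⟩, e ▸ hz.conj m hg⟩)
      fun ⟨r, hr, g, hg, e⟩ => ⟨r, hr, ⟨g, hg, e⟩, e ▸ (hR r hr).conj m hg⟩
  have k1 : ∀ x ∈ d.C, Iv x → ∃ n c, c ≤ 4 ∧ Rep d x n c := fun x hx hi =>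
    (k x hx hi).elim (fun h => ⟨_, _, h0, h.2⟩) fun ⟨r, hr, _, h⟩ => ⟨_, _, (h1 r hr).1, h⟩
  have k2 : ∀ x ∈ d.C, x ∉ d.L → x * x = 1 → ∃ r ∈ R', Rep d x r.2.1 r.2.2 := fun x hx h h' => by
    rcases k x hx ⟨h', fun e => h (e ▸ one_mem _)⟩ with ⟨a, -⟩ | ⟨r, hr, ⟨g, hg, e⟩, a⟩
    · exact absurd (m.cl_mem a) h
    · exact ⟨r, (List.mem_append.1 hr).resolve_left fun b => h (e ▸ mul_mem (mul_mem hg (hL r b)) (inv_mem hg)), a⟩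
  refine ⟨fun x hx hi => ?_, fun x hx hi => ?_, fun x hx hi => ?_, nz, zJ, fun y hy hi h => ?_,
    fun x hx y hy ix iy a b => ?_, fun x hx y hy a b x2 y2 => ?_, fun x hx hi => ?_, fun x hx hi => ?_,
    fun x hx a b => ?_⟩
  · obtain ⟨n, c, -, h⟩ := k1 x hx hi; exact h.perf
  · obtain ⟨n, c, e, h⟩ := k1 x hx hi; exact h.cardZ ▸ e
  · obtain ⟨n, c, -, h⟩ := k1 x hx hi; exact h.ns
  · rcases k y hy hi with ⟨a, -⟩ | ⟨r, hr, -, a⟩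
    · exact a
    · rw [hz.card, hz.cardZ, a.card] at h; exact absurd h (h1 r hr).2
  · rcases k x hx ix with ⟨⟨g, hg, e⟩, p⟩ | ⟨r, hr, ⟨g, hg, e⟩, p⟩ <;>
      rcases k y hy iy with ⟨⟨g', hg', e'⟩, q⟩ | ⟨s, hs, ⟨g', hg', e'⟩, q⟩ <;>
      rw [p.card, p.cardZ, q.card] at a <;> rw [q.card, q.cardZ, p.card] at b
    · exact ⟨g' * g⁻¹, mul_mem hg' (inv_mem hg), by rw [e, e']; group⟩
    · exact absurd a (h1 s hs).2
    · exact absurd b (h1 r hr).2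
    · exact ⟨g' * g⁻¹, mul_mem hg' (inv_mem hg), by rw [e, e', h2 r hr s hs a b]; group⟩
  · obtain ⟨r, hr, p⟩ := k2 x hx a x2
    obtain ⟨s, hs, q⟩ := k2 y hy b y2
    rw [p.card, p.cardZ, q.card, q.cardZ, hl]
    exact h3 r hr s hs
  · obtain ⟨n, c, -, h⟩ := k1 x (m.L_le hx) hi; exact h.good hx
  · obtain ⟨n, c, -, h⟩ := k1 x (m.L_le hx) hi; exact h.bad hx
  · obtain ⟨r, -, p⟩ := k2 x hx a b; exact p.out a

end CL.NS
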