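/-
Project NS3, second version of the facts about involution centralisers: for the outer involutions of the Held group
the involutions of `Jc` are not conjugate to `z`.
-/
import Cfsg.Agent.NS3.Basic

set_option autoImplicit false
open Cfsg Subgroup CL.Even CL.Grp CL.Wr
open scoped commutatorElement

namespace CL.NS.V2

universe u

section Model

variable {Γ : Type*} [Group Γ]

/-- The class of `z`, or an involution of its own `Jc` whose order is isolated. -/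
def clW (d : Dat Γ) (y : Γ) : Prop := cl d y ∨ (Iv y ∧ y ∈ Jc d.L y ∧ ∀ w ∈ d.C, Iv w →
  Nat.card (Jc d.L y) ∣ Nat.card (ZJ d.L y) * Nat.card (Jc d.L w) → Nat.card (Jc d.L w) = Nat.card (Jc d.L y))

/-- The involution centralisers. -/
structure Cen (d : Dat Γ) : Prop where
  perf : ∀ x ∈ d.C, Iv x → Jc d.L x ≤ ⁅Jc d.L x, Jc d.L x⁆
  zle : ∀ x ∈ d.C, Iv x → Nat.card (ZJ d.L x) ≤ 4
  ns : ∀ x ∈ d.L, Iv x → ∀ N, N ≤ Jc d.L x → d.L ⊓ centralizer {x} ≤ 𝒩(N) → N ≤ 𝒞(Jc d.L x) ∨ ∃ y ∈ N, cl d y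
  nso : ∀ x ∈ d.C, Iv x → ∀ N, N ≤ Jc d.L x → d.L ⊓ centralizer {x} ≤ 𝒩(N) → N ≤ 𝒞(Jc d.L x) ∨ ∃ y ∈ N, clW d y
  nz : ∀ N, N ≤ Jc d.L d.z → d.L ⊓ centralizer {d.z} ≤ 𝒩(N) → N ≤ 𝒞(Jc d.L d.z) ∨
    ∃ y ∈ N, Iv y ∧ d.L ≤ d.L ⊓ centralizer {d.z} ⊔ d.L ⊓ centralizer {y}
  z_J : d.z ∈ Jc d.L d.z
  num1 : ∀ y ∈ d.C, Iv y → Nat.card (Jc d.L d.z) ∣ Nat.card (ZJ d.L d.z) * Nat.card (Jc d.L y) → cl d y
  num2 : ∀ x ∈ d.C, ∀ y ∈ d.C, Iv x → Iv y → Nat.card (Jc d.L x) ∣ Nat.card (ZJ d.L x) * Nat.card (Jc d.L y) →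
    Nat.card (Jc d.L y) ∣ Nat.card (ZJ d.L y) * Nat.card (Jc d.L x) → ∃ g ∈ d.L, y = g * x * g⁻¹
  num3 : ∀ x ∈ d.C, ∀ y ∈ d.C, x ∉ d.L → y ∉ d.L → x * x = 1 → y * y = 1 →
    ¬ Nat.card (Jc d.L x) * Nat.card (Jc d.L y) ∣ Nat.card (ZJ d.L x) * Nat.card (ZJ d.L y) * Nat.card d.L
  good : ∀ x ∈ d.L, Iv x → x ∈ Jc d.L x → Good d x
  bad : ∀ x ∈ d.L, Iv x → x ∉ Jc d.L x → Bad d x
  out : ∀ x ∈ d.C, x ∉ d.L → x * x = 1 → ∃ j ∈ Jc d.L x, clW d j ∧ ∃ g ∈ d.L, g * x * g⁻¹ = x * j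

theorem _root_.CL.NS.Cen.toV2 {d : Dat Γ} (h : NS.Cen d) (hL : d.L ≤ d.C) : Cen d :=
  ⟨h.perf, h.zle, fun x hx => h.ns x (hL hx), fun x hx hi N a b => (h.ns x hx hi N a b).imp_right
    fun ⟨y, hy, e⟩ => ⟨y, hy, .inl e⟩, h.nz, h.z_J, h.num1, h.num2, h.num3, h.good, h.bad,
    fun x hx a b => (h.out x hx a b).imp fun _ e => ⟨e.1, .inl e.2.1, e.2.2⟩⟩

end Model

/-- (B1) no conjugate of `z` lies in a conjugate of `C(L)`. -/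
def B1 : Prop := ∀ {Γ : Type} [Group Γ] [Finite Γ] (d : Dat Γ) (Th : Subgroup Γ) {G : Type u} [Group G] [Finite G]
  (L : Subgroup G) (ρ : G → Γ), Base d Th → Cen d → Rh d L ρ → IsStandardSubgroup L → NoZ d L ρ

/-- (B0) commuting involutions of two conjugates of `C(L)`. -/
def B0 : Prop := ∀ {Γ : Type} [Group Γ] [Finite Γ] (d : Dat Γ) (Th : Subgroup Γ) {G : Type u} [Group G] [Finite G]
  (L : Subgroup G) (ρ : G → Γ) (g r κ : G), Base d Th → Cen d → Rh d L ρ → IsStandardSubgroup L → NoZ d L ρ →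
  Pr L g r κ → Iso d L ρ g r κ

/-- (B2) a good pair. -/
def B2 : Prop := ∀ {Γ : Type} [Group Γ] [Finite Γ] (d : Dat Γ) (Th : Subgroup Γ) {G : Type u} [Group G] [Finite G]
  (L : Subgroup G) (ρ : G → Γ) (g l κ : G), Base d Th → Cen d → Rh d L ρ → IsStandardSubgroup L → NoZ d L ρ →
  g ∉ 𝒩(L) → l ∈ L → Iv l → ρ l ∈ Jc d.L (ρ l) → κ ∈ 𝒞(L) → κ * κ = 1 → l * κ ∈ cj g 𝒞(L) →
  κ ≠ 1 ∧ ¬ 4 ∣ Nat.card 𝒞(L) ∧ ∃ x, x * (κ * l) * x⁻¹ = κ ∧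
    ∀ o ∈ 𝒞(L), o * κ = κ * o → Odd (orderOf o) → x * o * x⁻¹ ∈ 𝒞(L)

/-- (B3) the local configuration. -/
def B3 : Prop := ∀ {Γ : Type} [Group Γ] [Finite Γ] (d : Dat Γ) (Th : Subgroup Γ) {G : Type u} [Group G] [Finite G]
  (L : Subgroup G) (ρ : G → Γ), Base d Th → Cen d → Rh d L ρ → IsStandardSubgroup L → NoZ d L ρ →
  (∃ g r : G, g ∉ 𝒩(L) ∧ r ∈ cj g 𝒞(L) ∧ r ∈ 𝒩(L) ∧ r * r = 1 ∧ r ≠ 1) → ∃ t, Loc d t L ρ

/-- (E2c) `t` is not conjugate to an element with two outer components. -/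
def E2cB : Prop := ∀ {Γ : Type} [Group Γ] [Finite Γ] (d : Dat Γ) (Th : Subgroup Γ) {G : Type u} [Group G] [Finite G]
  (t : G) (G₀ M₀ S₀ : Subgroup G) (p : G → Γ), Base d Th → Cen d → Cfg d Th t G₀ M₀ S₀ p →
  ∀ y ∈ M₀, p y ∉ d.L → p (t * y * t⁻¹) ∉ d.L → ¬ IsConj t y

/-- (H4) the Z* theorem and the dihedral argument. -/
def H4B : Prop := ∀ {Γ : Type} [Group Γ] [Finite Γ] (d : Dat Γ) (Th : Subgroup Γ) {G : Type u} [Group G] [Finite G]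
  (t : G) (G₀ M₀ S₀ : Subgroup G) (p : G → Γ) (c : Cfg d Th t G₀ M₀ S₀ p) (X : Subgroup G) (w : G), Base d Th →
  Cen d → Fin0 c X w → IsSimpleGroup X →
  (∀ g ∈ X, g * w * g⁻¹ ∈ c.E d.T d.T → g * w * g⁻¹ ∈ c.E d.T ⊥) → False

end CL.NS.V2
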