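/-
Project NS3 (second version): the facts `V2.Cen` for a group with three classes of involutions.
-/
import Cfsg.Agent.NS3.V0
import Cfsg.Agent.NS3.Rep
import Cfsg.Agent.Spor.PGStruct

set_option autoImplicit false
set_option linter.unusedSectionVars false
open Cfsg Subgroup CL.Even CL.Grp CL.Wr
open scoped commutatorElement

namespace CL.NS.V2

variable {Γ : Type*} [Group Γ] [Finite Γ] {d : Dat Γ} {Th : Subgroup Γ}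

/-- An outer involution `x`; the role of `z` is taken by `y`. -/
structure RepO (d : Dat Γ) (y x : Γ) (n c : ℕ) : Prop where
  mem : x ∈ d.C
  not_mem : x ∉ d.L
  iv : Iv x
  perf : Jc d.L x ≤ ⁅Jc d.L x, Jc d.L x⁆
  card : Nat.card (Jc d.L x) = n
  cardZ : Nat.card (ZJ d.L x) = c
  ns : ∀ N, N ≤ Jc d.L x → d.L ⊓ centralizer {x} ≤ 𝒩(N) → N ≤ 𝒞(Jc d.L x) ∨ ∃ v ∈ N, ∃ g ∈ d.L, v = g * y * g⁻¹
  out : ∃ j ∈ Jc d.L x, (∃ g ∈ d.L, j = g * y * g⁻¹) ∧ ∃ g ∈ d.L, g * x * g⁻¹ = x * j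

theorem RepO.conj (m : Base d Th) {y x g : Γ} {n c : ℕ} (h : RepO d y x n c) (hg : g ∈ d.L) :
    RepO d y (g * x * g⁻¹) n c := by
  have gn := le_normalizer hg
  have gC := m.L_le hg
  have k : g * x * g⁻¹ ∈ d.L ↔ x ∈ d.L := by rw [mul_mem_cancel_right (inv_mem hg), mul_mem_cancel_left hg]
  have k' : ∀ v, (∃ a ∈ d.L, v = a * y * a⁻¹) → ∃ a ∈ d.L, g * v * g⁻¹ = a * y * a⁻¹ := fun v ⟨a, ha, e⟩ =>
    ⟨g * a, mul_mem hg ha, by rw [e]; group⟩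
  refine ⟨mul_mem (mul_mem gC h.mem) (inv_mem gC), fun e => h.not_mem (k.1 e), h.iv.conj g, ?_,
    by rw [Jc_conj gn, card_cj, h.card], by rw [ZJ_conj gn, card_cj, h.cardZ], fun N h1 h2 => ?_, ?_⟩
  · rw [Jc_conj gn, ← cj_commutator]; exact cj_mono g h.perf
  · rw [Jc_conj gn] at h1 ⊢
    rw [cj_cen1 gn] at h2
    refine (h.ns (cj g⁻¹ N) (le_cj_iff.1 h1) (by rw [← cj_norm]; exact cj_le_iff.1 h2)).imp (fun e => ?_)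
      fun ⟨v, hv, e⟩ => ⟨g * v * g⁻¹, by simpa using mem_cj.1 hv, k' v e⟩
    rw [← cj_cent]; exact le_cj_iff.2 e
  · obtain ⟨j, j1, j2, b, hb, e⟩ := h.out
    exact ⟨g * j * g⁻¹, Jc_conj gn x ▸ conj_mem_cj g j1, k' j j2, g * b * g⁻¹, mul_mem (mul_mem hg hb) (inv_mem hg), by
      rw [show g * x * g⁻¹ * (g * j * g⁻¹) = g * (x * j) * g⁻¹ by group, ← e]; group⟩

theorem cen3 (m : Base d Th) {y σ : Γ} {n₀ c₀ n₁ c₁ n₂ c₂ l : ℕ} (hz : Rep d d.z n₀ c₀) (zJ : d.z ∈ Jc d.L d.z)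
    (hy : Rep d y n₁ c₁) (yL : y ∈ d.L) (yJ : y ∈ Jc d.L y) (hσ : RepO d y σ n₂ c₂)
    (cls : ∀ x ∈ d.C, Iv x → cl d x ∨ (∃ g ∈ d.L, x = g * y * g⁻¹) ∨ ∃ g ∈ d.L, x = g * σ * g⁻¹)
    (nz : ∀ N, N ≤ Jc d.L d.z → d.L ⊓ centralizer {d.z} ≤ 𝒩(N) → N ≤ 𝒞(Jc d.L d.z) ∨
      ∃ y ∈ N, Iv y ∧ d.L ≤ d.L ⊓ centralizer {d.z} ⊔ d.L ⊓ centralizer {y})
    (hl : Nat.card d.L = l) (h0 : c₀ ≤ 4 ∧ c₁ ≤ 4 ∧ c₂ ≤ 4)
    (h1 : ¬ n₀ ∣ c₀ * n₁ ∧ ¬ n₀ ∣ c₀ * n₂ ∧ ¬ n₁ ∣ c₁ * n₀ ∧ ¬ n₁ ∣ c₁ * n₂)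
    (h3 : ¬ n₂ * n₂ ∣ c₂ * c₂ * l) : Cen d := by
  obtain ⟨p1, p2, p3, p4⟩ := h1
  have k : ∀ x ∈ d.C, Iv x → (cl d x ∧ Rep d x n₀ c₀) ∨ ((∃ g ∈ d.L, x = g * y * g⁻¹) ∧ Rep d x n₁ c₁) ∨
      ((∃ g ∈ d.L, x = g * σ * g⁻¹) ∧ RepO d y x n₂ c₂) := fun x hx hi =>
    (cls x hx hi).imp (fun ⟨g, hg, e⟩ => ⟨⟨g, hg, e⟩, e ▸ hz.conj m hg⟩) fun h => h.imp
      (fun ⟨g, hg, e⟩ => ⟨⟨g, hg, e⟩, e ▸ hy.conj m hg⟩) fun ⟨g, hg, e⟩ => ⟨⟨g, hg, e⟩, e ▸ hσ.conj m hg⟩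
  have k1 : ∀ x ∈ d.L, Iv x → ∃ n c, Rep d x n c := fun x hx hi => by
    rcases k x (m.L_le hx) hi with h | h | h
    exacts [⟨_, _, h.2⟩, ⟨_, _, h.2⟩, absurd hx h.2.not_mem]
  have k2 : ∀ x ∈ d.C, x ∉ d.L → x * x = 1 → RepO d y x n₂ c₂ := fun x hx h h' => by
    rcases k x hx ⟨h', fun e => h (e ▸ one_mem _)⟩ with ⟨a, -⟩ | ⟨⟨g, hg, e⟩, -⟩ | a
    · exact absurd (m.cl_mem a) h
    · exact absurd (e ▸ mul_mem (mul_mem hg yL) (inv_mem hg)) h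
    · exact a.2
  have k3 : ∀ v, (∃ g ∈ d.L, v = g * y * g⁻¹) → clW d v := fun v ⟨g, hg, e⟩ => by
    have r := hy.conj m hg
    rw [← e] at r
    refine .inr ⟨r.iv, by rw [e, Jc_conj (le_normalizer hg)]; exact conj_mem_cj g yJ, fun w hw iw h => ?_⟩
    rw [r.card, r.cardZ] at h
    rcases k w hw iw with a | a | a <;> rw [a.2.card] at h
    exacts [absurd h p3, a.2.card.trans r.card.symm, absurd h p4]
  refine ⟨fun x hx hi => ?_, fun x hx hi => ?_, fun x hx hi => ?_, fun x hx hi N a b => ?_, nz, zJ,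
    fun w hw hi h => ?_, fun x hx w hw ix iw a b => ?_, fun x hx w hw a b x2 w2 => ?_, fun x hx hi => ?_,
    fun x hx hi => ?_, fun x hx a b => ?_⟩
  · rcases k x hx hi with h | h | h <;> exact h.2.perf
  · rcases k x hx hi with h | h | h <;> rw [h.2.cardZ]
    exacts [h0.1, h0.2.1, h0.2.2]
  · obtain ⟨n, c, h⟩ := k1 x hx hi; exact h.ns
  · rcases k x hx hi with h | h | h
    · exact (h.2.ns N a b).imp_right fun ⟨v, hv, e⟩ => ⟨v, hv, .inl e⟩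
    · exact (h.2.ns N a b).imp_right fun ⟨v, hv, e⟩ => ⟨v, hv, .inl e⟩
    · exact (h.2.ns N a b).imp_right fun ⟨v, hv, e⟩ => ⟨v, hv, k3 v e⟩
  · rw [hz.card, hz.cardZ] at h
    rcases k w hw hi with a | a | a <;> rw [a.2.card] at h
    exacts [a.1, absurd h p1, absurd h p2]
  · have f : ∀ {s : Γ}, (∃ g ∈ d.L, x = g * s * g⁻¹) → (∃ g ∈ d.L, w = g * s * g⁻¹) → ∃ g ∈ d.L, w = g * x * g⁻¹ :=
      fun ⟨g, hg, e⟩ ⟨g', hg', e'⟩ => ⟨g' * g⁻¹, mul_mem hg' (inv_mem hg), by rw [e, e']; group⟩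
    rcases k x hx ix with ⟨e, p⟩ | ⟨e, p⟩ | ⟨e, p⟩ <;> rcases k w hw iw with ⟨e', q⟩ | ⟨e', q⟩ | ⟨e', q⟩ <;>
      rw [p.card, p.cardZ, q.card] at a <;> rw [q.card, q.cardZ, p.card] at b
    exacts [f e e', absurd a p1, absurd a p2, absurd b p1, f e e', absurd a p4, absurd b p2, absurd b p4, f e e']
  · have p := k2 x hx a x2
    have q := k2 w hw b w2
    rw [p.card, p.cardZ, q.card, q.cardZ, hl]
    exact h3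
  · obtain ⟨n, c, h⟩ := k1 x hx hi; exact h.good hx
  · obtain ⟨n, c, h⟩ := k1 x hx hi; exact h.bad hx
  · obtain ⟨j, j1, j2, j3⟩ := (k2 x hx a b).out
    exact ⟨j, j1, k3 j j2, j3⟩

end CL.NS.V2
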