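/-
Project NS3 (second version): the representatives from explicit subgroups.
-/
import Cfsg.Agent.NS3.V6
import Cfsg.Agent.Spor.PGCov
import Cfsg.Agent.Spor.PGTop2

set_option autoImplicit false
set_option linter.unusedSectionVars false
open Cfsg Subgroup CL.Even CL.Grp CL.Wr
open scoped commutatorElement

namespace CL.NS.V2

variable {Γ : Type*} [Group Γ] [Finite Γ] {d : Dat Γ} {Th H J Q V : Subgroup Γ}

theorem mem_zp2 {z x : Γ} (h : z * z = 1) (hx : x ∈ zpowers z) : x = 1 ∨ x = z := by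
  obtain ⟨k, rfl⟩ := mem_zpowers_iff.1 hx
  rcases Int.even_or_odd' k with ⟨j, rfl | rfl⟩
  · left; rw [zpow_mul, zpow_two, h, one_zpow]
  · right; rw [zpow_add_one, zpow_mul, zpow_two, h, one_zpow, one_mul]

theorem repZ (m : Base d Th) {n : ℕ} (h1 : d.L ⊓ centralizer {d.z} = H) (hp : H ≤ ⁅H, H⁆) (hc : Nat.card H = n)
    (hQ : pCoreOf 2 H = Q) (hZ : H ⊓ 𝒞(Q) = zpowers d.z) : Rep d d.z n 2 ∧ Jc d.L d.z = H := by
  have e : Jc d.L d.z = H := Jc_eq h1 le_rfl hp ((comm_le_self _).trans (comm_le_self _))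
  have TH : d.T ≤ H := fun x hx => h1 ▸ ⟨m.T_le_L hx, mem_cent1.2 (m.z_T x hx)⟩
  have k : ∀ c ∈ d.C, c ∈ 𝒞(H) → c = 1 ∨ c = d.z := fun c hc h => m.cenT c hc (cent_mono TH h)
  have HL : H ≤ d.L := h1 ▸ inf_le_left
  have zH := TH m.z_mem
  have zc : d.z ∈ 𝒞(H) := mem_cent.2 fun x hx => mem_cent1.1 (h1.ge hx).2
  refine ⟨⟨m.L_le m.z_L, m.z_iv, e ▸ hp, e ▸ hc, ?_, fun N a b => ?_, fun _ _ => ⟨fun c hc h => ?_, fun c hc h => ?_⟩,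
    fun _ h => absurd (e ▸ zH) h, fun h => absurd m.z_L h⟩, e⟩
  · rw [ZJ, e, show H ⊓ 𝒞(H) = zpowers d.z from le_antisymm (fun x hx => by
      rcases k x (m.L_le (HL hx.1)) hx.2 with rfl | rfl
      exacts [one_mem _, mem_zpowers _]) (zpowers_le.2 ⟨zH, zc⟩), Nat.card_zpowers]
    exact orderOf_eq_prime (by rw [sq, m.z_sq]) m.z_ne
  · rw [e] at a
    rw [h1] at b
    rcases ns_of_two (z := d.z) (hQ ▸ pCoreOf_isPGroup 2 H) (hQ ▸ pCoreOf_le 2 H) (hQ ▸ le_normalizer_pCoreOf 2 H)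
      (fun x hx h => mem_zp2 m.z_sq (hZ.le ⟨hx, h⟩)) a b with h | h
    exacts [.inl (h ▸ bot_le), .inr ⟨_, h, cl_z d⟩]
  · rw [e] at h ⊢
    rcases k c hc h with rfl | rfl
    exacts [⟨one_mem _, .of_sq (mul_one 1)⟩, ⟨zH, .of_sq m.z_sq⟩]
  · exact k c (m.L_le hc) (h1 ▸ h)

theorem nzZ (m : Base d Th) (h1 : d.L ⊓ centralizer {d.z} = H) (hJ : Jc d.L d.z = H) (hQ : pCoreOf 2 H = Q)
    (hZ : H ⊓ 𝒞(Q) = zpowers d.z)
    (cl : ∀ x ∈ Q, ∃ r, (∃ g ∈ H, g * r * g⁻¹ = x) ∧ (r = 1 ∨ r = d.z ∨ ∃ a, (Iv a ∧ ∃ v ∈ d.L, v * a = a * v ∧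
      d.L ≤ H ⊔ zpowers v) ∧ (a = r ∨ ∃ u ∈ H, a * u = r * u * r))) :
    ∀ N, N ≤ Jc d.L d.z → d.L ⊓ centralizer {d.z} ≤ 𝒩(N) → N ≤ 𝒞(Jc d.L d.z) ∨
      ∃ y ∈ N, Iv y ∧ d.L ≤ d.L ⊓ centralizer {d.z} ⊔ d.L ⊓ centralizer {y} := by
  intro N a b
  rw [hJ] at a ⊢
  rw [h1] at b ⊢
  have zc : ∀ x ∈ H, x * d.z = d.z * x := fun x hx => mem_cent1.1 (h1.ge hx).2
  have QH : Q ≤ H := hQ ▸ pCoreOf_le 2 H
  have Qn : H ≤ 𝒩(Q) := hQ ▸ le_normalizer_pCoreOf 2 H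
  by_cases h : ∀ x ∈ N, x ∈ Q → x = 1 ∨ x = d.z
  · have k : N ≤ Q := hQ ▸ le_pCoreOf a b (isPGroup_iff_forall.2 fun x hx => ⟨2, by
      have k1 : x * x ∈ 𝒞(Q) := mem_cent.2 fun q hq => by
        have k2 : x * q * x⁻¹ * q⁻¹ ∈ N := by
          rw [show x * q * x⁻¹ * q⁻¹ = x * (q * x⁻¹ * q⁻¹) by group]
          exact mul_mem hx (conj_mem (b (QH hq)) (inv_mem hx))
        rcases h _ k2 (mul_mem (conj_mem (Qn (a hx)) hq) (inv_mem hq)) with e | e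
        · rw [mul_inv_eq_one, mul_inv_eq_iff_eq_mul] at e
          rw [← mul_assoc, ← e, mul_assoc, ← e, mul_assoc]
        · rw [mul_inv_eq_iff_eq_mul, mul_inv_eq_iff_eq_mul] at e
          rw [mul_assoc x, e, ← mul_assoc, ← mul_assoc x, ← mul_assoc x, zc x (a hx), mul_assoc d.z, e, ← mul_assoc,
            ← mul_assoc, m.z_sq, one_mul]
      rcases mem_zp2 m.z_sq (hZ.le ⟨mul_mem (a hx) (a hx), k1⟩) with e | e <;>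
        rw [show x ^ 2 ^ 2 = x * x * (x * x) by rw [show 2 ^ 2 = 4 from rfl, pow_succ, pow_succ, sq]; group, e]
      exacts [mul_one 1, m.z_sq]⟩)
    refine .inl fun x hx => mem_cent.2 fun y hy => ?_
    rcases h x hx (k hx) with rfl | rfl
    exacts [by rw [mul_one, one_mul], zc y hy]
  · push Not at h
    obtain ⟨x, hx, xQ, x1, xz⟩ := h
    obtain ⟨r, ⟨g, hg, rfl⟩, rfl | rfl | ⟨y, ⟨iy, v, hv, e, hL⟩, hy⟩⟩ := cl x xQ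
    · exact absurd (by group) x1
    · exact absurd (by rw [zc g hg, mul_inv_cancel_right]) xz
    have hr : r ∈ N := by simpa [mul_assoc] using conj_mem (b (inv_mem hg)) hx
    refine .inr ⟨y, ?_, iy, hL.trans (sup_le_sup_left (zpowers_le.2 (mem_inf.2 ⟨hv, mem_cent1.2 e⟩)) _)⟩
    rcases hy with rfl | ⟨u, hu, e⟩
    · exact hr
    · rw [eq_mul_inv_of_mul_eq e, mul_assoc r, mul_assoc r]
      exact mul_mem hr (conj_mem (b hu) hr)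

variable {Δ : Type*} [Group Δ] [IsSimpleGroup Δ]

theorem repY (m : Base d Th) {y : Γ} {k n c : ℕ} (iv : Iv y) (h1 : d.L ⊓ centralizer {y} = H) (h2 : J ≤ H)
    (hp : J ≤ ⁅J, J⁆) (h3 : ⁅H, H⁆ ≤ J) (hn : Nat.card J = n) (q : PG.Quo J V Δ) (hk : Nat.card Δ = k)
    (k0 : 0 < k ∧ ¬ k.Prime) (hC : d.C ⊓ 𝒞(J) = V) (hc : Nat.card V = c) (h4 : IsPGroup 2 V)
    (hV : V ⊓ 𝒞(H) = zpowers y) (zJ : d.z ∈ J) : Rep d y n c ∧ y ∈ Jc d.L y := by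
  have e : Jc d.L y = J := Jc_eq h1 h2 hp ((comm_le_self _).trans h3)
  have JL : J ≤ d.L := h2.trans (h1 ▸ inf_le_left)
  have yJ : y ∈ J := q.le (hV.ge (mem_zpowers y)).1
  have VC : V ≤ 𝒞(J) := hC ▸ inf_le_right
  refine ⟨⟨m.L_le (JL yJ), iv, e ▸ hp, e ▸ hn, ?_, fun N a b => ?_, fun _ _ => ⟨fun c hc h => ?_, fun c hc h => ?_⟩,
    fun _ h => absurd (e ▸ yJ) h, fun h => absurd (JL yJ) h⟩, e ▸ yJ⟩
  · rw [ZJ, e, q.cent_eq VC (PG.center_eq_bot_of_simple hk k0), hc]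
  · rw [e] at a ⊢
    rw [h1] at b
    exact (ns_of_quasi (q.isQuasisimple hk k0 VC hp) a (h2.trans b)).imp_right fun h => ⟨_, h zJ, cl_z d⟩
  · rw [e] at h ⊢
    exact ⟨q.le (hC.le ⟨hc, h⟩), .of_mem h4 (hC.le ⟨hc, h⟩)⟩
  · rw [h1] at h
    exact mem_zp2 iv.1 (hV.le ⟨hC.le ⟨m.L_le hc, cent_mono h2 h⟩, h⟩)

theorem repS {y σ j g g' : Γ} {k n c : ℕ} (h0 : σ ∈ d.C) (nL : σ ∉ d.L) (sq : σ * σ = 1)
    (h1 : d.L ⊓ centralizer {σ} = H) (h2 : J ≤ H) (hp : J ≤ ⁅J, J⁆) (h3 : ⁅H, H⁆ ≤ J) (hn : Nat.card J = n)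
    (q : PG.Quo J V Δ) (hk : Nat.card Δ = k) (k0 : 0 < k ∧ ¬ k.Prime) (VC : ∀ x ∈ J, ∀ v ∈ V, x * v = v * x)
    (hc : Nat.card V = c) (jJ : j ∈ J) (hg : g ∈ d.L) (e1 : j * g = g * y) (hg' : g' ∈ d.L)
    (e2 : g' * σ = σ * j * g') : RepO d y σ n c := by
  have e : Jc d.L σ = J := Jc_eq h1 h2 hp ((comm_le_self _).trans h3)
  have VC' : V ≤ 𝒞(J) := fun v hv => mem_cent.2 fun x hx => VC x hx v hv
  have jy : ∃ g ∈ d.L, j = g * y * g⁻¹ := ⟨g, hg, eq_mul_inv_of_mul_eq e1⟩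
  refine ⟨h0, nL, ⟨sq, fun h => nL (h ▸ one_mem _)⟩, e ▸ hp, e ▸ hn, ?_, fun N a b => ?_,
    j, e ▸ jJ, jy, g', hg', mul_inv_eq_of_eq_mul e2⟩
  · rw [ZJ, e, q.cent_eq VC' (PG.center_eq_bot_of_simple hk k0), hc]
  · rw [e] at a ⊢
    rw [h1] at b
    exact (ns_of_quasi (q.isQuasisimple hk k0 VC' hp) a (h2.trans b)).imp_right fun h => ⟨_, h jJ, jy⟩

/-- The classes of involutions and the 2-subgroups of their centralisers. -/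
structure Cl3 (d : Dat Γ) (Th : Subgroup Γ) (y σ : Γ) : Prop where
  cls : ∀ x ∈ d.C, Iv x → cl d x ∨ (∃ g ∈ d.L, x = g * y * g⁻¹) ∨ ∃ g ∈ d.L, x = g * σ * g⁻¹
  mem : σ ∈ Th
  not_mem : σ ∉ d.L
  sq : σ * σ = 1
  sz : σ * d.z = d.z * σ
  yT : y ∈ d.T
  iv : Iv y
  cy : ∃ c ∈ Th, c ∉ d.L ∧ c * y = y * c
  ny : 2 ^ 9 ≤ Nat.card (d.T ⊓ centralizer {y} : Subgroup Γ)
  ns : 2 ^ 4 ≤ Nat.card (d.T ⊓ centralizer {σ} : Subgroup Γ)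
  nT : Nat.card d.T = 2 ^ 10

theorem cl3 (m : Base d Th) {y σ t : Γ} {P P' : Subgroup Γ}
    (h : ∀ x ∈ d.C, x * x = 1 → ∃ g ∈ d.C, x = 1 ∨ x = g * d.z * g⁻¹ ∨ x = g * y * g⁻¹ ∨ x = g * σ * g⁻¹)
    (hT : Th = d.T ⊔ zpowers σ) (sq : σ * σ = 1) (sz : σ * d.z = d.z * σ) (yT : y ∈ d.T) (iv : Iv y) (ht : t ∈ d.T)
    (cy : σ * t * y = y * (σ * t)) (p1 : P ≤ d.T) (p2 : ∀ x ∈ P, x * y = y * x) (p3 : PG.LB P 512) (q1 : P' ≤ d.T)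
    (q2 : ∀ x ∈ P', x * σ = σ * x) (q3 : PG.LB P' 16) (nT : Nat.card d.T = 1024) : Cl3 d Th y σ := by
  have s1 : σ ∈ Th := hT ▸ mem_sup_right (mem_zpowers σ)
  have s2 : σ ∉ d.L := fun e => by
    obtain ⟨s, a, b⟩ := m.out
    exact b ((sup_le m.T_le_L (zpowers_le.2 e)) (hT ▸ a))
  have c1 : σ * t ∈ Th := mul_mem s1 (m.T_le ht)
  have c2 : σ * t ∉ d.L := fun e => s2 ((mul_mem_cancel_right (m.T_le_L ht)).1 e)
  have f : ∀ {r c : Γ}, c ∈ Th → c ∉ d.L → c * r = r * c → ∀ g ∈ d.C, ∃ a ∈ d.L, g * r * g⁻¹ = a * r * a⁻¹ :=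
    fun {r c} a1 a2 a3 g hg => by
      by_cases k : g ∈ d.L
      · exact ⟨g, k, rfl⟩
      · exact ⟨g * c, m.mul_mem_L g hg c (m.Th_le a1) k a2, by rw [mul_assoc g c, a3]; group⟩
  refine ⟨fun x hx hi => ?_, s1, s2, sq, sz, yT, iv, ⟨_, c1, c2, cy⟩,
    (p3.mono (le_inf p1 fun x hx => mem_cent1.2 (p2 x hx))) inferInstance,
    (q3.mono (le_inf q1 fun x hx => mem_cent1.2 (q2 x hx))) inferInstance, nT⟩
  obtain ⟨g, hg, e | e | e | e⟩ := h x hx hi.1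
  exacts [absurd e hi.2, .inl (e ▸ f s1 s2 sz g hg), .inr (.inl (e ▸ f c1 c2 cy g hg)),
    .inr (.inr (e ▸ f s1 s2 rfl g hg))]

theorem Cl3.out {y σ : Γ} (c : Cl3 d Th y σ) (m : Base d Th) {x : Γ} (hx : x ∈ d.C) (h : x ∉ d.L) (h' : x * x = 1) :
    ∃ g ∈ d.L, x = g * σ * g⁻¹ := by
  rcases c.cls x hx ⟨h', fun e => h (e ▸ one_mem _)⟩ with a | ⟨g, hg, e⟩ | a
  exacts [absurd (m.cl_mem a) h, absurd (e ▸ mul_mem (mul_mem hg (m.T_le_L c.yT)) (inv_mem hg)) h, a]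

theorem Cl3.outE {y σ : Γ} (c : Cl3 d Th y σ) (m : Base d Th)
    (hc : Nat.card (d.L ⊓ centralizer {σ} : Subgroup Γ) = 15120) {x : Γ} (hx : x ∈ d.C) (h : x ∉ d.L) (h' : x * x = 1)
    (R : Subgroup Γ) (hR : IsPGroup 2 R) (le : R ≤ d.L ⊓ centralizer {x}) : Nat.card R ≤ 2 ^ 4 := by
  obtain ⟨g, hg, rfl⟩ := c.out m hx h h'
  have := Fact.mk Nat.prime_two
  obtain ⟨k, hk⟩ := IsPGroup.iff_card.1 hR
  have e := card_dvd_of_le le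
  rw [cj_cen1 (le_normalizer hg), card_cj, hc, hk] at e
  rw [hk]
  refine Nat.pow_le_pow_right two_pos (not_lt.1 fun l => ?_)
  exact absurd ((pow_dvd_pow 2 (Nat.succ_le_of_lt l)).trans e) (by norm_num)

theorem Cl3.num {y σ : Γ} (c : Cl3 d Th y σ) (m : Base d Th)
    (hc : Nat.card (d.L ⊓ centralizer {σ} : Subgroup Γ) = 15120) : Num d Th σ (2 ^ 13) (2 ^ 9) (2 ^ 4) (2 ^ 4) := by
  have f : ∀ r, (∀ x ∈ d.T, x * r = r * x) → 2 ^ 9 ≤ Nat.card (d.T ⊓ centralizer {r} : Subgroup Γ) := fun r h => by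
    rw [inf_eq_left.2 fun x hx => mem_cent1.2 (h x hx), c.nT]; norm_num
  refine ⟨c.mem, c.not_mem, c.sq, fun x hx x2 => ?_, fun x hx a b => ?_,
    c.outE m hc (m.Th_le c.mem) c.not_mem c.sq, by norm_num, by norm_num, by rw [c.nT]; norm_num, by norm_num⟩
  · by_cases h : x = 1
    · refine ⟨1, one_mem _, ?_⟩
      rw [h, mul_one, mul_inv_cancel]
      exact ⟨one_mem _, f 1 fun x _ => by rw [mul_one, one_mul], σ, c.mem, c.not_mem, by rw [mul_one, one_mul]⟩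
    rcases c.cls x (m.L_le hx) ⟨x2, h⟩ with ⟨g, hg, rfl⟩ | ⟨g, hg, rfl⟩ | ⟨g, hg, rfl⟩
    · refine ⟨g⁻¹, inv_mem hg, ?_⟩
      rw [show g⁻¹ * (g * d.z * g⁻¹) * g⁻¹⁻¹ = d.z by group]
      exact ⟨m.z_mem, f _ m.z_T, σ, c.mem, c.not_mem, c.sz⟩
    · refine ⟨g⁻¹, inv_mem hg, ?_⟩
      rw [show g⁻¹ * (g * y * g⁻¹) * g⁻¹⁻¹ = y by group]
      exact ⟨c.yT, c.ny, c.cy⟩
    · exact absurd ((mul_mem_cancel_left hg).1 ((mul_mem_cancel_right (inv_mem hg)).1 hx)) c.not_mem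
  · obtain ⟨g, hg, rfl⟩ := c.out m hx a b
    refine ⟨g⁻¹, inv_mem hg, ?_⟩
    rw [show g⁻¹ * (g * σ * g⁻¹) * g⁻¹⁻¹ = σ by group]
    exact ⟨c.mem, c.ns⟩

end CL.NS.V2
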