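/-
Project NS3: the involution centralisers of `He:2`.
-/
import Cfsg.Agent.NS3.V7
import Cfsg.Agent.NS3.HeC1
import Cfsg.Agent.NS3.HeC2
import Cfsg.Agent.NS3.HeC3
import Cfsg.Agent.NS3.HeC4

set_option autoImplicit false
open Cfsg Subgroup CL.Even CL.Grp CL.Wr CL.PG
open scoped commutatorElement

namespace CL.NS.HeCen

open HeG0 V2

theorem sub_cons {G : Type*} [Group G] (gs : List G) (v : List ℕ) (l : List (List ℕ)) :
    subW gs (v :: l) = subW gs l ⊔ zpowers (wordG gs v) :=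
  (subW_app gs [v] l).trans (by rw [PG.subW_single, sup_comm])

theorem wy : W (nat_lit 0xb42f) = [46, 44] := by decide +kernel

variable {d : Dat (Equiv.Perm (Fin P.n))} {Th : Subgroup (Equiv.Perm (Fin P.n))} (m : Base d Th)
  (hC : d.C = subW gs1 lC) (hL : d.L = subW gs1 lL) (hT : d.T = subW gs1 lT) (hz : d.z = wordG gs1 [42])
  (hTh : Th = subW gs1 lTh)

open HeC1 in
include m hC hT hz hTh in
theorem cls : Cl3 d Th (wordG gs1 [46, 44]) (wordG gs1 [14]) := by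
  have eC := hC.trans (es lC (by decide +kernel)).symm
  have eT := hT.trans (es lT (by decide +kernel)).symm
  have ez := hz.trans (ew [42] (by decide +kernel)).symm
  have k := (yv_cls c2).up Nat.prime_two (o := 8060774400) (k := 11) (by
    rw [es lC (by decide +kernel)]; exact C_card c1 ubL) (by decide +kernel) (yP_card c2) (yP_le c2)
  have e : Th = d.T ⊔ zpowers (wordG gs1 [14]) := by rw [hTh, hT]; exact sub_cons _ _ _
  have nT : Nat.card d.T = 1024 := hT ▸ T_card c1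
  rw [← ew [46, 44] (by decide +kernel)]
  rw [← ew [14] (by decide +kernel)] at e ⊢
  refine cl3 m (fun x hx x2 => ?_) e (yss c2) (by rw [ez]; exact ysz c2) (eT ▸ yyT c2) ⟨yyy c2, yy1 c2⟩ (eT ▸ ytT c2)
    ((yty c2).trans (mul_assoc _ _ _)) (eT ▸ yPy_le c2) (yPy_c1 c2) (yPy_lb c2) (eT ▸ yPs_le c2) (yPs_c1 c2)
    (yPs_lb c2) nT
  obtain ⟨r, hr, g, hg, rfl⟩ := k x (eC ▸ hx) (by rw [sq, x2])
  refine ⟨g, eC ▸ hg, ?_⟩
  rw [wy] at hr
  simp only [List.mem_cons, List.not_mem_nil, or_false] at hr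
  rcases hr with rfl | rfl | rfl | rfl
  exacts [.inl (by rw [wordG_nil, mul_one, mul_inv_cancel]), .inr (.inl (by rw [ez])), .inr (.inr (.inl rfl)),
    .inr (.inr (.inr rfl))]

open HeC2 in
include m hL hz in
theorem factZ : Rep d d.z 21504 2 ∧ d.z ∈ Jc d.L d.z ∧ ∀ N, N ≤ Jc d.L d.z → d.L ⊓ centralizer {d.z} ≤ 𝒩(N) →
    N ≤ 𝒞(Jc d.L d.z) ∨ ∃ y ∈ N, Iv y ∧ d.L ≤ d.L ⊓ centralizer {d.z} ⊔ d.L ⊓ centralizer {y} := by
  have e0 := es lL (by decide +kernel)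
  have eL := hL.trans e0.symm
  have ez := hz.trans (ew [42] (by decide +kernel)).symm
  have h1 := ycz c2 (by rw [e0]; exact ubL)
  rw [centralizer_subW_single, ← ez, ← eL] at h1
  have hZ := ycq c2
  rw [PG.subW_single, yz2 c2, ← ez] at hZ
  obtain ⟨r, e⟩ := repZ m h1 (ypf c2) (yH_card c2) (yoq c2) hZ
  refine ⟨r, e ▸ h1.le ⟨m.z_L, mem_cent1.2 rfl⟩, nzZ m h1 e (yoq c2) hZ fun x hx => ?_⟩
  obtain ⟨r, hr, g, hg, rfl⟩ := yv_cls c2 x hx (pow_zero x)
  refine ⟨_, ⟨g, hg, rfl⟩, ?_⟩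
  have b1 := And.intro (⟨yaa1 c2, ya1 c2⟩ : Iv _) (Exists.intro (p := fun v => v ∈ d.L ∧ v * _ = _ * v ∧
    d.L ≤ _ ⊔ zpowers v) _ ⟨eL ▸ yg1 c2, yga1 c2, eL ▸ (yle1 c2).trans (sub_cons _ _ _).le⟩)
  have b2 := And.intro (⟨yaa2 c2, ya2 c2⟩ : Iv _) (Exists.intro (p := fun v => v ∈ d.L ∧ v * _ = _ * v ∧
    d.L ≤ _ ⊔ zpowers v) _ ⟨eL ▸ yg2 c2, yga2 c2, eL ▸ (yle2 c2).trans (sub_cons _ _ _).le⟩)
  rw [show W (nat_lit 0xac6947d1d) = [284, 286, 104, 42] by decide +kernel,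
    show W (nat_lit 0x2b4751b) = [282, 284, 42] by decide +kernel,
    show W (nat_lit 0x1211a51b) = [282, 104, 288] by decide +kernel] at hr
  simp only [List.mem_cons, List.not_mem_nil, or_false] at hr
  rcases hr with rfl | rfl | rfl | rfl | rfl | rfl
  exacts [.inl (wordG_nil _), .inr (.inl ez.symm), .inr (.inr ⟨_, b1, .inl rfl⟩), .inr (.inr ⟨_, b2, .inl rfl⟩),
    .inr (.inr ⟨_, b1, .inr ⟨_, yub c2, yeb c2⟩⟩), .inr (.inr ⟨_, b1, .inr ⟨_, yuc c2, yec c2⟩⟩)]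

open HeC3 in
include m hC hL hz in
theorem factY : Rep d (wordG gs1 [46, 44]) 80640 4 ∧ wordG gs1 [46, 44] ∈ Jc d.L (wordG gs1 [46, 44]) := by
  have e0 := es lL (by decide +kernel)
  have e1 := es lC (by decide +kernel)
  have eL := hL.trans e0.symm
  have eC := hC.trans e1.symm
  have ez := hz.trans (ew [42] (by decide +kernel)).symm
  rw [← ew [46, 44] (by decide +kernel)]
  have h1 := ycx c2 (by rw [e0]; exact ubL)
  rw [centralizer_subW_single, wy, ← eL] at h1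
  have h2 := ycj c2 (by rw [e1]; exact C_ub c1 ubL)
  rw [← eC] at h2
  have h3 := ycv c2
  rw [PG.subW_single, yye c2] at h3
  have := Std.L34.simple
  exact repY m ⟨yyy c2, yy1 c2⟩ h1 (yJH c2) (ypf c2) (ydr c2) (yJ_card c2) (yq c2) Std.L34.card (by norm_num) h2
    (yV_card c2) (isPGroup_of_card (yV_card c2) 2 (by norm_num)) h3
    (ez ▸ yzJ c2 (mem_subW (List.mem_singleton_self _)))

open HeC4 in
include m hL in
theorem factS (c : Cl3 d Th (wordG gs1 [46, 44]) (wordG gs1 [14])) :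
    RepO d (wordG gs1 [46, 44]) (wordG gs1 [14]) 7560 3 ∧
      Nat.card (d.L ⊓ centralizer {wordG gs1 [14]} : Subgroup (Equiv.Perm (Fin P.n))) = 15120 := by
  have e0 := es lL (by decide +kernel)
  have eL := hL.trans e0.symm
  rw [← ew [46, 44] (by decide +kernel), ← ew [14] (by decide +kernel)] at c ⊢
  have h1 := ycx c2 (by rw [e0]; exact ubL)
  rw [centralizer_subW_single, ← eL] at h1
  have := Std.A7.simple
  exact ⟨repS (m.Th_le c.mem) c.not_mem c.sq h1 (yJH c2) (ypf c2) (ydr c2) (yJ_card c2) (yq c2) Std.A7.card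
    (by norm_num) (yvc c2) (yV_card c2) (yjJ c2) (eL ▸ yg1 c2) (ye1 c2) (eL ▸ yg2 c2) (ye2 c2), h1 ▸ yH_card c2⟩

include m hC hL hT hz hTh

/-- The involution centralisers of `He:2`. -/
theorem heCen : V2.Cen d := by
  have c := cls m hC hT hz hTh
  obtain ⟨a1, a2, a3⟩ := factZ m hL hz
  obtain ⟨b1, b2⟩ := factY m hC hL hz
  exact cen3 m a1 a2 b1 (m.T_le_L c.yT) b2 (factS m hL c).1 c.cls a3 (hL ▸ L_card c1 ubL) (by norm_num)
    (by norm_num) (by norm_num)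

theorem heNum : Num d Th (wordG gs1 [14]) (2 ^ 13) (2 ^ 9) (2 ^ 4) (2 ^ 4) :=
  have c := cls m hC hT hz hTh
  c.num m (factS m hL c).2

/-- The field `outE` of `Top2`. -/
theorem heOutE (hA : Nat.card d.A = 64) : ∀ x ∈ d.C, x ∉ d.L → x * x = 1 → ∀ R : Subgroup (Equiv.Perm (Fin P.n)),
    IsPGroup 2 R → R ≤ d.L ⊓ centralizer {x} → 2 * Nat.card R < Nat.card d.A := fun x hx h h' R hR le => by
  have c := cls m hC hT hz hTh
  have := c.outE m (factS m hL c).2 hx h h' R hR le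
  omega

end CL.NS.HeCen
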