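/-
Project NS3: the fusion of the first component of `z` for the Held group.
-/
import Cfsg.Agent.NS3.Basic
import Cfsg.Agent.Wr.E4a

set_option autoImplicit false
set_option linter.unusedSectionVars false
open Cfsg Subgroup CL.Even CL.Grp CL.Wr
open scoped commutatorElement

namespace CL.NS

universe u

namespace HeF

variable {G : Type*} [Group G] [Finite G] {Γ : Type*} [Group Γ] [Finite Γ]
variable {d : Dat Γ} {Th : Subgroup Γ} {t : G} {G₀ M₀ S₀ : Subgroup G} {p : G → Γ} (c : Cfg d Th t G₀ M₀ S₀ p)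

/-- `P` is `A` or `B` -/
def AB (d : Dat Γ) (P : Subgroup Γ) : Prop := P = d.A ∨ P = d.B

variable (m : Top2 d Th)
include m

theorem card_ea_le {E : Subgroup Γ} (h : E ≤ d.T) (hE : ∀ x ∈ E, x * x = 1) : Nat.card E ≤ Nat.card d.A := by
  rcases m.maxE E h hE with h1 | h1 | h1
  exacts [card_le_of_le h1, m.cardAB ▸ card_le_of_le h1, h1.le]

theorem eq_of_ea {E : Subgroup Γ} (h : E ≤ d.T) (hE : ∀ x ∈ E, x * x = 1) (hc : Nat.card d.A ≤ Nat.card E) :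
    E = d.A ∨ E = d.B := by
  rcases m.maxE E h hE with h1 | h1 | h1
  · exact Or.inl (eq_of_le_of_card_ge h1 hc)
  · exact Or.inr (eq_of_le_of_card_ge h1 (m.cardAB ▸ hc))
  · omega

theorem AB.le_U {P : Subgroup Γ} (h : AB d P) : P ≤ d.U := h.elim (· ▸ m.ok.A_le_U) (· ▸ m.ok.B_le_U)
theorem AB.le_T {P : Subgroup Γ} (h : AB d P) : P ≤ d.T := (h.le_U m).trans m.ok.U_le_T
theorem AB.card {P : Subgroup Γ} (h : AB d P) : Nat.card P = Nat.card d.A := h.elim (· ▸ rfl) (· ▸ m.cardAB.symm)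
theorem AB.sq {P : Subgroup Γ} (h : AB d P) : ∀ x ∈ P, x * x = 1 := h.elim (· ▸ m.ok.sa.sq) (· ▸ m.ok.sb.sq)

theorem AB.comm_self {P : Subgroup Γ} (h : AB d P) : ⁅P, P⁆ ≤ ⊥ :=
  commutator_le.2 fun _ a _ b => commutatorElement_eq_one_iff_mul_comm.2 (comm_of_sq (h.sq m) a b)

theorem AB.comm_le {P Q : Subgroup Γ} (h : AB d P) (h' : AB d Q) : ⁅P, Q⁆ ≤ d.D := by
  rcases h with rfl | rfl <;> rcases h' with rfl | rfl
  exacts [(AB.comm_self m (.inl rfl)).trans bot_le, m.ok.comm_eq_D.le, m.ok.swap.comm_eq_D.le,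
    (AB.comm_self m (.inr rfl)).trans bot_le]

theorem AB.inf {P Q : Subgroup Γ} (h : AB d P) (h' : AB d Q) (e : P ≠ Q) : P ⊓ Q = d.D := by
  rcases h with rfl | rfl <;> rcases h' with rfl | rfl
  exacts [(e rfl).elim, m.ok.sa.D_eq.symm, m.ok.sb.D_eq.symm, (e rfl).elim]

theorem toZ {y : G} (hy : y ∈ c.E d.T d.T) (h : y * y = 1) : ∃ γ ∈ G₀, γ * y * γ⁻¹ ∈ c.E d.D d.D ∧
    (p (t * y * t⁻¹) = 1 ↔ p (t * (γ * y * γ⁻¹) * t⁻¹) = 1) := by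
  have hM := c.S_le hy.1
  have DT := m.ok.D_le.trans m.ok.sa.A_le
  obtain ⟨g₁, a1, a2⟩ := m.invD _ (m.ok.T_le_L hy.2.1) (c.mul.sq hM h)
  obtain ⟨g₂, b1, b2⟩ := m.invD _ (m.ok.T_le_L hy.2.2) (c.mulq.sq hM h)
  obtain ⟨γ, hγ, rfl, rfl⟩ := c.G_surj g₁ a1 g₂ b1
  obtain ⟨w, hw, e1, e2⟩ := exists_E c m.toBase (DT a2) (DT b2)
  have e3 := c.mul.conj (c.G_le hγ) hM
  have e4 := c.mulq.conj (c.G_le hγ) hM
  refine ⟨γ, hγ, ?_, by rw [e4, conj_eq_one_iff]⟩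
  rw [c.two_eq (mul_mem (mul_mem hγ (c.E_G m.ok.T_le_L m.ok.T_le_L hy)) (inv_mem hγ)) (c.S_le hw)
    ((Two.of_sq h).conj γ) (c.two hw) (e3.trans e1.symm) (e4.trans e2.symm)]
  exact ⟨hw, e1 ▸ a2, e2 ▸ b2⟩

theorem ea {V : Subgroup G} (hV : V ≤ c.E d.T d.T) (h : ∀ x ∈ V, x * x = 1)
    (hc : Nat.card d.A * Nat.card d.A ≤ Nat.card V) : ∃ P Q, AB d P ∧ AB d Q ∧ V = c.E P Q := by
  have hM : V ≤ M₀ := hV.trans ((c.E_le _ _).trans c.S_le)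
  have a1 : c.mul.img V ≤ d.T := c.mul.img_le fun x hx _ => (hV hx).2.1
  have a2 : c.mulq.img V ≤ d.T := c.mulq.img_le fun x hx _ => (hV hx).2.2
  have k : ∀ {f : G → Γ} (hf : MulOn M₀ f), ∀ x ∈ hf.img V, x * x = 1 := fun hf x hx => by
    obtain ⟨y, hy, hN, rfl⟩ := hf.mem_img.1 hx
    exact hf.sq hN (h y hy)
  have b1 := card_ea_le m a1 (k _)
  have b2 := card_ea_le m a2 (k _)
  have b3 := c.mul.card_img hM
  rw [← c.mulq.card_img_of_inj (inf_le_left.trans hM) fun x hx e =>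
    c.eq_one (hM hx.1) (.of_sq (h x hx.1)) (c.mul.mem_pre.1 hx.2).2 e] at b3
  have b4 := card_le_of_le (c.mulq.img_mono (inf_le_left : V ⊓ c.mul.pre ⊥ ≤ V))
  have b5 : 0 < Nat.card d.A := Nat.card_pos
  have h1 : AB d (c.mul.img V) := eq_of_ea m a1 (k _) (by nlinarith)
  have h2 : AB d (c.mulq.img V) := eq_of_ea m a2 (k _) (by nlinarith)
  refine ⟨_, _, h1, h2, eq_of_le_of_card_ge
    (fun x hx => ⟨(hV hx).1, c.mul.mem_img_of hx (hM hx), c.mulq.mem_img_of hx (hM hx)⟩) ?_⟩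
  rwa [card_E c m.toBase (h1.le_T m) (h2.le_T m), h1.card m, h2.card m]

theorem ea_cj {P Q : Subgroup Γ} (h1 : AB d P) (h2 : AB d Q) {g : G} (h : cj g (c.E d.U d.U) ≤ c.E d.T d.T) :
    ∃ P' Q', AB d P' ∧ AB d Q' ∧ cj g (c.E P Q) = c.E P' Q' := by
  refine ea c m ((cj_mono g (c.E_mono (h1.le_U m) (h2.le_U m))).trans h) (fun x hx => ?_) (le_of_eq ?_)
  · have hy := mem_cj.1 hx
    have := c.pow_eq_one hy.1 (n := 2) (by rw [pow_two, h1.sq m _ hy.2.1]) (by rw [pow_two, h2.sq m _ hy.2.2])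
    calc x * x = g * (g⁻¹ * x * g) ^ 2 * g⁻¹ := by rw [pow_two]; group
      _ = 1 := by rw [this]; group
  · rw [card_cj, card_E c m.toBase (h1.le_T m) (h2.le_T m), h1.card m, h2.card m]

theorem weak {g : G} (h : cj g (c.E d.U d.U) ≤ c.E d.T d.T) : g ∈ 𝒩(c.E d.U d.U) := by
  have h1 : c.E d.U d.U ≤ c.E d.A d.A ⊔ c.E d.B d.B := fun x hx => by
    obtain ⟨u, hu, v, hv, e⟩ := m.ok.mem_U.1 hx.2.1
    obtain ⟨u', hu', v', hv', e'⟩ := m.ok.mem_U.1 hx.2.2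
    obtain ⟨a, ha, rfl, rfl⟩ := exists_E c m.toBase (m.ok.sa.A_le hu) (m.ok.sa.A_le hu')
    obtain ⟨b, hb, rfl, rfl⟩ := exists_E c m.toBase (m.ok.B_le_T hv) (m.ok.B_le_T hv')
    rw [← c.inj (mul_mem ha hb) hx.1 ((c.mul a (c.S_le ha) b (c.S_le hb)).trans e)
      ((c.mulq a (c.S_le ha) b (c.S_le hb)).trans e')]
    exact mul_mem (mem_sup_left ⟨ha, hu, hu'⟩) (mem_sup_right ⟨hb, hv, hv'⟩)
  have k : ∀ P, AB d P → cj g (c.E P P) ≤ c.E d.U d.U := fun P a => by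
    obtain ⟨P', Q', a1, a2, e⟩ := ea_cj c m a a h
    exact e.le.trans (c.E_mono (a1.le_U m) (a2.le_U m))
  exact mem_norm_of_cj_le ((cj_mono g h1).trans ((cj_sup g _ _).le.trans (sup_le (k _ (.inl rfl)) (k _ (.inr rfl)))))

theorem burnside {X : Subgroup G} (hS : IsSylowIn 2 (c.E d.T d.T) X) {x g : G} (hx : x ∈ c.E d.D d.D) (hg : g ∈ X)
    (hy : g * x * g⁻¹ ∈ c.E d.D d.D) : ∃ n ∈ X ⊓ 𝒩(c.E d.U d.U), n * x * n⁻¹ = g * x * g⁻¹ := by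
  have := Fact.mk Nat.prime_two
  have hX : c.E d.U d.U ≤ X := (c.E_mono m.ok.U_le_T m.ok.U_le_T).trans hS.le
  have k : ∀ y ∈ c.E d.D d.D, c.E d.U d.U ≤ centralizer {y} := fun y hy r hr =>
    mem_cent1.2 (c.comm hr.1 hy.1 (m.ok.U_D hr.2.1 hy.2.1) (m.ok.U_D hr.2.2 hy.2.2))
  obtain ⟨P, hP, h1⟩ := exists_isSylowIn_ge (c.E_isP d.U d.U) (le_inf hX (k _ hy))
  obtain ⟨a, ha, h2⟩ := hP.exists_conj_le (isPGroup_cj (c.E_isP d.U d.U) g) (le_inf (cj_le_of_mem hX hg) fun r hr => by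
    have := mem_cent1.1 (k x hx (mem_cj.1 hr))
    refine mem_cent1.2 ?_
    calc r * (g * x * g⁻¹) = g * (g⁻¹ * r * g * x) * g⁻¹ := by group
      _ = _ := by rw [this]; group)
  obtain ⟨e, -, h3⟩ := hS.exists_conj_le hP.isPGroup (hP.le.trans inf_le_left)
  have h4 := weak c m (g := e) ((cj_mono e h1).trans h3)
  have h5 := weak c m (g := e * (a * g)) (by rw [cj_mul, cj_mul]; exact (cj_mono e h2).trans h3)
  refine ⟨a * g, ⟨mul_mem ha.1 hg, by simpa using mul_mem (inv_mem h4) h5⟩, ?_⟩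
  rw [show a * g * x * (a * g)⁻¹ = a * (g * x * g⁻¹) * a⁻¹ by group, mem_cent1.1 ha.2, mul_inv_cancel_right]

theorem D_le : c.E d.D ⊥ ≤ ⁅c.E d.A ⊥, c.E d.B ⊥⁆ := fun x hx => by
  have k : ∀ P, P ≤ d.T → P ≤ c.mul.img (c.E P ⊥) := fun P hP α hα => by
    obtain ⟨y, hy, rfl, e⟩ := exists_E c m.toBase (hP hα) (one_mem _)
    exact c.mul.mem_img_of ⟨hy, hα, e⟩ (c.S_le hy)
  have h1 := commutator_mono (k _ m.ok.sa.A_le) (k _ m.ok.B_le_T) (m.ok.D_le_comm hx.2.1)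
  rw [← c.mul.img_comm ((c.E_le _ _).trans c.S_le) ((c.E_le _ _).trans c.S_le)] at h1
  obtain ⟨y, hy, -, e⟩ := c.mul.mem_img.1 h1
  have h2 := F4.E_comm c _ _ _ _ hy
  rw [commutator_bot_left] at h2
  rwa [← c.inj h2.1 hx.1 e ((mem_bot.1 h2.2.2).trans (mem_bot.1 hx.2.2).symm)]

theorem perm {n : G} (hn : n ∈ 𝒩(c.E d.U d.U)) : cj n (c.E d.D ⊥) ≤ c.E d.D ⊥ ∨ cj n (c.E d.D ⊥) ≤ c.E ⊥ d.D := by
  have h : cj n (c.E d.U d.U) ≤ c.E d.T d.T := (cj_eq hn).le.trans (c.E_mono m.ok.U_le_T m.ok.U_le_T)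
  obtain ⟨P, Q, a1, a2, e⟩ := ea_cj c m (.inl rfl) (.inl rfl) h
  obtain ⟨P', Q', b1, b2, e'⟩ := ea_cj c m (.inr rfl) (.inl rfl) h
  have h1 : cj n (c.E d.D ⊥) ≤ c.E ⁅P, P'⁆ ⁅Q, Q'⁆ := by
    refine (cj_mono n ((D_le c m).trans
      (commutator_mono (c.E_mono (Q' := d.A) le_rfl bot_le) (c.E_mono (Q' := d.A) le_rfl bot_le)))).trans ?_
    rw [cj_commutator, e, e']; exact F4.E_comm c _ _ _ _
  by_cases k : P = P'
  · exact .inr (h1.trans (c.E_mono (k ▸ a1.comm_self m) (a2.comm_le m b2)))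
  by_cases k' : Q = Q'
  · exact .inl (h1.trans (c.E_mono (a1.comm_le m b1) (k' ▸ a2.comm_self m)))
  have DT := m.ok.D_le.trans m.ok.sa.A_le
  have h2 := card_cj n (c.E d.A d.A ⊓ c.E d.B d.A)
  rw [cj_inf, e, e', c.E_inf, c.E_inf, a1.inf m b1 k, a2.inf m b2 k', inf_idem, ← m.ok.sa.D_eq, card_E c m.toBase DT DT,
    card_E c m.toBase DT m.ok.sa.A_le] at h2
  exact absurd ((eq_of_le_of_card_ge m.ok.D_le (Nat.eq_of_mul_eq_mul_left Nat.card_pos h2).ge).ge m.ok.a_mem)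
    m.ok.sa.a_not

theorem norm_le {X : Subgroup G} (hS : IsSylowIn 2 (c.E d.T d.T) X) : X ⊓ 𝒩(c.E d.U d.U) ≤ 𝒩(c.E d.D ⊥) := by
  have k : ∀ n ∈ 𝒩(c.E d.U d.U), n ∉ 𝒩(c.E d.D ⊥) → cj n (c.E d.D ⊥) ≤ c.E ⊥ d.D := fun n a b =>
    (perm c m a).resolve_left fun e => b (mem_norm_of_cj_le e)
  have e1 : cj t (c.E d.D ⊥) = c.E ⊥ d.D :=
    le_antisymm (F4.cj_t c _ _) (le_cj_iff.2 (by rw [c.t_inv]; exact F4.cj_t c _ _))
  refine F4.le_of_syl (hS.of_le (le_inf hS.le fun s hs =>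
    F4.E_norm c hs.1 (m.ok.T_norm_U hs.2.1) (m.ok.T_norm_U hs.2.2)) inf_le_left)
    (fun s hs => F4.E_norm c hs.1 (m.ok.T_norm_D hs.2.1) (by rw [normalizer_eq_top]; exact mem_top _))
    fun x hx y hy a b => mem_norm_of_cj_le ?_
  rw [cj_mul]
  refine (cj_mono x (k y hy.2 b)).trans ?_
  have h1 := perm c m (mul_mem hx.2 (mem_norm_of_cj_le (F4.cj_t c _ _)))
  rw [cj_mul, e1] at h1
  refine h1.resolve_right fun h2 => ?_
  obtain ⟨w, hw, e2, e3⟩ := exists_E c m.toBase (m.ok.sa.A_le m.ok.z_A) (one_mem _)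
  have h3 := cj_le_cj.1 ((k x hx.2 a).trans (cj_eq (mem_norm_of_cj_le h2)).ge) ⟨hw, e2 ▸ m.ok.z_mem, e3⟩
  exact m.ok.z_ne (e2 ▸ h3.2.1)

theorem fus {X : Subgroup G} (hX : G₀ ≤ X) (hS : IsSylowIn 2 (c.E d.T d.T) X) {x : G} (hx : x ∈ c.E d.T ⊥)
    (x2 : x * x = 1) {g : G} (hg : g ∈ X) (hy : g * x * g⁻¹ ∈ c.E d.T d.T) : g * x * g⁻¹ ∈ c.E d.T ⊥ := by
  obtain ⟨γ, hγ, a1, a2⟩ := toZ c m (c.E_mono le_rfl bot_le hx) x2
  obtain ⟨δ, hδ, b1, b2⟩ := toZ c m hy (by rw [conj_mul, x2, mul_one, mul_inv_cancel])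
  have e : δ * g * γ⁻¹ * (γ * x * γ⁻¹) * (δ * g * γ⁻¹)⁻¹ = δ * (g * x * g⁻¹) * δ⁻¹ := by group
  obtain ⟨n, hn, k⟩ := burnside c m hS a1 (mul_mem (mul_mem (hX hδ) hg) (inv_mem (hX hγ))) (e ▸ b1)
  have := conj_mem (norm_le c m hS hn) (show γ * x * γ⁻¹ ∈ c.E d.D ⊥ from ⟨a1.1, a1.2.1, a2.1 hx.2.2⟩)
  rw [k, e] at this
  exact ⟨hy.1, hy.2.1, b2.2 this.2.2⟩

end HeF

theorem fusHe : FusHe.{u} := by
  intro Γ _ _ d Th m G _ _ t G₀ M₀ S₀ p c X w f g hg hy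
  refine HeF.fus c m f.G_le f.syl ⟨f.w_mem, f.pw ▸ m.z_mem, f.qw⟩ ?_ hg hy
  rw [← pow_two]
  exact c.pow_eq_one f.w_mem (by rw [f.pw, pow_two, m.z_sq]) (by rw [f.qw, one_pow])

end CL.NS

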