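/-
Project NS3: the interface `Top2` from words, relations and orders.
-/
import Cfsg.Agent.Wr.WT
import Cfsg.Agent.NS3.Defs

set_option autoImplicit false
open Cfsg Subgroup CL.Even CL.Grp CL.PG CL.Wr
open scoped commutatorElement

namespace CL.NS

/-- The 2-subgroups of `L` which are centralised by an outer involution are small. -/
def OutE {Γ : Type*} [Group Γ] (d : Dat Γ) : Prop :=
  ∀ x ∈ d.C, x ∉ d.L → x * x = 1 → ∀ R : Subgroup Γ, IsPGroup 2 R → R ≤ d.L ⊓ centralizer {x} →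
    2 * Nat.card R < Nat.card d.A

variable {Γ : Type} [Group Γ] [Finite Γ] {gs : List Γ}

theorem top2_of (w : WD) {as bs : List Γ} {x x' : MD} (o : Ok (w.dat gs)) (fk : Fake (w.dat gs))
    (m : SM (w.dat gs) as x) (m' : SM (w.dat gs).swap bs x') (f : SF (w.dat gs)) (f' : SF (w.dat gs).swap)
    {σ y : List ℕ} {Y Gz TH : List (List ℕ)} (hC : w.C = w.L ++ [σ]) (hTH : TH = σ :: w.T)
    (cL : Nat.card (subW gs w.L) = 4030387200) (cC : Nat.card (subW gs w.C) = 8060774400)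
    (cT : Nat.card (subW gs w.T) = 1024) (cU : Nat.card (subW gs w.U) = 256) (cTh : Nat.card (subW gs TH) = 2048)
    (hσ : Rels gs [(σ ++ σ, [])]) (hsim : IsSimpleGroup (subW gs w.L))
    (hA : Nat.card (MulAut (subW gs w.L)) ≤ 8060774400) (cls : Cls 2 (subW gs w.T) (subW gs w.L) gs [[], w.z, y])
    (hy : subW gs [y] ≤ subW gs w.D) (hG : subW gs Gz ≤ subW gs w.L)
    (hY : Rels gs (zp [] Y (Gz.map fun g => cjW g w.z))) (hY₁ : subW gs Y ≤ subW gs w.T)
    (hY₂ : subW gs w.T ≤ subW gs Y) (hc : x.okE = true ∧ x'.okE = true ∧ x.n = x'.n) (hout : OutE (w.dat gs)) :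
    Top2 (w.dat gs) (subW gs TH) := by
  subst hTH
  simp only [Rels, List.forall_mem_cons, PG.wordG_append, wordG_nil] at hσ
  have hσC : wordG gs σ ∈ subW gs w.C := mem_subW (by simp [hC])
  have hT : subW gs w.T ≤ subW gs (σ :: w.T) := subW_mono fun v hv => List.mem_cons_of_mem _ hv
  have hC' : subW gs w.C ≤ subW gs w.L ⊔ zpowers (wordG gs σ) := by
    rw [← subW_cons]; exact subW_mono fun v hv => by simpa [hC, or_comm] using hv
  have idx : ∀ g ∈ subW gs w.C, g ∈ subW gs w.L ∨ g * wordG gs σ ∈ subW gs w.L := fun g hg =>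
    (mem_sup_inv hσ.1 (o.L_norm hσC)).1 (hC' hg)
  have hs : IsSylowIn 2 (subW gs (σ :: w.T)) (subW gs w.C) :=
    syl_of_card (j := 11) (subW_le.2 fun v hv => (List.mem_cons.1 hv).elim (· ▸ hσC) fun h =>
      o.L_le (o.T_le_L (mem_subW h))) cTh cC (by norm_num)
  generalize hd : w.dat gs = d at o fk m m' f f' hout ⊢
  have e1 : d.L = subW gs w.L := hd ▸ rfl
  have e2 : d.C = subW gs w.C := hd ▸ rfl
  have e3 : d.T = subW gs w.T := hd ▸ rfl
  have e4 : d.U = subW gs w.U := hd ▸ rfl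
  have e5 : d.D = subW gs w.D := hd ▸ rfl
  have e6 : d.z = wordG gs w.z := hd ▸ rfl
  have ht : d.t = 1 := hd ▸ rfl
  have hm : wordG gs σ ∈ subW gs (σ :: w.T) := mem_subW List.mem_cons_self
  have hY₃ : ∀ c ∈ d.T, (∀ v ∈ d.T, cl d v → c * v = v * c) → c ∈ 𝒞(subW gs Y) := fun c _ h =>
    (centralizer_subW gs Y c).2 fun v hv => by
      obtain ⟨u, hu⟩ := exists_mem_zp [] (Gz.map fun g => cjW g w.z) hv
      have h1 : wordG gs v = wordG gs u := hY _ hu
      rcases snd_mem_of_zp hu with h2 | h2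
      · obtain ⟨g, hg, rfl⟩ := List.mem_map.1 h2
        exact h _ (e3 ▸ hY₁ (mem_subW hv)) ⟨_, e1 ▸ hG (mem_subW hg), by rw [h1, wordG_cjW, e6]⟩
      · rw [h1, show u = [] from h2, wordG_nil, mul_one, one_mul]
  rw [← e1] at hsim cL hA cls idx
  rw [← e2] at cC hs idx hσC hC'
  rw [← e3] at cT hT hY₂ cls
  rw [← e4] at cU
  generalize subW gs (σ :: w.T) = Th at *
  have cenT : ∀ c ∈ d.C, c ∈ 𝒞(d.T) → c = 1 ∨ c = d.z := fun c h1 h2 =>
    o.sa.cenT c (by simpa [ht] using o.sa.cen c h1 fun u hu => h2 u (o.sa.A_le hu)) h2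
  have cL' : ∀ c ∈ d.C, c ∈ 𝒞(d.L) → c = 1 := fun c h1 h2 => by
    have h3 : c ∈ d.L := o.A_le_L (by simpa [ht] using o.sa.cen c h1 fun u hu => h2 u (o.A_le_L hu))
    rcases hsim.eq_bot_or_eq_top_of_normal (center d.L) inferInstance with h | h
    · have : (⟨c, h3⟩ : d.L) ∈ center d.L := mem_center_iff.2 fun g => Subtype.ext (h2 g g.2)
      rw [h, mem_bot] at this
      exact congrArg Subtype.val this
    · exact absurd (congrArg Subtype.val (mem_center_iff.1 (h ▸ mem_top (⟨_, o.T_le_L (o.B_le_T o.b_mem)⟩ : d.L))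
        ⟨_, o.A_le_L o.a_mem⟩)) o.ab_ne
  refine ⟨⟨o.L_le, o.L_norm, o.syl, hs,
    o.syl.eq_of_le (hs.isPGroup.to_le inf_le_left) (le_inf hT o.T_le_L) inf_le_right, hsim, cL', fun φ => ?_,
    fun a ha b hb a1 b1 => ?_, ⟨_, hm, fun h => ?_⟩, o.sa.A_le o.z_A, o.z_sq, o.z_ne, o.z_T, cenT,
    ⟨_, o.sa.A_le o.a_mem, _, o.B_le_T o.b_mem, o.sb.sq _ o.b_mem, o.sa.ab⟩, fun c h1 h2 =>
      cenT c (o.L_le (o.T_le_L h1)) fun u hu => hY₃ c h1 h2 u (hY₂ hu)⟩, o, fk, ht,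
    maxEOf d as bs x x' d.T o m m' f f' hc.1 hc.2.1 hc.2.2 le_rfl (by rw [cT, cU]) (Or.inl rfl), hout,
    m.bm.card.trans (hc.2.2 ▸ m'.bm.card.symm), fun a ha h2 => ?_⟩
  · have hj : Function.Injective (d.L.normalizerMonoidHom.comp (inclusion o.L_norm)) :=
      (injective_iff_map_eq_one _).2 fun c hc => Subtype.ext (cL' c c.2 fun g hg =>
        (mul_inv_eq_iff_eq_mul.1 (show (c : Γ) * g * (c : Γ)⁻¹ = g from
          congrArg Subtype.val (DFunLike.congr_fun hc (⟨g, hg⟩ : d.L)))).symm)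
    obtain ⟨c, rfl⟩ := (hj.bijective_of_nat_card_le (hA.trans cC.ge)).2 φ
    exact ⟨c, c.2, fun _ => rfl⟩
  · have := mul_mem ((idx a ha).resolve_left a1) (conj_mem (o.L_norm hσC) ((idx b hb).resolve_left b1))
    rwa [show a * wordG gs σ * (wordG gs σ * (b * wordG gs σ) * (wordG gs σ)⁻¹) =
      a * (wordG gs σ * wordG gs σ) * b by group, hσ.1, mul_one] at this
  · have := card_le_of_le (hC'.trans (sup_le e1.ge (zpowers_le.2 h)))
    omega
  · obtain ⟨r, hr, g, hg, e⟩ := cls.up Nat.prime_two rfl rfl o.syl.card_eq_pow o.T_le_L a ha (by rwa [pow_two])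
    refine ⟨g⁻¹, inv_mem hg, ?_⟩
    rw [← e, show g⁻¹ * (g * wordG gs r * g⁻¹) * g⁻¹⁻¹ = wordG gs r by group]
    simp only [List.mem_cons, List.not_mem_nil, or_false] at hr
    rcases hr with rfl | rfl | rfl
    exacts [one_mem _, e6 ▸ o.z_mem, e5 ▸ hy (mem_subW List.mem_cons_self)]

end CL.NS
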