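/-
Project NS3: the first component of `z` for `ON`.
-/
import Cfsg.Agent.NS3.Defs2

set_option autoImplicit false
set_option linter.unusedSectionVars false
open Cfsg Subgroup CL.Even CL.Grp CL.Wr
open scoped commutatorElement

namespace CL.NS

universe u

namespace ON1

variable {G : Type*} [Group G]

/-- the configuration inside `G` -/
structure H (t u z : G) (A C : Subgroup G) (φ ψ θ : MulAut G) : Prop where
  tt : t * t = 1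
  tA : t ∉ A
  uA : u ∈ A
  tC : t ∈ C
  uC : u ∈ C
  AD : A ≤ 𝒞(A)
  CD : C ≤ 𝒞(A)
  uu : u * u = z
  zz : z * z = 1
  z1 : z ≠ 1
  cV : ∀ a ∈ 𝒞(A), a * t = t * a → a ∈ A ∨ t * a ∈ A
  cK : ∀ a ∈ C, a * t = t * a → a ∈ zpowers u ∨ t * a ∈ zpowers u
  φt : φ t = t
  φA : ∀ a ∈ A, φ a ∈ A
  φ7 : φ ^ 7 = 1
  e013 : z * (φ ^ 1) z = (φ ^ 3) z
  f1 : ∀ v ∈ A, v * v = 1 → v * (φ ^ 6) v = (φ ^ 4) v → v = 1
  f2 : ∀ v ∈ A, v * v = 1 → v * (φ ^ 1) v * (φ ^ 2) v * (φ ^ 4) v = 1 → v = 1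
  ψC : ∀ a ∈ C, ψ a = a
  ψA : ∀ a ∈ A, ψ a ∈ A
  ψD : ∀ a ∈ 𝒞(A), ψ a ∈ 𝒞(A) ∧ ψ (ψ a) = a
  ψe : ψ ((φ ^ 1) z) = (φ ^ 1) z * z
  ψu : ∀ v ∈ A, v * ψ v ≠ u ∧ v * ψ v ≠ u⁻¹
  θt : θ t = t
  θz : θ z = z
  θC : ∀ a ∈ C, θ a ∈ C
  θ1 : ∀ a ∈ C, θ ((φ ^ 1) a) = (φ ^ 1) a
  θ3 : ∀ a ∈ C, ∃ b ∈ C, θ ((φ ^ 3) a) = (φ ^ 3) b

/-- `x` moves `t` to `t e` -/
structure Mv (t : G) (A : Subgroup G) (x e : G) : Prop where
  D : x ∈ 𝒞(A)
  m : e ∈ A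
  e : x * t * x⁻¹ = t * e

variable {t u z w x y e f a v : G} {A C : Subgroup G} {φ ψ θ : MulAut G}

theorem cz (hx : x ∈ 𝒞(A)) (ha : a ∈ A) : a * x = x * a := mem_cent.1 hx a ha
theorem cz' (hx : x ∈ 𝒞(A)) (ha : a ∈ A) (y : G) : a * (x * y) = x * (a * y) := by
  rw [← mul_assoc, cz hx ha, mul_assoc]
theorem cjz (hx : x ∈ 𝒞(A)) (ha : a ∈ A) : x * a * x⁻¹ = a := by rw [← cz hx ha, mul_inv_cancel_right]

theorem Mv.mul (h : Mv t A x e) (k : Mv t A y f) : Mv t A (x * y) (e * f) := ⟨mul_mem h.D k.D, mul_mem h.m k.m, by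
  calc _ = x * (y * t * y⁻¹) * x⁻¹ := by group
    _ = x * t * x⁻¹ * (x * f * x⁻¹) := by rw [k.e]; group
    _ = _ := by rw [h.e, cjz h.D k.m, mul_assoc]⟩

theorem Mv.inv (h : Mv t A x e) : Mv t A x⁻¹ e⁻¹ := ⟨inv_mem h.D, inv_mem h.m, by
  calc _ = x⁻¹ * (t * e) * x * (x⁻¹ * e⁻¹ * x⁻¹⁻¹) := by group
    _ = _ := by rw [← h.e, cjz (inv_mem h.D) (inv_mem h.m)]; group⟩

theorem Mv.map (h : Mv t A x e) (α : MulAut G) (ht : α t = t) (hx : α x ∈ 𝒞(A)) (he : α e ∈ A) :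
    Mv t A (α x) (α e) := ⟨hx, he, by simpa only [map_mul, map_inv, ht] using congrArg α h.e⟩

theorem Mv.cm (h : Mv t A x e) (he : e = 1) : x * t = t * x :=
  mul_inv_eq_iff_eq_mul.1 (by rw [h.e, he, mul_one])

theorem bil (hx : x ∈ 𝒞(A)) (hy : y ∈ 𝒞(A)) (ha : a ∈ A) (h : ⁅x, w⁆ ∈ A) : ⁅x, y * w * a⁆ = ⁅x, y⁆ * ⁅x, w⁆ := by
  calc _ = ⁅x, y⁆ * (y * (x * w * (a * x⁻¹) * a⁻¹ * w⁻¹) * y⁻¹) := by simp only [commutatorElement_def]; group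
    _ = ⁅x, y⁆ * (y * ⁅x, w⁆ * y⁻¹) := by rw [cz (inv_mem hx) ha]; simp only [commutatorElement_def]; group
    _ = _ := by rw [cjz hy h]

theorem pp (φ : MulAut G) (i j : ℕ) (x : G) : (φ ^ i) ((φ ^ j) x) = (φ ^ (i + j)) x := by rw [pow_add]; rfl

namespace H

variable (h : H t u z A C φ ψ θ)
include h

theorem zA : z ∈ A := h.uu ▸ mul_mem h.uA h.uA
theorem tD : t ∈ 𝒞(A) := h.CD h.tC
theorem ti : t⁻¹ = t := inv_eq_of_mul_eq_one_right h.tt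
theorem tl (x : G) : t * (t * x) = x := by rw [← mul_assoc, h.tt, one_mul]
theorem zl (x : G) : z * (z * x) = x := by rw [← mul_assoc, h.zz, one_mul]
theorem ui : u⁻¹ = z * u := inv_eq_of_mul_eq_one_left (by rw [mul_assoc, h.uu, h.zz])
theorem uA' (hv : v ∈ zpowers u) : v ∈ A := zpowers_le.2 h.uA hv

theorem four (hv : v ∈ zpowers u) : v = 1 ∨ v = u ∨ v = z ∨ v = u⁻¹ := by
  have h2 : u ^ (2 : ℤ) = z := by rw [zpow_two, h.uu]
  have h4 : u ^ (4 : ℤ) = 1 := by rw [show (4 : ℤ) = 2 + 2 from rfl, zpow_add, h2, h.zz]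
  obtain ⟨k, rfl⟩ := hv
  have e : u ^ k = u ^ (k % 4) := zpow_eq_zpow_emod k h4
  have : k % 4 = 0 ∨ k % 4 = 1 ∨ k % 4 = 2 ∨ k % 4 = 3 := by omega
  simp only [e]
  rcases this with e | e | e | e <;> rw [e]
  · exact .inl (zpow_zero _)
  · exact .inr (.inl (zpow_one _))
  · exact .inr (.inr (.inl h2))
  · exact .inr (.inr (.inr (by rw [h.ui, show (3 : ℤ) = 2 + 1 from rfl, zpow_add_one, h2])))

theorem sq (hv : v ∈ zpowers u) : (v * v = 1 ∧ (v = 1 ∨ v = z)) ∨ v * v = z := by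
  rcases h.four hv with rfl | rfl | rfl | rfl
  exacts [.inl ⟨mul_one _, .inl rfl⟩, .inr h.uu, .inl ⟨h.zz, .inr rfl⟩,
    .inr (by rw [← mul_inv_rev, h.uu]; exact inv_eq_of_mul_eq_one_right h.zz)]

theorem p7 (i : ℕ) (x : G) : (φ ^ (i + 7)) x = (φ ^ i) x := by rw [pow_add, h.φ7, mul_one]
theorem p0 (x : G) : (φ ^ 7) x = x := by rw [h.φ7]; rfl

theorem pt : ∀ i : ℕ, (φ ^ i) t = t
  | 0 => rfl
  | i + 1 => by rw [pow_succ, MulAut.mul_apply, h.φt, pt i]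

theorem pA (ha : a ∈ A) : ∀ i : ℕ, (φ ^ i) a ∈ A
  | 0 => ha
  | i + 1 => by rw [pow_succ', MulAut.mul_apply]; exact h.φA _ (pA ha i)

theorem pD (hx : x ∈ 𝒞(A)) (i : ℕ) : (φ ^ i) x ∈ 𝒞(A) := mem_cent.2 fun a ha => by
  have e : (φ ^ i) ((φ ^ (6 * i)) a) = a := by
    rw [pp, show i + 6 * i = 7 * i by ring, pow_mul, h.φ7, one_pow]; rfl
  rw [← e, ← map_mul, cz hx (h.pA ha _), map_mul]

theorem mp (m : Mv t A x e) (i : ℕ) : Mv t A ((φ ^ i) x) ((φ ^ i) e) := m.map _ (h.pt i) (h.pD m.D i) (h.pA m.m i)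

theorem ee (i : ℕ) : (φ ^ i) z * (φ ^ i) z = 1 := by rw [← map_mul, h.zz, map_one]
theorem e1 (i : ℕ) : (φ ^ i) z ≠ 1 := fun e => h.z1 ((map_eq_one_iff _ (φ ^ i).injective).1 e)
theorem e3 : (φ ^ 3) z ≠ z := fun e => h.e1 1 (mul_eq_left.1 (h.e013.trans e))
theorem mA (ha : a ∈ A) : Mv t A a 1 := ⟨h.AD ha, one_mem _, by rw [cz h.tD ha, mul_inv_cancel_right, mul_one]⟩
theorem mt : Mv t A t 1 := ⟨h.tD, one_mem _, by group⟩

theorem wt (m : Mv t A x e) (y : G) : x * (t * y) = t * (x * (e * y)) := by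
  rw [← cz' m.D m.m, ← mul_assoc t, ← m.e]; group

theorem step1 (hw : w ∈ C) (m : Mv t A w z) : w * w = 1 ∨ w * w = z := by
  have h2 : w * w ∈ zpowers u := by
    refine (h.cK _ (mul_mem hw hw) ((m.mul m).cm h.zz)).resolve_right fun k => h.z1 ?_
    have := cz m.D (h.uA' k)
    rw [h.wt m, cz' m.D h.zA, mul_assoc t, mul_right_inj, mul_assoc w, mul_right_inj, mul_right_inj] at this
    exact left_eq_mul.1 (this.trans (cz m.D h.zA))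
  have m1 := h.mp m 1
  have m2 := m1.map ψ (h.ψC t h.tC) (h.ψD _ m1.D).1 (h.ψA _ m1.m)
  have m3 := (m1.mul m).inv.mul m2
  obtain ⟨r, hr⟩ : ∃ r, r = ((φ ^ 1) w * w)⁻¹ * ψ ((φ ^ 1) w) := ⟨_, rfl⟩
  rw [← hr] at m3
  have e1 : ψ ((φ ^ 1) w) = (φ ^ 1) w * w * r := by rw [hr]; group
  have e2 := congrArg ψ e1
  rw [(h.ψD _ m1.D).2, map_mul, map_mul, e1, h.ψC w hw, mul_assoc, mul_assoc, mul_assoc, left_eq_mul] at e2
  have key : ∃ v ∈ A, w * w * (v * ψ v) = 1 ∨ z * (w * w) * (v * ψ v) = 1 := by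
    rcases h.cV r m3.D (m3.cm (by rw [h.ψe, inv_mul_cancel])) with k | k
    · exact ⟨r, k, .inl (by rwa [cz' m.D k, ← mul_assoc] at e2)⟩
    · refine ⟨t * r, k, .inr ?_⟩
      rw [← h.tl r, map_mul, h.ψC t h.tC, mul_assoc, cz' m.D k, cz' h.tD k, h.wt m, cz' m.D h.zA, cz' h.tD h.zA,
        ← mul_assoc w, cz' h.tD (h.uA' h2), h.tl] at e2
      rw [cz (h.AD (h.uA' h2)) h.zA, mul_assoc]; exact e2
  obtain ⟨v, hv, k⟩ := key
  have n := h.ψu v hv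
  have zu : z * u⁻¹ = u := by rw [h.ui, h.zl]
  rcases h.four h2 with e | e | e | e
  · exact .inl e
  · rw [e, ← h.ui] at k
    exact (k.elim (fun k => n.2 (eq_inv_of_mul_eq_one_right k)) fun k => n.1 (inv_mul_eq_one.1 k).symm).elim
  · exact .inr e
  · rw [e, zu] at k
    exact (k.elim (fun k => n.1 (inv_mul_eq_one.1 k).symm) fun k => n.2 (eq_inv_of_mul_eq_one_right k)).elim

theorem step2 (hw : w ∈ C) (m : Mv t A w z) : ∃ w ∈ C, Mv t A w z ∧ w * w = 1 := by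
  rcases h.step1 hw m with e | e
  · exact ⟨w, hw, m, e⟩
  · refine ⟨w * u, mul_mem hw h.uC, by simpa using m.mul (h.mA h.uA), ?_⟩
    rw [mul_assoc, cz' m.D h.uA, h.uu, ← mul_assoc, e, h.zz]

theorem step3 (hw : w ∈ C) (m : Mv t A w z) (w2 : w * w = 1) :
    ∃ w ∈ C, Mv t A w z ∧ w * w = 1 ∧ w * (φ ^ 1) w * (φ ^ 3) w ∈ A := by
  have m1 := h.mp m 1
  have m3 := h.mp m 3
  have mr := (m.mul m1).mul m3
  have cr := mr.cm (by rw [h.e013, h.ee])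
  rcases h.cV _ mr.D cr with k | k
  · exact ⟨w, hw, m, w2, k⟩
  refine ⟨w * t * u, mul_mem (mul_mem hw h.tC) h.uC, by simpa using (m.mul h.mt).mul (h.mA h.uA), ?_, ?_⟩
  · rw [mul_assoc, mul_assoc, mul_assoc, cz' m.D h.uA, cz' h.tD h.uA, h.uu, h.wt m, cz' m.D h.zA, ← mul_assoc w, w2,
      one_mul, cz' h.tD h.zA, h.tl, h.zz]
  · have u1 := h.pA h.uA 1
    have e : w * t * u * (φ ^ 1) (w * t * u) * (φ ^ 3) (w * t * u) = w * (φ ^ 1) w * (φ ^ 3) w * t *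
        ((φ ^ 1) z * ((φ ^ 1) u * (u * (φ ^ 3) u))) := by
      simp only [map_mul, h.pt, mul_assoc]
      rw [cz' m1.D h.uA, cz' h.tD h.uA, cz' (h.AD u1) h.uA, cz' m3.D h.uA, cz' h.tD h.uA, h.wt m1, h.tl,
        cz' m3.D u1, cz' h.tD u1, cz' m3.D m1.m, cz' h.tD m1.m]
    rw [e, cr]
    exact mul_mem k (mul_mem m1.m (mul_mem u1 (mul_mem h.uA (h.pA h.uA 3))))

theorem com (m : Mv t A x e) (k : Mv t A y f) (x2 : x * x = 1) (y2 : y * y = 1) (ef : e ≠ f) :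
    ⁅x, y⁆ ∈ A ∧ ⁅x, y⁆ * ⁅x, y⁆ = 1 := by
  have xi := inv_eq_of_mul_eq_one_right x2
  have yi := inv_eq_of_mul_eq_one_right y2
  have mc : Mv t A ⁅x, y⁆ _ := ((m.mul k).mul m.inv).mul k.inv
  have ix : x * ⁅x, y⁆ * x⁻¹ = ⁅x, y⁆⁻¹ := by
    rw [commutatorElement_inv, commutatorElement_def, commutatorElement_def, xi, yi, ← mul_assoc, ← mul_assoc,
      ← mul_assoc, x2, one_mul]
  have iy : y * ⁅x, y⁆ * y⁻¹ = ⁅x, y⁆⁻¹ := by
    rw [commutatorElement_inv, commutatorElement_def, commutatorElement_def, xi, yi, mul_assoc, mul_assoc, y2, mul_one,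
      ← mul_assoc, ← mul_assoc]
  rcases h.cV _ mc.D (mc.cm (by rw [cz (h.AD k.m) m.m]; group)) with c | c
  · exact ⟨c, by rw [cjz m.D c] at ix; exact mul_eq_one_iff_eq_inv.2 ix⟩
  · generalize ⁅x, y⁆ = g at c ix iy
    have l : ∀ {x e}, Mv t A x e → x * g * x⁻¹ = g⁻¹ → e = g * g := fun {x e} m i => by
      have e1 : x * (t * g) * x⁻¹ = x * t * x⁻¹ * (x * g * x⁻¹) := by group
      rw [cjz m.D c, m.e, i, mul_assoc, mul_right_inj] at e1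
      exact (eq_mul_inv_iff_mul_eq.1 e1).symm
    exact absurd ((l m ix).trans (l k iy).symm) ef

theorem step4 (m : Mv t A w z) (w2 : w * w = 1) (hr : w * (φ ^ 1) w * (φ ^ 3) w ∈ A) :
    w * (φ ^ 1) w = (φ ^ 1) w * w ∧ w * (φ ^ 1) w = (φ ^ 3) w := by
  obtain ⟨r, er⟩ : ∃ r, r = w * (φ ^ 1) w * (φ ^ 3) w := ⟨_, rfl⟩
  rw [← er] at hr
  have W2 : ∀ i : ℕ, (φ ^ i) w * (φ ^ i) w = 1 := fun i => by rw [← map_mul, w2, map_one]
  have Wl : ∀ (i : ℕ) x, (φ ^ i) w * ((φ ^ i) w * x) = x := fun i x => by rw [← mul_assoc, W2, one_mul]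
  have WD := h.pD m.D
  have rA := h.pA hr
  have E : ∀ i : ℕ, (φ ^ (i + 3)) w = (φ ^ (i + 1)) w * (φ ^ i) w * (φ ^ i) r := fun i => by
    simp only [er, map_mul, pp, mul_assoc, Wl]
  have E0 : (φ ^ 3) w = (φ ^ 1) w * w * r := E 0
  have E6 : (φ ^ 2) w = w * (φ ^ 6) w * (φ ^ 6) r := ((h.p7 2 w).symm.trans (E 6)).trans (by rw [h.p0])
  have E4 : w = (φ ^ 5) w * (φ ^ 4) w * (φ ^ 4) r := (h.p0 w).symm.trans (E 4)
  obtain ⟨cA, c2⟩ := h.com m (h.mp m 1) w2 (W2 1) fun e => h.e1 3 (by rw [← h.e013, ← e, h.zz])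
  have ci : ∀ i : ℕ, ((φ ^ i) ⁅w, (φ ^ 1) w⁆)⁻¹ = (φ ^ i) ⁅w, (φ ^ 1) w⁆ := fun i =>
    inv_eq_of_mul_eq_one_right (by rw [← map_mul, c2, map_one])
  have c3 : ⁅w, (φ ^ 3) w⁆ = ⁅w, (φ ^ 1) w⁆ := by
    rw [E0, bil m.D (WD 1) hr (by simp), commutatorElement_self, mul_one]
  have c6 : ⁅w, (φ ^ 6) w⁆ = (φ ^ 6) ⁅w, (φ ^ 1) w⁆ := by
    rw [← ci, map_commutatorElement, pp, h.p0, commutatorElement_inv]
  have c02 : ⁅w, (φ ^ 2) w⁆ = (φ ^ 6) ⁅w, (φ ^ 1) w⁆ := by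
    rw [E6, bil m.D m.D (rA 6) (c6 ▸ h.pA cA 6), commutatorElement_self, one_mul, c6]
  have c4 : ⁅w, (φ ^ 4) w⁆ = (φ ^ 4) ⁅w, (φ ^ 1) w⁆ := by
    rw [← ci, ← c3, map_commutatorElement, pp, h.p0, commutatorElement_inv]
  have c1 : ⁅w, (φ ^ 1) w⁆ = 1 := h.f1 _ cA c2 (by
    rw [← c4, E 1, bil m.D (WD 2) (rA 1) cA, c02, cz (h.AD cA) (h.pA cA 6)])
  have cm := commutatorElement_eq_one_iff_mul_comm.1 c1
  have r1 : r = 1 := h.f2 r hr ?_ ?_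
  · exact ⟨cm, by rw [E0, r1, mul_one, cm]⟩
  · have := W2 3
    rwa [E0, mul_assoc, cz' (mul_mem (WD 1) m.D) hr, ← mul_assoc, mul_assoc _ w, ← mul_assoc w, cm, mul_assoc _ w, w2,
      mul_one, W2, one_mul] at this
  · rw [E 2, E 1, E0] at E4
    simp only [mul_assoc] at E4
    rw [cz' (WD 2) (rA 2), Wl, cz' (WD 1) (rA 2), cz' (WD 1) hr, ← mul_assoc w, cm, mul_assoc, Wl, left_eq_mul,
      cz' (h.AD (rA 1)) (rA 2)] at E4
    rw [mul_assoc, mul_assoc]; exact E4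

theorem step6 (hw : w ∈ C) (m : Mv t A w z) (w2 : w * w = 1) (e : w * (φ ^ 1) w = (φ ^ 3) w) : θ w = w := by
  have zC : z ∈ C := h.uu ▸ mul_mem h.uC h.uC
  have m0 : Mv t A (θ w) z := h.θz ▸ m.map θ h.θt (h.CD (h.θC w hw)) (h.θz.symm ▸ h.zA)
  obtain ⟨b, hb, eb⟩ := h.θ3 w hw
  have mb : Mv t A b z := ⟨h.CD hb, h.zA, (φ ^ 3).injective (by
    have := congrArg θ (h.mp m 3).e
    simpa only [map_mul, map_inv, h.θt, h.pt, eb, ← h.e013, h.θz, h.θ1 z zC] using this)⟩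
  have ka := h.cK _ (mul_mem (inv_mem hw) (h.θC w hw)) ((m.inv.mul m0).cm (inv_mul_cancel z))
  have kb := h.cK _ (mul_mem (inv_mem hw) hb) ((m.inv.mul mb).cm (inv_mul_cancel z))
  obtain ⟨a, ea⟩ : ∃ a, a = w⁻¹ * θ w := ⟨_, rfl⟩
  obtain ⟨c, ec⟩ : ∃ c, c = w⁻¹ * b := ⟨_, rfl⟩
  rw [← ea] at ka
  rw [← ec] at kb
  have e1 : θ w = w * a := by rw [ea, mul_inv_cancel_left]
  have m1 := h.mp m 1
  have a2 : w * a * (w * a) = 1 := by rw [← e1, ← map_mul, w2, map_one]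
  have e2 : a * (φ ^ 1) w = (φ ^ 1) w * (φ ^ 3) c := by
    have := congrArg θ e
    rwa [map_mul, h.θ1 w hw, eb, e1, show b = w * c by rw [ec, mul_inv_cancel_left], map_mul, ← e, mul_assoc, mul_assoc,
      mul_right_inj] at this
  have n3 : ∀ v ∈ zpowers u, (φ ^ 3) (v * v) ≠ z := fun v hv k => by
    rcases h.sq hv with ⟨q, -⟩ | q <;> rw [q] at k
    exacts [h.z1 (by rw [← k, map_one]), h.e3 k]
  rcases ka with ka | ka
  · have aA := h.uA' ka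
    rw [cz m1.D aA, mul_right_inj] at e2
    rw [mul_assoc, cz' m.D aA, ← mul_assoc, w2, one_mul] at a2
    rcases kb with kb | kb
    · rcases h.sq ka with ⟨-, q | q⟩ | q
      · rw [e1, q, mul_one]
      · rcases h.sq kb with ⟨-, p | p⟩ | p
        exacts [absurd (by rw [← q, e2, p, map_one]) h.z1, absurd (by rw [← p, ← e2, q, p]) h.e3,
          absurd (by rw [← p, map_mul, ← e2, a2]) (h.e1 3)]
      · exact absurd (q.symm.trans a2) h.z1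
    · have := h.pA (h.uA' kb) 3
      rw [map_mul, h.pt, ← e2] at this
      exact absurd ((mul_mem_cancel_right aA).1 this) h.tA
  · obtain ⟨v, ev⟩ : ∃ v, v = t * a := ⟨_, rfl⟩
    rw [← ev] at ka
    have vA := h.uA' ka
    obtain rfl : a = t * v := by rw [ev, h.tl]
    rw [mul_assoc, mul_assoc, cz' m.D vA, cz' h.tD vA, h.wt m, cz' m.D h.zA, ← mul_assoc w, w2, one_mul,
      cz' h.tD h.zA, h.tl] at a2
    have v2 : v * v = z := by rw [← h.zl (v * v), a2, mul_one]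
    have e3 : t * (φ ^ 3) c = (φ ^ 1) z * v := by
      have i := m1.inv.e
      rw [inv_eq_of_mul_eq_one_right (h.ee 1), inv_inv] at i
      rw [← inv_mul_eq_iff_eq_mul.2 e2, mul_assoc t, cz m1.D vA, ← mul_assoc t, ← mul_assoc, ← mul_assoc, mul_assoc t,
        mul_assoc t, i, h.tl]
    rcases kb with kb | kb
    · exact absurd ((mul_mem_cancel_right (h.pA (h.uA' kb) 3)).1 (e3 ▸ mul_mem m1.m vA)) h.tA
    · refine absurd ?_ (n3 _ kb)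
      rw [map_mul, map_mul, h.pt, e3, mul_assoc, cz' (h.AD m1.m) vA, ← mul_assoc, h.ee, one_mul, v2]

theorem main (hw : w ∈ C) (m : Mv t A w z) : ∃ w ∈ C, w * w = 1 ∧ w * t * w = t * z ∧ θ w = w ∧
    w * (φ ^ 1) w = (φ ^ 1) w * w ∧ w * (φ ^ 1) w = (φ ^ 3) w := by
  obtain ⟨w, hw, m, w2⟩ := h.step2 hw m
  obtain ⟨w, hw, m, w2, hr⟩ := h.step3 hw m w2
  obtain ⟨e1, e2⟩ := h.step4 m w2 hr
  exact ⟨w, hw, w2, by rw [← m.e, inv_eq_of_mul_eq_one_right w2], h.step6 hw m w2 e2, e1, e2⟩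

end H

variable {Γ : Type*} [Group Γ] {d : Dat Γ} {L : Subgroup G} {π : G → Γ} {s : Γ → G}

/-- the image of a subgroup of `L` -/
def im (c : Sec d t L π s) (P : Subgroup Γ) (hP : P ≤ d.L) : Subgroup G where
  carrier := s '' P
  one_mem' := ⟨1, one_mem _, c.s_one⟩
  mul_mem' := by
    rintro _ _ ⟨x, hx, rfl⟩ ⟨y, hy, rfl⟩
    exact ⟨_, mul_mem hx hy, c.s_mul (hP hx) (hP hy)⟩
  inv_mem' := by
    rintro _ ⟨x, hx, rfl⟩
    exact ⟨_, inv_mem hx, c.s_inv (hP hx)⟩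

theorem rt_mem {ρ x : Γ} (hρ : ρ ∈ d.L) (i : ℕ) (hx : x ∈ d.L) : rt ρ i x ∈ d.L :=
  mul_mem (mul_mem (pow_mem hρ i) hx) (inv_mem (pow_mem hρ i))

theorem s_rt (c : Sec d t L π s) {ρ x : Γ} (hρ : ρ ∈ d.L) (i : ℕ) (hx : x ∈ d.L) :
    (MulAut.conj (s ρ) ^ i) (s x) = s (rt ρ i x) := by
  rw [← map_pow, MulAut.conj_apply, ← c.s_pow hρ, rt, c.s_cj (pow_mem hρ i) hx]

/-- conjugation by an element of the normaliser -/
theorem cj_cen (c : Sec d t L π s) {P : Subgroup Γ} (hP : P ≤ d.L) {g : Γ} (hg : g ∈ d.L) (hn : g ∈ 𝒩(P)) {a : G}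
    (ha : a ∈ 𝒞(im c P hP)) : s g * a * (s g)⁻¹ ∈ 𝒞(im c P hP) := mem_cent.2 (by
  rintro _ ⟨x, hx, rfl⟩
  have := mem_cent.1 ha _ ⟨_, conj_mem' hn hx, rfl⟩
  rw [c.s_mul (mul_mem (inv_mem hg) (hP hx)) hg, c.s_mul (inv_mem hg) (hP hx), c.s_inv hg] at this
  calc _ = s g * ((s g)⁻¹ * s x * s g * a) * (s g)⁻¹ := by group
    _ = _ := by rw [this]; group)

theorem mkH [Finite Γ] {Th V : Subgroup Γ} {u ρ κ τ : Γ} (m : Base d Th) (o : ONF d V u ρ κ τ) (c : Sec d t L π s)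
    (hK : Jc d.L d.z ≤ d.L) :
    H t (s u) (s d.z) (im c V (o.V_le.trans hK)) 𝒞(im c _ hK) (MulAut.conj (s ρ)) (MulAut.conj (s κ))
      (MulAut.conj (s τ)) := by
  have hV := o.V_le.trans hK
  have hu := hV o.u_mem
  have hz := m.z_L
  have hκ := hK o.κ_mem
  have r : ∀ (i : ℕ) {x : Γ}, x ∈ d.L → rt ρ i x ∈ d.L := fun i _ hx => rt_mem o.ρ_mem i hx
  have fx : ∀ {g x : G}, g * x = x * g → MulAut.conj g x = x := fun e => mul_inv_eq_iff_eq_mul.2 e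
  have e3 : τ * rt ρ 3 d.z = rt ρ 3 d.z * τ := by rw [← o.e013, ← mul_assoc, o.τ_z, mul_assoc, o.τ_e, mul_assoc]
  exact
  { tt := c.t_sq
    tA := fun ⟨x, hx, e⟩ => c.t_not (e ▸ c.s_mem x (hV hx))
    uA := ⟨u, o.u_mem, rfl⟩
    tC := mem_cent.2 (by rintro _ ⟨x, hx, rfl⟩; exact c.s_t (hK hx))
    uC := mem_cent.2 (by rintro _ ⟨x, hx, rfl⟩; exact c.s_comm (hK hx) hu (mem_cent.1 o.u_cen x hx))
    AD := by
      rintro _ ⟨x, hx, rfl⟩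
      exact mem_cent.2 (by rintro _ ⟨y, hy, rfl⟩; exact c.s_comm (hV hy) (hV hx) (o.V_comm y hy x hx))
    CD := centralizer_le (Set.image_mono o.V_le)
    uu := by rw [← c.s_mul hu hu, o.u_sq]
    zz := by rw [← c.s_mul hz hz, m.z_sq, c.s_one]
    z1 := fun e => m.z_ne (c.s_inj hz (one_mem _) (e.trans c.s_one.symm))
    cV := fun a ha e => by
      have ht := mem_cent1.2 e
      have k := o.cenV _ (c.mem a ht) (c.π_cent ht hV fun x hx => (mem_cent.1 ha _ ⟨x, hx, rfl⟩).symm)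
      exact (c.lift ht (hV k)).imp (fun q => ⟨_, k, q.symm⟩) fun q => ⟨_, k, by
        conv_rhs => rw [q, ← mul_assoc, c.t_sq, one_mul]⟩
    cK := fun a ha e => by
      have ht := mem_cent1.2 e
      have k := o.cenK _ (c.mem a ht) (c.π_cent ht hK fun x hx => (mem_cent.1 ha _ ⟨x, hx, rfl⟩).symm)
      have k1 : s (π a) ∈ zpowers (s u) := by
        obtain ⟨n, hn⟩ := mem_powers_iff_mem_zpowers.2 k
        rw [← hn, c.s_pow hu]; exact pow_mem (mem_zpowers _) n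
      exact (c.lift ht (zpowers_le.2 hu k)).imp (fun q => by rwa [q]) fun q => by
        rwa [q, ← mul_assoc, c.t_sq, one_mul]
    φt := fx (c.s_t o.ρ_mem)
    φA := by
      rintro _ ⟨x, hx, rfl⟩
      exact ⟨_, conj_mem o.ρ_V hx, c.s_cj o.ρ_mem (hV hx)⟩
    φ7 := by rw [← map_pow, ← c.s_pow o.ρ_mem, o.ρ7, c.s_one, map_one]
    e013 := by rw [s_rt c o.ρ_mem _ hz, s_rt c o.ρ_mem _ hz, ← c.s_mul hz (r 1 hz), o.e013]
    f1 := by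
      rintro _ ⟨x, hx, rfl⟩ h1 h2
      have x1 := hV hx
      rw [s_rt c o.ρ_mem _ x1, s_rt c o.ρ_mem _ x1, ← c.s_mul x1 (r 6 x1)] at h2
      rw [← c.s_mul x1 x1, ← c.s_one] at h1
      rw [o.f1 x hx (c.s_inj (mul_mem x1 x1) (one_mem _) h1) (c.s_inj (mul_mem x1 (r 6 x1)) (r 4 x1) h2), c.s_one]
    f2 := by
      rintro _ ⟨x, hx, rfl⟩ h1 h2
      have x1 := hV hx
      have x2 := mul_mem x1 (r 1 x1)
      have x3 := mul_mem x2 (r 2 x1)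
      rw [s_rt c o.ρ_mem _ x1, s_rt c o.ρ_mem _ x1, s_rt c o.ρ_mem _ x1, ← c.s_mul x1 (r 1 x1), ← c.s_mul x2 (r 2 x1),
        ← c.s_mul x3 (r 4 x1), ← c.s_one] at h2
      rw [← c.s_mul x1 x1, ← c.s_one] at h1
      rw [o.f2 x hx (c.s_inj (mul_mem x1 x1) (one_mem _) h1) (c.s_inj (mul_mem x3 (r 4 x1)) (one_mem _) h2), c.s_one]
    ψC := fun a ha => fx (mem_cent.1 ha _ ⟨κ, o.κ_mem, rfl⟩)
    ψA := by
      rintro _ ⟨x, hx, rfl⟩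
      exact ⟨_, conj_mem o.κ_V hx, c.s_cj hκ (hV hx)⟩
    ψD := fun a ha => ⟨cj_cen c hV hκ o.κ_V ha, by
      rw [← MulAut.mul_apply, ← map_mul, ← c.s_mul hκ hκ]; exact fx (mem_cent.1 ha _ ⟨_, o.κ_sq, rfl⟩)⟩
    ψe := by rw [s_rt c o.ρ_mem _ hz, MulAut.conj_apply, ← c.s_cj hκ (r 1 hz), o.κ_e, c.s_mul (r 1 hz) hz]
    ψu := by
      rintro _ ⟨x, hx, rfl⟩
      have x1 := hV (conj_mem o.κ_V hx)
      rw [MulAut.conj_apply, ← c.s_cj hκ (hV hx), ← c.s_mul (hV hx) x1, ← c.s_inv hu]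
      exact ⟨fun e => (o.κ_u x hx).1 (c.s_inj (mul_mem (hV hx) x1) hu e),
        fun e => (o.κ_u x hx).2 (c.s_inj (mul_mem (hV hx) x1) (inv_mem hu) e)⟩
    θt := fx (c.s_t o.τ_mem)
    θz := fx (c.s_comm o.τ_mem hz o.τ_z)
    θC := fun a ha => cj_cen c hK o.τ_mem (Jc_norm _ _ ⟨o.τ_mem, mem_cent1.2 o.τ_z⟩) ha
    θ1 := fun a ha => by
      have := mem_cent.1 ha _ ⟨_, o.τ_K, rfl⟩
      rw [c.s_mul (mul_mem (inv_mem o.ρ_mem) o.τ_mem) o.ρ_mem, c.s_mul (inv_mem o.ρ_mem) o.τ_mem,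
        c.s_inv o.ρ_mem] at this
      refine fx ?_
      rw [pow_one, MulAut.conj_apply]
      calc _ = s ρ * ((s ρ)⁻¹ * s τ * s ρ * a) * (s ρ)⁻¹ := by group
        _ = _ := by rw [this]; group
    θ3 := fun a ha => by
      have h3 := pow_mem o.ρ_mem 3
      have hg := mul_mem (mul_mem (inv_mem h3) o.τ_mem) h3
      refine ⟨_, cj_cen c hK hg (Jc_norm _ _ ⟨hg, mem_cent1.2 ?_⟩) ha, ?_⟩
      · calc _ = (ρ ^ 3)⁻¹ * (τ * rt ρ 3 d.z) * ρ ^ 3 := by rw [rt]; group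
          _ = _ := by rw [e3, rt]; group
      · rw [c.s_mul (mul_mem (inv_mem h3) o.τ_mem) h3, c.s_mul (inv_mem h3) o.τ_mem, c.s_inv h3, c.s_pow o.ρ_mem,
          ← map_pow]
        simp only [MulAut.conj_apply]
        group }

end ON1

open ON1

theorem on1B : ON1B.{u} := by
  intro Γ _ _ d Th V u ρ κ τ G _ _ t L π s w m o c hw
  have hK : Jc d.L d.z ≤ d.L := (Jc_le _ _).trans inf_le_left
  have h := mkH m o c hK
  have hC : w ∈ 𝒞(im c _ hK) := mem_cent.2 (by rintro _ ⟨x, hx, rfl⟩; exact (hw.2 x hx).symm)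
  obtain ⟨w, hC, w2, wt, wθ, e1, e2⟩ := h.main hC ⟨h.CD hC, h.zA, hw.1⟩
  obtain ⟨k, hk, kz⟩ := c.cmp w2 wt m.z_L fun g hg e => by
    rcases o.H_eq g hg e with q | q
    · exact mem_cent.1 hC _ ⟨g, q, rfl⟩
    · have := mem_cent.1 hC _ ⟨_, q, rfl⟩
      rw [← inv_mul_cancel_right g τ, c.s_mul (hK q) o.τ_mem, mul_assoc, mul_inv_eq_iff_eq_mul.1 wθ, ← mul_assoc, this,
        mul_assoc]
  have kr : ∀ i, k (rt ρ i d.z) = (MulAut.conj (s ρ) ^ i) w := fun i => by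
    rw [rt, hk.eqv _ (cl_z d) _ (pow_mem o.ρ_mem i), kz, c.s_pow o.ρ_mem, ← map_pow, MulAut.conj_apply]
  exact ⟨k, hk, by rw [o.e013, kr, kr, kz, e2], by rw [kr, kz, e1]⟩

end CL.NS
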