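/-
Project NS3 (helper40), job ON2SZ2 (helper19): the good pairs for `ON` and `Suz`.
-/
import Cfsg.Agent.NS3.Defs2

set_option autoImplicit false
set_option linter.unusedSectionVars false
open Cfsg Subgroup CL.Even CL.Grp CL.Wr

namespace CL.NS

universe u

namespace ON2SZ2

variable {G : Type*} [Group G] {Γ : Type*} [Group Γ] [Finite Γ] {d : Dat Γ} {Th : Subgroup Γ} {t : G} {L : Subgroup G}
  {π : G → Γ} {s k : Γ → G} {x y z g : Γ}

theorem inv_self {a : G} (h : a * a = 1) : a⁻¹ = a := inv_eq_of_mul_eq_one_right h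

theorem cj_of {a b : G} (h : Commute a b) : a * b * a⁻¹ = b := by rw [h.eq, mul_inv_cancel_right]

theorem of_cj {a b : G} (h : a * b * a⁻¹ = b) : Commute a b := mul_inv_eq_iff_eq_mul.1 h

section Basic

variable (m : Base d Th) (c : Sec d t L π s) (K : Cmp d t s k)
include m c K

theorem kc (hx : cl d x) (hg : g ∈ d.L) (e : g * x = x * g) : Commute (s g) (k x) :=
  of_cj (by rw [← K.eqv x hx g hg, e, mul_inv_cancel_right])

theorem nt (hx : cl d x) : ¬ Commute (k x) t := fun h => by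
  have e := K.tc x hx
  rw [h.eq, mul_assoc, K.sq x hx, mul_one, left_eq_mul, ← c.s_one] at e
  exact (m.cl_iv hx).2 (c.s_inj (m.cl_mem hx) (one_mem _) e)

theorem ssq (hx : cl d x) : s x * s x = 1 := by
  rw [← c.s_mul (m.cl_mem hx) (m.cl_mem hx), (m.cl_iv hx).1, c.s_one]

/-- if `y x y⁻¹ = x z`, then `x₁ ŷ x₁ = ŷ z₁`. -/
theorem flip (hx : cl d x) (hz : cl d z) (hy : y ∈ d.L) (e : y * x * y⁻¹ = x * z) (yz : y * z = z * y)
    (a : k x * k z = k (x * z)) : k x * s y * (k x)⁻¹ = s y * k z := by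
  have h := K.eqv x hx y hy
  rw [e, ← a, eq_mul_inv_iff_mul_eq] at h
  rw [inv_self (K.sq x hx), mul_assoc, ← h, ← mul_assoc, ← mul_assoc, K.sq x hx, one_mul, (kc m c K hz hy yz).eq]

end Basic

omit [Finite Γ] in
theorem dih (x2 : x * x = 1) (y2 : y * y = 1) (z2 : z * z = 1) (e : x * y * (x * y) = z) :
    x * z = z * x ∧ y * z = z * y ∧ y * x * y⁻¹ = x * z ∧ x * y * x⁻¹ = y * z := by
  have e' : y * x * (y * x) = z := by
    rw [← inv_self z2, ← e, mul_inv_rev, mul_inv_rev, inv_self x2, inv_self y2]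
  have h1 : x * z = z * x := by rw [← e', ← mul_assoc, ← mul_assoc, ← mul_assoc, mul_assoc (x * y), e, e']
  have h2 : y * z = z * y := by rw [← e, ← mul_assoc, ← mul_assoc, ← mul_assoc, mul_assoc (y * x), e, e']
  refine ⟨h1, h2, ?_, ?_⟩
  · rw [inv_self y2, ← e, ← mul_assoc, ← mul_assoc, ← mul_assoc, x2, one_mul]
  · rw [inv_self x2, ← e', ← mul_assoc, ← mul_assoc, ← mul_assoc, y2, one_mul]

theorem lemD (m : Base d Th) (c : Sec d t L π s) (K : Cmp d t s k) (h : DF d x y z) (a1 : Ad k x z) (a2 : Ad k y z) :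
    k x * k y * (k x * k y) = k z ∨ k x * k y * (k x * k y) = k z * s z := by
  obtain ⟨hx, hy, hz, e, g, hg, gx, gy, hγ⟩ := h
  have xL := m.cl_mem hx
  have yL := m.cl_mem hy
  have zL := m.cl_mem hz
  obtain ⟨xz, yz, e1, e2⟩ := dih (m.cl_iv hx).1 (m.cl_iv hy).1 (m.cl_iv hz).1 e
  have f1 := flip m c K hx hz yL e1 yz a1.1
  have f2 := flip m c K hy hz xL e2 xz a2.1
  have t1 : k x * t * (k x)⁻¹ = t * s x := by rw [inv_self (K.sq x hx), K.tc x hx]
  have t2 : k y * t * (k y)⁻¹ = t * s y := by rw [inv_self (K.sq y hy), K.tc y hy]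
  have t3 : k z * t * (k z)⁻¹ = t * s z := by rw [inv_self (K.sq z hz), K.tc z hz]
  have z2 := K.sq z hz
  have xX := kc m c K hx xL rfl
  have yY := kc m c K hy yL rfl
  have zX := kc m c K hz xL xz
  have zY := kc m c K hz yL yz
  have zZ := kc m c K hz zL rfl
  have eS : s x * s y * (s x * s y) = s z := by
    rw [← c.s_mul xL yL, ← c.s_mul (mul_mem xL yL) (mul_mem xL yL), e]
  set ρ := k x * k y with hρ
  have r0 : ∀ a, ρ * a * ρ⁻¹ = k x * (k y * a * (k y)⁻¹) * (k x)⁻¹ := fun a => by rw [hρ]; group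
  have rz : Commute ρ (k z) := Commute.mul_left a1.2 a2.2
  have r1 : ρ * t * ρ⁻¹ = t * s x * (s y * k z) := by rw [r0, t2, ← conj_mul, t1, f1]
  have r2 : ρ * s x * ρ⁻¹ = s x * k z := by rw [r0, f2, ← conj_mul, cj_of xX.symm, cj_of a1.2]
  have r3 : ρ * s y * ρ⁻¹ = s y * k z := by rw [r0, cj_of yY.symm, f1]
  have rr : ∀ a, ρ * ρ * a * (ρ * ρ)⁻¹ = ρ * (ρ * a * ρ⁻¹) * ρ⁻¹ := fun a => by group
  have q2 : Commute (ρ * ρ) (s x) := of_cj (by rw [rr, r2, ← conj_mul, r2, cj_of rz, mul_assoc, z2, mul_one])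
  have q3 : Commute (ρ * ρ) (s y) := of_cj (by rw [rr, r3, ← conj_mul, r3, cj_of rz, mul_assoc, z2, mul_one])
  have q4 : Commute (ρ * ρ) (s z) := eS ▸ (q2.mul_right q3).mul_right (q2.mul_right q3)
  have q1 : ρ * ρ * t * (ρ * ρ)⁻¹ = t * s z := by
    rw [rr, r1, ← conj_mul, ← conj_mul, ← conj_mul, r1, r2, r3, cj_of rz, ← eS]
    calc _ = t * s x * s y * (k z * (s x * k z)) * s y * (k z * k z) := by simp only [mul_assoc]
      _ = _ := by rw [zX.eq, ← mul_assoc (k z), z2]; simp only [mul_assoc, one_mul, mul_one]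
  set j := ρ * ρ * k z with hj
  have jt : j ∈ centralizer {t} := mem_cent1.2 (of_cj (by
    rw [show j * t * j⁻¹ = ρ * ρ * (k z * t * (k z)⁻¹) * (ρ * ρ)⁻¹ by rw [hj]; group, t3, ← conj_mul, q1, cj_of q4,
      mul_assoc, ssq m c K hz, mul_one]))
  have jz : Commute j (k z) := (rz.mul_left rz).mul_left (Commute.refl _)
  have gz : g * z = z * g := mul_inv_eq_iff_eq_mul.1 (by
    rw [← e, ← conj_mul, ← conj_mul, gx, gy, ← inv_self (m.cl_iv hx).1, ← inv_self (m.cl_iv hy).1, ← mul_inv_rev,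
      ← mul_inv_rev, inv_self (m.cl_iv hx).1, inv_self (m.cl_iv hy).1, e, inv_self (m.cl_iv hz).1])
  have gρ : s g * ρ * (s g)⁻¹ = ρ⁻¹ := by
    rw [hρ, ← conj_mul, ← K.eqv x hx g hg, ← K.eqv y hy g hg, gx, gy, mul_inv_rev, inv_self (K.sq x hx),
      inv_self (K.sq y hy)]
  have gj : s g * j * (s g)⁻¹ = j⁻¹ := by
    rw [hj, ← conj_mul, ← conj_mul, gρ, cj_of (kc m c K hz hg gz), mul_inv_rev (ρ * ρ),
      mul_inv_rev ρ ρ, inv_self z2, ((rz.inv_left.mul_left rz.inv_left).eq)]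
  have hp := hγ (π j) (c.mem j jt) (c.π_cent jt (inf_le_left.trans inf_le_left) fun a ha => by
      have ax : a * x = x * a := mem_cent1.1 ha.1.2
      have ay : a * y = y * a := mem_cent1.1 ha.2
      have az : a * z = z * a := by
        have : Commute a (x * y) := Commute.mul_right ax ay
        exact e ▸ (this.mul_right this).eq
      have ar : Commute (s a) ρ := (kc m c K hx ha.1.1 ax).mul_right (kc m c K hy ha.1.1 ay)
      exact ((ar.mul_right ar).mul_right (kc m c K hz ha.1.1 az)).symm.eq)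
    (c.π_comm jt xL (q2.mul_left zX.symm).eq) (c.π_comm jt yL (q3.mul_left zY.symm).eq)
    (by rw [← c.π_inv jt, ← gj, c.π_conj (c.s_cen hg) jt, c.π_s g hg])
  have hL : π j ∈ d.L := by rcases hp with h | h <;> rw [h]; exacts [one_mem _, zL]
  have hc : Commute (s (π j)) (k z) := by
    rcases hp with h | h <;> rw [h]
    · rw [c.s_one]; exact Commute.one_left _
    · exact zZ
  rcases c.lift jt hL with l | l
  · rcases hp with h | h <;> rw [h, hj, ← eq_mul_inv_iff_mul_eq, inv_self z2] at l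
    · exact .inl (by rw [l, c.s_one, one_mul])
    · exact .inr (by rw [l, zZ.eq])
  · refine absurd ?_ (nt m c K hz)
    rw [← mul_inv_eq_iff_eq_mul] at l
    rw [← l]
    exact (jz.mul_left hc.inv_left).symm

end ON2SZ2

open ON2SZ2

theorem sz2B : SZ2B.{u} := by
  intro Γ _ _ d Th U b b' w n n' g G _ _ t L π s k m S c K A
  obtain ⟨hb, hw, hn, e1, -⟩ := S.d1
  obtain ⟨-, hn', hz, e2, -⟩ := S.d2
  obtain ⟨bn, wn, w1, -⟩ := dih (m.cl_iv hb).1 (m.cl_iv hw).1 (m.cl_iv hn).1 e1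
  obtain ⟨bz, nz', n1, n2⟩ := dih (m.cl_iv hb).1 (m.cl_iv hn').1 (m.cl_iv hz).1 e2
  have hg := S.g_mem
  have hb' : cl d b' := S.g_b ▸ hb.conj hg
  have gw : ∀ a, w * a = a * w → w * (g * a * g⁻¹) = g * a * g⁻¹ * w := fun a h => by
    conv_lhs => rw [← S.g_w, conj_mul, h, ← conj_mul, S.g_w]
  have wn' : Commute w n' := S.g_n ▸ gw n wn
  have wz : Commute w d.z := by
    have h : Commute w (n * n' * d.z) := S.g_n' ▸ gw n' wn'
    have := ((Commute.mul_right wn wn').inv_right).mul_right h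
    rwa [inv_mul_cancel_left] at this
  have nz : Commute n d.z := by
    have : Commute (b * w) d.z := Commute.mul_left bz wz
    exact e1 ▸ this.mul_left this
  have nn : Commute n n' := of_cj (by
    rw [← e1, show b * w * (b * w) * n' * (b * w * (b * w))⁻¹ = b * (w * (b * (w * n' * w⁻¹) * b⁻¹) * w⁻¹) * b⁻¹ by group,
      cj_of wn', n2, cj_of (wn'.mul_right wz), ← conj_mul, n2, cj_of bz, mul_assoc, m.z_sq, mul_one])
  have nL := m.cl_mem hn
  have nL' := m.cl_mem hn'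
  have zL := m.z_L
  have ib := inv_self (K.sq b hb)
  have ib' := inv_self (K.sq b' hb')
  have key : ∀ {x y : Γ} {N : G}, cl d x → cl d y → k x * k y * (k x * k y) = N → k x * k y * (k x)⁻¹ = N * k y :=
    fun {x y N} hx hy h => by rw [← h, mul_assoc _ (k x * k y), mul_assoc (k x) (k y) (k y), K.sq y hy, mul_one,
      inv_self (K.sq x hx)]
  have fw := flip m c K hb hn (m.cl_mem hw) w1 wn (A _ _ S.t1).1
  rcases lemD m c K S.d1 (A _ _ S.t1) (A _ _ S.t2) with h | h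
  · have h1 := key hb hw h
    refine (of_cj ?_).eq
    rw [← conj_mul, h1, fw, (kc m c K hn (m.cl_mem hw) wn).eq, ← (A _ _ S.t2).2, mul_assoc, ← mul_assoc (k n), K.sq n hn,
      one_mul]
  · exfalso
    have h1 := key hb hw h
    have cg : ∀ {x x' y y' : Γ}, cl d x → cl d y → g * x * g⁻¹ = x' → g * y * g⁻¹ = y' →
        k x * k w * (k x)⁻¹ = k y * s y * k w → k x' * k w * (k x')⁻¹ = k y' * s y' * k w := fun {x x' y y'} hx hy ex ey h => by
      have gw' : k w = s g * k w * (s g)⁻¹ := by rw [← K.eqv w hw g hg, S.g_w]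
      rw [← ex, ← ey, K.eqv x hx g hg, K.eqv y hy g hg, c.s_cj hg (m.cl_mem hy), gw', conj_inv, conj_mul, conj_mul, h,
        conj_mul, conj_mul]
    have h2 := cg hb hn S.g_b S.g_n h1
    have h3 := cg hb' hn' S.g_b' S.g_n' h2
    have fn := flip m c K hb hz nL' n1 nz' (A _ _ S.t3).1
    rw [← (A _ _ S.t5).1, ← (A _ _ S.t7).1, ← (A _ _ S.t6).1, c.s_mul (mul_mem nL nL') zL, c.s_mul nL nL',
      show k b * k b' * k w * (k b * k b')⁻¹ = k b * (k b' * k w * (k b')⁻¹) * (k b)⁻¹ by group, h2, ← conj_mul,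
      ← conj_mul, h1, fn, ← mul_assoc, mul_left_inj] at h3
    have c1 : Commute (k n) (k n') := (A _ _ S.t6).2
    have c2 : Commute (k n) (k d.z) := (A _ _ S.t8).2
    have c3 : Commute (k n') (k d.z) := (A _ _ S.t4).2
    have c4 := kc m c K hn nL' nn.symm.eq
    have c5 := kc m c K hz nL' nz'
    have c6 : Commute (s n) (s n') := c.s_comm nL nL' nn
    have c7 : Commute (s n) (s d.z) := c.s_comm nL zL nz
    have c8 : Commute (s n') (s d.z) := c.s_comm nL' zL nz'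
    have c9 := kc m c K hn zL nz.symm.eq
    have c10 := kc m c K hn' zL nz'.symm
    have c11 := kc m c K hz zL rfl
    have h4 : k b * k n' * (k b)⁻¹ = s d.z * k n' := by
      refine mul_right_cancel (b := s n' * k d.z * (k n * s n)) ?_
      rw [← mul_assoc, h3]
      calc _ = k n * k n' * k d.z * (s d.z * (s n' * s n)) := by rw [c6.eq, (c8.mul_left c7).eq]
        _ = s d.z * (k n * (k n' * (k d.z * s n'))) * s n := by
          rw [← mul_assoc, ← ((c9.mul_right c10).mul_right c11).eq]; simp only [mul_assoc]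
        _ = _ := by rw [(c1.mul_right (c2.mul_right c4.symm)).eq, ← c5.eq]; simp only [mul_assoc]
    refine nt m c K hz ?_
    rcases lemD m c K S.d2 (A _ _ S.t3) (A _ _ S.t4) with h | h <;> have h5 := key hb hn' h <;>
      rw [h4, mul_left_inj] at h5
    · exact h5 ▸ c.s_t zL
    · rw [right_eq_mul] at h5
      rw [h5]; exact Commute.one_left _

theorem on2B (NJ : NJB.{u}) : ON2B.{u} := by
  intro Γ _ _ d Th A Q σ e₀ g u e b y y' ν G _ _ t L π s k m C Z O c K a0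
  have hz := cl_z d
  have zL := m.z_L
  have QL : ∀ q ∈ Q, q ∈ d.L := fun q hq => (Jc_le _ _ (O.Q_le hq)).1
  have Jz : ∀ q ∈ Jc d.L d.z, q * d.z = d.z * q := fun q hq => mem_cent1.1 (Jc_le _ _ hq).2
  have hcl : ∀ x, x = b ∨ x = y ∨ x = y' → cl d x := fun x hx => by
    obtain ⟨-, ⟨h, hh, -, rfl⟩, -⟩ := O.tri x hx
    exact O.e_cl.conj hh
  have hb := hcl b (.inl rfl)
  have hy := hcl y (.inr (.inl rfl))
  have hy' := hcl y' (.inr (.inr rfl))
  have bQ := (O.tri b (.inl rfl)).1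
  have yQ := (O.tri y (.inr (.inl rfl))).1
  have yQ' := (O.tri y' (.inr (.inr rfl))).1
  have ze : cl d (d.z * e) := by
    obtain ⟨-, ⟨h, hh, hc, e1⟩, -⟩ := O.tri y (.inr (.inl rfl))
    have := (hy.conj (QL _ yQ')).conj (inv_mem hh)
    rwa [O.yy, Jz y (O.Q_le yQ), e1, show h⁻¹ * (d.z * (h * e * h⁻¹)) * h⁻¹⁻¹ = h⁻¹ * (d.z * h) * e by group, ← hc,
      inv_mul_cancel_left] at this
  have ad : ∀ x, x = b ∨ x = y ∨ x = y' → k x * k d.z = k (x * d.z) ∧ Commute (k x) (k d.z) := fun x hx => by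
    obtain ⟨xQ, ⟨h, hh, hc, e1⟩, -⟩ := O.tri x hx
    have e2 : k x = s h * k e * (s h)⁻¹ := by rw [e1, K.eqv e O.e_cl h hh]
    have e3 := cj_of (kc m c K hz hh hc)
    have e4 : Commute (k x) (k d.z) := by
      show _ = _
      rw [e2, ← e3, conj_mul, conj_mul, a0.2]
    refine ⟨?_, e4⟩
    rw [e4.eq, Jz x (O.Q_le xQ), e2, ← e3, conj_mul, a0.1, ← K.eqv _ ze h hh, ← conj_mul, ← e1, hc, mul_inv_cancel_right]
  have z2 := K.sq _ hz
  have act : ∀ x, x = b ∨ x = y ∨ x = y' → ∀ q ∈ Q, (q * x * q⁻¹ = x ∧ s q * k x * (s q)⁻¹ = k x) ∨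
      (q * x * q⁻¹ = x * d.z ∧ s q * k x * (s q)⁻¹ = k x * k d.z) := fun x hx q hq =>
    ((O.tri x hx).2.2 q hq).imp (fun h => ⟨h, by rw [← K.eqv x (hcl x hx) q (QL q hq), h]⟩)
      fun h => ⟨h, by rw [← K.eqv x (hcl x hx) q (QL q hq), h, (ad x hx).1]⟩
  have act' : ∀ x, x = b ∨ x = y ∨ x = y' → ∀ q ∈ Q, ∃ δ ∈ zpowers (k d.z), k x * s q * (k x)⁻¹ = s q * δ :=
    fun x hx q hq => by
      rcases (O.tri x hx).2.2 q hq with h | h
      · exact ⟨1, one_mem _, by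
          rw [mul_one, cj_of (kc m c K (hcl x hx) (QL q hq) (mul_inv_eq_iff_eq_mul.1 h)).symm]⟩
      · exact ⟨_, mem_zpowers _, flip m c K (hcl x hx) hz (QL q hq) h (Jz q (O.Q_le hq)) (ad x hx).1⟩
  have zp : ∀ {a δ : G}, Commute a (k d.z) → δ ∈ zpowers (k d.z) → Commute a δ := fun {a δ} h hδ => by
    obtain ⟨n, rfl⟩ := mem_zpowers_iff.1 hδ
    exact h.zpow_right n
  have cb := (ad b (.inl rfl)).2
  have cy := (ad y (.inr (.inl rfl))).2
  have cy' := (ad y' (.inr (.inr rfl))).2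
  set v := k b * k y * k y' with hv
  have vz : Commute v (k d.z) := (cb.mul_left cy).mul_left cy'
  have vc : ∀ a ∈ d.L, (∀ q ∈ Q, a * q = q * a) → Commute v (s a) := fun a ha h =>
    (((kc m c K hb ha (h b bQ)).mul_right (kc m c K hy ha (h y yQ))).mul_right (kc m c K hy' ha (h y' yQ'))).symm
  have vu := vc u O.u_mem fun q hq => (O.u_cen q (O.Q_le hq)).symm
  have vZ := vc _ zL fun q hq => (Jz q (O.Q_le hq)).symm
  have vq : ∀ q ∈ Q, Commute (s q) v := fun q hq => by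
    have hu : q * b * q⁻¹ * (q * y * q⁻¹) * (q * y' * q⁻¹) = b * y * y' := by
      rw [conj_mul, conj_mul, O.prod, O.u_cen q (O.Q_le hq), mul_inv_cancel_right]
    have zy : Commute d.z y := (Jz y (O.Q_le yQ)).symm
    have zy' : Commute d.z y' := (Jz y' (O.Q_le yQ')).symm
    refine of_cj ?_
    rw [hv, ← conj_mul, ← conj_mul]
    rcases act b (.inl rfl) q hq with ⟨h1, k1⟩ | ⟨h1, k1⟩ <;> rcases act y (.inr (.inl rfl)) q hq with ⟨h2, k2⟩ | ⟨h2, k2⟩ <;>
      rcases act y' (.inr (.inr rfl)) q hq with ⟨h3, k3⟩ | ⟨h3, k3⟩ <;> rw [h1, h2, h3] at hu <;> rw [k1, k2, k3] <;>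
      simp only [mul_assoc, zy.left_comm, zy'.left_comm, zy'.eq, m.z_sq, mul_right_inj, mul_eq_left, m.z_ne,
        mul_one, cy.symm.left_comm, cy'.symm.left_comm, z2] at hu ⊢
  obtain ⟨δ, hδ, vt⟩ : ∃ δ ∈ zpowers (k d.z), v * t * v⁻¹ = t * s u * δ := by
    obtain ⟨δ₁, h1, e1⟩ := act' y (.inr (.inl rfl)) y' yQ'
    obtain ⟨δ₂, h2, e2⟩ := act' b (.inl rfl) y yQ
    obtain ⟨δ₃, h3, e3⟩ := act' b (.inl rfl) y' yQ'
    have tt : ∀ x, cl d x → k x * t * (k x)⁻¹ = t * s x := fun x hx => by rw [inv_self (K.sq x hx), K.tc x hx]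
    refine ⟨δ₂ * δ₃ * δ₁, mul_mem (mul_mem h2 h3) h1, ?_⟩
    rw [show v * t * v⁻¹ = k b * (k y * (k y' * t * (k y')⁻¹) * (k y)⁻¹) * (k b)⁻¹ by rw [hv]; group, tt y' hy',
      ← conj_mul (a := t), tt y hy, e1, ← conj_mul, ← conj_mul (a := t), ← conj_mul (a := s y'), tt b hb, e2, e3, cj_of (zp cb h1), ← O.prod,
      c.s_mul (mul_mem (QL _ bQ) (QL _ yQ)) (QL _ yQ'), c.s_mul (QL _ bQ) (QL _ yQ)]
    simp only [mul_assoc, (zp (kc m c K hz (QL _ yQ') (Jz _ (O.Q_le yQ'))) h2).left_comm]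
  obtain ⟨γ, hγ, hγ'⟩ := NJ d Th A σ e₀ g t L π s v m C Z c fun j hj => by
    have jL : j ∈ d.L := (Jc_le _ _ hj).1
    have cc : ∀ {a : G}, Commute (s j) a → Commute (v * s j * v⁻¹) (v * a * v⁻¹) := fun {a} h => by
      show _ = _
      rw [conj_mul, conj_mul, h.eq]
    have h1 := cc (c.s_t jL)
    have h2 := cc (c.s_comm jL O.u_mem (O.u_cen j hj))
    have h3 := cc (zp (kc m c K hz jL (Jz j hj)) hδ)
    have h4 := cc (c.s_comm jL zL (Jz j hj))
    rw [vt] at h1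
    rw [cj_of vu] at h2
    rw [cj_of (zp vz hδ)] at h3
    rw [cj_of vZ] at h4
    refine ⟨?_, h4⟩
    have := (h1.mul_right h3.inv_right).mul_right h2.inv_right
    rwa [mul_inv_cancel_right, mul_inv_cancel_right] at this
  have γK := O.cenQ γ hγ (mem_cent.2 fun q hq => by
    obtain ⟨h1, h2⟩ := hγ' q (O.Q_le hq)
    rw [cj_of (vq q hq).symm] at h2
    exact (mul_inv_eq_iff_eq_mul.1 (c.s_inj (QL q hq) (Jc_le _ _ h1).1 h2).symm).symm)
  have νL : ν ∈ d.L := (Jc_le _ _ O.ν_mem).1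
  have vν : Commute v (s ν) := of_cj (by rw [(hγ' ν O.ν_mem).2, ← γK ν O.ν_mem, mul_inv_cancel_right])
  have νb : ν * b * ν⁻¹ = b * d.z := by
    have h : ν * b * ν⁻¹ * (ν * y * ν⁻¹) * (ν * y' * ν⁻¹) = b * y * y' := by
      rw [conj_mul, conj_mul, O.prod, O.u_cen ν O.ν_mem, mul_inv_cancel_right]
    rw [O.ν_y, O.ν_y', mul_assoc, mul_inv_eq_iff_eq_mul.1 O.yy, ← mul_assoc, mul_left_inj, Jz y (O.Q_le yQ), ← mul_assoc,
      mul_left_inj] at h
    rw [eq_mul_inv_of_mul_eq h, inv_self m.z_sq]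
  have h1 := cj_of vν.symm
  rw [hv, ← conj_mul, ← conj_mul, ← K.eqv b hb ν νL, ← K.eqv y hy ν νL, ← K.eqv y' hy' ν νL, νb, O.ν_y, O.ν_y',
    ← (ad b (.inl rfl)).1, mul_assoc, mul_assoc, mul_assoc, mul_right_inj] at h1
  have h2 := K.eqv y hy y' (QL _ yQ')
  rw [O.yy, ← (ad y (.inr (.inl rfl))).1, eq_mul_inv_iff_mul_eq] at h2
  show _ = _
  rw [mul_assoc (k y'), ← h2, ← mul_assoc, ← h1, cy.eq]
  simp only [mul_assoc, cy'.left_comm]

end CL.NS
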