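/-
Project NS3: the interface for the model `Aut(ON)`.  `B = 4.L₃(4).2²` is the centraliser of `z` in `Aut(ON)`.
-/
import Cfsg.Agent.NS3.Defs2
import Cfsg.Agent.NS3.Rep
import Cfsg.Agent.Spor.ONSDat

set_option autoImplicit false
open Cfsg Subgroup CL.Even CL.Grp CL.Wr
open scoped commutatorElement

namespace CL.NS

/-- The facts about `B = 4.L₃(4).2²`; `A = 4.L₃(4).2`, `M = 4.L₃(4)`, `V = 4³`, `Q = 4 ∘ 2¹⁺⁴`, `P = A₅`. -/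
structure OB (B : Type) [Group B] where
  (f a e d s u σ κ y b ν h k : B)
  (A M T Th V Q P : Subgroup B)
  card : Nat.card B = 322560
  cardA : Nat.card A = 161280
  cardM : Nat.card M = 80640
  cardT : Nat.card T = 512
  cardTh : Nat.card Th = 1024
  f_cen : ∀ x, x * f = f * x
  ff : f * f = 1
  f1 : f ≠ 1
  M_le : M ≤ A
  T_le : T ≤ A
  T_Th : T ≤ Th
  V_T : V ≤ T
  V_M : V ≤ M
  Q_M : Q ≤ M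
  σ_not : σ ∉ A
  σ_Th : σ ∈ Th
  σσ : σ * σ = 1
  σ_V : ∀ v ∈ V, σ * v * σ⁻¹ = v⁻¹
  d_A : d ∈ A
  d_not : d ∉ M
  da : d * a = a * d
  du : d * u ≠ u * d
  quasi : IsQuasisimple M
  autM : Nat.card (MulAut M) ≤ 80640
  u_V : u ∈ V
  uu : u * u = f
  cenM : 𝒞(M) = zpowers u
  cenV : 𝒞(V) = V
  a_V : a ∈ V
  e_V : e ∈ V
  aa : a * a = 1
  ee : e * e = 1
  omV : ∀ v ∈ V, v * v = 1 →
    v = 1 ∨ v = f ∨ v = a ∨ v = e ∨ v = f * a ∨ v = a * e ∨ v = f * e ∨ v = f * a * e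
  cardE : 8 ≤ Nat.card (V ⊓ centralizer {σ} : Subgroup B)
  cenE : ∀ x ∈ A, x * a = a * x → x * e = e * x → x ∈ V
  s_T : s ∈ T
  sa : s * a * s⁻¹ = a * f
  cenI : ∀ x ∈ T, (∀ y ∈ T, y * y = 1 → x * y = y * x) → x = 1 ∨ x = f
  cls : ∀ x, x * x = 1 → ∃ r ∈ [1, f, a, d, σ], ∃ g, x = g * r * g⁻¹
  κ_M : κ ∈ M
  κ_V : κ ∈ 𝒩(V)
  κκ : κ * κ ∈ V
  κa : κ * a * κ⁻¹ = a * f
  κu : ∀ v ∈ V, v * (κ * v * κ⁻¹) ≠ u ∧ v * (κ * v * κ⁻¹) ≠ u⁻¹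
  cenQ : 𝒞(Q) ≤ zpowers u
  QQ : ⁅Q, Q⁆ ≤ zpowers f
  a_Q : a ∈ Q
  y_Q : y ∈ Q
  b_Q : b ∈ Q
  h_A : h ∈ A
  hb : b = h * a * h⁻¹
  ν_M : ν ∈ M
  νa : ν * a * ν⁻¹ = y
  νy : ν * y * ν⁻¹ = a
  bay : b * a * y = u
  ya : y * a * y⁻¹ = a * f
  k_M : k ∈ M
  cenσ : A ⊓ centralizer {σ} = P ⊔ zpowers f
  f_P : f ∉ P
  isoP : Nonempty (P ≃* alternatingGroup (Fin 5))

/-- The embedding of `B` into `Γ = Aut(ON)`. -/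
structure OX {B Γ : Type} [Group B] [Group Γ] (D : OB B) (d : Dat Γ) (Ψ : B →* Γ) (ρ : Γ) : Prop where
  C_eq : d.C = ⊤
  idx : d.L.index = 2
  simple : IsSimpleGroup d.L
  cardL : Nat.card d.L = 460815505920
  cL : ∀ c ∈ 𝒞(d.L), c = 1
  aut : ∀ φ : MulAut d.L, ∃ c : Γ, ∀ x : d.L, (φ x : Γ) = c * x * c⁻¹
  z_eq : d.z = Ψ D.f
  T_eq : d.T = D.T.map Ψ
  inj : Function.Injective Ψ
  ran : ∀ c : Γ, c * d.z = d.z * c → ∃ x, Ψ x = c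
  memL : ∀ x, Ψ x ∈ d.L ↔ x ∈ D.A
  ρ_mem : ρ ∈ d.L
  ρ7 : ρ ^ 7 = 1
  ρ_V : ρ ∈ 𝒩(D.V.map Ψ)
  ρ1 : rt ρ 1 d.z = Ψ D.a
  ρ2 : rt ρ 2 d.z = Ψ D.e
  ρ3 : rt ρ 3 d.z = Ψ (D.f * D.a)
  ρσ : ρ * Ψ D.σ = Ψ D.σ * ρ
  ρd : ρ⁻¹ * Ψ D.d * ρ = Ψ D.k
  dz : cl d (Ψ D.d)
  gen : d.L ≤ d.L ⊓ centralizer {d.z} ⊔ d.L ⊓ centralizer {Ψ D.a}

/-- The first group of facts. -/
structure OnF {B Γ : Type} [Group B] [Group Γ] (D : OB B) (d : Dat Γ) (Ψ : B →* Γ) : Prop where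
  base : Base d (D.Th.map Ψ)
  one : ∀ x ∈ d.L, Iv x → cl d x
  cenH : CenH d
  J_eq : Jc d.L d.z = D.M.map Ψ

/-- (O1) the basic facts. -/
def OnA : Prop := ∀ {B Γ : Type} [Group B] [Group Γ] [Finite Γ] (D : OB B) (d : Dat Γ) (Ψ : B →* Γ) (ρ : Γ),
  OX D d Ψ ρ → OnF D d Ψ

/-- (O2) the facts for the core theorem. -/
def OnK : Prop := ∀ {B Γ : Type} [Group B] [Group Γ] [Finite Γ] (D : OB B) (d : Dat Γ) (Ψ : B →* Γ) (ρ : Γ),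
  OX D d Ψ ρ → OnF D d Ψ → ZF d (D.V.map Ψ) (Ψ (D.σ * D.κ)) (Ψ D.a) ρ ∧
    ONF d (D.V.map Ψ) (Ψ D.u) ρ (Ψ D.κ) (Ψ D.d) ∧
    ONQ d (D.Q.map Ψ) (Ψ D.u) (rt ρ 1 d.z) (Ψ D.b) (Ψ D.a) (Ψ D.y) (Ψ D.ν)

/-- (O3) the centraliser of the outer involution. -/
def OnJ : Prop := ∀ {B Γ : Type} [Group B] [Group Γ] [Finite Γ] (D : OB B) (d : Dat Γ) (Ψ : B →* Γ) (ρ : Γ),
  OX D d Ψ ρ → OnF D d Ψ → IsSimpleGroup (d.L ⊓ centralizer {Ψ D.σ} : Subgroup Γ) ∧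
    Nat.card (d.L ⊓ centralizer {Ψ D.σ} : Subgroup Γ) = 175560

/-- (O4) the involution centralisers. -/
def OnC : Prop := ∀ {B Γ : Type} [Group B] [Group Γ] [Finite Γ] (D : OB B) (d : Dat Γ) (Ψ : B →* Γ) (ρ : Γ),
  OX D d Ψ ρ → OnF D d Ψ → Cen d ∧ Num d (D.Th.map Ψ) (Ψ D.σ) 4096 512 8 8

/-- (O5) the automorphisms of `4.L₃(4)`. -/
def AutK : Prop := ∀ {Γ A U : Type} [Group Γ] [Group A] [Group U] (D : ONT.DX Γ A U), Nat.card (MulAut D.M) ≤ 80640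

end CL.NS
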