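/-
Project NS3 (helper40), job OnA (helper19): the facts of the model `Aut(ON)` from the interface.
-/
import Cfsg.Agent.NS3.OnDefs

set_option autoImplicit false
set_option linter.unusedSectionVars false
open Cfsg Subgroup CL.Even CL.Grp CL.Wr
open scoped commutatorElement

namespace CL.NS

namespace OnAx

variable {B Γ : Type} [Group B] [Group Γ] {D : OB B} {d : Dat Γ} {Ψ : B →* Γ} {ρ : Γ}

theorem rt_mul (ρ : Γ) (i : ℕ) (a b : Γ) : rt ρ i (a * b) = rt ρ i a * rt ρ i b := conj_mul.symm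
theorem rt_add (ρ : Γ) (i j : ℕ) (a : Γ) : rt ρ (i + j) a = rt ρ i (rt ρ j a) := by
  simp only [rt, pow_add, mul_inv_rev, mul_assoc]
theorem rt_comm (ρ : Γ) (i j : ℕ) (a : Γ) : rt ρ i (rt ρ j a) = rt ρ j (rt ρ i a) := by
  rw [← rt_add, ← rt_add, add_comm]
theorem rt_inj {ρ : Γ} {i : ℕ} {a b : Γ} (h : rt ρ i a = rt ρ i b) : a = b := by simpa [rt] using h
theorem rt_eq_one {ρ : Γ} {i : ℕ} {a : Γ} (h : rt ρ i a = 1) : a = 1 := rt_inj (ρ := ρ) (i := i) (by simpa [rt] using h)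

section model

variable (D)

include D in
theorem fin : Finite B := Nat.finite_of_card_ne_zero (by rw [D.card]; decide)
theorem f_V : D.f ∈ D.V := D.uu ▸ mul_mem D.u_V D.u_V
theorem V_comm {v w : B} (hv : v ∈ D.V) (hw : w ∈ D.V) : v * w = w * v := (D.cenV.ge hw) v hv
theorem u_cen : D.u ∈ 𝒞(D.M) := D.cenM ▸ mem_zpowers _
theorem u4 : orderOf D.u = 4 :=
  orderOf_eq_prime_pow (p := 2) (n := 1) (by rw [pow_one, pow_two, D.uu]; exact D.f1)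
    (by rw [show 2 ^ (1 + 1) = 2 + 2 from rfl, pow_add, pow_two, D.uu, D.ff])

theorem idxM : (D.M.subgroupOf D.A).index = 2 := by
  have := (D.M.subgroupOf D.A).index_mul_card
  rw [Nat.card_congr (subgroupOfEquivOfLe D.M_le).toEquiv, D.cardM, D.cardA] at this
  omega

theorem mulM {a b : B} (ha : a ∈ D.A) (hb : b ∈ D.A) : a * b ∈ D.M ↔ (a ∈ D.M ↔ b ∈ D.M) :=
  mul_mem_iff_of_index_two (idxM D) (a := ⟨a, ha⟩) (b := ⟨b, hb⟩)

theorem zu {b : B} (hb : b ∈ zpowers D.u) (h : b * D.d = D.d * b) : b = 1 ∨ b = D.f := by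
  classical
  have := fin D
  obtain ⟨n, hn, rfl⟩ := Finset.mem_image.1 (mem_zpowers_iff_mem_range_orderOf.1 hb)
  rw [u4, Finset.mem_range] at hn
  interval_cases n
  · exact .inl (pow_zero _)
  · exact absurd (by rwa [pow_one, eq_comm] at h) D.du
  · exact .inr (by rw [pow_two, D.uu])
  · rw [pow_succ, pow_two, D.uu, mul_assoc, ← mul_assoc, ← mul_assoc, D.f_cen D.d, mul_assoc, mul_assoc, mul_right_inj] at h
    exact absurd h.symm D.du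

theorem zf {b : B} (hb : b ∈ zpowers D.f) : b = 1 ∨ b = D.f := by
  obtain ⟨n, rfl⟩ := mem_zpowers_iff.1 hb
  have : ∀ m : ℤ, D.f ^ (m + m) = 1 := fun m => by
    rw [← two_mul, zpow_mul, zpow_two, D.ff, one_zpow]
  rcases Int.even_or_odd' n with ⟨m, rfl | rfl⟩
  · exact .inl (by rw [two_mul, this])
  · exact .inr (by rw [zpow_add_one, two_mul, this, one_mul])

end model

variable [Finite Γ] (x : OX D d Ψ ρ)
include x

theorem mem_map' {X : Subgroup B} {b : B} : Ψ b ∈ X.map Ψ ↔ b ∈ X := mem_map_iff_mem x.inj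
theorem card_map (X : Subgroup B) : Nat.card (X.map Ψ) = Nat.card X := card_map_of_injective x.inj
theorem cz (b : B) : Ψ b * d.z = d.z * Ψ b := by rw [x.z_eq, ← map_mul, D.f_cen, map_mul]
theorem cen_map {X : Subgroup B} {b : B} : Ψ b ∈ 𝒞(X.map Ψ) ↔ b ∈ 𝒞(X) :=
  ⟨fun h v hv => x.inj (by rw [map_mul, map_mul]; exact h _ ⟨v, hv, rfl⟩), fun h _ ⟨v, hv, e⟩ => by
    rw [← e, ← map_mul, h v hv, map_mul]⟩
theorem lift {X : Subgroup B} (hf : D.f ∈ X) {c : Γ} (hc : c ∈ 𝒞(X.map Ψ)) : ∃ b ∈ 𝒞(X), Ψ b = c := by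
  obtain ⟨b, rfl⟩ := x.ran c (by rw [x.z_eq]; exact (hc _ ⟨_, hf, rfl⟩).symm)
  exact ⟨b, (cen_map x).1 hc, rfl⟩
theorem H_eq : d.L ⊓ centralizer {d.z} = D.A.map Ψ := by
  refine le_antisymm (fun c hc => ?_) ?_
  · obtain ⟨b, rfl⟩ := x.ran c (mem_cent1.1 hc.2)
    exact ⟨b, (x.memL b).1 hc.1, rfl⟩
  · rintro _ ⟨b, hb, rfl⟩
    exact ⟨(x.memL b).2 hb, mem_cent1.2 (cz x b)⟩
theorem nL (c : Γ) : c ∈ 𝒩(d.L) := by
  have := normal_of_index_eq_two x.idx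
  exact normalizer_eq_top d.L ▸ mem_top c
theorem clG {y : Γ} (h : cl d y) (c : Γ) : cl d (c * y * c⁻¹) := by
  by_cases hc : c ∈ d.L
  · exact h.conj hc
  obtain ⟨l, hl, rfl⟩ := h
  refine ⟨c * l * Ψ D.σ, ?_, ?_⟩
  · rw [mul_mem_iff_of_index_two x.idx, mul_mem_cancel_right hl, x.memL]
    exact iff_of_false hc D.σ_not
  · rw [mul_assoc (c * l), cz x]; group
theorem syl : IsSylowIn 2 d.T d.L := by
  have h1 : d.T ≤ d.L := x.T_eq ▸ fun _ ⟨b, hb, e⟩ => e ▸ (x.memL b).2 (D.T_le hb)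
  have h2 : Nat.card d.T = 2 ^ 9 := by rw [x.T_eq, card_map x, D.cardT]; rfl
  refine ⟨h1, .of_card h2, ?_⟩
  have := (d.T.subgroupOf d.L).index_mul_card
  rw [Nat.card_congr (subgroupOfEquivOfLe h1).toEquiv, h2, x.cardL] at this
  rw [relIndex]
  omega
theorem cl_a : cl d (Ψ D.a) := ⟨ρ ^ 1, pow_mem x.ρ_mem 1, x.ρ1.symm⟩
theorem one (y : Γ) (hy : y ∈ d.L) (hi : Iv y) : cl d y := by
  obtain ⟨h, -, e⟩ := (syl x).exists_conj_le (U := zpowers y)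
    (.of_card (n := 1) (by rw [Nat.card_zpowers, orderOf_eq_prime (p := 2) (by rw [pow_two, hi.1]) hi.2]; rfl))
    (zpowers_le.2 hy)
  obtain ⟨b, hb, e⟩ := x.T_eq.le (e (conj_mem_conj_smul h (mem_zpowers y)))
  obtain ⟨r, hr, g, rfl⟩ := D.cls b (x.inj (by rw [map_mul, e, (hi.conj h).1, map_one]))
  have e1 : y = h⁻¹ * Ψ g * Ψ r * (h⁻¹ * Ψ g)⁻¹ := by
    rw [map_mul, map_mul, map_inv] at e
    calc y = h⁻¹ * (h * y * h⁻¹) * h := by group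
      _ = _ := by rw [← e]; group
  simp only [List.mem_cons, List.not_mem_nil, or_false] at hr
  rcases hr with rfl | rfl | rfl | rfl | rfl
  · exact absurd (by simpa using e1) hi.2
  · exact e1 ▸ clG x (x.z_eq ▸ cl_z d) _
  · exact e1 ▸ clG x (cl_a x) _
  · exact e1 ▸ clG x x.dz _
  · exact absurd ((x.memL _).1 ((mem_normalizer_iff.1 (nL x _) _).2 (e1 ▸ hy))) D.σ_not

theorem base : Base d (D.Th.map Ψ) where
  L_le := x.C_eq ▸ le_top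
  L_norm c _ := nL x c
  syl := syl x
  sylh := by
    have h2 : Nat.card (D.Th.map Ψ) = 2 ^ 10 := by rw [card_map x, D.cardTh]; rfl
    rw [x.C_eq]
    refine ⟨le_top, .of_card h2, ?_⟩
    have h3 := (D.Th.map Ψ).index_mul_card
    rw [← d.L.index_mul_card, x.idx, x.cardL, h2] at h3
    rw [relIndex_top_right]
    omega
  inf := (syl x).eq_of_le (IsPGroup.to_inf_left (.of_card (n := 10) (by rw [card_map x, D.cardTh]; rfl)))
    (le_inf (x.T_eq ▸ map_mono D.T_Th) (syl x).1) inf_le_right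
  simple := x.simple
  cL c _ := x.cL c
  aut φ := let ⟨c, h⟩ := x.aut φ; ⟨c, x.C_eq ▸ mem_top c, h⟩
  mul_mem_L a _ b _ ha hb := (mul_mem_iff_of_index_two x.idx).2 (iff_of_false ha hb)
  out := ⟨Ψ D.σ, ⟨_, D.σ_Th, rfl⟩, fun h => D.σ_not ((x.memL _).1 h)⟩
  z_mem := x.T_eq ▸ ⟨_, D.V_T (f_V D), x.z_eq.symm⟩
  z_sq := by rw [x.z_eq, ← map_mul, D.ff, map_one]
  z_ne h := D.f1 (x.inj (by rw [← x.z_eq, h, map_one]))
  z_T y hy := by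
    obtain ⟨b, -, rfl⟩ := x.T_eq.le hy
    exact cz x b
  cenT c _ hc := by
    obtain ⟨b, hb, rfl⟩ := lift x (D.V_T (f_V D)) (x.T_eq ▸ hc)
    rw [x.z_eq, ← map_one Ψ]
    exact (D.cenI b (D.V_T (D.cenV.le (centralizer_le D.V_T hb))) fun y hy _ => (hb y hy).symm).imp
      (congrArg Ψ) (congrArg Ψ)
  qv := ⟨Ψ D.s, x.T_eq ▸ ⟨_, D.s_T, rfl⟩, Ψ D.a, x.T_eq ▸ ⟨_, D.V_T D.a_V, rfl⟩, by rw [← map_mul, D.aa, map_one], by
    rw [← map_commutatorElement, commutatorElement_def, D.sa, D.f_cen, mul_inv_cancel_right, x.z_eq]⟩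
  cenO y hy h := by
    obtain ⟨b, hb, rfl⟩ := x.T_eq.le hy
    rw [x.z_eq, ← map_one Ψ]
    refine (D.cenI b hb fun w hw w2 => ?_).imp (congrArg Ψ) (congrArg Ψ)
    by_cases w1 : w = 1
    · rw [w1, mul_one, one_mul]
    refine x.inj ?_
    rw [map_mul, map_mul]
    exact h _ (x.T_eq.ge ⟨w, hw, rfl⟩) (one x _ ((x.memL w).2 (D.T_le hw))
      ⟨by rw [← map_mul, w2, map_one], fun e => w1 (x.inj (e.trans (map_one Ψ).symm))⟩)

theorem ee (i : ℕ) : rt ρ (i + 3) d.z = rt ρ i d.z * rt ρ (i + 1) d.z := by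
  rw [rt_add, rt_add, ← rt_mul, x.ρ3, x.ρ1, map_mul, x.z_eq]
theorem e4 : rt ρ 4 d.z = Ψ (D.a * D.e) := by rw [ee x 1, x.ρ1, x.ρ2, map_mul]
theorem e5 : rt ρ 5 d.z = Ψ (D.f * D.a * D.e) := by
  rw [ee x 2, x.ρ2, x.ρ3, ← map_mul, V_comm D D.e_V (mul_mem (f_V D) D.a_V)]
theorem e6 : rt ρ 6 d.z = Ψ (D.f * D.e) := by
  rw [ee x 3, x.ρ3, e4 x, ← map_mul, mul_assoc, ← mul_assoc D.a, D.aa, one_mul]
theorem omV {v : Γ} (hv : v ∈ D.V.map Ψ) (h : v * v = 1) : v = 1 ∨ ∃ i, v = rt ρ i d.z := by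
  obtain ⟨w, hw, rfl⟩ := hv
  rcases D.omV w hw (x.inj (by rw [map_mul, h, map_one])) with e | e | e | e | e | e | e | e <;> rw [e]
  exacts [.inl (map_one Ψ), .inr ⟨0, by simp [rt, x.z_eq]⟩, .inr ⟨1, x.ρ1.symm⟩, .inr ⟨2, x.ρ2.symm⟩,
    .inr ⟨3, x.ρ3.symm⟩, .inr ⟨4, (e4 x).symm⟩, .inr ⟨6, (e6 x).symm⟩, .inr ⟨5, (e5 x).symm⟩]

theorem aut (hJ : Jc d.L d.z = D.M.map Ψ) (φ : MulAut (Jc d.L d.z)) :
    ∃ c ∈ d.C, ∀ y : Jc d.L d.z, (φ y : Γ) = c * y * c⁻¹ := by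
  have := fin D
  have hn : ∀ b, Ψ b ∈ 𝒩(Jc d.L d.z) := fun b =>
    cj_eq_iff_mem.1 (by rw [← Jc_conj (nL x _), cz x, mul_inv_cancel_right])
  set θ := (Jc d.L d.z).normalizerMonoidHom.comp (Ψ.codRestrict _ hn)
  have hk : θ.ker = zpowers D.u := by
    ext b
    rw [← MonoidHom.comap_ker, mem_comap, normalizerMonoidHom_ker, mem_subgroupOf, ← D.cenM, ← cen_map x, ← hJ]
    rfl
  have h1 := θ.ker.index_mul_card
  rw [index_ker, hk, Nat.card_zpowers, u4, D.card] at h1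
  have h2 : Nat.card (MulAut (Jc d.L d.z)) ≤ 80640 := by
    rw [hJ, ← Nat.card_congr (MulAut.congr (D.M.equivMapOfInjective Ψ x.inj)).toEquiv]
    exact D.autM
  obtain ⟨b, rfl⟩ := (eq_top_of_le_card θ.range (by omega)).ge (mem_top φ)
  exact ⟨Ψ b, x.C_eq ▸ mem_top _, fun _ => rfl⟩

end OnAx

open OnAx

theorem onA : OnA := by
  intro B Γ _ _ _ D d Ψ ρ x
  refine ⟨base x, one x, fun c _ hc => ?_, Jc_eq (H_eq x) (map_mono D.M_le) ?_ ?_⟩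
  · obtain ⟨b, hb, rfl⟩ := lift x (D.T_le (D.V_T (f_V D))) (H_eq x ▸ hc)
    rw [x.z_eq, ← map_one Ψ]
    exact (zu D (D.cenM.le (centralizer_le D.M_le hb)) (hb _ D.d_A).symm).imp (congrArg Ψ) (congrArg Ψ)
  · rw [← map_commutator, CL.Loc.IsQuasisimple.commutator_self D.quasi]
  · refine (commutator_le_of_le_norm le_normalizer).trans ?_
    rw [← map_commutator]
    refine map_mono (commutator_le.2 fun a ha b hb => ?_)
    rw [commutatorElement_def, mul_assoc, ← mul_inv_rev, mulM D (mul_mem ha hb) (inv_mem (mul_mem hb ha)), inv_mem_iff,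
      mulM D ha hb, mulM D hb ha]
    exact Iff.comm

theorem onK : OnK := by
  intro B Γ _ _ _ D d Ψ ρ x F
  have := fin D
  have hJ := F.J_eq
  have nm : ∀ {b}, b ∈ 𝒩(D.V) → Ψ b ∈ 𝒩(D.V.map Ψ) := fun h => le_normalizer_map Ψ ⟨_, h, rfl⟩
  have uc : Ψ D.u ∈ 𝒞(Jc d.L d.z) := hJ ▸ (cen_map x).2 (u_cen D)
  have af : D.a * D.f ∈ D.V := mul_mem D.a_V (f_V D)
  refine ⟨⟨fun y hy hi _ => F.one y hy hi, aut x hJ, hJ ▸ map_mono D.V_M, fun c _ hc => ?_, x.C_eq ▸ mem_top _,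
      fun h => D.σ_not ((mul_mem_cancel_right (D.M_le D.κ_M)).1 ((x.memL _).1 h)), cz x _,
      nm (mul_mem (mem_norm_of fun v hv => D.σ_V v hv ▸ inv_mem hv) D.κ_V), ⟨_, D.a_V, rfl⟩, ?_, x.ρ_mem, x.ρ_V,
      by rw [← x.ρ1, rt, pow_one]⟩,
    ⟨hJ ▸ map_mono D.V_M, ?_, ⟨_, D.u_V, rfl⟩, by rw [← map_mul, D.uu, x.z_eq], uc, fun c _ hc => ?_, fun c _ hc => ?_,
      x.ρ_mem, x.ρ_V, x.ρ7, by rw [x.ρ1, x.ρ3, map_mul, x.z_eq], fun v hv h e => ?_, fun v hv h e => ?_,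
      hJ ▸ ⟨_, D.κ_M, rfl⟩, nm D.κ_V, ⟨_, D.κκ, map_mul _ _ _⟩, ?_, ?_, (x.memL _).2 D.d_A, cz x _, ?_,
      hJ ▸ ⟨_, D.k_M, x.ρd.symm⟩, fun h hh e => ?_⟩,
    ⟨hJ ▸ map_mono D.Q_M, uc, (x.memL _).2 (D.T_le (D.V_T D.u_V)), fun c _ hc => ?_, fun y hy => ?_,
      x.ρ1 ▸ cl_a x, by rw [← map_mul, ← map_mul, D.bay], ?_, hJ ▸ ⟨_, D.ν_M, rfl⟩, ?_, ?_⟩⟩
  · obtain ⟨b, hb, rfl⟩ := lift x (f_V D) hc
    exact (x.memL b).2 (D.T_le (D.V_T (D.cenV.le hb)))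
  · rw [x.z_eq, ← map_inv, ← map_mul, ← map_mul, ← map_mul,
      show D.σ * D.κ * D.a * (D.σ * D.κ)⁻¹ = D.σ * (D.κ * D.a * D.κ⁻¹) * D.σ⁻¹ by group, D.κa, D.σ_V _ af, mul_inv_rev,
      inv_eq_of_sq D.aa, inv_eq_of_sq D.ff, D.f_cen]
  · rintro _ ⟨v, hv, rfl⟩ _ ⟨w, hw, rfl⟩
    rw [← map_mul, V_comm D hv hw, map_mul]
  · obtain ⟨b, hb, rfl⟩ := lift x (D.V_M (f_V D)) (hJ ▸ hc)
    exact MonoidHom.map_zpowers Ψ D.u ▸ ⟨b, D.cenM.le hb, rfl⟩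
  · obtain ⟨b, hb, rfl⟩ := lift x (f_V D) hc
    exact ⟨b, D.cenV.le hb, rfl⟩
  · refine (omV x hv h).resolve_right fun ⟨i, e1⟩ => F.base.z_ne (rt_eq_one (ρ := ρ) (i := 1) ?_)
    rw [e1, rt_comm ρ 6, rt_comm ρ 4, ← rt_mul] at e
    have e2 := rt_inj e
    rw [e6 x, e4 x, x.z_eq, ← map_mul, ← mul_assoc, D.ff, one_mul, map_mul, right_eq_mul] at e2
    rw [x.ρ1, e2]
  · refine (omV x hv h).resolve_right fun ⟨i, e1⟩ => F.base.z_ne ?_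
    rw [e1, rt_comm ρ 1, rt_comm ρ 2, rt_comm ρ 4, ← rt_mul, ← rt_mul, ← rt_mul] at e
    have e2 := rt_eq_one e
    rwa [x.ρ1, x.ρ2, e4 x, mul_assoc, mul_assoc, ← mul_assoc (Ψ D.a), ← map_mul, ← map_mul, mul_assoc,
      ← mul_assoc D.e, V_comm D D.e_V D.a_V, mul_assoc, D.ee, mul_one, D.aa, map_one, mul_one] at e2
  · rw [x.ρ1, x.z_eq, ← map_inv, ← map_mul, ← map_mul, ← map_mul, D.κa]
  · rintro _ ⟨v, hv, rfl⟩
    rw [← map_inv, ← map_inv, ← map_mul, ← map_mul, ← map_mul]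
    exact ⟨x.inj.ne (D.κu v hv).1, x.inj.ne (D.κu v hv).2⟩
  · rw [x.ρ1, ← map_mul, D.da, map_mul]
  · obtain ⟨b, rfl⟩ := x.ran h e
    rw [hJ, ← map_inv, ← map_mul, mem_map' x, mem_map' x, mulM D ((x.memL b).1 hh) (inv_mem D.d_A), inv_mem_iff]
    exact (em _).imp_right fun h => iff_of_false h D.d_not
  · obtain ⟨b, hb, rfl⟩ := lift x ((mul_mem_cancel_left D.a_Q).1
      (D.ya ▸ mul_mem (mul_mem D.y_Q D.a_Q) (inv_mem D.y_Q))) hc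
    exact hJ ▸ (cen_map x).2 (D.cenM.ge (D.cenQ hb))
  · have key : ∀ w ∈ D.Q, ∀ h ∈ D.A, w = h * D.a * h⁻¹ → Ψ w ∈ D.Q.map Ψ ∧
        (∃ h ∈ d.L, h * d.z = d.z * h ∧ Ψ w = h * rt ρ 1 d.z * h⁻¹) ∧
        ∀ q ∈ D.Q.map Ψ, q * Ψ w * q⁻¹ = Ψ w ∨ q * Ψ w * q⁻¹ = Ψ w * d.z := fun w hw h hh e => by
      refine ⟨⟨w, hw, rfl⟩, ⟨Ψ h, (x.memL h).2 hh, cz x h, by rw [x.ρ1, e, map_mul, map_mul, map_inv]⟩, ?_⟩
      rintro _ ⟨q, hq, rfl⟩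
      rw [x.z_eq, ← map_inv, ← map_mul, ← map_mul, ← map_mul, D.f_cen]
      exact (zf D (D.QQ (commutator_mem_commutator hq hw))).imp (fun h => congrArg Ψ (mul_inv_eq_one.1 h))
        fun h => congrArg Ψ (mul_inv_eq_iff_eq_mul.1 h)
    rcases hy with rfl | rfl | rfl
    exacts [key _ D.b_Q _ D.h_A D.hb, key _ D.a_Q 1 (one_mem _) (by simp), key _ D.y_Q _ (D.M_le D.ν_M) D.νa.symm]
  · rw [x.z_eq, ← map_inv, ← map_mul, ← map_mul, ← map_mul, D.ya]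
  · rw [← map_inv, ← map_mul, ← map_mul, D.νa]
  · rw [← map_inv, ← map_mul, ← map_mul, D.νy]

end CL.NS
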