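/-
Project NS3: the involution centralisers of `Aut(ON)`, and the automorphisms of `4.L₃(4)`.
-/
import Cfsg.Agent.NS3.OnDefs
import Cfsg.Agent.Spor.ONTFus

set_option autoImplicit false
set_option linter.unusedSectionVars false
open Cfsg Subgroup CL.Even CL.Grp CL.Wr
open scoped commutatorElement

namespace CL.NS

namespace OnC

/-- Homomorphisms from a perfect group which agree modulo the centre are equal. -/
theorem ext_cen {M N : Type*} [Group M] [Group N] (hp : commutator M = ⊤) (φ ψ : M →* N)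
    (h : ∀ m, (φ m)⁻¹ * ψ m ∈ center N) (m : M) : φ m = ψ m := by
  have h1 : commutator M ≤ φ.eqLocus ψ := commutator_le.2 fun x _ y _ => by
    show φ _ = ψ _
    obtain ⟨a, ha, e1⟩ : ∃ a ∈ center N, ψ x = φ x * a := ⟨_, h x, by group⟩
    obtain ⟨b, hb, e2⟩ : ∃ b ∈ center N, ψ y = φ y * b := ⟨_, h y, by group⟩
    rw [map_commutatorElement, map_commutatorElement, e1, e2, commutatorElement_def, commutatorElement_def]
    calc φ x * φ y * (φ x)⁻¹ * (φ y)⁻¹ = φ x * ((φ y * b) * a) * a⁻¹ * (b⁻¹ * (φ x)⁻¹) * (φ y)⁻¹ := by group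
      _ = _ := by rw [mem_center_iff.1 ha (φ y * b), ← mem_center_iff.1 (inv_mem hb) (φ x)⁻¹]; group
  exact h1 (hp ▸ mem_top m)

theorem dih (S : Subgroup (DihedralGroup 6)) (h : DihedralGroup.r 4 ∉ S) : Nat.card S ≤ 4 := by
  have h1 : Nat.card S ∣ 3 * 4 := (DihedralGroup.nat_card (n := 6)) ▸ S.card_subgroup_dvd_card
  have := Fact.mk Nat.prime_three
  refine Nat.le_of_dvd (by norm_num) (Nat.Coprime.dvd_of_dvd_mul_left
    ((Nat.Prime.coprime_iff_not_dvd Nat.prime_three).2 fun h3 => h ?_).symm h1)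
  obtain ⟨x, hx⟩ := exists_prime_orderOf_dvd_card' 3 h3
  have h4 : (x : DihedralGroup 6) ^ 3 = 1 := congrArg Subtype.val (hx ▸ pow_orderOf_eq_one x)
  have h5 : (x : DihedralGroup 6) ≠ 1 := fun e => by
    rw [show x = 1 from Subtype.ext e, orderOf_one] at hx; omega
  rcases (by decide : ∀ y : DihedralGroup 6, y ^ 3 = 1 → y ≠ 1 → y = .r 4 ∨ y * y = .r 4) x h4 h5 with e | e
  exacts [e ▸ x.2, e ▸ mul_mem x.2 x.2]

section Aut

variable {Γ A U : Type} [Group Γ] [Group A] [Group U] (D : ONT.DX Γ A U)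

theorem ker_eq : D.θ.ker = zpowers D.i := by
  have := D.toDA.finite
  refine (eq_of_le_of_card_ge (zpowers_le_of_mem D.θi) ?_).symm
  have h1 := D.θ.ker.card_mul_index
  have h2 := D.rangeθ
  rw [index_ker, D.card] at h1
  rw [Nat.card_zpowers, D.toDA.i4]
  nlinarith

theorem perfM : commutator D.M = ⊤ := by
  have h1 := congrArg (map D.ψ.rangeRestrict) D.perf
  rw [map_top_of_surjective _ D.ψ.rangeRestrict_surjective, _root_.commutator_def, map_commutator,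
    map_top_of_surjective _ D.ψ.rangeRestrict_surjective] at h1
  exact D.rangeψ ▸ h1

theorem cen_iff (m : D.M) : D.θ m = 1 ↔ m ∈ center D.M := by
  refine ⟨fun h => mem_center_iff.2 fun y => Subtype.ext
    (ONT.comm_of_zpowers ((ker_eq D).le h) (D.toDA.iM y y.2)), fun h => D.centL _ fun l hl => ?_⟩
  obtain ⟨y, hy, rfl⟩ := D.mapM.ge hl
  rw [← map_mul, ← map_mul]
  exact congrArg (fun w : D.M => D.θ w) (mem_center_iff.1 h ⟨y, hy⟩)

theorem cen_of_eq {m n : D.M} (h : D.θ m = D.θ n) : m⁻¹ * n ∈ center D.M :=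
  (cen_iff D _).1 (by rw [coe_mul, coe_inv, map_mul, map_inv, h, inv_mul_cancel])

theorem exists_conj (φ : MulAut D.M) : ∃ γ : Γ, ∀ m : D.M, D.θ (φ m) = γ * D.θ m * γ⁻¹ := by
  have := D.toDL.finΓ
  have := Fact.mk Nat.prime_two
  let _ := Fintype.ofFinite (GaloisField 2 2)
  let π : D.M →* D.L := (D.θ.comp D.M.subtype).codRestrict _ fun m => D.θL m.2
  have hs : Function.Surjective π := fun ⟨l, hl⟩ => by
    obtain ⟨y, hy, rfl⟩ := D.mapM.ge hl
    exact ⟨⟨y, hy⟩, rfl⟩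
  have hk : π.ker ≤ (π.comp φ.toMonoidHom).ker := fun m hm => Subtype.ext ((cen_iff D _).2 (mem_center_iff.2 fun y => by
    obtain ⟨y, rfl⟩ := φ.surjective y
    exact (map_mul φ y m).symm.trans ((congrArg φ
      (mem_center_iff.1 ((cen_iff D m).1 (congrArg Subtype.val hm)) y)).trans (map_mul φ m y))))
  let α := π.liftOfSurjective hs ⟨_, hk⟩
  have hα : ∀ m, α (π m) = π (φ m) := fun m => MonoidHom.liftOfRightInverse_comp_apply _ _ _ _ m
  have hb : Function.Bijective α := Finite.surjective_iff_bijective.1 fun l => by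
    obtain ⟨m, rfl⟩ := hs l
    exact ⟨π (φ.symm m), by rw [hα, φ.apply_symm_apply]⟩
  obtain ⟨γ, hγ⟩ := D.toDL.aut (F := GaloisField 2 2)
    (by rw [← Nat.card_eq_fintype_card, GaloisField.card 2 2 (by norm_num)]; norm_num) (MulEquiv.ofBijective α hb)
  exact ⟨γ, fun m => (congrArg Subtype.val (hα m)).symm.trans (hγ (π m))⟩

/-- The elements of `Aut L₃(4)` which lift to `4.L₃(4)`. -/
def lifts : Subgroup Γ where
  carrier := {γ | ∃ φ : MulAut D.M, ∀ m : D.M, D.θ (φ m) = γ * D.θ m * γ⁻¹}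
  one_mem' := ⟨1, fun m => by simp⟩
  mul_mem' := fun ⟨φ, h⟩ ⟨ψ, h'⟩ => ⟨φ * ψ, fun m => by rw [MulAut.mul_apply, h, h']; group⟩
  inv_mem' := fun {γ} ⟨φ, h⟩ => ⟨φ⁻¹, fun m => by
    have := h (φ⁻¹ m)
    rw [MulAut.apply_inv_self] at this
    rw [this]; group⟩

theorem card_lifts : Nat.card (lifts D) ≤ 80640 := by
  have := D.toDL.finΓ
  have hL : D.L ≤ lifts D := fun l hl => by
    obtain ⟨y, hy, rfl⟩ := D.mapM.ge hl
    exact ⟨MulAut.conj ⟨y, hy⟩, fun m => by simp⟩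
  have hδ : D.δ ∉ lifts D := fun ⟨φ, h⟩ => D.pq (by
    have h1 := cen_of_eq D (n := ⟨D.p, D.pM⟩) ((h ⟨D.j, D.toDA.jM⟩).trans D.δj)
    have h2 := cen_of_eq D (n := ⟨D.q, D.qM⟩) ((h ⟨D.v, D.vM⟩).trans D.δv)
    have h3 : Commute (φ ⟨D.j, D.toDA.jM⟩) (φ ⟨D.v, D.vM⟩) := Commute.map (Subtype.ext D.jv) φ
    have h4 := (h3.mul_right (mem_center_iff.1 h2 _)).mul_left (mem_center_iff.1 h1 _).symm
    rw [mul_inv_cancel_left, mul_inv_cancel_left] at h4
    exact congrArg Subtype.val h4.eq)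
  have h1 := (D.lam.comp (lifts D).subtype).ker.card_mul_index
  have h2 : (D.lam.comp (lifts D).subtype).ker = D.L.subgroupOf (lifts D) := Subgroup.ext fun γ => D.lker γ
  have h3 := dih (D.lam.comp (lifts D).subtype).range fun ⟨γ, e⟩ => hδ (by
    have h4 : D.δ * (γ : Γ)⁻¹ ∈ D.L := (D.lker _).1 (by
      rw [map_mul, map_inv, D.lδ, show D.lam γ = _ from e, mul_inv_cancel])
    exact (mul_mem_cancel_right (inv_mem γ.2)).1 (hL h4))
  rw [index_ker, h2, Nat.card_congr (subgroupOfEquivOfLe hL).toEquiv, D.cardL] at h1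
  omega

end Aut

section Main

variable {B Γ : Type} [Group B] [Group Γ] [Finite Γ] {D : OB B} {d : Dat Γ} {Ψ : B →* Γ} {ρ : Γ}
  (x : OX D d Ψ ρ) (F : OnF D d Ψ)

omit [Finite Γ] in
theorem u4 (D : OB B) : orderOf D.u = 4 :=
  ONT.orderOf_four (by rw [show 4 = 2 * 2 from rfl, pow_mul, pow_two D.u, D.uu, pow_two, D.ff])
    (by rw [pow_two, D.uu]; exact D.f1)

omit [Finite Γ] in
theorem f_V (D : OB B) : D.f ∈ D.V := D.uu ▸ mul_mem D.u_V D.u_V

omit [Finite Γ] in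
theorem idxA (D : OB B) : D.A.index = 2 := by
  have h := D.A.card_mul_index
  rw [D.card, D.cardA] at h
  omega

include x F

theorem zJ : d.z ∈ Jc d.L d.z := by
  rw [F.J_eq, x.z_eq]; exact mem_map_of_mem _ (D.V_M (f_V D))

theorem uJ : (zpowers D.u).map Ψ ≤ Jc d.L d.z := F.J_eq ▸ map_mono (zpowers_le_of_mem (D.V_M D.u_V))

theorem cenJ : 𝒞(Jc d.L d.z) = (zpowers D.u).map Ψ := by
  refine le_antisymm (fun c hc => ?_) ?_
  · obtain ⟨b, rfl⟩ := x.ran c (mem_cent.1 hc _ (zJ x F)).symm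
    refine mem_map_of_mem _ (D.cenM.le (mem_cent.2 fun y hy => x.inj ?_))
    rw [map_mul, map_mul]
    exact mem_cent.1 hc _ (F.J_eq.ge (mem_map_of_mem _ hy))
  · rintro _ ⟨b, hb, rfl⟩
    refine mem_cent.2 fun y hy => ?_
    obtain ⟨y, hy', rfl⟩ := F.J_eq.le hy
    rw [← map_mul, ← map_mul, mem_cent.1 (D.cenM.ge hb) y hy']

theorem quasiJ : IsQuasisimple (Jc d.L d.z) := F.J_eq ▸ CL.Loc.IsQuasisimple.map_of_injective D.quasi x.inj

theorem repz : Rep d d.z 80640 4 where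
  mem := F.base.L_le F.base.z_L
  iv := F.base.z_iv
  perf := (CL.Loc.IsQuasisimple.commutator_self (quasiJ x F)).ge
  card := by rw [F.J_eq, card_map_of_injective x.inj, D.cardM]
  cardZ := by rw [ZJ, cenJ x F, inf_eq_right.2 (uJ x F), card_map_of_injective x.inj, Nat.card_zpowers, u4]
  ns N h1 h2 := (ns_of_quasi (quasiJ x F) h1 ((Jc_le _ _).trans h2)).imp_right fun e => ⟨_, e (zJ x F), cl_z d⟩
  good _ _ := ⟨fun c _ h => by
    rw [cenJ x F] at h
    refine ⟨uJ x F h, 2, ?_⟩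
    obtain ⟨b, hb, rfl⟩ := h
    exact (map_pow Ψ b 4).symm.trans (by rw [ONT.pow_four_of_zpowers (u4 D) hb, map_one]),
    fun c hc => F.cenH c (F.base.L_le hc)⟩
  bad _ h := absurd (zJ x F) h
  out h := absurd F.base.z_L h

omit F in
theorem σ_not : Ψ D.σ ∉ d.L := fun h => D.σ_not ((x.memL _).1 h)

theorem repσ (h1 : IsSimpleGroup (d.L ⊓ centralizer {Ψ D.σ} : Subgroup Γ))
    (h2 : Nat.card (d.L ⊓ centralizer {Ψ D.σ} : Subgroup Γ) = 175560) : Rep d (Ψ D.σ) 175560 1 := by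
  have q : IsQuasisimple (d.L ⊓ centralizer {Ψ D.σ} : Subgroup Γ) := CL.Loc.isQuasisimple_of_isSimpleGroup fun h => by
    let _ : CommGroup (d.L ⊓ centralizer {Ψ D.σ} : Subgroup Γ) :=
      { (inferInstance : Group _) with mul_comm := h.1.1 }
    exact absurd (h2 ▸ IsSimpleGroup.prime_card (α := (d.L ⊓ centralizer {Ψ D.σ} : Subgroup Γ))) (by norm_num)
  have p := (CL.Loc.IsQuasisimple.commutator_self q).ge
  have e : Jc d.L (Ψ D.σ) = d.L ⊓ centralizer {Ψ D.σ} := le_antisymm (Jc_le _ _) (le_Jc le_rfl p)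
  have hz : d.z ∈ Jc d.L (Ψ D.σ) := e.ge (mem_inf.2 ⟨F.base.z_L, mem_cent1.2 (by
    rw [x.z_eq, ← map_mul, ← map_mul, D.f_cen])⟩)
  refine ⟨x.C_eq ▸ mem_top _, ⟨by rw [← map_mul, D.σσ, map_one], fun h => σ_not x (h ▸ one_mem _)⟩, e.symm ▸ p,
    e.symm ▸ h2, ?_, fun N a b => (ns_of_quasi (e.symm ▸ q) a (e.symm ▸ b)).imp_right fun c => ⟨_, c hz, cl_z d⟩,
    fun h => absurd h (σ_not x), fun h => absurd h (σ_not x),
    fun _ => ⟨_, hz, cl_z d, Ψ D.u, (x.memL _).2 (D.M_le (D.V_M D.u_V)), ?_⟩⟩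
  · rw [ZJ, e, Subgroup.card_eq_one, eq_bot_iff]
    intro c hc
    exact congrArg Subtype.val (mem_bot.1 (((center _).normal_of_characteristic.eq_bot_or_eq_top.resolve_right
      (CL.Loc.IsQuasisimple.center_ne_top q)).le (show (⟨c, hc.1⟩ : (d.L ⊓ centralizer {Ψ D.σ} : Subgroup Γ)) ∈ _ from
        mem_center_iff.2 fun y => Subtype.ext (mem_cent.1 hc.2 y y.2))))
  · rw [x.z_eq, ← map_inv, ← map_mul, ← map_mul, ← map_mul, D.f_cen, ← D.uu]
    refine congrArg Ψ ?_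
    calc D.u * D.σ * D.u⁻¹ = D.u * (D.σ * D.u⁻¹ * D.σ⁻¹) * D.σ := by group
      _ = _ := by rw [D.σ_V _ (inv_mem D.u_V), inv_inv]

theorem outer {y : Γ} (hy : y ∉ d.L) (h2 : y * y = 1) : ∃ g ∈ d.L, g * y * g⁻¹ = Ψ D.σ := by
  have hA := normal_of_index_eq_two (idxA D)
  obtain ⟨g, hg, e⟩ := F.base.conj_Th (E := zpowers y) (isP_of_two fun w ⟨k, hk⟩ => hk ▸ Two.of_sq (by
    show y ^ k * y ^ k = 1
    rw [← (Commute.refl y).mul_zpow, h2, one_zpow])) (x.C_eq ▸ le_top)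
  obtain ⟨b, -, hb⟩ := e (conj_mem_cj g (mem_zpowers y))
  have h3 : b ∉ D.A := fun h => hy (by
    have := (x.memL _).2 h
    rwa [hb, mul_mem_cancel_right (inv_mem hg), mul_mem_cancel_left hg] at this)
  obtain ⟨r, hr, c, rfl⟩ := D.cls b (x.inj (by rw [map_mul, hb, conj_mul, h2, map_one]; group))
  have h4 : r = D.σ := by
    have h5 : r ∉ D.A := fun h => h3 (hA.conj_mem _ h c)
    simp only [List.mem_cons, List.not_mem_nil, or_false] at hr
    rcases hr with rfl | rfl | rfl | rfl | rfl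
    exacts [absurd (one_mem _) h5, absurd (D.M_le (D.V_M (f_V D))) h5, absurd (D.M_le (D.V_M D.a_V)) h5,
      absurd D.d_A h5, rfl]
  obtain ⟨c', h5, h6⟩ : ∃ c' ∈ D.A, c * r * c⁻¹ = c' * D.σ * c'⁻¹ := by
    by_cases h : c ∈ D.A
    exacts [⟨c, h, by rw [h4]⟩, ⟨c * D.σ, ONT.mul_mem_two (idxA D) h D.σ_not, by rw [h4]; group⟩]
  refine ⟨(Ψ c')⁻¹ * g, mul_mem (inv_mem ((x.memL _).2 h5)) hg, ?_⟩
  rw [show (Ψ c')⁻¹ * g * y * ((Ψ c')⁻¹ * g)⁻¹ = (Ψ c')⁻¹ * (g * y * g⁻¹) * Ψ c' by group, ← hb, h6, map_mul, map_mul,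
    map_inv]
  group

omit F in
theorem cardT : Nat.card d.T = 512 := by rw [x.T_eq, card_map_of_injective x.inj, D.cardT]

theorem num (h2 : Nat.card (d.L ⊓ centralizer {Ψ D.σ} : Subgroup Γ) = 175560) :
    Num d (D.Th.map Ψ) (Ψ D.σ) 4096 512 8 8 := by
  have hσ : Ψ D.σ ∈ D.Th.map Ψ := mem_map_of_mem _ D.σ_Th
  refine ⟨hσ, σ_not x, by rw [← map_mul, D.σσ, map_one], fun y hy y2 => ?_, fun y _ hy y2 => ?_, fun R hR h => ?_,
    by norm_num, by norm_num, by rw [cardT x]; norm_num, by norm_num⟩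
  · obtain ⟨g, hg, w, w1, w2, e⟩ : ∃ g ∈ d.L, ∃ w ∈ D.T, (∀ b, b * w = w * b) ∧ g * y * g⁻¹ = Ψ w := by
      by_cases h : y = 1
      · exact ⟨1, one_mem _, 1, one_mem _, by simp, by simp [h]⟩
      · obtain ⟨g, hg, rfl⟩ := F.one y hy ⟨y2, h⟩
        exact ⟨g⁻¹, inv_mem hg, D.f, D.V_T (f_V D), D.f_cen, by rw [x.z_eq]; group⟩
    refine ⟨g, hg, ?_⟩
    rw [e, inf_eq_left.2 (x.T_eq ▸ map_le_iff_le_comap.2 fun b _ => mem_cent1.2 (by rw [← map_mul, w2, map_mul])),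
      cardT x]
    exact ⟨x.T_eq ▸ mem_map_of_mem _ w1, le_rfl, _, hσ, σ_not x, by rw [← map_mul, w2, map_mul]⟩
  · obtain ⟨g, hg, e⟩ := outer x F hy y2
    refine ⟨g, hg, e ▸ hσ, D.cardE.trans ?_⟩
    rw [e, ← card_map_of_injective x.inj]
    exact card_le_of_le (map_le_iff_le_comap.2 fun b hb => mem_inf.2 ⟨x.T_eq ▸ mem_map_of_mem _ (D.V_T hb.1),
      mem_cent1.2 (by rw [← map_mul, mem_cent1.1 hb.2, map_mul])⟩)
  · have := Fact.mk Nat.prime_two
    obtain ⟨k, hk⟩ := IsPGroup.iff_card.1 hR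
    have h3 := card_dvd_of_le h
    rw [h2, hk, show 175560 = 8 * 21945 from rfl] at h3
    exact hk ▸ Nat.le_of_dvd (by norm_num) ((Nat.Coprime.pow_left k (by norm_num)).dvd_of_dvd_mul_right h3)

end Main

end OnC

open OnC in
theorem onC (h : OnJ) : OnC := by
  intro B Γ _ _ _ D d Ψ ρ x F
  obtain ⟨h1, h2⟩ := h D d Ψ ρ x F
  refine ⟨cen_of F.base [] [(Ψ D.σ, 175560, 1)] (repz x F) (zJ x F) (by simpa using repσ x F h1 h2) (by simp)
    (fun y _ hy => ?_) (fun N a b => ?_) x.cardL le_rfl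
    (List.forall_mem_singleton.2 ⟨show 1 ≤ 4 by omega, show ¬ 80640 ∣ 4 * 175560 by omega⟩)
    (List.forall_mem_singleton.2 (List.forall_mem_singleton.2 fun _ _ => rfl))
    (List.forall_mem_singleton.2 (List.forall_mem_singleton.2
      (show ¬ 175560 * 175560 ∣ 1 * 1 * 460815505920 by omega))), num x F h2⟩
  · by_cases h3 : y ∈ d.L
    · exact Or.inl (F.one y h3 hy)
    · obtain ⟨g, hg, e⟩ := outer x F h3 hy.1
      exact Or.inr ⟨_, List.mem_singleton_self _, g⁻¹, inv_mem hg, by simp only [← e]; group⟩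
  · exact (ns_of_quasi (quasiJ x F) a ((Jc_le _ _).trans b)).imp_right fun e =>
      ⟨_, e (F.J_eq.ge (mem_map_of_mem _ (D.V_M D.a_V))), x.ρ1 ▸ F.base.z_iv.conj _, x.gen⟩

open OnC in
theorem autK : AutK := by
  intro Γ A U _ _ _ D
  have := D.toDL.finΓ
  choose c hc using exists_conj D
  refine (Nat.card_le_card_of_injective (fun φ => (⟨c φ, φ, hc φ⟩ : lifts D)) fun φ ψ e => ?_).trans (card_lifts D)
  exact MulEquiv.ext (ext_cen (perfM D) φ.toMonoidHom ψ.toMonoidHom fun m =>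
    cen_of_eq D ((hc φ m).trans ((show c φ = c ψ from congrArg Subtype.val e) ▸ (hc ψ m).symm)))

end CL.NS
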