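/-
Project NS3: the first components for `Suz` and their additivity.
-/
import Cfsg.Agent.NS3.Defs2

set_option autoImplicit false
set_option linter.unusedSectionVars false
set_option linter.unusedSimpArgs false
open Cfsg Subgroup CL.Even CL.Grp CL.Wr

namespace CL.NS

universe u

namespace SZ1

variable {G : Type*} [Group G] {Γ : Type*} [Group Γ] [Finite Γ] {d : Dat Γ} {Th U : Subgroup Γ} {t : G}
  {L : Subgroup G} {π : G → Γ} {s k : Γ → G} {x y v a b : Γ}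

theorem comm_of_sq {H : Type*} [Group H] {p q : H} (hp : p * p = 1) (hq : q * q = 1) (h : p * q * (p * q) = 1) :
    p * q = q * p := by
  rw [← inv_eq_of_mul_eq_one_left h, mul_inv_rev, inv_eq_of_mul_eq_one_left hp, inv_eq_of_mul_eq_one_left hq]

theorem Uc (u : SzU d U) (hx : x ∈ U) (hy : y ∈ U) : x * y = y * x :=
  comm_of_sq (u.sq x hx) (u.sq y hy) (u.sq _ (mul_mem hx hy))

theorem ne1 (u : SzU d U) (hy : y ∈ U) (h : x ≠ y) : x * y ≠ 1 := fun e =>
  h (mul_right_cancel (e.trans (u.sq y hy).symm))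

theorem arith (u : SzU d U) (hx : x ∈ U) (hy : y ∈ U) (hv : v ∈ U) (x1 : x ≠ 1) (y1 : y ≠ 1) (v1 : v ≠ 1)
    (xy : x * y ≠ 1) (xv : x * v ≠ 1) (yv : y * v ≠ 1) (xyv : x * (y * v) ≠ 1) {β δ : Γ} (hβ : β = 1 ∨ β = x * v)
    (hδ : δ = 1 ∨ δ = x * (y * v)) :
    δ * (x * y * β) ≠ 1 ∧ (x * v * δ * (x * y * β * v) = 1 → β ≠ 1 ∧ δ ≠ 1) := by
  have l : ∀ {a b}, a ∈ U → b ∈ U → ∀ c, a * (b * c) = b * (a * c) := fun ha hb c => by
    rw [← mul_assoc, Uc u ha hb, mul_assoc]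
  have q : ∀ {a}, a ∈ U → ∀ c, a * (a * c) = c := fun ha c => by rw [← mul_assoc, u.sq _ ha, one_mul]
  rcases hβ with rfl | rfl <;> rcases hδ with rfl | rfl <;>
    simp [mul_assoc, l hy hx, l hv hx, l hv hy, Uc u hy hx, Uc u hv hx, Uc u hv hy, q hx, q hy, q hv, u.sq x hx,
      u.sq y hy, u.sq v hv, x1, y1, v1, xy, xv, yv, xyv]

variable (m : Base d Th) (u : SzU d U) (c : Sec d t L π s) (q : Cmp d t s k)
include m u

theorem UL (hx : x ∈ U) : x ∈ d.L := by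
  by_cases h : x = 1
  exacts [h ▸ one_mem _, m.cl_mem (u.pure x hx h)]

omit m u in
include q in
theorem ks (hx : cl d x) (ha : a ∈ d.L) (e : a * x = x * a) : k x * s a = s a * k x := by
  have := q.eqv x hx a ha
  rw [e, mul_inv_cancel_right] at this
  exact eq_mul_inv_iff_mul_eq.1 this

include c q

theorem kU (hx : x ∈ U) (x1 : x ≠ 1) (ha : a ∈ U) : k x * s a = s a * k x :=
  ks q (u.pure x hx x1) (UL m u ha) (Uc u ha hx)

theorem kts (hx : x ∈ U) (x1 : x ≠ 1) (ha : a ∈ U) : k x * (t * s a) * k x = t * s (x * a) := by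
  rw [c.s_mul (UL m u hx) (UL m u ha), ← mul_assoc t, ← q.tc x (u.pure x hx x1), mul_assoc _ (k x),
    kU m u c q hx x1 ha]
  group

theorem stepA (hx : x ∈ U) (hy : y ∈ U) (x1 : x ≠ 1) (y1 : y ≠ 1) (xy : x ≠ y) :
    k x * k y = k (x * y) ∨ k x * k y = t * s y * k (x * y) := by
  have hz := mul_mem hx hy
  have z1 := ne1 u hy xy
  have sq : ∀ {a}, a ∈ U → a ≠ 1 → k a * k a = 1 := fun ha a1 => q.sq _ (u.pure _ ha a1)
  have iv : ∀ {a}, a ∈ U → a ≠ 1 → (k a)⁻¹ = k a := fun ha a1 => inv_eq_of_mul_eq_one_left (sq ha a1)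
  obtain ⟨h1, g, hg, g1, g2⟩ := u.pc x hx y hy x1 y1 xy
  have g3 : g * (x * y) * g⁻¹ = x := by
    rw [← conj_mul, g1, g2, ← mul_assoc, Uc u hy hx, mul_assoc, u.sq y hy, mul_one]
  obtain ⟨j, hj⟩ : ∃ j, j = k x * k y * k (x * y) := ⟨_, rfl⟩
  have jt : j ∈ centralizer {t} := mem_cent1.2 (mul_inv_eq_iff_eq_mul.1 (by
    rw [hj, mul_inv_rev, mul_inv_rev, iv hx x1, iv hy y1, iv hz z1,
      show k x * k y * k (x * y) * t * (k (x * y) * (k y * k x)) =
        k x * (k y * (k (x * y) * t * k (x * y)) * k y) * k x by group, q.tc _ (u.pure _ hz z1),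
      kts m u c q hy y1 hz, kts m u c q hx x1 (mul_mem hy hz), ← mul_assoc x, u.sq _ hz, c.s_one, mul_one]))
  have h2 := h1 _ (c.mem j jt) (c.π_cent jt (inf_le_left.trans inf_le_left) fun a ha => by
    have a1 : Commute a x := mem_cent1.1 ha.1.2
    have a2 : Commute a y := mem_cent1.1 ha.2
    exact hj ▸ ((Commute.mul_left (ks q (u.pure x hx x1) ha.1.1 a1) (ks q (u.pure y hy y1) ha.1.1 a2)).mul_left
      (ks q (u.pure _ hz z1) ha.1.1 (a1.mul_right a2))).eq)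
  have h3 : π j ∈ U := by
    rcases h2 with e | e | e | e <;> rw [e]
    exacts [one_mem _, hx, hy, hz]
  have rot : s g * j * (s g)⁻¹ = k x * j * k x := by
    rw [hj, ← conj_mul, ← conj_mul, ← q.eqv _ (u.pure x hx x1) g hg, ← q.eqv _ (u.pure y hy y1) g hg,
      ← q.eqv _ (u.pure _ hz z1) g hg, g1, g2, g3, ← mul_assoc, ← mul_assoc, sq hx x1, one_mul]
  have hL := UL m u h3
  have gL := m.conj_L (m.L_le hg) hL
  have fin : ∀ r, j = r → k x * k y = r * k (x * y) := fun r e => by rw [← e, hj, mul_assoc _ _ (k _), sq hz z1, mul_one]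
  refine (c.lift jt hL).imp (fun e => ?_) fun e => ?_
  · generalize π j = ζ at *
    rw [e, ← c.s_cj hg hL, kU m u c q hx x1 h3, mul_assoc (s ζ), sq hx x1, mul_one] at rot
    have h4 := c.s_inj gL hL rot
    rcases h2 with rfl | rfl | rfl | rfl
    · rw [fin _ e, c.s_one, one_mul]
    · exact absurd (g1.symm.trans h4).symm xy
    · exact absurd (mul_eq_right.1 (g2.symm.trans h4)) x1
    · exact absurd (left_eq_mul.1 (g3.symm.trans h4)) y1
  · generalize π j = ζ at *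
    rw [e, kts m u c q hx x1 h3, ← mul_assoc, c.s_t hg, mul_assoc t, mul_assoc t, ← c.s_cj hg hL] at rot
    have h4 := c.s_inj gL (UL m u (mul_mem hx h3)) (mul_left_cancel rot)
    rcases h2 with rfl | rfl | rfl | rfl
    · exact absurd (by simpa using h4.symm) x1
    · exact absurd (g1.symm.trans (h4.trans (u.sq _ hx))) y1
    · exact fin _ e
    · rw [g3, ← mul_assoc, u.sq x hx, one_mul] at h4
      exact absurd h4 xy

theorem stepC (hx : x ∈ U) (hy : y ∈ U) (x1 : x ≠ 1) (y1 : y ≠ 1) (xy : x ≠ y) :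
    (Ad k x y ∧ k x * k y * k x = s 1 * k y) ∨
      (k x * k y = t * s y * k (x * y) ∧ k x * k y * k x = s (x * y) * k y ∧ k x * k y ≠ k y * k x) := by
  have hz := mul_mem hx hy
  have z1 := ne1 u hy xy
  have sq : ∀ {a}, a ∈ U → a ≠ 1 → k a * k a = 1 := fun ha a1 => q.sq _ (u.pure _ ha a1)
  refine (stepA m u c q hx hy x1 y1 xy).imp (fun e => ?_) fun e => ?_
  · have h := comm_of_sq (sq hx x1) (sq hy y1) (by rw [e, sq hz z1])
    exact ⟨⟨e, h⟩, by rw [h, mul_assoc, sq hx x1, c.s_one, mul_one, one_mul]⟩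
  · have h : k x * k y * k x = s (x * y) * k y := by
      rw [← mul_inv_eq_iff_eq_mul, inv_eq_of_mul_eq_one_left (sq hy y1), mul_assoc, e,
        show t * s y * k (x * y) * (t * s y * k (x * y)) = t * s y * (k (x * y) * (t * s y) * k (x * y)) by group,
        kts m u c q hz z1 hy, ← c.s_t (UL m u hy), mul_assoc, ← mul_assoc t, c.t_sq, one_mul,
        ← c.s_mul (UL m u hy) (UL m u (mul_mem hz hy)), mul_assoc x, u.sq y hy, mul_one, Uc u hy hx]
    refine ⟨e, h, fun e' => z1 (c.s_inj (UL m u hz) (one_mem _) ?_)⟩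
    rw [e', mul_assoc, sq hx x1, mul_one, right_eq_mul] at h
    rw [h, c.s_one]

theorem stepB (hx : x ∈ U) (hy : y ∈ U) (hv : v ∈ U) (x1 : x ≠ 1) (y1 : y ≠ 1) (v1 : v ≠ 1) (xy : x ≠ y)
    (xv : x ≠ v) (yv : y ≠ v) (xyv : x ≠ y * v) (h : k x * k y ≠ k y * k x) :
    k y * k v ≠ k v * k y ∧ k x * k v ≠ k v * k x ∧ k x * k (y * v) ≠ k (y * v) * k x := by
  have hz := mul_mem hy hv
  have ex : ∀ {a}, a ∈ U → a ≠ 1 → x ≠ a → ∃ β ∈ U, (β = 1 ∨ β = x * a) ∧ (β ≠ 1 → k x * k a ≠ k a * k x) ∧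
      k x * k a * k x = s β * k a := fun ha a1 xa => (stepC m u c q hx ha x1 a1 xa).elim
    (fun e => ⟨1, one_mem _, .inl rfl, fun h => absurd rfl h, e.2⟩)
    fun e => ⟨_, mul_mem hx ha, .inr rfl, fun _ => e.2.2, e.2.1⟩
  obtain ⟨β, hβ, b1, b2, b3⟩ := ex hv v1 xv
  obtain ⟨δ, hδ, d1, d2, d3⟩ := ex hz (ne1 u hv yv) xyv
  obtain ⟨r1, r2⟩ := arith u hx hy hv x1 y1 v1 (ne1 u hy xy) (ne1 u hv xv) (ne1 u hv yv) (ne1 u hz xyv) b1 d1
  have sx := q.sq _ (u.pure _ hx x1)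
  have cm : ∀ a b, k x * (a * b) * k x = k x * a * k x * (k x * b * k x) := fun a b => by
    rw [show k x * a * k x * (k x * b * k x) = k x * a * (k x * k x) * b * k x by group, sx]; group
  have hw := mul_mem (mul_mem hx hy) hβ
  have e1 : k x * (k y * k v) * k x = s (x * y * β) * (k y * k v) := by
    rw [cm, ((stepC m u c q hx hy x1 y1 xy).resolve_left fun e => h e.1.2).2.1, b3,
      c.s_mul (UL m u (mul_mem hx hy)) (UL m u hβ), mul_assoc, ← mul_assoc (k y), kU m u c q hy y1 hβ]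
    group
  rcases stepC m u c q hy hv y1 v1 yv with e | e
  · rw [e.1.1, d3] at e1
    exact absurd (c.s_inj (UL m u hδ) (UL m u hw) (mul_right_cancel e1) ▸ u.sq δ hδ) r1
  · rw [e.1, cm, kts m u c q hx x1 hv, d3, ← mul_assoc, ← mul_assoc, ← mul_assoc, c.s_t (UL m u hw), mul_assoc t,
      mul_assoc t (s _), ← c.s_mul (UL m u (mul_mem hx hv)) (UL m u hδ), ← c.s_mul (UL m u hw) (UL m u hv)] at e1
    have e2 := c.s_inj (UL m u (mul_mem (mul_mem hx hv) hδ)) (UL m u (mul_mem hw hv))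
      (mul_left_cancel (mul_right_cancel e1))
    obtain ⟨r3, r4⟩ := r2 (by rw [e2]; exact u.sq _ (mul_mem hw hv))
    exact ⟨e.2.2, b2 r3, d2 r4⟩

theorem adU (hx : x ∈ U) (hy : y ∈ U) (x1 : x ≠ 1) (y1 : y ≠ 1) (xy : x ≠ y) : Ad k x y := by
  refine ((stepC m u c q hx hy x1 y1 xy).resolve_right fun ⟨e1, _, h⟩ => ?_).1
  obtain ⟨v, hv, h1⟩ : ∃ v ∈ U, v ∉ ({1, x, y, x * y} : Set Γ) := by
    by_contra h1
    push Not at h1
    have h2 := Set.ncard_le_ncard (show (U : Set Γ) ⊆ {1, x, y, x * y} from h1)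
    have h3 := Set.ncard_insert_le 1 ({x, y, x * y} : Set Γ)
    have h4 := Set.ncard_insert_le x ({y, x * y} : Set Γ)
    have h5 := Set.ncard_insert_le y ({x * y} : Set Γ)
    have h6 : 4 < (U : Set Γ).ncard := u.card
    rw [Set.ncard_singleton] at h5
    omega
  simp only [Set.mem_insert_iff, Set.mem_singleton_iff, not_or] at h1
  obtain ⟨v1, vx, vy, vz⟩ := h1
  have xyv : x ≠ y * v := fun e => vz (by rw [e, Uc u (mul_mem hy hv) hy, ← mul_assoc, u.sq y hy, one_mul])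
  have hz := mul_mem hx hy
  have hw := mul_mem hy hv
  obtain ⟨b1, b2, b3⟩ := stepB m u c q hx hy hv x1 y1 v1 xy (Ne.symm vx) (Ne.symm vy) xyv h
  have b4 := (stepB m u c q hv hx hy v1 x1 y1 vx vy xy vz b2.symm).2.2
  have ty : ∀ {a b}, a ∈ U → b ∈ U → a ≠ 1 → b ≠ 1 → a ≠ b → k a * k b ≠ k b * k a →
      k a * k b = t * s b * k (a * b) := fun ha hb a1 b1 ab h =>
    ((stepC m u c q ha hb a1 b1 ab).resolve_left fun e => h e.1.2).1
  have e2 := ty hy hv y1 v1 (Ne.symm vy) b1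
  have e3 := ty hx hw x1 (ne1 u hv (Ne.symm vy)) xyv b3
  have e4 := ty hz hv (ne1 u hy xy) v1 (Ne.symm vz) b4.symm
  have e5 := mul_assoc (k x) (k y) (k v)
  rw [e1, e2, mul_assoc _ (k _), e4, show k x * (t * s v * k (y * v)) =
    k x * (t * s v) * k x * ((k x)⁻¹ * k (y * v)) by group, inv_eq_of_mul_eq_one_left (q.sq _ (u.pure _ hx x1)),
    kts m u c q hx x1 hv, e3, ← mul_assoc x y v, ← mul_assoc, ← mul_assoc (t * s (x * v)), mul_left_inj,
    c.s_mul (UL m u hy) (UL m u hv), ← mul_assoc, ← mul_assoc, ← mul_assoc, mul_left_inj, mul_assoc t _ t,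
    c.s_t (UL m u hy), ← mul_assoc, mul_left_inj, mul_left_inj, left_eq_mul, ← c.s_one] at e5
  exact ne1 u hv (Ne.symm vx) (c.s_inj (UL m u (mul_mem hx hv)) (one_mem _) e5)

end SZ1

open SZ1 in
theorem sz1B : SZ1B.{u} := by
  intro Γ _ _ d Th U G _ _ t L π s w m hH u c ⟨w1, w2⟩
  have zL := m.z_L
  have zz : s d.z * s d.z = 1 := by rw [← c.s_mul zL zL, m.z_sq, c.s_one]
  have w3 : ∀ h ∈ d.L, h * d.z = d.z * h → w * s h = s h * w := fun h hh e => w2 h (u.H_eq ⟨hh, mem_cent1.2 e⟩)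
  have wz := w3 _ zL rfl
  have w4 : w * (t * s d.z) * w⁻¹ = t := by
    rw [← conj_mul, w1, wz, mul_inv_cancel_right, mul_assoc, zz, mul_one]
  have wt : w * w ∈ centralizer {t} := mem_cent1.2 (mul_inv_eq_iff_eq_mul.1 (by
    rw [show w * w * t * (w * w)⁻¹ = w * (w * t * w⁻¹) * w⁻¹ by group, w1, w4]))
  have h1 := hH _ (c.mem _ wt) (c.π_cent wt inf_le_left fun h hh =>
    (Commute.mul_left (w3 h hh.1 (mem_cent1.1 hh.2)) (w3 h hh.1 (mem_cent1.1 hh.2))).eq)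
  have nz : t ≠ t * s d.z := fun e => m.z_ne (c.s_inj zL (one_mem _) (by rw [c.s_one, left_eq_mul.1 e]))
  have ww : w * (w * w) * w⁻¹ = w * w := by group
  obtain ⟨z₁, a1, a2, a3⟩ : ∃ z₁ : G, z₁ * z₁ = 1 ∧ z₁ * t * z₁ = t * s d.z ∧
      ∀ h ∈ d.L, h * d.z = d.z * h → s h * z₁ = z₁ * s h := by
    rcases h1 with e | e <;> rcases c.lift wt (by rw [e]; first | exact zL | exact one_mem _) with h | h <;> rw [e] at h
    · rw [c.s_one] at h
      exact ⟨w, h, by rw [← w1, inv_eq_of_mul_eq_one_left h], fun h hh e => (w3 h hh e).symm⟩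
    · rw [c.s_one, mul_one] at h
      rw [h, w1] at ww
      exact absurd ww.symm nz
    · have h2 : w * t * (w * t) = 1 := by
        rw [show w * t * (w * t) = w * t * w⁻¹ * (w * w) * t by group, w1, h, mul_assoc t, zz, mul_one, c.t_sq]
      refine ⟨w * t, h2, ?_, fun h hh e => (Commute.mul_right (w3 h hh e).symm (c.s_t hh)).eq⟩
      rw [show w * t * t * (w * t) = w * (t * t) * w * t by group, c.t_sq, mul_one, h, c.s_t zL]
    · rw [h, w4] at ww
      exact absurd ww nz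
  obtain ⟨k, q, -⟩ := c.cmp a1 a2 zL a3
  refine ⟨k, q, fun x y ⟨x1, y1, xy, g, hg, gx, gy⟩ => ?_⟩
  have n1 : ∀ {a : Γ}, a ≠ 1 → g * a * g⁻¹ ≠ 1 := fun h e => h (conj_eq_one_iff.1 e)
  obtain ⟨e1, e2⟩ := adU m u c q gx gy (n1 x1) (n1 y1) fun e => xy (by simpa using e)
  have bk : ∀ a : Γ, a ≠ 1 → g * a * g⁻¹ ∈ U → k (g * a * g⁻¹) = s g * k a * (s g)⁻¹ := fun a a1 ha =>
    q.eqv a (by simpa [mul_assoc] using (u.pure _ ha (n1 a1)).conj (inv_mem hg)) g hg
  have hz := mul_mem gx gy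
  have z1 := ne1 u gy fun e : g * x * g⁻¹ = _ => xy (by simpa using e)
  rw [conj_mul] at hz z1 e1
  rw [bk x x1 gx, bk y y1 gy, conj_mul] at e1 e2
  rw [bk _ (fun e => z1 (by simp [e])) hz] at e1
  rw [conj_mul] at e2
  exact ⟨by simpa using e1, by simpa using e2⟩

end CL.NS
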