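/-
Project NS3, model `Suz:2`, part 2: the involution centralisers (`Cen`) and their 2-subgroups (`Num`).
-/
import Cfsg.Agent.NS3.Sz2F
import Cfsg.Agent.NS3.Sz2S
import Cfsg.Agent.NS3.Sz2M
import Cfsg.Agent.NS3.Sz2Z
import Cfsg.Agent.NS3.Sz2C

set_option autoImplicit false
open Cfsg Subgroup CL.Even CL.Grp CL.Wr CL.PG

namespace CL.NS

open SzG0 Sz2

theorem Sz2.H_eq : szD.L ⊓ centralizer {szD.z} = subW gs1 lH :=
  (congrArg _ (cent_w gs1 [0]).symm).trans (SzG0.H_eq c1 ubL)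

theorem szCen (m : Base szD szTh) : Cen szD := by
  obtain ⟨h, -, -, -, -, fL, o1, o2⟩ := C.all m
  exact cen_sz m h (rep_z m Sz2.H_eq (H_card c1) (H_perf c1) (isPGroup_of_card (Q_card c1) 7 (by norm_num))
      ((Q_le_T c1).trans (T_le_H c1)) ((H_le_H2 c1).trans (Q_norm c1)) ((Q_cen c1 ubL).trans (subW_single _ _)))
    Sz2.H_eq fL (F.rep m) (S.rep m o1) (M.rep m o2) (Z.nz m rfl Sz2.H_eq) (L_card c1 ubL)

theorem szNum' (m : Base szD szTh) : Num szD szTh (wordG gs1 [68]) (2 ^ 18) (2 ^ 9) (2 ^ 7) (2 ^ 7) := by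
  obtain ⟨h, pz, pf, p1, p2, fL, o1, o2⟩ := C.all m
  exact num_sz m h pz pf p1 p2 fL o1 o2 (sq_of (s2_sq c1)) (T_card c1) M.card

theorem szNum (m : Base szD szTh) : ∃ σ, Num szD szTh σ (2 ^ 18) (2 ^ 9) (2 ^ 7) (2 ^ 7) := ⟨_, szNum' m⟩

/-- The involutions of `Suz:2` up to conjugacy in `Suz`. -/
theorem szInv (m : Base szD szTh) : Inv szD (wordG gs1 [62]) (wordG gs1 [14]) (wordG gs1 [68]) := (C.all m).1

end CL.NS
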