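/-
Project NS3, model `Suz:2`, part 2: the facts `Cen` and `Num` from explicit subgroups and words.
-/
import Cfsg.Agent.NS3.Rep
import Cfsg.Agent.Spor.PGStruct
import Cfsg.Agent.Spor.PGCov

set_option autoImplicit false
set_option linter.unusedSectionVars false
open Cfsg Subgroup CL.Even CL.Grp CL.Wr CL.PG
open scoped commutatorElement

namespace CL.NS.Sz2

variable {Γ : Type*} [Group Γ] {gs : List Γ}

theorem cent_w (gs : List Γ) (w : List ℕ) : 𝒞(subW gs [w]) = centralizer {wordG gs w} := by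
  rw [subW_single, zpowers_eq_closure, centralizer_closure]

theorem sq_of {a : ℕ} (h : wordG gs [a, a] = wordG gs []) : wordG gs [a] * wordG gs [a] = 1 := by simpa using h

theorem cj_of {g x y : ℕ} (h : wordG gs [x, g] = wordG gs [g, y]) :
    wordG gs [x] = wordG gs [g] * wordG gs [y] * (wordG gs [g])⁻¹ := by
  rw [eq_mul_inv_iff_mul_eq]; simpa using h

theorem cv_of {g x j : ℕ} (h : wordG gs [g, x] = wordG gs [x, j, g]) :
    wordG gs [g] * wordG gs [x] * (wordG gs [g])⁻¹ = wordG gs [x] * wordG gs [j] := by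
  rw [mul_inv_eq_iff_eq_mul]; simpa [mul_assoc] using h

theorem cm_of {s w f : ℕ} (h : wordG gs [s, w] = wordG gs [f, w, s]) : ⁅wordG gs [s], wordG gs [w]⁆ = wordG gs [f] := by
  rw [commutatorElement_def, mul_inv_eq_iff_eq_mul, mul_inv_eq_iff_eq_mul]; simpa [mul_assoc] using h

theorem co_of {a b : ℕ} (h : wordG gs [a, b] = wordG gs [b, a]) :
    wordG gs [a] * wordG gs [b] = wordG gs [b] * wordG gs [a] := by simpa using h

theorem zpw2 {l x : Γ} (h : l * l = 1) (hx : x ∈ zpowers l) : x = 1 ∨ x = l := by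
  obtain ⟨k, rfl⟩ := mem_zpowers_iff.1 hx
  rcases Int.even_or_odd' k with ⟨i, rfl | rfl⟩
  · exact .inl (by rw [zpow_mul, zpow_two, h, one_zpow])
  · exact .inr (by rw [zpow_add, zpow_mul, zpow_two, h, one_zpow, one_mul, zpow_one])

theorem out_of {L : Subgroup Γ} {a b : ℕ} (h : wordG gs [a] ∉ L) (h' : subW gs [[a, b]] ≤ L) : wordG gs [b] ∉ L :=
  fun e => h ((L.mul_mem_cancel_right e).1 (by simpa using h' (mem_subW (w := [a, b]) (by simp))))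

theorem gen_of {L : Subgroup Γ} {lH : List (List ℕ)} {k y o : ℕ} (hU : UB L o) (hl : LB (subW gs ([k] :: lH)) o)
    (h : subW gs ([k] :: lH) ≤ L) (e : wordG gs [k, y] = wordG gs [y, k]) :
    L ≤ subW gs lH ⊔ L ⊓ centralizer {wordG gs [y]} :=
  (hU.eq_of_lb hl h).ge.trans (subW_le.2 (List.forall_mem_cons.2
    ⟨mem_sup_right ⟨h (mem_subW (by simp)), mem_cent1.2 (co_of e)⟩, fun _ hw => mem_sup_left (mem_subW hw)⟩))

variable [Finite Γ] {d : Dat Γ} {Th L C K J H Q : Subgroup Γ} {z x : Γ}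

theorem out1 (m : Base d Th) {l : List (List ℕ)} {w : List ℕ} (hC : d.C = subW gs (app l [w])) (hL : d.L = subW gs l) :
    wordG gs w ∉ d.L := fun h => by
  obtain ⟨σ, h1, h2⟩ := m.out
  have := m.Th_le h1
  rw [hC, subW_app, subW_single, ← hL] at this
  exact h2 (sup_le le_rfl (zpowers_le.2 h) this)

/-- A class of involutions with simple `Jc`. -/
theorem rep_simple (m : Base d Th) (hC : d.C = C) (hL : d.L = L) (hz : d.z = z) {wx wj : List ℕ} {n : ℕ}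
    (hx : wordG gs wx ∈ C) (hi : Iv (wordG gs wx)) (hK : L ⊓ 𝒞(subW gs [wx]) = K) (h1 : J ≤ K)
    (h2 : ⁅⁅K, K⁆, ⁅K, K⁆⁆ ≤ J) (hs : IsSimpleGroup J) (hn : Nat.card J = n) (hp : 0 < n ∧ ¬ n.Prime)
    (hj : wordG gs wj ∈ J) (hc : ∃ g ∈ L, wordG gs wj = g * z * g⁻¹)
    (conv : ∃ g ∈ L, g * wordG gs wx * g⁻¹ = wordG gs wx * wordG gs wj)
    (bad : wordG gs wx ∈ L → Cls 2 J J gs [[], wj] ∧ C ⊓ 𝒞(J) ≤ L ∧
      ∃ w ∈ K, ∃ s ∈ K, w * w = 1 ∧ (∀ y ∈ J, w * y = y * w) ∧ ⁅s, w⁆ = wordG gs wx) : Rep d (wordG gs wx) n 1 := by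
  subst hC hL hz
  rw [cent_w] at hK
  have q := isQuasisimple_of_simple hn hp
  have p : J ≤ ⁅J, J⁆ := by
    rw [← J.map_subtype_commutator, q.1.commutator_eq_top, ← MonoidHom.range_eq_map, range_subtype]
  have e := Jc_eq hK h1 p h2
  have c : J ⊓ 𝒞(J) = ⊥ := by rw [← map_center_eq, center_eq_bot_of_simple hn hp, Subgroup.map_bot]
  have JL : J ≤ d.L := h1.trans (hK ▸ inf_le_left)
  refine ⟨hx, hi, e ▸ p, e ▸ hn, by rw [ZJ, e, c, card_bot], fun N a b => ?_, fun _ a => ?_, fun a _ => ?_,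
    fun _ => ⟨_, e ▸ hj, hc, conv⟩⟩
  · rw [e] at a ⊢
    exact (ns_of_quasi q a (h1.trans (hK ▸ b))).imp_right fun h => ⟨_, h hj, hc⟩
  · rw [e] at a
    exact absurd (mem_bot.1 (c.le ⟨a, mem_cent.2 fun y hy => mem_cent1.1 (hK.ge (h1 hy)).2⟩)) hi.2
  · obtain ⟨b1, b2, w, hw, s, hs, w2, wc, e'⟩ := bad a
    refine ⟨⟨_, e ▸ hj, hc, conv⟩, fun y hy iy => ?_, fun y a b => b2 ⟨a, e ▸ b⟩, w, hK ▸ hw, s, hK ▸ hs, w2,
      e ▸ mem_cent.2 fun y hy => (wc y hy).symm, e'⟩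
    obtain ⟨r, hr, g, hg, rfl⟩ := b1 y (e ▸ hy) (by rw [pow_two, iy.1])
    rcases List.mem_pair.1 hr with rfl | rfl
    · exact absurd (by simp) iy.2
    · exact cl.conj hc (JL hg)

/-- The class of `z`. -/
theorem rep_z (m : Base d Th) {n : ℕ} (hH : d.L ⊓ centralizer {d.z} = H) (hn : Nat.card H = n) (hp : H ≤ ⁅H, H⁆)
    (hQ : IsPGroup 2 Q) (h0 : Q ≤ H) (hN : H ≤ 𝒩(Q)) (hc : d.C ⊓ 𝒞(Q) = zpowers d.z) :
    Jc d.L d.z = H ∧ d.z ∈ H ∧ Rep d d.z n 2 := by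
  have e := Jc_eq hH le_rfl hp ((comm_le_self _).trans (comm_le_self _))
  have zH : d.z ∈ H := hH ▸ ⟨m.z_L, mem_cent1.2 rfl⟩
  have HC : H ≤ d.C := (hH.ge.trans inf_le_left).trans m.L_le
  have k : ∀ c ∈ d.C, c ∈ 𝒞(H) → c = 1 ∨ c = d.z := fun c a b => zpw2 m.z_sq (hc.le ⟨a, centralizer_le h0 b⟩)
  have c : H ⊓ 𝒞(H) = zpowers d.z := le_antisymm (fun c a => hc.le ⟨HC a.1, centralizer_le h0 a.2⟩)
    (zpowers_le.2 ⟨zH, mem_cent.2 fun y hy => mem_cent1.1 (hH.ge hy).2⟩)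
  refine ⟨e, zH, m.L_le m.z_L, m.z_iv, e ▸ hp, e ▸ hn, ?_, fun N a b => ?_, fun _ _ => ⟨fun c a b => ?_, fun c a b => ?_⟩,
    fun _ a => absurd (e ▸ zH) a, fun a => absurd m.z_L a⟩
  · rw [ZJ, e, c, Nat.card_zpowers, orderOf_eq_prime (by rw [pow_two, m.z_sq]) m.z_ne]
  · rw [e] at a ⊢
    exact (ns_of_two hQ h0 hN (fun x a b => zpw2 m.z_sq (hc.le ⟨HC a, b⟩)) a (hH ▸ b)).imp (fun h : N = ⊥ => h.le.trans bot_le)
      fun h => ⟨_, h, cl_z d⟩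
  · rw [e] at b ⊢
    rcases k c a b with rfl | rfl
    exacts [⟨one_mem _, .of_sq (one_mul 1)⟩, ⟨zH, .of_sq m.z_sq⟩]
  · exact k c (m.L_le a) (hH ▸ b)

/-- The normal subgroups of `C_L(z)`. -/
theorem nz_of (m : Base d Th) {Δ : Type*} [Group Δ] (hs : IsSimpleGroup Δ) (hH : d.L ⊓ centralizer {d.z} = H)
    {wz wy wu : List ℕ} (hz : d.z = wordG gs wz) (q : Quo H Q Δ) (hQ : ⁅Q, Q⁆ ≤ subW gs [wz])
    (hc : Cls 0 Q H gs [[], wz, wy, wu]) (hu : wordG gs wu ∈ Q) (h1 : ∃ h ∈ H, ⁅h, wordG gs wu⁆ = wordG gs wy)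
    (hy : Iv (wordG gs wy)) (hg : d.L ≤ H ⊔ d.L ⊓ centralizer {wordG gs wy}) (yz : wordG gs wy * wordG gs wz ≠ 1) :
    ∀ N, N ≤ H → H ≤ 𝒩(N) → N ≤ 𝒞(H) ∨ ∃ y ∈ N, Iv y ∧ d.L ≤ H ⊔ d.L ⊓ centralizer {y} := fun N a b => by
  rw [subW_single, ← hz] at hQ
  obtain ⟨h, hh, e⟩ := h1
  have zc : ∀ g ∈ H, g * d.z * g⁻¹ = d.z := fun g hg => by rw [mem_cent1.1 (hH.ge hg).2, mul_inv_cancel_right]
  have nz : ∀ g ∈ H, ∀ x ∈ zpowers d.z, g * x * g⁻¹ ∈ zpowers d.z := fun g hg x hx => by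
    rcases zpw2 m.z_sq hx with rfl | rfl
    · simp
    · rw [zc g hg]; exact mem_zpowers _
  by_cases k : ∃ x ∈ N ⊓ Q, x ∉ zpowers d.z
  · obtain ⟨x, ⟨x1, x2⟩, x3⟩ := k
    obtain ⟨r, hr, g, g1, rfl⟩ := hc x x2 (pow_zero _)
    have r1 : wordG gs r ∈ N := by simpa [mul_assoc] using conj_mem' (b g1) x1
    refine .inr ⟨_, ?_, hy, hg⟩
    simp only [List.mem_cons, List.not_mem_nil, or_false] at hr
    rcases hr with rfl | rfl | rfl | rfl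
    · exact absurd (by simp) x3
    · exact absurd (nz g g1 _ (hz ▸ mem_zpowers _)) x3
    · exact r1
    · exact e ▸ mul_mem (conj_mem (b hh) r1) (inv_mem r1)
  push Not at k
  obtain ⟨QH, f, f1, f2⟩ := q
  have QN : H ≤ 𝒩(Q) := Quo.le_normalizer ⟨QH, f, f1, f2⟩
  have : (N.subgroupOf H).Normal := ⟨fun x hx g => conj_mem (H := N) (b g.2) hx⟩
  rcases (this.map f f1).eq_bot_or_eq_top with t | t
  · refine .inl fun x hx => mem_cent.2 fun y hy => ?_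
    have h2 : x ∈ Q := f2.le ((Subgroup.map_eq_bot_iff _).1 t (show (⟨x, a hx⟩ : H) ∈ N.subgroupOf H from hx))
    rcases zpw2 m.z_sq (k x ⟨hx, h2⟩) with rfl | rfl
    · simp
    · exact mem_cent1.1 (hH.ge hy).2
  · obtain ⟨n, n1, n2⟩ := t.ge (mem_top (f ⟨h, hh⟩))
    have h2 : (n : Γ)⁻¹ * h ∈ Q := f2.le (show n⁻¹ * ⟨h, hh⟩ ∈ f.ker by rw [MonoidHom.mem_ker, map_mul, map_inv, n2, inv_mul_cancel])
    have h3 : wordG gs wy ∈ zpowers d.z := by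
      rw [← e, show ⁅h, wordG gs wu⁆ = n * ⁅(n : Γ)⁻¹ * h, wordG gs wu⁆ * (n : Γ)⁻¹ * ⁅(n : Γ), wordG gs wu⁆ by
        simp only [commutatorElement_def]; group]
      refine mul_mem (nz _ n.2 _ (hQ (commutator_mem_commutator h2 hu))) (k _ ⟨?_, Q.mul_mem (conj_mem (QN n.2) hu) (Q.inv_mem hu)⟩)
      rw [show ⁅(n : Γ), wordG gs wu⁆ = n * (wordG gs wu * (n : Γ)⁻¹ * (wordG gs wu)⁻¹) by
        simp only [commutatorElement_def]; group]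
      exact N.mul_mem n1 (conj_mem (b (QH hu)) (N.inv_mem n1))
    rcases zpw2 m.z_sq h3 with h4 | h4
    · exact absurd h4 hy.2
    · exact absurd (by rw [h4, ← hz, m.z_sq]) yz

/-- An involution of `Th` with a large centraliser in `T` that is centralised by an element of `Th` outside `L`. -/
structure Pt (d : Dat Γ) (Th : Subgroup Γ) (r : Γ) (k : ℕ) : Prop where
  mem : r ∈ Th
  big : k ≤ Nat.card (d.T ⊓ centralizer {r} : Subgroup Γ)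
  out : ∃ c ∈ Th, c ∉ d.L ∧ c * r = r * c

theorem Pt.of {T : Subgroup Γ} (hT : d.T = T) {w : List ℕ} {R : Subgroup Γ} {k k' : ℕ} (h1 : wordG gs w ∈ Th) (h2 : R ≤ T)
    (h3 : ∀ x ∈ R, ∀ y ∈ subW gs [w], x * y = y * x) (h4 : LB R k') (hk : k ≤ k')
    (h5 : ∃ c ∈ Th, c ∉ d.L ∧ c * wordG gs w = wordG gs w * c) : Pt d Th (wordG gs w) k :=
  ⟨h1, hk.trans ((h4.mono (le_inf (hT ▸ h2) fun x hx => mem_cent1.2 (h3 x hx _ (mem_subW (by simp))))) inferInstance),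
    h5⟩

theorem Pt.toL (m : Base d Th) {r g : Γ} {k : ℕ} (h : Pt d Th r k) (hg : g ∈ d.C) :
    ∃ a ∈ d.L, g * r * g⁻¹ = a * r * a⁻¹ := by
  by_cases h1 : g ∈ d.L
  · exact ⟨g, h1, rfl⟩
  obtain ⟨c, c1, c2, e⟩ := h.out
  refine ⟨g * c, m.mul_mem_L g hg c (m.Th_le c1) h1 c2, ?_⟩
  rw [show g * c * r * (g * c)⁻¹ = g * (c * r) * c⁻¹ * g⁻¹ by group, e]; group

variable {f s₁ s₂ : Γ}

/-- The classes of involutions. -/
def Inv (d : Dat Γ) (f s₁ s₂ : Γ) : Prop :=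
  ∀ x ∈ d.C, x * x = 1 → ∃ r, (r = 1 ∨ r = d.z ∨ r = f ∨ r = s₁ ∨ r = s₂) ∧ ∃ g ∈ d.L, x = g * r * g⁻¹

theorem pt_z (m : Base d Th) {k : ℕ} (hT : k ≤ Nat.card d.T) (h : ∃ c ∈ Th, c ∉ d.L ∧ c * d.z = d.z * c) :
    Pt d Th 1 k ∧ Pt d Th d.z k :=
  ⟨⟨one_mem _, hT.trans (card_le_of_le (le_inf le_rfl fun x _ => mem_cent1.2 (by simp))),
      let ⟨c, c1, c2, _⟩ := h; ⟨c, c1, c2, by simp⟩⟩,
    m.T_le m.z_mem, hT.trans (card_le_of_le (le_inf le_rfl fun x hx => mem_cent1.2 (m.z_T x hx))), h⟩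

theorem inv_of (m : Base d Th) {wz wf w₁ w₂ : List ℕ} (hz : d.z = wordG gs wz)
    (h : Cls 2 d.C d.C gs [[], wz, wf, w₁, w₂]) {a b c e : ℕ} (pz : Pt d Th d.z a) (pf : Pt d Th (wordG gs wf) b)
    (p1 : Pt d Th (wordG gs w₁) c) (p2 : Pt d Th (wordG gs w₂) e) :
    Inv d (wordG gs wf) (wordG gs w₁) (wordG gs w₂) := fun x hx x2 => by
  obtain ⟨r, hr, g, hg, rfl⟩ := h x hx (by rw [pow_two, x2])
  simp only [List.mem_cons, List.not_mem_nil, or_false] at hr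
  rcases hr with rfl | rfl | rfl | rfl | rfl
  · exact ⟨1, by simp, 1, one_mem _, by simp⟩
  · exact ⟨_, by simp [hz], (hz ▸ pz).toL m hg⟩
  · exact ⟨_, by simp, pf.toL m hg⟩
  · exact ⟨_, by simp, p1.toL m hg⟩
  · exact ⟨_, by simp, p2.toL m hg⟩

theorem cen_sz (m : Base d Th) (h : Inv d f s₁ s₂) (hz : Jc d.L d.z = H ∧ d.z ∈ H ∧ Rep d d.z 3317760 2)
    (hH : d.L ⊓ centralizer {d.z} = H) (fL : f ∈ d.L)
    (rf : Rep d f 20160 1) (r1 : Rep d s₁ 604800 1) (r2 : Rep d s₂ 95040 1)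
    (nz : ∀ N, N ≤ H → H ≤ 𝒩(N) → N ≤ 𝒞(H) ∨ ∃ y ∈ N, Iv y ∧ d.L ≤ H ⊔ d.L ⊓ centralizer {y})
    (hl : Nat.card d.L = 448345497600) : Cen d := by
  refine cen_of m [(f, 20160, 1)] [(s₁, 604800, 1), (s₂, 95040, 1)] hz.2.2 (hz.1 ▸ hz.2.1) (by simp [rf, r1, r2])
    (by simp [fL]) (fun x hx hi => ?_) (by rwa [hz.1, hH]) hl (by norm_num) (by simp) (by simp)
    (by simp only [List.forall_mem_cons, List.not_mem_nil, false_imp_iff, implies_true, and_true]; decide +kernel)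
  obtain ⟨r, hr, g, hg, rfl⟩ := h x hx hi.1
  rcases hr with rfl | rfl | rfl | rfl | rfl
  · exact absurd (by simp) hi.2
  · exact .inl ⟨g, hg, rfl⟩
  · exact .inr ⟨(r, 20160, 1), by simp, g, hg, rfl⟩
  · exact .inr ⟨(r, 604800, 1), by simp, g, hg, rfl⟩
  · exact .inr ⟨(r, 95040, 1), by simp, g, hg, rfl⟩

theorem num_sz (m : Base d Th) (h : Inv d f s₁ s₂) (pz : Pt d Th 1 512 ∧ Pt d Th d.z 512) (pf : Pt d Th f 512)
    (p1 : Pt d Th s₁ 128) (p2 : Pt d Th s₂ 128) (fL : f ∈ d.L) (o1 : s₁ ∉ d.L) (o2 : s₂ ∉ d.L) (sq : s₂ * s₂ = 1)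
    (hT : Nat.card d.T = 8192) (hK : Nat.card (d.L ⊓ centralizer {s₂} : Subgroup Γ) = 190080) :
    Num d Th s₂ (2 ^ 18) (2 ^ 9) (2 ^ 7) (2 ^ 7) := by
  have k : ∀ {g r : Γ}, g ∈ d.L → (g * r * g⁻¹ ∈ d.L ↔ r ∈ d.L) := fun hg => by
    rw [mul_mem_cancel_right (inv_mem hg), mul_mem_cancel_left hg]
  have k' : ∀ g r : Γ, g⁻¹ * (g * r * g⁻¹) * g⁻¹⁻¹ = r := fun g r => by group
  refine ⟨p2.mem, o2, sq, fun x hx x2 => ?_, fun x hx x1 x2 => ?_, fun R hR h1 => ?_, by norm_num, by norm_num,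
    by rw [hT]; norm_num, by norm_num⟩
  · obtain ⟨r, hr, g, hg, rfl⟩ := h x (m.L_le hx) x2
    have p : Pt d Th r 512 := by
      rcases hr with rfl | rfl | rfl | rfl | rfl
      exacts [pz.1, pz.2, pf, absurd ((k hg).1 hx) o1, absurd ((k hg).1 hx) o2]
    exact ⟨g⁻¹, inv_mem hg, by rw [k']; exact ⟨m.mem_T p.mem ((k hg).1 hx), p.big, p.out⟩⟩
  · obtain ⟨r, hr, g, hg, rfl⟩ := h x hx x2
    have p : Pt d Th r 128 := by
      rcases hr with rfl | rfl | rfl | rfl | rfl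
      exacts [absurd ((k hg).2 (one_mem _)) x1, absurd ((k hg).2 m.z_L) x1, absurd ((k hg).2 fL) x1, p1, p2]
    exact ⟨g⁻¹, inv_mem hg, by rw [k']; exact ⟨p.mem, p.big⟩⟩
  · have := Fact.mk Nat.prime_two
    obtain ⟨i, hi⟩ := hR.exists_card_eq
    have h2 := card_dvd_of_le h1
    rw [hK, hi, show 190080 = 2 ^ 7 * 1485 by norm_num] at h2
    exact hi ▸ Nat.le_of_dvd (by norm_num) ((Nat.Coprime.pow_left i (by norm_num)).dvd_of_dvd_mul_right h2)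

end CL.NS.Sz2
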