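/-
Project NS3: the automorphisms of a perfect group `H` with `O₂(H)` extraspecial of order `2⁷`.
-/
import Cfsg.Agent.NS3.Defs2
import Cfsg.Agent.Spor.SuzRH1
import Cfsg.Agent.Spor.PGStruct

set_option autoImplicit false
set_option linter.unusedSectionVars false
open Cfsg Subgroup CL.Even CL.Grp CL.Wr
open scoped commutatorElement

namespace CL.NS.SzA

theorem card_aut_xs {E : Type*} [Group E] [Finite E] (hE : IsExtraspecial 2 E) (hc : Nat.card E = 128) :
    Nat.card (MulAut E) ≤ 3317760 := by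
  have h1 := Cfsg.Agent.S5432.result hE 3 (by norm_num) (by rw [hc]; norm_num)
  rw [CL.SuzR.h_card_aut hE hc]
  by_cases h : ∃ A : Subgroup E, IsElementaryAbelian 2 A ∧ Nat.card A = 2 ^ (3 + 1)
  · obtain ⟨e⟩ := h1.1 h
    rw [Nat.card_congr e.toEquiv, CL.Cls.card_isometryGroup_plus (F := ZMod 2) 2]
    norm_num [Finset.prod_range_succ]
  · obtain ⟨e⟩ := h1.2 h
    rw [Nat.card_congr e.toEquiv, CL.Cls.card_isometryGroup_minus (F := ZMod 2) 2 1 1 (by decide)]
    norm_num [Finset.prod_range_succ]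

/-- Restriction to a characteristic subgroup whose centraliser is central is injective on the automorphisms of a
perfect group. -/
theorem card_aut_le_char {H : Type*} [Group H] [Finite H] (Q : Subgroup H) [hQ : Q.Characteristic]
    (hp : commutator H = ⊤) (hc : ∀ c ∈ 𝒞(Q), c ∈ center H) : Nat.card (MulAut H) ≤ Nat.card (MulAut Q) := by
  have hm := characteristic_iff_map_eq.1 hQ
  refine Nat.card_le_card_of_injective (fun φ => (φ.subgroupMap Q).trans (MulEquiv.subgroupCongr (hm φ))) fun φ ψ e => ?_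
  have h1 : ∀ q ∈ Q, φ q = ψ q := fun q hq => by
    have := congrArg Subtype.val (DFunLike.congr_fun e (⟨q, hq⟩ : Q))
    exact this
  have h2 : ∀ h, (ψ h)⁻¹ * φ h ∈ center H := fun h => hc _ (mem_cent.2 fun q hq => by
    obtain ⟨r, hr, rfl⟩ : q ∈ Q.map (ψ : H →* H) := (hm ψ).ge hq
    have h3 := h1 _ (Subgroup.Normal.conj_mem inferInstance r hr h)
    simp only [map_mul, map_inv, h1 r hr] at h3
    change ψ r * _ = _ * ψ r
    calc ψ r * ((ψ h)⁻¹ * φ h) = (ψ h)⁻¹ * (ψ h * ψ r * (ψ h)⁻¹) * φ h := by group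
      _ = _ := by rw [← h3]; group)
  have h3 : commutator H ≤ (φ : H →* H).eqLocus (ψ : H →* H) := commutator_le.2 fun a _ b _ => by
    change φ ⁅a, b⁆ = ψ ⁅a, b⁆
    obtain ⟨c, hc, e1⟩ : ∃ c ∈ center H, φ a = ψ a * c := ⟨_, h2 a, by group⟩
    obtain ⟨d, hd, e2⟩ : ∃ d ∈ center H, φ b = ψ b * d := ⟨_, h2 b, by group⟩
    rw [map_commutatorElement, map_commutatorElement, e1, e2, commutatorElement_def, commutatorElement_def,
      show ψ a * c * (ψ b * d) * (ψ a * c)⁻¹ * (ψ b * d)⁻¹ = ψ a * (c * (ψ b * d)) * c⁻¹ * ((ψ a)⁻¹ * d⁻¹) * (ψ b)⁻¹ by group,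
      ← mem_center_iff.1 hc, mem_center_iff.1 (inv_mem hd)]
    group
  exact MulEquiv.ext fun x => h3 (hp ▸ mem_top x)

variable {Γ : Type*} [Group Γ] [Finite Γ]

/-- All automorphisms of `H` are induced by `N`. -/
theorem aut_of {H N Q : Subgroup Γ} {z : Γ} (hN : N ≤ 𝒩(H)) (hHN : H ≤ N) (hp : H ≤ ⁅H, H⁆) (hQ : pCoreOf 2 H = Q)
    (hx : IsExtraspecial 2 Q) (hq : Nat.card Q = 128) (hc : ∀ c ∈ N, c ∈ 𝒞(Q) → c = 1 ∨ c = z)
    (hz : ∀ h ∈ H, h * z = z * h) (hn : Nat.card N = 6635520) (φ : MulAut H) :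
    ∃ c ∈ N, ∀ x : H, (φ x : Γ) = c * x * c⁻¹ := by
  classical
  have hQH : Q ≤ H := hQ ▸ map_subtype_le _
  obtain ⟨e⟩ := CL.PG.equiv_of_map hQ
  have h1 : Nat.card (MulAut H) ≤ 3317760 := by
    refine (card_aut_le_char (pCore 2 H) ?_ fun c h => ?_).trans
      ((Nat.card_congr (MulAut.congr e).toEquiv).le.trans (card_aut_xs hx hq))
    · refine top_le_iff.1 ((map_le_map_iff_of_injective H.subtype_injective).1 ?_)
      rwa [map_subtype_commutator, ← MonoidHom.range_eq_map, range_subtype]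
    · rcases hc c (hHN c.2) (mem_cent.2 fun q hq => congrArg Subtype.val
        (mem_cent.1 h ⟨q, hQH hq⟩ (by rw [CL.PG.eq_subgroupOf_of_map hQ]; exact hq))) with e | e
      · exact (show c = 1 from Subtype.ext e) ▸ one_mem _
      · exact mem_center_iff.2 fun g => Subtype.ext (by change (g : Γ) * c = c * g; rw [e, hz g g.2])
  let j := H.normalizerMonoidHom.comp (inclusion hN)
  have h2 : Nat.card j.ker ≤ 2 := by
    refine (Nat.card_le_card_of_injective (fun c : j.ker => decide (((c : N) : Γ) = 1)) fun a b e => ?_).trans (by simp)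
    have k : ∀ c : j.ker, ((c : N) : Γ) = 1 ∨ ((c : N) : Γ) = z := fun c => hc _ c.1.2 (mem_cent.2 fun q hq =>
      (mul_inv_eq_iff_eq_mul.1 (show ((c : N) : Γ) * q * ((c : N) : Γ)⁻¹ = q from
        congrArg Subtype.val (DFunLike.congr_fun (MonoidHom.mem_ker.1 c.2) (⟨q, hQH hq⟩ : H)))).symm)
    simp only [decide_eq_decide] at e
    refine Subtype.ext (Subtype.ext ?_)
    rcases k a with h | h
    · rw [h, e.1 h]
    · rcases k b with h' | h'
      · rw [h', e.2 h']
      · rw [h, h']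
  have h3 := j.ker.card_mul_index
  rw [index_ker, hn] at h3
  have h4 : j.range = ⊤ := eq_top_of_le_card _ (by
    refine h1.trans (Nat.le_of_mul_le_mul_left (a := 3317760) (c := 2) ?_ two_pos)
    exact (by omega : 2 * 3317760 ≤ 6635520).trans (h3.ge.trans (Nat.mul_le_mul_right _ h2)))
  obtain ⟨c, rfl⟩ : φ ∈ j.range := h4 ▸ mem_top φ
  exact ⟨c, c.2, fun _ => rfl⟩

end CL.NS.SzA
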