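/-
Project NS3: the facts `FusS` from class lists.
-/
import Cfsg.Agent.NS3.Basic

set_option autoImplicit false
set_option linter.unusedSectionVars false
open Cfsg Subgroup CL.Even CL.Grp CL.Wr

namespace CL.NS

variable {Γ : Type*} [Group Γ] [Finite Γ] {d : Dat Γ}

theorem el_comm {E : Subgroup Γ} (h : ∀ x ∈ E, x * x = 1) {x y : Γ} (hx : x ∈ E) (hy : y ∈ E) : x * y = y * x := by
  rw [← inv_eq_of_mul_eq_one_right (h _ (mul_mem hy hx)), mul_inv_rev, inv_eq_of_mul_eq_one_right (h x hx),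
    inv_eq_of_mul_eq_one_right (h y hy)]

theorem el_cj {E : Subgroup Γ} (h : ∀ x ∈ E, x * x = 1) (g : Γ) : ∀ x ∈ cj g E, x * x = 1 := by
  rintro _ ⟨x, hx, rfl⟩
  rw [← map_mul, h x hx, map_one]

theorem le_or_le {E V W : Subgroup Γ} (h : ∀ x ∈ E, x ∈ V ∨ x ∈ W) : E ≤ V ∨ E ≤ W := by
  by_contra hn
  obtain ⟨h1, h2⟩ := not_or.1 hn
  obtain ⟨a, ha, ha'⟩ := SetLike.not_le_iff_exists.1 h1
  obtain ⟨b, hb, hb'⟩ := SetLike.not_le_iff_exists.1 h2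
  rcases h _ (mul_mem ha hb) with e | e
  · exact ha' ((mul_mem_cancel_right ((h b hb).resolve_right hb')).1 e)
  · exact hb' ((mul_mem_cancel_left ((h a ha).resolve_left ha')).1 e)

/-- The class lists. -/
structure FA (d : Dat Γ) (Q Z V S W : Subgroup Γ) (w f : Γ) : Prop where
  z2 : d.z * d.z = 1
  z1 : d.z ≠ 1
  f2 : f * f = 1
  VT : V ≤ d.T
  ZV : Z ≤ V
  cV : Nat.card V = 64
  cZ : Nat.card Z = 16
  zZ : d.z ∈ Z
  fV : f ∈ V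
  fZ : f ∉ Z
  clsV : ∀ v ∈ V, v = 1 ∨ ∃ y ∈ d.L, y ∈ 𝒩(V) ∧ y ∈ 𝒩(Z) ∧ (v = y * d.z * y⁻¹ ∨ v = y * f * y⁻¹)
  zf : ∀ g ∈ d.L, g * d.z * g⁻¹ ≠ f
  clsL : ∀ x ∈ d.L, x * x = 1 → ∃ y ∈ d.L, ∃ v ∈ V, x = y * v * y⁻¹
  clsH : ∀ x ∈ d.L, x * d.z = d.z * x → x * x = 1 →
    x ∈ Q ∨ ∃ y ∈ d.L, y * d.z = d.z * y ∧ (x = y * w * y⁻¹ ∨ x = y * f * y⁻¹)
  clsK : ∀ x ∈ d.L, x * d.z = d.z * x → x * w = w * x → x * x = 1 → x ∈ Z ∨ ∃ y ∈ d.L, x = y * f * y⁻¹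
  cQ : ∃ R : List Γ, R.length < 64 ∧ ∀ x ∈ Q, x * x = 1 → x ∈ R
  syl : ∀ E ≤ d.L ⊓ centralizer {f}, IsPGroup 2 E → ∃ g ∈ d.L, cj g E ≤ S
  clsS : ∀ x ∈ S, x * x = 1 → (x ∈ V ∨ x ∈ W) ∨ Nat.card (S ⊓ centralizer {x} : Subgroup Γ) < 64
  WV : ∃ s ∈ d.L, W = cj s V

namespace FA

variable {Q Z V S W : Subgroup Γ} {w f : Γ} (h : FA d Q Z V S W w f)
include h

theorem clZ : ∀ v ∈ Z, v ≠ 1 → cl d v := fun v hv h1 => by
  obtain ⟨y, hy, -, h2, e | rfl⟩ := (h.clsV v (h.ZV hv)).resolve_left h1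
  · exact ⟨y, hy, e⟩
  · exact absurd ((mem_normalizer_iff.1 h2 f).2 hv) h.fZ

theorem clV : ∀ v ∈ V, v ∉ Z → ∃ g ∈ d.L, v = g * f * g⁻¹ := fun v hv h1 => by
  obtain ⟨y, hy, -, h2, rfl | e⟩ := (h.clsV v hv).resolve_left fun e => h1 (e ▸ one_mem _)
  · exact absurd (conj_mem h2 h.zZ) h1
  · exact ⟨y, hy, e⟩

theorem two : ∀ x ∈ d.L, Iv x → cl d x ∨ ∃ g ∈ d.L, x = g * f * g⁻¹ := fun x hx hi => by
  obtain ⟨y, hy, v, hv, rfl⟩ := h.clsL x hx hi.1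
  by_cases h1 : v ∈ Z
  · exact Or.inl ((h.clZ v h1 fun e => hi.2 (by rw [e]; group)).conj hy)
  · obtain ⟨g, hg, rfl⟩ := h.clV v hv h1
    exact Or.inr ⟨y * g, mul_mem hy hg, by group⟩

/-- A subgroup that contains `f`. -/
theorem max1 {E : Subgroup Γ} (hE : E ≤ d.L) (h2 : ∀ x ∈ E, x * x = 1) (hf : f ∈ E) :
    Nat.card E < 64 ∨ ∃ g ∈ d.L, E = cj g V := by
  refine or_iff_not_imp_left.2 fun hc => ?_
  obtain ⟨g, hg, hS⟩ := h.syl E (fun x hx => ⟨hE hx, mem_cent1.2 (el_comm h2 hx hf)⟩)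
    fun x => ⟨1, Subtype.ext (by simpa [pow_two] using h2 x x.2)⟩
  rw [← card_cj g] at hc
  have h3 := el_cj h2 g
  obtain ⟨s, hs, hW⟩ := h.WV
  have h4 : ∀ x ∈ cj g E, x ∈ V ∨ x ∈ W := fun x hx => (h.clsS x (hS hx) (h3 x hx)).resolve_right fun e =>
    hc ((card_le_of_le (le_inf hS fun y hy => mem_cent1.2 (el_comm h3 hy hx))).trans_lt e)
  rcases le_or_le h4 with e | e
  · exact ⟨g⁻¹, inv_mem hg, by rw [← eq_of_le_of_card_ge e (by rw [h.cV]; omega), cj_inv_cj]⟩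
  · exact ⟨g⁻¹ * s, mul_mem (inv_mem hg) hs, by
      rw [cj_mul, ← hW, ← eq_of_le_of_card_ge e (by rw [hW, card_cj, h.cV]; omega), cj_inv_cj]⟩

/-- A subgroup that contains `z` and no conjugate of `f`. -/
theorem max2 {E : Subgroup Γ} (hE : E ≤ d.L) (h2 : ∀ x ∈ E, x * x = 1) (hz : d.z ∈ E)
    (hf : ∀ y ∈ d.L, y * f * y⁻¹ ∉ E) : Nat.card E < 64 := by
  classical
  by_cases hQ : E ≤ Q
  · obtain ⟨R, h3, h4⟩ := h.cQ
    refine lt_of_le_of_lt ?_ ((List.toFinset_card_le R).trans_lt h3)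
    rw [← Nat.card_eq_finsetCard]
    exact Nat.card_le_card_of_injective (fun x : E => (⟨x, List.mem_toFinset.2 (h4 x (hQ x.2) (h2 x x.2))⟩ : R.toFinset))
      fun a b e => Subtype.ext (by simpa using e)
  obtain ⟨x, hx, h3⟩ := SetLike.not_le_iff_exists.1 hQ
  obtain ⟨y, hy, h4, rfl | rfl⟩ := (h.clsH x (hE hx) (el_comm h2 hx hz) (h2 x hx)).resolve_left h3
  · have h5 := el_cj h2 y⁻¹
    have h6 : cj y⁻¹ E ≤ Z := fun a ha => by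
      refine (h.clsK a (cj_le_of_mem hE (inv_mem hy) ha) (el_comm h5 ha (mem_cj.2 ?_))
        (el_comm h5 ha (mem_cj.2 (by rwa [inv_inv]))) (h5 a ha)).resolve_right ?_
      · rwa [inv_inv, h4, mul_inv_cancel_right]
      · rintro ⟨u, hu, rfl⟩
        exact hf (y * u) (mul_mem hy hu) (by simpa only [inv_inv, mul_inv_rev, mul_assoc] using mem_cj.1 ha)
    rw [← card_cj y⁻¹]
    exact (card_le_of_le h6).trans_lt (by rw [h.cZ]; omega)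
  · exact absurd hx (hf y hy)

theorem fus : FusS d V Z f where
  V_le := h.VT
  Z_le := h.ZV
  sq v hv := by
    rcases h.clsV v hv with rfl | ⟨y, -, -, -, rfl | rfl⟩
    · exact mul_one 1
    · rw [conj_mul, h.z2]; group
    · rw [conj_mul, h.f2]; group
  cardV := h.cV
  cardZ := h.cZ
  z_mem := h.zZ
  clZ := h.clZ
  clV := h.clV
  two := h.two
  f_mem := h.fV
  f_not := h.fZ
  tr := by
    rintro _ hv ⟨g, hg, rfl⟩
    obtain ⟨y, hy, h1, -, e | e⟩ := (h.clsV _ hv).resolve_left fun e => h.z1 (conj_eq_one_iff.1 e)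
    · exact ⟨y, hy, h1, e⟩
    · exact absurd (by rw [mul_assoc y⁻¹, mul_inv_rev, inv_inv, ← mul_assoc, mul_assoc y⁻¹, e]; group)
        (h.zf (y⁻¹ * g) (mul_mem (inv_mem hy) hg))
  maxE E hE h2 := by
    by_cases hf : ∃ y ∈ d.L, y * f * y⁻¹ ∈ E
    · obtain ⟨y, hy, hf⟩ := hf
      rcases h.max1 (cj_le_of_mem hE (inv_mem hy)) (el_cj h2 y⁻¹) (mem_cj.2 (by rwa [inv_inv])) with e | ⟨g, hg, e⟩
      · exact Or.inl (by rwa [card_cj] at e)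
      · exact Or.inr ⟨y * g, mul_mem hy hg, by rw [cj_mul, ← e, cj_cj_inv]⟩
    left
    rcases E.bot_or_exists_ne_one with rfl | ⟨x, hx, h1⟩
    · rw [card_bot]; omega
    obtain ⟨g, hg, rfl⟩ := (h.two x (hE hx) ⟨h2 x hx, h1⟩).resolve_right fun ⟨g, hg, e⟩ => hf ⟨g, hg, e ▸ hx⟩
    rw [← card_cj g⁻¹]
    exact h.max2 (cj_le_of_mem hE (inv_mem hg)) (el_cj h2 _) (mem_cj.2 (by rwa [inv_inv])) fun y hy e =>
      hf ⟨g * y, mul_mem hg hy, by simpa only [inv_inv, mul_inv_rev, mul_assoc] using mem_cj.1 e⟩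

end FA

end CL.NS
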