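/-
Project NS3: the facts `FusS` for the model `Suz:2`.
-/
import Cfsg.Agent.NS3.SzGA
import Cfsg.Agent.NS3.SzFA0

set_option autoImplicit false
set_option linter.unusedSectionVars false
open Cfsg Subgroup CL.Even CL.Grp CL.Wr CL.PG

namespace CL.NS.SzGA

open SzG0 (lL lC lT lQ lZ lV lH lN)

variable {G X : Type*} [Group G] [MulAction G X] [Finite G] {e : ℕ → X} {gs : List G}

theorem cen1 {x : G} {w : List ℕ} (h : x * wordG gs w = wordG gs w * x) : x ∈ centralizer (subW gs [w] : Set G) :=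
  SzT.mem_cent_subW fun v hv => by rw [List.mem_singleton.1 hv, h]

theorem fa (c : Ctx SzG0.P e gs ns D chk) (hU : UB (subW gs lL) 448345497600)
    (hH : Nat.card (subW gs lH) = 3317760) (eH : subW gs lL ⊓ centralizer (subW gs [[0]] : Set G) = subW gs lH)
    {d : Dat G} (hL : d.L = subW gs lL) (hT : d.T = subW gs lT) (hz : d.z = wordG gs [0]) :
    FA d (subW gs lQ) (subW gs lZ) (subW gs lV) (subW gs lS) (subW gs lW) (wordG gs [48]) (wordG gs [64]) where
  z2 := by rw [hz, ← SzT.wordG_two]; exact z_sq c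
  z1 := hz ▸ z_ne c
  f2 := by rw [← SzT.wordG_two]; exact f_sq c
  VT := hT ▸ V_T c
  ZV := Z_le c
  cV := V_card c
  cZ := Z_card c
  zZ := hz ▸ mem_subW (by simp)
  fV := mem_subW (by simp)
  fZ := f_not c
  clsV v hv := by
    obtain ⟨r, hr, y, hy, rfl⟩ := cV_cls c v hv (pow_zero v)
    simp only [List.mem_cons, List.not_mem_nil, or_false] at hr
    rw [hL, hz]
    rcases hr with rfl | rfl | rfl
    · exact Or.inl (by simp)
    · exact Or.inr ⟨y, NV_L c hy, NV_V c hy, NV_Z c hy, Or.inl rfl⟩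
    · exact Or.inr ⟨y, NV_L c hy, NV_V c hy, NV_Z c hy, Or.inr rfl⟩
  zf g hg h := zf c hU g (hL ▸ hg) fun p hp => by
    obtain rfl := List.mem_singleton.1 hp
    exact mul_inv_eq_iff_eq_mul.1 (hz ▸ h)
  clsL x hx h := by
    rw [hL] at hx ⊢
    obtain ⟨r, hr, y, hy, rfl⟩ := ((cT_cls c).mono (H_L c)).up Nat.prime_two (k := 13) (L_card c hU)
      (by decide +kernel) (T_card c) (T_L c) x hx (by rwa [pow_two])
    refine ⟨y, hy, _, ?_, rfl⟩
    simp only [List.mem_cons, List.not_mem_nil, or_false] at hr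
    rcases hr with rfl | rfl | rfl | rfl | rfl
    exacts [one_mem _, mem_subW (by simp), mem_subW (by simp), mem_subW (by simp), mem_subW (by simp)]
  clsH x hx h1 h := by
    rw [hL] at hx ⊢
    rw [hz] at h1 ⊢
    obtain ⟨r, hr, y, hy, rfl⟩ := (cT_cls c).up Nat.prime_two (k := 13) hH (by decide +kernel) (T_card c) (T_H c) x
      (eH.le ⟨hx, cen1 h1⟩) (by rwa [pow_two])
    simp only [List.mem_cons, List.not_mem_nil, or_false] at hr
    have h2 := H_z c y hy _ (mem_subW List.mem_cons_self)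
    rcases hr with rfl | rfl | rfl | rfl | rfl
    · exact Or.inl (conj_mem (H_Q c hy) (one_mem _))
    · exact Or.inl (conj_mem (H_Q c hy) (mem_subW (by simp)))
    · exact Or.inl (conj_mem (H_Q c hy) (mem_subW (by simp)))
    · exact Or.inr ⟨y, H_L c hy, h2, Or.inl rfl⟩
    · exact Or.inr ⟨y, H_L c hy, h2, Or.inr rfl⟩
  clsK x hx h1 h2 h := by
    rw [hL] at hx ⊢
    rw [hz] at h1
    obtain ⟨r, hr, y, hy, rfl⟩ := cK_cls c x ((eK c hU).le ⟨hx, SzT.mem_cent_subW fun v hv => by
      simp only [List.mem_cons, List.not_mem_nil, or_false] at hv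
      rcases hv with rfl | rfl
      exacts [h1.symm, h2.symm]⟩) (by rwa [pow_two])
    simp only [List.mem_cons, List.not_mem_nil, or_false] at hr
    rcases hr with rfl | rfl | rfl
    · exact Or.inl (conj_mem (N_Z c hy) (one_mem _))
    · exact Or.inl (conj_mem (N_Z c hy) (mem_subW (by simp)))
    · exact Or.inr ⟨y, N_L c hy, rfl⟩
  cQ := by
    obtain ⟨R, h1, h2⟩ := Q_cls c
    exact ⟨R.map (wordG gs), by rwa [List.length_map], fun x hx h => List.mem_map.2 (h2 x hx h)⟩
  syl E hE hp := by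
    rw [hL] at hE ⊢
    obtain ⟨g, hg, h⟩ := exists_conj_le Nat.prime_two (k := 9) (Cf_card c) (by decide +kernel) (S_card c) (S_Cf c) hp
      fun x hx => (eF c hU).le ⟨(hE hx).1, cen1 (mem_cent1.1 (hE hx).2)⟩
    exact ⟨g, ((eF c hU).ge hg).1, by rintro _ ⟨x, hx, rfl⟩; exact h x hx⟩
  clsS x hx h := by
    obtain ⟨r, hr, y, hy, rfl⟩ := S_cls c x hx (by rwa [pow_two])
    have h1 := SzT.norm_union (S0_V c) (S0_W c) (W_V c) (V_W c) y hy (wordG gs r)
    rw [app_eq, app_eq, List.mem_append, List.mem_append, List.mem_singleton] at hr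
    rcases hr with hr | hr | rfl
    · exact Or.inl (h1 (Or.inl (RA_le c (mem_subW hr))))
    · exact Or.inl (h1 (Or.inr (RB_le c (mem_subW hr))))
    · right
      rw [cj_cen1 (le_normalizer hy), card_cj]
      refine (card_le_of_le (inf_le_inf_left _ fun a ha => cen1 (mem_cent1.1 ha))).trans_lt ?_
      rw [eE0 c, E0_card c]
      omega
  WV := ⟨wordG gs [506], hL ▸ S_L c (mem_subW (by simp)),
    eq_of_le_of_card_ge (fun a ha => mem_cj.2 (W_V c a ha)) (by rw [card_cj, V_card c, W_card c])⟩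

end CL.NS.SzGA

namespace CL.NS

open SzG0

theorem szFus : ∃ V Z f, FusS szD V Z f := by
  have hl := SzGA.len c1
  have hs : ∀ l, boundB 171 l = true → subW gs1 l = subW (ext gs1 SzGA.ws) l := fun l h => (subW_ext hl _ h).symm
  have hL := hs lL (by decide +kernel)
  have hH := hs lH (by decide +kernel)
  have hU := ubL
  have h1 : Nat.card (subW gs1 lH) = 3317760 := H_card c1
  have h2 : subW gs1 lL ⊓ centralizer (subW gs1 [[0]] : Set _) = subW gs1 lH := H_eq c1 ubL
  rw [hL] at hU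
  rw [hH] at h1
  rw [hL, hH, hs [[0]] (by decide +kernel)] at h2
  have h3 : szD.z = wordG (ext gs1 SzGA.ws) [0] := (wordG_ext hl _ (by decide +kernel)).symm
  have h4 : szD.T = subW (ext gs1 SzGA.ws) lT := hs lT (by decide +kernel)
  have h5 : szD.L = subW (ext gs1 SzGA.ws) lL := hL
  exact ⟨_, _, _, (SzGA.fa (SzGA.ctx c1 (faithful_eF _) fun _ _ => trivial) hU h1 h2 h5 h4 h3).fus⟩

end CL.NS
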