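/-
Project NS3: the facts `SzU`, `SzD` and `Clq` for the model `Suz:2`.
-/
import Cfsg.Agent.NS3.SzGB
import Cfsg.Agent.NS3.Defs2

set_option autoImplicit false
set_option linter.unusedSectionVars false
open Cfsg Subgroup CL.Even CL.Grp CL.Wr CL.PG

namespace CL.NS

section Abs

variable {Γ : Type*} [Group Γ] [Finite Γ] {d : Dat Γ}

theorem Pc.conj {x y g : Γ} (h : Pc d x y) (hC : d.L ≤ d.C) (hg : g ∈ d.L) : Pc d (g * x * g⁻¹) (g * y * g⁻¹) := by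
  obtain ⟨h1, a, ha, h2, h3⟩ := h
  refine ⟨fun c hc hc' => ?_, g * a * g⁻¹, mul_mem (mul_mem hg ha) (inv_mem hg), by rw [← h2]; group,
    by rw [conj_mul (a := x) (b := g), ← h3]; group⟩
  rw [← cj_cent_singleton, ← cj_cent_singleton, ← cj_eq (le_normalizer hg), ← cj_inf, ← cj_inf, ← cj_cent, mem_cj] at hc'
  have e : c = g * (g⁻¹ * c * g) * g⁻¹ := by group
  rcases h1 _ (mul_mem (mul_mem (inv_mem (hC hg)) hc) (hC hg)) hc' with k | k | k | k <;> rw [k] at e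
  · exact Or.inl (by rw [e]; group)
  · exact Or.inr (Or.inl e)
  · exact Or.inr (Or.inr (Or.inl e))
  · exact Or.inr (Or.inr (Or.inr (by rw [e, conj_mul])))

theorem tz_of {U : Subgroup Γ} (hU : ∀ x ∈ U, x * x = 1) {x y g a b : Γ} (hg : g ∈ d.L) (h1 : g * x * g⁻¹ = a)
    (h2 : g * y * g⁻¹ = b) (ha : a ∈ U) (hb : b ∈ U) (a1 : a ≠ 1) (b1 : b ≠ 1) (ab : a * b ≠ 1) : TZ d U x y :=
  ⟨fun e => a1 (by rw [← h1, e]; group), fun e => b1 (by rw [← h2, e]; group),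
    fun e => ab (by rw [← h1, e, h2, hU b hb]), g, hg, h1 ▸ ha, h2 ▸ hb⟩

theorem tz_one {U : Subgroup Γ} (hU : ∀ x ∈ U, x * x = 1) {a b : Γ} (ha : a ∈ U) (hb : b ∈ U) (a1 : a ≠ 1)
    (b1 : b ≠ 1) (ab : a * b ≠ 1) : TZ d U a b :=
  tz_of hU (one_mem _) (by group) (by group) ha hb a1 b1 ab

theorem cl_of {x y g : Γ} (hg : g ∈ d.L) (e : g * x * g⁻¹ = y) (h : cl d y) : cl d x := by
  have := h.conj (inv_mem hg)
  rwa [← e, show g⁻¹ * (g * x * g⁻¹) * g⁻¹⁻¹ = x by group] at this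

end Abs

namespace SzGB

open SzG0 (lL lC lZ lH lN)
open SzT

variable {G X : Type*} [Group G] [MulAction G X] [Finite G] {e : ℕ → X} {gs : List G}

theorem cenP {L : Subgroup G} {lP : List (List ℕ)} {x y : List ℕ} (h1 : subW gs lP ≤ L)
    (h2 : ∀ a ∈ subW gs lP, ∀ b ∈ subW gs [x, y], a * b = b * a) :
    subW gs lP ≤ L ⊓ centralizer {wordG gs x} ⊓ centralizer {wordG gs y} := fun a ha =>
  ⟨⟨h1 ha, mem_cent1.2 (h2 a ha _ (mem_subW (by simp)))⟩, mem_cent1.2 (h2 a ha _ (mem_subW (by simp)))⟩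

theorem cenQ {L : Subgroup G} {lP : List (List ℕ)} {x y : List ℕ} (h1 : subW gs lP ≤ L)
    (h2 : ∀ a ∈ subW gs lP, ∀ b ∈ subW gs [x, y], a * b = b * a) {γ : G}
    (h3 : γ ∈ 𝒞(L ⊓ centralizer {wordG gs x} ⊓ centralizer {wordG gs y})) (hx : γ * wordG gs x = wordG gs x * γ)
    (hy : γ * wordG gs y = wordG gs y * γ) : γ ∈ centralizer (subW gs (x :: y :: lP) : Set G) :=
  mem_cent_subW fun w hw => by
    rcases List.mem_cons.1 hw with rfl | hw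
    · exact hx.symm
    rcases List.mem_cons.1 hw with rfl | hw
    · exact hy.symm
    · exact h3 _ (cenP h1 h2 (mem_subW hw))

theorem four {a b : ℕ} (h1 : wordG gs [a, a] = wordG gs []) (h2 : wordG gs [b, b] = wordG gs [])
    (h3 : wordG gs [a, b] = wordG gs [b, a]) {x : G} (hx : x ∈ subW gs [[a], [b]]) :
    x = 1 ∨ x = wordG gs [a] ∨ x = wordG gs [b] ∨ x = wordG gs [a] * wordG gs [b] := by
  rw [wordG_two] at h1 h2
  rw [wordG_two, wordG_two] at h3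
  exact (mem_closure_pair_two h1 h2 h3).1 (subW_two gs _ _ ▸ hx)

theorem wordG_four (a b : ℕ) :
    wordG gs [a, b, a, b] = wordG gs [a] * wordG gs [b] * (wordG gs [a] * wordG gs [b]) := by
  rw [← wordG_two]; exact wordG_app gs [a, b] [a, b]

variable (c : Ctx SzG0.P e gs ns D chk) (hC : UB (subW gs lC) 896690995200) {d : Dat G} (hL : d.L = subW gs lL)
  (hc : d.C = subW gs lC) (hz : d.z = wordG gs [0])
include c hL hz

theorem z2 : d.z * d.z = 1 := by rw [hz, ← wordG_two]; exact z_sq c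

theorem pure : ∀ x ∈ subW gs lZ, x ≠ 1 → ∃ y ∈ d.L, y ∈ 𝒩(subW gs lZ) ∧ x = y * d.z * y⁻¹ := fun x hx h1 => by
  obtain ⟨r, hr, y, hy, rfl⟩ := cZ_cls c x hx (pow_zero x)
  simp only [List.mem_cons, List.not_mem_nil, or_false] at hr
  rcases hr with rfl | rfl
  · exact absurd (by simp) h1
  · exact ⟨y, hL ▸ N_L c hy, N_Z c hy, by rw [hz]⟩

theorem clZ {x : G} (hx : x ∈ subW gs lZ) (h1 : x ≠ 1) : cl d x :=
  let ⟨y, hy, _, h⟩ := pure c hL hz x hx h1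
  ⟨y, hy, h⟩

theorem sq : ∀ x ∈ subW gs lZ, x * x = 1 := fun x hx => by
  by_cases h1 : x = 1
  · rw [h1, mul_one]
  obtain ⟨y, -, -, rfl⟩ := pure c hL hz x hx h1
  rw [conj_mul, z2 c hL hz]; group

theorem clq : Clq d {g | ∃ w ∈ lS, wordG gs w = g} (wordG gs [12]) (wordG gs [48]) := by
  obtain ⟨g0, k0, a0, -⟩ := t1 c
  obtain ⟨g1, k1, a1, b1, -⟩ := q02 c
  obtain ⟨g2, k2, a2, b2, -⟩ := q03 c
  obtain ⟨g3, k3, a3, b3, -⟩ := q12 c
  obtain ⟨g4, k4, a4, b4, -⟩ := q13 c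
  obtain ⟨g5, k5, a5, b5, -⟩ := q23 c
  rw [← hL] at k0 k1 k2 k3 k4 k5
  have hw : cl d (wordG gs [48]) := clZ c hL hz (mem_subW (by simp)) (w_ne c)
  refine ⟨hL ▸ gen c, ?_, ?_⟩
  · rintro _ ⟨w, h, rfl⟩
    simp only [List.mem_cons, List.not_mem_nil, or_false] at h
    rcases h with rfl | rfl | rfl | rfl
    exacts [cl_of k0 a0 (hz ▸ cl_z d), hw, cl_of k1 b1 hw, cl_of k2 b2 hw]
  · rintro _ ⟨w, h, rfl⟩ _ ⟨w', h', rfl⟩
    simp only [List.mem_cons, List.not_mem_nil, or_false] at h h'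
    rcases h with rfl | rfl | rfl | rfl <;> rcases h' with rfl | rfl | rfl | rfl
    exacts [.inl rfl, .inr (.inl ⟨1, one_mem _, by group, by group⟩), .inr (.inl ⟨g1, k1, a1, b1⟩),
      .inr (.inl ⟨g2, k2, a2, b2⟩), .inr (.inr ⟨1, one_mem _, by group, by group⟩), .inl rfl,
      .inr (.inl ⟨g3, k3, a3, b3⟩), .inr (.inl ⟨g4, k4, a4, b4⟩), .inr (.inr ⟨g1, k1, b1, a1⟩),
      .inr (.inr ⟨g3, k3, b3, a3⟩), .inl rfl, .inr (.inl ⟨g5, k5, a5, b5⟩), .inr (.inr ⟨g2, k2, b2, a2⟩),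
      .inr (.inr ⟨g4, k4, b4, a4⟩), .inr (.inr ⟨g5, k5, b5, a5⟩), .inl rfl]

include hC hc

theorem pc1 : Pc d (wordG gs [0]) (wordG gs [60]) := by
  obtain ⟨g, k, a, b, -⟩ := r1 c
  exact ⟨fun γ h1 h2 => four (z_sq c) (n_sq c) (zn c)
    ((P1_e c hC).le ⟨hc ▸ h1, centralizer_le (cenP (hL ▸ P1_L c) (P1_c c)) h2⟩), g, hL ▸ k, a, wordG_two gs 0 60 ▸ b⟩

theorem pc2 : Pc d (wordG gs [0]) (wordG gs [48]) := by
  obtain ⟨g, k, a, b, -⟩ := r2 c
  exact ⟨fun γ h1 h2 => four (z_sq c) (w_sq c) (zw c)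
    ((P2_e c hC).le ⟨hc ▸ h1, centralizer_le (cenP (hL ▸ P2_L c) (P2_c c)) h2⟩), g, hL ▸ k, a, wordG_two gs 0 48 ▸ b⟩

theorem szU (hLC : d.L ≤ d.C) (hJ : d.L ⊓ centralizer {d.z} ≤ Jc d.L d.z) : SzU d (subW gs lZ) where
  H_eq := hJ
  sq := sq c hL hz
  card := by rw [Z_card c]; omega
  pure x hx h1 := clZ c hL hz hx h1
  pc x hx y hy h1 h2 h3 := by
    obtain ⟨g, hg, hn, rfl⟩ := pure c hL hz x hx h1
    obtain ⟨r, hr, a, ha, e⟩ := cY_cls c _ (conj_mem' hn hy) (pow_zero _)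
    have h4 : a * d.z = d.z * a := hz ▸ H_z c a ha _ (mem_subW List.mem_cons_self)
    have h5 : y = g * a * wordG gs r * (g * a)⁻¹ := by
      calc y = g * (g⁻¹ * y * g) * g⁻¹ := by group
        _ = _ := by rw [← e]; group
    have h6 : g * d.z * g⁻¹ = g * a * wordG gs [0] * (g * a)⁻¹ := by rw [← hz, mul_assoc g a, h4]; group
    have h7 : g * a ∈ d.L := mul_mem hg (hL ▸ H_L c ha)
    simp only [List.mem_cons, List.not_mem_nil, or_false] at hr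
    rcases hr with rfl | rfl | rfl | rfl
    · exact absurd (by simpa using h5) h2
    · exact absurd (h6.trans h5.symm) h3
    · rw [h5, h6]; exact (pc1 c hC hL hc hz).conj hLC h7
    · rw [h5, h6]; exact (pc2 c hC hL hc hz).conj hLC h7

theorem szD : ∃ g, SzD d (subW gs lZ) (wordG gs [12]) (wordG gs [374]) (wordG gs [48]) (wordG gs [376])
    (wordG gs [58]) g := by
  obtain ⟨g, k, a1, a2, a3, a4, a5, -⟩ := gg c
  obtain ⟨g1, k1, a6, b6, -⟩ := t1 c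
  obtain ⟨g3, k3, a7, b7, -⟩ := t3 c
  obtain ⟨g5, k5, a8, b8, -⟩ := t5 c
  obtain ⟨s3, l3, c1, c2, c3, c4, -⟩ := s3 c
  obtain ⟨s4, l4, c5, c6, -⟩ := s4 c
  rw [← hL] at k k1 k3 k5 l3 l4
  have hs := sq c hL hz
  have mz : wordG gs [0] ∈ subW gs lZ := mem_subW (by simp)
  have mw : wordG gs [48] ∈ subW gs lZ := mem_subW (by simp)
  have mo : wordG gs [60] ∈ subW gs lZ := mem_subW (by simp)
  have mm : wordG gs [58] ∈ subW gs lZ := mem_subW (by simp)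
  have mn : wordG gs [376] ∈ subW gs lZ := mZ c (mem_subW (by simp))
  have hb : cl d (wordG gs [12]) := cl_of k1 a6 (hz ▸ cl_z d)
  have e3 : s3 * wordG gs [0] * s3⁻¹ = wordG gs [376] * wordG gs [0] := wordG_two gs 376 0 ▸ c3
  have e4 : s3 * wordG gs [376] * s3⁻¹ = wordG gs [376] := c4
  have nz : wordG gs [376] * wordG gs [0] ≠ wordG gs [0] := fun h => n_ne c (mul_eq_right.1 h)
  have zw : wordG gs [0] * wordG gs [48] ≠ 1 := wordG_two gs 0 48 ▸ zw_ne c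
  have nm : wordG gs [376] * wordG gs [58] ≠ 1 := wordG_two gs 376 58 ▸ nm_ne c
  refine ⟨g, ⟨hb, clZ c hL hz mw (w_ne c), clZ c hL hz mn (n_ne c), wordG_four (gs := gs) 12 48 ▸ bw c, s3, l3, c1, c2,
      fun γ h1 h2 h3 h4 h5 => ?_⟩,
    ⟨hb, clZ c hL hz mm (m_ne c), cl_z _, hz ▸ wordG_four (gs := gs) 12 58 ▸ bn c, s4, l4, c5, c6,
      fun γ h1 h2 h3 h4 _ => ?_⟩, k, a1, wordG_two gs 12 374 ▸ a2, a3, a4,
    hz ▸ wordG_three gs 376 58 0 ▸ a5, tz_of hs k1 a6 b6 mz mw (z_ne c) (w_ne c) zw,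
    tz_one hs mw mn (w_ne c) (n_ne c) (wordG_two gs 48 376 ▸ wn_ne c),
    hz ▸ tz_of hs k3 a7 b7 mz mo (z_ne c) (o_ne c) (wordG_two gs 0 60 ▸ zo_ne c),
    hz ▸ tz_one hs mm mz (m_ne c) (z_ne c) (wordG_two gs 58 0 ▸ mz_ne c), tz_of hs k5 a8 b8 mz mw (z_ne c) (w_ne c) zw,
    tz_one hs mn mm (n_ne c) (m_ne c) nm,
    hz ▸ tz_one hs (mul_mem mn mm) mz nm (z_ne c) (wordG_three gs 376 58 0 ▸ nmz_ne c),
    hz ▸ tz_one hs mn mz (n_ne c) (z_ne c) (wordG_two gs 376 0 ▸ az c ▸ zn_ne c)⟩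
  · rcases four (a_sq c) (z_sq c) (az c) ((P3_e c hC).le ⟨hc ▸ h1, cenQ (hL ▸ P3_L c) (P3_c c) h2 h3 h4⟩) with
      h | h | rfl | rfl
    · exact Or.inl h
    · exact Or.inr h
    · rw [e3, inv_eq_of_mul_eq_one_right (hs _ mz)] at h5
      exact absurd h5 nz
    · rw [← conj_mul, e3, e4, ← mul_assoc, hs _ mn, one_mul, inv_eq_of_mul_eq_one_right (hs _ (mul_mem mn mz))] at h5
      exact absurd h5.symm nz
  · have := (P4_e c hC).le ⟨hc ▸ h1, cenQ (hL ▸ P4_L c) (P4_c c) h2 h3 h4⟩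
    rw [subW_one, ← hz, zpowers_eq_closure, ← Set.pair_eq_singleton, mem_closure_pair_two (z2 c hL hz) (z2 c hL hz) rfl,
      z2 c hL hz] at this
    tauto

end SzGB

open SzG0

theorem szCore : ∃ U b b' w n n' g S, SzU szD U ∧ SzD szD U b b' w n n' g ∧ Clq szD S b w := by
  have hl := SzGB.len c1
  have hs : ∀ l, boundB 171 l = true → subW gs1 l = subW (ext gs1 SzGB.ws) l := fun l h => (subW_ext hl _ h).symm
  have hC : UB (subW gs1 lC) 896690995200 := C_ub c1 ubL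
  rw [hs lC (by decide +kernel)] at hC
  have h3 : szD.z = wordG (ext gs1 SzGB.ws) [0] := (wordG_ext hl _ (by decide +kernel)).symm
  have h4 : szD.C = subW (ext gs1 SzGB.ws) lC := hs lC (by decide +kernel)
  have h5 : szD.L = subW (ext gs1 SzGB.ws) lL := hs lL (by decide +kernel)
  have c := SzGB.ctx c1 (faithful_eF _) fun _ _ => trivial
  have h6 : szD.L ⊓ centralizer {szD.z} = subW gs1 lH := by
    have : subW gs1 lL ⊓ centralizer (subW gs1 [[0]] : Set _) = subW gs1 lH := H_eq c1 ubL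
    rwa [SzT.subW_one, cent_zpowers] at this
  obtain ⟨g, h⟩ := SzGB.szD c hC h5 h4 h3
  exact ⟨_, _, _, _, _, _, g, _, SzGB.szU c hC h5 h4 h3 (L_le c1) (h6.le.trans (le_Jc h6.ge (H_perf c1))), h,
    SzGB.clq c h5 h3⟩

end CL.NS
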