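/-
Project NS3: tools for the certificates of the model `Suz:2`.
-/
import Cfsg.Agent.Spor.PGCov
import Cfsg.Agent.Spor.PGStruct
import Cfsg.Agent.Spor.PGSearch
import Cfsg.Agent.Even.XS2

set_option autoImplicit false

namespace CL.NS.SzT
open CL.PG

variable {G X : Type*} [Group G] [MulAction G X] {e : ℕ → X} {gs : List G}

/-- `g` conjugates the first words to the second words. -/
def CjA (gs : List G) (g : G) : List (List ℕ × List ℕ) → Prop
  | [] => True
  | p :: t => g * wordG gs p.1 * g⁻¹ = wordG gs p.2 ∧ CjA gs g t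

/-- The relations `g x = y g`. -/
noncomputable def cjR (g : List ℕ) (xs : List (List ℕ × List ℕ)) : List (List ℕ × List ℕ) :=
  mapL (fun p => (app g p.1, app p.2 g)) xs

theorem cjA_of {g : List ℕ} : ∀ {xs : List (List ℕ × List ℕ)}, Rels gs (cjR g xs) → CjA gs (wordG gs g) xs
  | [], _ => trivial
  | p :: t, h => ⟨by
      have := h _ List.mem_cons_self
      simp only [wordG_app] at this
      rw [this, mul_inv_cancel_right], cjA_of fun q hq => h q (List.mem_cons_of_mem _ hq)⟩

theorem cjs {P : Par} {ns : List Net} {D : List (ℕ × List ℕ)} {chk : List (List ℕ × List ℕ) → Bool}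
    (c : Ctx P e gs ns D chk) {l : List (List ℕ)} {g : List ℕ} {xs : List (List ℕ × List ℕ)}
    (h1 : leB D [g] l = true) (h2 : Rels gs (cjR g xs)) : ∃ g ∈ subW gs l, CjA gs g xs :=
  ⟨_, c.mem h1, cjA_of h2⟩

theorem wordG_two (gs : List G) (a b : ℕ) : wordG gs [a, b] = wordG gs [a] * wordG gs [b] := wordG_app gs [a] [b]

theorem wordG_three (gs : List G) (a b d : ℕ) :
    wordG gs [a, b, d] = wordG gs [a] * wordG gs [b] * wordG gs [d] := by
  rw [← wordG_two]; exact wordG_app gs [a, b] [d]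

theorem subW_two (gs : List G) (x y : List ℕ) : subW gs [x, y] = Subgroup.closure {wordG gs x, wordG gs y} := by
  unfold subW
  congr 1
  ext g
  simp [eq_comm]

theorem subW_one (gs : List G) (x : List ℕ) : subW gs [x] = Subgroup.zpowers (wordG gs x) := by
  rw [Subgroup.zpowers_eq_closure]
  unfold subW
  congr 1
  ext g
  simp [eq_comm]

/-- Centralising the generators. -/
theorem mem_cent_subW {l : List (List ℕ)} {c : G} (h : ∀ w ∈ l, wordG gs w * c = c * wordG gs w) :
    c ∈ Subgroup.centralizer (subW gs l : Set G) := by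
  rw [subW, Subgroup.centralizer_closure]
  rintro _ ⟨w, hw, rfl⟩
  exact h w hw

/-- The elements of order at most 2 from a list of all elements. -/
theorem few_inv {H : Subgroup G} {RA RB : List (List ℕ)} {z : List ℕ} (h : Cls 0 H (subW gs []) gs (app RA RB))
    (hR : Rels gs (mapL (fun r => (app r r, z)) RB)) (hz : wordG gs z ≠ 1) :
    ∀ x ∈ H, x * x = 1 → ∃ r ∈ RA, wordG gs r = x := fun x hx h2 => by
  obtain ⟨r, hr, y, hy, rfl⟩ := h x hx (pow_zero x)
  rw [subW_nil, Subgroup.mem_bot] at hy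
  subst hy
  rw [app_eq, List.mem_append] at hr
  simp only [one_mul, inv_one, mul_one] at h2 ⊢
  refine ⟨r, hr.resolve_right fun hr => hz ?_, rfl⟩
  rw [← h2, ← wordG_app]
  exact (hR _ (mem_mapL hr)).symm

/-- A group which permutes two subgroups. -/
theorem norm_union [Finite G] {V W : Subgroup G} {l : List (List ℕ)} {s : List ℕ}
    (h1 : subW gs l ≤ Subgroup.normalizer (V : Set G)) (h2 : subW gs l ≤ Subgroup.normalizer (W : Set G))
    (h3 : ∀ a ∈ W, (wordG gs s)⁻¹ * a * wordG gs s ∈ V) (h4 : ∀ a ∈ V, (wordG gs s)⁻¹ * a * wordG gs s ∈ W) :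
    ∀ y ∈ subW gs (s :: l), ∀ a, a ∈ V ∨ a ∈ W → y * a * y⁻¹ ∈ V ∨ y * a * y⁻¹ ∈ W := fun y hy a ha => by
  have : subW gs (s :: l) ≤ Subgroup.normalizer ((V : Set G) ∪ W) := subW_le.2 fun w hw => by
    rcases List.mem_cons.1 hw with rfl | hw
    · exact inv_mem_iff.1 (Subgroup.mem_normalizer_fintype fun b hb => by
        rw [inv_inv]; exact hb.symm.imp (h3 b) (h4 b))
    · exact Subgroup.mem_normalizer_fintype fun b hb => hb.imp
        (Subgroup.mem_normalizer_iff.1 (h1 (mem_subW hw)) b).1 (Subgroup.mem_normalizer_iff.1 (h2 (mem_subW hw)) b).1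
  exact (this hy a).1 ha

end CL.NS.SzT
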