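/-
Project NS3 (second version), jobs B0 and B1: the tight embedding of `C(L)` and the maps between involution centralisers.
-/
import Cfsg.Agent.NS3.V0
import Cfsg.Agent.SJ4.B12

set_option autoImplicit false
set_option linter.unusedSectionVars false
open Cfsg Subgroup CL.Even CL.Grp CL.Wr CL.Wr.P0dAux CL.SJ.B12
open scoped commutatorElement

namespace CL.NS.V2

universe u

namespace B01

variable {G : Type*} [Group G] [Finite G] {Γ : Type*} [Group Γ] [Finite Γ] {d : Dat Γ} {Th : Subgroup Γ}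
  {L L₁ : Subgroup G} {ρ ρ₁ : G → Γ} {r κ : G}

theorem core (m : Base d Th) (c : Cen d) (R : Rh d L ρ) (R₁ : Rh d L₁ ρ₁) (rN : r ∈ 𝒩(L)) (kN : κ ∈ 𝒩(L₁))
    (kC : κ ∈ 𝒞(L)) (ri : Iv (ρ r)) (ki : Iv (ρ₁ κ)) (cr : centralizer {r} ≤ 𝒩(L₁)) :
    (∀ x ∈ L, ρ x ∈ Jc d.L (ρ r) → ρ₁ x ∈ Jc d.L (ρ₁ κ)) ∧
    ∃ N, N ≤ Jc d.L (ρ r) ∧ d.L ⊓ centralizer {ρ r} ≤ 𝒩(N) ∧ (∀ y ∈ N, ∃ l ∈ L, l ∈ 𝒞(L₁) ∧ ρ l = y) ∧
      (N ≤ 𝒞(Jc d.L (ρ r)) → Nat.card (Jc d.L (ρ r)) ∣ Nat.card (ZJ d.L (ρ r)) * Nat.card (Jc d.L (ρ₁ κ)) ∧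
        (Nat.card (Jc d.L (ρ₁ κ)) = Nat.card (Jc d.L (ρ r)) →
          (∀ y ∈ Jc d.L (ρ₁ κ), ∃ x ∈ L, ρ x ∈ Jc d.L (ρ r) ∧ ρ₁ x = y) ∧
            ∀ x ∈ L, ρ x ∈ Jc d.L (ρ r) → ρ₁ x = 1 → x = 1)) := by
  have JL : Jc d.L (ρ r) ≤ d.L := (Jc_le _ _).trans inf_le_left
  have hH : ∀ x ∈ L, ρ x * ρ r = ρ r * ρ x → x ∈ 𝒩(L₁) := fun x hx e =>
    cr (mem_cent1.2 (R.comm_of rN hx e.symm).symm)
  set J := R.toRho.preL (Jc d.L (ρ r)) with hJ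
  have mJ : ∀ x, x ∈ J ↔ x ∈ L ∧ ρ x ∈ Jc d.L (ρ r) := fun x => R.toRho.mem_preL
  have J0 : J ≤ L := R.toRho.preL_le _
  have J1 : J ≤ 𝒩(L₁) := fun x hx => hH x (J0 hx) (mem_cent1.1 (Jc_le _ _ ((mJ x).1 hx).2).2)
  have pJ : J ≤ ⁅J, J⁆ := fun x hx => by
    rw [hJ, ← R.preL_comm JL JL]
    exact R.toRho.mem_preL.2 ⟨J0 hx, c.perf _ (R.mem r rN) ri ((mJ x).1 hx).2⟩
  have pY : R₁.mul.img J ≤ ⁅R₁.mul.img J, R₁.mul.img J⁆ := by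
    rw [← R₁.mul.img_comm J1 J1]; exact R₁.mul.img_mono pJ
  have YJ : R₁.mul.img J ≤ Jc d.L (ρ₁ κ) := le_Jc (R₁.mul.img_le fun x hx hN =>
    ⟨mem_L_of_comm R₁.toRho m J1 (pJ hx), mem_cent1.2 (R₁.mul.mul_comm hN kN (comm_of_mem kC (J0 hx)))⟩) pY
  have e1 := R₁.mul.card_img J1
  rw [show J ⊓ R₁.mul.pre ⊥ = J ⊓ 𝒞(L₁) from Subgroup.ext fun x => and_congr_right fun hx =>
    R₁.mul.mem_pre.trans ((and_iff_right (J1 hx)).trans (mem_bot.trans (R₁.ker x (J1 hx)))), hJ, R.card_preL JL, ← hJ,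
    ← R.mul.card_img_of_inj (inf_le_left.trans (J0.trans Rho.L_le)) fun x hx e =>
      R.eq_of (J0 hx.1) (one_mem _) (e.trans R.mul.one.symm)] at e1
  have NJ : R.mul.img (J ⊓ 𝒞(L₁)) ≤ Jc d.L (ρ r) := R.mul.img_le fun x hx _ => ((mJ x).1 hx.1).2
  refine ⟨fun x hx h => YJ (R₁.mul.mem_img_of ((mJ x).2 ⟨hx, h⟩) (J1 ((mJ x).2 ⟨hx, h⟩))), _, NJ, fun α hα => ?_,
    fun y hy => ?_, fun h => ?_⟩
  · obtain ⟨x, hx, rfl⟩ := R.surj α hα.1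
    refine R.mul.img_norm (Rho.L_le hx) (le_norm_inf (L := zpowers x) (zpowers_le.2 (mem_norm_of fun y hy => ?_))
      (zpowers_le.2 (norm_le_norm_cent _ (hH x hx (mem_cent1.1 hα.2)))) (mem_zpowers x))
    exact (mJ _).2 ⟨conj_mem (le_normalizer hx) (J0 hy), by
      rw [R.mul.conj (Rho.L_le hx) (Rho.L_le (J0 hy))]; exact conj_mem (Jc_norm _ _ hα) ((mJ y).1 hy).2⟩
  · obtain ⟨x, hx, -, e⟩ := R.mul.mem_img.1 hy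
    exact ⟨x, J0 hx.1, hx.2, e⟩
  have NZ : R.mul.img (J ⊓ 𝒞(L₁)) ≤ ZJ d.L (ρ r) := le_inf NJ h
  refine ⟨by rw [e1, mul_comm]; exact mul_dvd_mul (card_dvd_of_le NZ) (card_dvd_of_le YJ), fun e => ?_⟩
  have JY : Jc d.L (ρ₁ κ) ≤ R₁.mul.img J := lemS (c.perf _ (R₁.mem κ kN) ki) YJ (by
    rw [e, e1, mul_comm]
    exact Nat.mul_le_mul_right _ ((card_le_of_le NZ).trans (c.zle _ (R.mem r rN) ri)))
  refine ⟨fun y hy => ?_, fun x hx h1 h2 => ?_⟩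
  · obtain ⟨x, hx, -, e⟩ := R₁.mul.mem_img.1 (JY hy)
    exact ⟨x, J0 hx, ((mJ x).1 hx).2, e⟩
  · rw [le_antisymm YJ JY, e] at e1
    have h3 := eq_bot_of_card_eq _ (Nat.eq_of_mul_eq_mul_left Nat.card_pos (e1.symm.trans (mul_one _).symm))
    have xJ := (mJ x).2 ⟨hx, h1⟩
    exact R.eq_of hx (one_mem _) ((mem_bot.1 (h3.le (R.mul.mem_img_of ⟨xJ, (R₁.ker x (J1 xJ)).1 h2⟩
      (Rho.L_le hx)))).trans R.mul.one.symm)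

/-- No involution of the kind `clW` lies in a conjugate of `C(L)`. -/
theorem noW (m : Base d Th) (c : Cen d) (R : Rh d L ρ) (s : IsStandardSubgroup L) (nz : NoZ d L ρ) {l : G}
    (hl : l ∈ L) (h : clW d (ρ l)) (g : G) : l ∉ cj g 𝒞(L) := by
  intro hm
  rcases h with h | ⟨li, lJ, h⟩
  · exact nz l hl h g hm
  rw [cj_cent] at hm
  have l1 : l ≠ 1 := fun e => li.2 (by rw [e, R.mul.one])
  by_cases hg : g ∈ 𝒩(L)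
  · exact l1 (R.inj l hl (cj_eq hg ▸ hm))
  have cn : centralizer {l} ≤ 𝒩(cj g L) := cen1 s hm (R.eq_of (mul_mem hl hl) (one_mem _)
    (by rw [R.toRho.mulL l hl l hl, li.1, R.mul.one])) l1
  have := Fact.mk Nat.prime_two
  obtain ⟨⟨t, ht⟩, o⟩ := exists_prime_orderOf_dvd_card' 2 (even_iff_two_dvd.1 s.2.1.1)
  rw [orderOf_mk, orderOf_eq_prime_iff, sq] at o
  have tN : t ∈ 𝒩(cj g L) := cn (mem_cent1.2 (comm_of_mem ht hl).symm)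
  have R₁ := R.conj g
  have ti : Iv (ρ (g⁻¹ * t * g)) := ⟨R₁.mul.sq tN o.1, fun h => o.2 (te1 s hg ht (.of_sq o.1) ((R₁.ker t tN).1 h))⟩
  obtain ⟨-, N, n1, n2, n3, n4⟩ := core m c R R₁ (Rho.L_le hl) tN ht li ti cn
  obtain ⟨a1, a2⟩ := n4 ((c.ns _ (R.memL l hl) li N n1 n2).resolve_right fun ⟨y, hy, e⟩ => by
    obtain ⟨x, b1, b2, rfl⟩ := n3 y hy
    exact nz x b1 e g (cj_cent g L ▸ b2))
  exact l1 ((a2 (h _ (R₁.mem t tN) ti a1)).2 l hl lJ ((R₁.ker l (cent_le_norm _ hm)).2 hm))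

end B01

open B01

theorem b1 : B1.{u} := by
  intro Γ _ _ d Th G _ _ L ρ m c R s
  suffices key : ∀ l ∈ L, ρ l = d.z → ∀ g : G, l ∉ cj g 𝒞(L) by
    rintro l hl ⟨_, ha, e⟩ g hg
    obtain ⟨a, aL, rfl⟩ := R.surj _ ha
    refine key (a⁻¹ * l * a) (mul_mem (mul_mem (inv_mem aL) hl) aL) (by
      rw [R.mul.conj' (Rho.L_le aL) (Rho.L_le hl), e]; group) (a⁻¹ * g) ?_
    rw [cj_mul]
    simpa using conj_mem_cj a⁻¹ hg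
  intro l hl e g hm
  rw [cj_cent] at hm
  have l1 : l ≠ 1 := fun h => m.z_ne (by rw [← e, h, R.mul.one])
  by_cases hg : g ∈ 𝒩(L)
  · exact l1 (R.inj l hl (cj_eq hg ▸ hm))
  have iv : ∀ x ∈ L, Iv (ρ x) → centralizer {x} ≤ 𝒩(cj g L) → d.L ⊓ centralizer {ρ x} ≤ R.mul.img (L ⊓ 𝒩(cj g L)) :=
    fun x hx _ h α hα => by
      obtain ⟨y, hy, rfl⟩ := R.surj α hα.1
      exact R.mul.mem_img_of ⟨hy, h (mem_cent1.2 (R.comm_of (Rho.L_le hy) hx (mem_cent1.1 hα.2)))⟩ (Rho.L_le hy)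
  have cn : ∀ x ∈ L, Iv (ρ x) → x ∈ 𝒞(cj g L) → centralizer {x} ≤ 𝒩(cj g L) := fun x hx h h' =>
    cen1 s h' (R.eq_of (mul_mem hx hx) (one_mem _) (by rw [R.toRho.mulL x hx x hx, h.1, R.mul.one]))
      fun e => h.2 (by rw [e, R.mul.one])
  have li : Iv (ρ l) := e ▸ m.z_iv
  have := Fact.mk Nat.prime_two
  obtain ⟨⟨t, ht⟩, o⟩ := exists_prime_orderOf_dvd_card' 2 (even_iff_two_dvd.1 s.2.1.1)
  rw [orderOf_mk, orderOf_eq_prime_iff, sq] at o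
  have tN : t ∈ 𝒩(cj g L) := cn l hl li hm (mem_cent1.2 (comm_of_mem ht hl).symm)
  have R₁ := R.conj g
  have ti : Iv (ρ (g⁻¹ * t * g)) := ⟨R₁.mul.sq tN o.1, fun h => o.2 (te1 s hg ht (.of_sq o.1) ((R₁.ker t tN).1 h))⟩
  obtain ⟨-, N, n1, n2, n3, n4⟩ := core m c R R₁ (Rho.L_le hl) tN ht li ti (cn l hl li hm)
  rw [e] at n1 n2 n4
  rcases c.nz N n1 n2 with h | ⟨y, hy, yi, h⟩
  · obtain ⟨a1, a2⟩ := n4 h
    obtain ⟨a, ha, e'⟩ := c.num1 _ (R₁.mem t tN) ti a1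
    exact l1 ((a2 (by rw [e', Jc_conj (le_normalizer ha), card_cj])).2 l hl (e ▸ c.z_J)
      ((R₁.ker l (cent_le_norm _ hm)).2 hm))
  obtain ⟨x, xL, xC, rfl⟩ := n3 y hy
  have c3 : L ≤ 𝒩(cj g L) := (R.toRho.le_of_surj (H := L ⊓ 𝒩(cj g L)) fun α hα => by
    obtain ⟨w, a, -, b⟩ := R.mul.mem_img.1
      (sup_le (e ▸ iv l hl li (cn l hl li hm)) (iv x xL yi (cn x xL yi xC)) (h hα))
    exact ⟨w, a, a.1, b⟩).trans inf_le_right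
  rcases m.normal (N := R.mul.img (L ⊓ 𝒞(cj g L))) (R.mul.img_le fun x hx _ => R.memL x hx.1) (fun α hα => by
    obtain ⟨w, hw, rfl⟩ := R.surj α hα
    exact R.mul.img_norm (Rho.L_le hw) (le_norm_inf le_normalizer (le_norm_cent c3) hw)) with h' | h'
  · exact li.2 (mem_bot.1 (h'.le (R.mul.mem_img_of ⟨hl, hm⟩ (Rho.L_le hl))))
  refine s.2.2.1 g (fun e => hg (cj_eq_iff_mem.1 e)) ?_
  rw [commutator_comm]
  exact commutator_eq_bot_iff'.2 ((R.toRho.le_of_surj (H := L ⊓ 𝒞(cj g L)) fun α hα => by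
    obtain ⟨w, a, -, b⟩ := R.mul.mem_img.1 (h'.ge hα)
    exact ⟨w, a, a.1, b⟩).trans inf_le_right)

theorem b0 : B0.{u} := by
  intro Γ _ _ d Th G _ _ L ρ g r κ m c R s nz p
  have rC : r ∈ 𝒞(cj g L) := cj_cent g L ▸ p.r_mem
  have c1 := cen1 s rC p.r_iv.1 p.r_iv.2
  have c2 := cen_le s p.k_mem p.k_iv.1 p.k_iv.2
  have rN : r ∈ 𝒩(L) := c2 (mem_cent1.2 p.comm)
  have kN : κ ∈ 𝒩(cj g L) := c1 (mem_cent1.2 p.comm.symm)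
  have R₁ := R.conj g
  have ri : Iv (ρ r) := ⟨R.mul.sq rN p.r_iv.1, fun h =>
    p.r_iv.2 (te1 s p.not ((R.ker r rN).1 h) (.of_sq p.r_iv.1) rC)⟩
  have ki : Iv (ρ (g⁻¹ * κ * g)) := ⟨R₁.mul.sq kN p.k_iv.1, fun h =>
    p.k_iv.2 (te1 s p.not p.k_mem (.of_sq p.k_iv.1) ((R₁.ker κ kN).1 h))⟩
  obtain ⟨a0, N, n1, n2, n3, n4⟩ := core m c R R₁ rN kN p.k_mem ri ki c1
  obtain ⟨-, N', k1, k2, k3, k4⟩ := core m c R₁ R kN rN rC ki ri c2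
  obtain ⟨a1, a2⟩ := n4 ((c.nso _ (R.mem r rN) ri N n1 n2).resolve_right fun ⟨y, hy, h⟩ => by
    obtain ⟨l, b1, b2, rfl⟩ := n3 y hy
    exact noW m c R s nz b1 h g (cj_cent g L ▸ b2))
  obtain ⟨a3, -⟩ := k4 ((c.nso _ (R₁.mem κ kN) ki N' k1 k2).resolve_right fun ⟨y, hy, h⟩ => by
    obtain ⟨l, b1, b2, rfl⟩ := k3 y hy
    exact noW m c R s nz (mem_cj.1 b1) h g⁻¹ (by simpa using conj_mem_cj g⁻¹ b2))
  obtain ⟨h, hh, e⟩ := c.num2 _ (R.mem r rN) _ (R₁.mem κ kN) ri ki a1 a3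
  obtain ⟨a4, a5⟩ := a2 (by rw [e, Jc_conj (le_normalizer hh), card_cj])
  exact ⟨⟨h, hh, e⟩, a0, a4, a5⟩

end CL.NS.V2
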