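/-
Project NS3 (second version), job B2: a good pair.
-/
import Cfsg.Agent.NS3.V0
import Cfsg.Agent.SJ4.B12

set_option autoImplicit false
set_option linter.unusedSectionVars false
open Cfsg Subgroup CL.Even CL.Grp CL.Wr CL.Wr.P5a CL.Wr.P0dAux CL.SJ.B12
open scoped commutatorElement

namespace CL.NS.V2

universe u

namespace B2a

variable {Γ : Type} [Group Γ] [Finite Γ] {d : Dat Γ} {Th : Subgroup Γ} {G : Type u} [Group G] [Finite G]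
  {L : Subgroup G} {ρ : G → Γ} {g l κ : G}

/-- The hypotheses. -/
structure Hy (d : Dat Γ) (Th : Subgroup Γ) (L : Subgroup G) (ρ : G → Γ) (g l κ : G) : Prop where
  b : B0.{u}
  m : Base d Th
  c : Cen d
  R : Rh d L ρ
  s : IsStandardSubgroup L
  nz : NoZ d L ρ
  hg : g ∉ 𝒩(L)
  hl : l ∈ L
  iv : Iv l
  hJ : ρ l ∈ Jc d.L (ρ l)
  hκ : κ ∈ 𝒞(L)
  k2 : κ * κ = 1
  hr : l * κ ∈ cj g 𝒞(L)

namespace Hy

variable (h : Hy d Th L ρ g l κ)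
include h

theorem k1 : κ ≠ 1 := by
  rintro rfl
  have := Fact.mk Nat.prime_two
  obtain ⟨t, ht⟩ := exists_prime_orderOf_dvd_card' (G := 𝒞(L)) 2 h.s.2.1.1.two_dvd
  have hr := h.hr
  rw [mul_one] at hr
  refine h.iv.2 ((h.b d Th L ρ g l t h.m h.c h.R h.s h.nz ⟨h.hg, hr, h.iv, t.2, ⟨?_, fun e => ?_⟩,
    comm_of_mem t.2 h.hl⟩).inj l h.hl h.hJ (h.R.eq_one (mem_cj.1 hr)))
  · rw [← pow_two, ← ht]; exact congrArg Subtype.val (pow_orderOf_eq_one t)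
  · rw [show t = 1 from Subtype.ext e, orderOf_one] at ht
    omega

theorem cm : Commute l κ := comm_of_mem h.hκ h.hl

theorem r_not : l * κ ∉ 𝒞(L) := fun e => h.iv.2 (h.R.inj l h.hl ((mul_mem_cancel_right h.hκ).1 e))

theorem r_iv : Iv (l * κ) := ⟨by rw [h.cm.symm.mul_mul_mul_comm, h.iv.1, h.k2, one_mul], fun e => h.r_not (e ▸ one_mem _)⟩

theorem rho_r : ρ (l * κ) = ρ l := by
  rw [h.R.mul l (Rho.L_le h.hl) κ (cent_le_norm _ h.hκ), h.R.eq_one h.hκ, mul_one]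

theorem iso : Iso d L ρ g (l * κ) κ := h.b d Th L ρ g _ κ h.m h.c h.R h.s h.nz
  ⟨h.hg, h.hr, h.r_iv, h.hκ, ⟨h.k2, h.k1⟩, h.cm.mul_left (.refl κ)⟩

theorem cr {y : G} (h1 : Commute y l) (h2 : Commute y κ) : y ∈ 𝒩(cj g L) :=
  cen1 h.s (cj_cent g L ▸ h.hr) h.r_iv.1 h.r_iv.2 (mem_cent1.2 (h1.mul_right h2))

theorem lam_iv : Iv (ρ l) := ⟨h.R.mul.sq (Rho.L_le h.hl) h.iv.1, fun e =>
  h.iv.2 (h.R.inj l h.hl ((h.R.ker l (Rho.L_le h.hl)).1 e))⟩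

theorem good : Good d (ρ (g⁻¹ * κ * g)) := by
  obtain ⟨a, ha, e⟩ := h.iso.conj
  rw [e, h.rho_r]
  refine h.c.good _ (h.m.conj_L (h.m.L_le ha) (h.R.memL l h.hl)) (h.lam_iv.conj a) ?_
  rw [Jc_conj (le_normalizer ha)]
  exact conj_mem_cj a h.hJ

theorem xN {x : G} (hx : x ∈ L) (e : ρ x ∈ d.L ⊓ centralizer {ρ l}) : x ∈ 𝒩(cj g L) :=
  h.cr (h.R.comm_of (Rho.L_le hx) h.hl (mem_cent1.1 e.2)) (comm_of_mem h.hκ hx)

theorem key {y : G} (hy : y ∈ 𝒞(L)) (e : y * κ = κ * y) :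
    y ∈ 𝒩(cj g L) ∧ ρ (g⁻¹ * y * g) ∈ Jc d.L (ρ (g⁻¹ * κ * g)) ∧ Two (ρ (g⁻¹ * y * g)) := by
  have h1 := h.cr (comm_of_mem hy h.hl).symm e
  refine ⟨h1, h.good.cen _ ((h.R.conj g).mem y h1) (mem_cent.2 fun w hw => ?_)⟩
  obtain ⟨x, hx, h2, rfl⟩ := h.iso.surj w hw
  rw [h.rho_r] at h2
  exact (h.R.conj g).mul.mul_comm (h.xN hx (Jc_le _ _ h2)) h1 (comm_of_mem hy hx)

theorem four : ¬ 4 ∣ Nat.card 𝒞(L) := by
  refine CL.SJ.B12.four h.hκ h.k2 h.k1 fun y hy y2 cy => ?_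
  have R1 := h.R.conj g
  obtain ⟨h1, h2, -⟩ := h.key hy cy
  obtain ⟨x, hx, h3, h4⟩ := h.iso.surj _ h2
  have h3' := h.rho_r ▸ h3
  have xN := h.xN hx (Jc_le _ _ h3')
  have h5 := (h.c.good _ (h.R.memL l h.hl) h.lam_iv h.hJ).ctr _ (h.R.memL x hx) (mem_cent.2 fun w hw => by
    obtain ⟨c, hc, rfl⟩ := h.R.surj w hw.1
    have cN := h.xN hc hw
    refine h.R.mul.mul_comm (Rho.L_le hc) (Rho.L_le hx) (commutatorElement_eq_one_iff_mul_comm.1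
      (h.iso.inj _ (comm_le_self L (commutator_mem_commutator hc hx)) ?_ ?_))
    · rw [h.rho_r, h.R.mul.comm (Rho.L_le hc) (Rho.L_le hx), commutatorElement_def]
      exact mul_mem (conj_mem (Jc_norm _ _ hw) h3') (inv_mem h3')
    · have h6 := R1.mul.comm cN xN
      have h7 := R1.mul.mul_comm cN h1 (comm_of_mem hy hc)
      rw [h6, h4, commutatorElement_eq_one_iff_mul_comm.2 h7])
  have kN := h.cr h.cm.symm (.refl κ)
  refine h5.imp (fun e => te1 h.s h.hg hy y2 ((R1.ker y h1).1 ?_)) fun e =>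
    te1 h.s h.hg (mul_mem hy h.hκ) (y2.mul (.of_sq h.k2) cy) ((R1.ker _ (mul_mem h1 kN)).1 ?_)
  · obtain rfl := h.R.eq_of hx (one_mem _) (e.trans h.R.mul.one.symm)
    exact h4.symm.trans R1.mul.one
  · obtain rfl := h.R.eq_of hx h.hl e
    have h6 := R1.mul y h1 κ kN
    have h7 := R1.mul x xN κ kN
    rw [h6, ← h4, ← h7]
    exact h.R.eq_one (mem_cj.1 h.hr)

end Hy

end B2a

theorem b2 (h0 : B0.{u}) : B2.{u} := by
  intro Γ _ _ d Th G _ _ L ρ g l κ m c R s nz hg hl iv hJ hκ k2 hr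
  have h : B2a.Hy d Th L ρ g l κ := ⟨h0, m, c, R, s, nz, hg, hl, iv, hJ, hκ, k2, hr⟩
  have iv' : Iv (g⁻¹ * (l * κ) * g) := by simpa using h.r_iv.conj g⁻¹
  obtain ⟨x, hx⟩ := isConj_iff.1 ((isConj_iff.2 ⟨g⁻¹, by simp⟩ : IsConj (l * κ) _).trans
    (conj_of_not_four h.four (mem_cj.1 hr) hκ iv'.1 k2 iv'.2 h.k1))
  refine ⟨h.k1, h.four, x, by rwa [← h.cm.eq], fun o ho e hodd => ?_⟩
  have h' : B2a.Hy d Th L ρ x⁻¹ l κ := ⟨h0, m, c, R, s, nz, fun hn => h.r_not (by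
    have := conj_mem (le_norm_cent le_rfl hn) hκ
    rwa [← hx, inv_inv, show x⁻¹ * (x * (l * κ) * x⁻¹) * x = l * κ by group] at this), hl, iv, hJ, hκ, k2,
    mem_cj.2 (by rwa [inv_inv, hx])⟩
  obtain ⟨h1, -, h2⟩ := h'.key ho e
  have R1 := R.conj x⁻¹
  have h3 := (R1.ker o h1).1 (h2.eq_one (hodd.of_dvd_nat (orderOf_dvd_of_pow_eq_one (by
    have := R1.mul.pow h1 (orderOf o)
    rw [← this, pow_orderOf_eq_one]
    exact R1.mul.one))))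
  rwa [← cj_cent, mem_cj, inv_inv] at h3

end CL.NS.V2
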