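/-
Project NS3 (second version), step B3: the local configuration.
-/
import Cfsg.Agent.NS3.V1
import Cfsg.Agent.Wr.P0d

set_option autoImplicit false
set_option linter.unusedSectionVars false
open Cfsg Subgroup CL.Even CL.Grp CL.Wr CL.Wr.P0dAux
open scoped commutatorElement

namespace CL.NS.V2

universe u

namespace B3Aux

variable {G : Type*} [Group G] [Finite G] {Γ : Type*} [Group Γ] [Finite Γ]

theorem exists_k {K : Subgroup G} {r y : G} (hn : r ∈ 𝒩(K)) (r2 : r * r = 1) (hy : y ∈ K) (iy : Iv y) :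
    ∃ κ ∈ K, Iv κ ∧ r * κ = κ * r := by
  have hU : IsPGroup 2 (zpowers r) := isPGroup_zpowers (k := 1) (by rw [pow_one, sq, r2])
  obtain ⟨R, hR, hle⟩ := exists_isSylowIn_ge (H := K ⊔ zpowers r) hU le_sup_right
  have hS := syl_inf_of_norm hR le_sup_left (hR.le.trans (sup_le le_normalizer (zpowers_le.2 hn)))
  have h0 : R ⊓ K ≠ ⊥ := fun e => by
    obtain ⟨g, -, hg⟩ := syl_conj_le hS (isPGroup_zpowers (k := 1) (by rw [pow_one, sq, iy.1])) (zpowers_le.2 hy)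
    exact (iy.conj g).2 (mem_bot.1 (e ▸ hg (conj_mem_cj g (mem_zpowers y))))
  obtain ⟨⟨x, hx⟩, h1⟩ := ne_bot_iff_exists_ne_one.1
    (inf_cent_ne_bot hS.isPGroup hU (le_norm_inf (hle.trans le_normalizer) (zpowers_le.2 hn)) h0)
  obtain ⟨n, h2⟩ := exists_inv_pow (.of_mem hS.isPGroup hx.1) fun e => h1 (Subtype.ext e)
  exact ⟨_, pow_mem hx.1.2 n, h2, mem_cent.1 (pow_mem hx.2 n) r (mem_zpowers r)⟩

theorem four_dvd {K : Subgroup G} {t k : G} (ht : t ∈ K) (hk : k ∈ K) (it : Iv t) (ik : Iv k) (ne : k ≠ t)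
    (c : t * k = k * t) : 4 ∣ Nat.card K := by
  have h1 := card_sup_inv (H := zpowers t) ik.1 (cent_le_norm _ (mem_cent.2 fun x hx => by
    obtain ⟨n, rfl⟩ := mem_zpowers_iff.1 hx
    exact (Commute.zpow_left c n).eq)) fun h => by
      rcases (mem_sup_inv (H := ⊥) it.1 (by rw [← cj_eq_iff_mem, cj_bot])).1 (mem_sup_right h) with e | e
      · exact ik.2 e
      · exact ne ((eq_inv_of_mul_eq_one_left e).trans (inv_eq_of_sq it.1))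
  rw [Nat.card_zpowers, orderOf_eq_prime (p := 2) (by rw [sq, it.1]) it.2] at h1
  exact (dvd_of_eq h1.symm).trans (card_dvd_of_le (sup_le (zpowers_le.2 ht) (zpowers_le.2 hk)))

variable {d : Dat Γ} {Th : Subgroup Γ} {L : Subgroup G} {ρ : G → Γ} {g r₀ κ : G}

omit [Finite G] [Finite Γ] in
theorem iv_conj' {x : G} (h : Iv x) (g : G) : Iv (g⁻¹ * x * g) := by simpa using h.conj g⁻¹

theorem pair_iv (r : Rh d L ρ) (s : IsStandardSubgroup L) (p : Pair L g r₀) : Iv (ρ r₀) :=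
  ⟨r.mul.sq p.norm p.sq, fun e => p.ne (te s ((r.ker _ p.norm).1 e) (.of_sq p.sq) p.not p.mem)⟩

theorem pair_pr (s : IsStandardSubgroup L) (p : Pair L g r₀) : ∃ κ, Pr L g r₀ κ := by
  obtain ⟨κ, h1, h2, h3⟩ := exists_k (s.2.2.2 ▸ p.norm) p.sq p.mem (iv_conj' ⟨p.sq, p.ne⟩ g)
  exact ⟨κ, p.not, mem_cj.2 p.mem, ⟨p.sq, p.ne⟩, h1, h2, h3⟩

theorem pair_norm (s : IsStandardSubgroup L) (p : Pair L g r₀) {x : G} (hx : x * r₀ = r₀ * x) :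
    g⁻¹ * x * g ∈ 𝒩(L) := by
  have := p.cen_le s (mem_cent1.2 hx)
  rwa [← cj_norm, mem_cj] at this

theorem conv (m : Base d Th) (c : Cen d) (r : Rh d L ρ) (s : IsStandardSubgroup L) (nz : NoZ d L ρ) (p : Pair L g r₀)
    (I : Iso d L ρ g r₀ κ) (h : ∃ j ∈ Jc d.L (ρ r₀), clW d j ∧ ∃ a ∈ d.L, a * ρ r₀ * a⁻¹ = ρ r₀ * j) :
    ∃ g' r', Pair L g' r' ∧ ρ r' ∈ Jc d.L (ρ (g⁻¹ * κ * g)) := by
  obtain ⟨j₀, hj, cj₀, a₀, ha, e⟩ := h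
  obtain ⟨j, hjL, rfl⟩ := r.surj j₀ (Jc_le _ _ hj).1
  obtain ⟨a, haL, rfl⟩ := r.surj a₀ ha
  have hjN := Rho.L_le hjL
  have haN := Rho.L_le haL
  have c1 : r₀ * j = j * r₀ := r.comm_of p.norm hjL (mem_cent1.1 (Jc_le _ _ hj).2).symm
  have e1 : a * r₀ * a⁻¹ = r₀ * j := by
    rw [← inv_mul_eq_iff_eq_mul]
    refine r.eq_of ?_ hjL ?_
    · simpa only [mul_assoc] using mul_mem (conj_mem' p.norm haL) (inv_mem haL)
    · rw [r.mul _ (inv_mem p.norm) _ (mul_mem (mul_mem haN p.norm) (inv_mem haN)), r.mul.inv p.norm,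
        r.mul.conj haN p.norm, e, inv_mul_cancel_left]
  have iv : Iv (g⁻¹ * (r₀ * j) * g) := e1 ▸ iv_conj' (Iv.conj ⟨p.sq, p.ne⟩ a) g
  have m1 : (g⁻¹ * a * g)⁻¹ * (g⁻¹ * (r₀ * j) * g) * (g⁻¹ * a * g) ∈ 𝒞(L) := by
    rw [← e1, show (g⁻¹ * a * g)⁻¹ * (g⁻¹ * (a * r₀ * a⁻¹) * g) * (g⁻¹ * a * g) = g⁻¹ * r₀ * g by group]
    exact p.mem
  have es : g⁻¹ * (r₀ * j) * g = g⁻¹ * r₀ * g * (g⁻¹ * j * g) := by group
  refine ⟨g⁻¹ * a * g, g⁻¹ * (r₀ * j) * g,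
    ⟨fun h => ?_, m1, pair_norm s p (by rw [mul_assoc, ← c1]), iv.1, iv.2⟩, ?_⟩
  · have h2 := conj_mem (s.2.2.2 ▸ h) m1
    rw [show ∀ a b : G, a * (a⁻¹ * b * a) * a⁻¹ = b from fun a b => by group, es] at h2
    exact B01.noW m c r s nz hjL cj₀ g (mem_cj.2 ((mul_mem_cancel_left p.mem).1 h2))
  · rw [es, r.mul _ (pair_norm s p rfl) _ (pair_norm s p c1.symm), r.eq_one p.mem, one_mul]
    exact I.mem j hjL hj

omit [Finite G] in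
theorem bad_iso (c : Cen d) (I : Iso d L ρ g r₀ κ) (h1 : ρ r₀ ∈ d.L) (h2 : Iv (ρ r₀)) (h3 : ρ r₀ ∉ Jc d.L (ρ r₀)) :
    Bad d (ρ (g⁻¹ * κ * g)) := by
  obtain ⟨h, hh, e⟩ := I.conj
  rw [e]
  refine c.bad _ (mul_mem (mul_mem hh h1) (inv_mem hh)) (h2.conj h) fun k => h3 ?_
  rw [Jc_conj (le_normalizer hh), mem_cj] at k
  simpa [mul_assoc] using k

theorem good_pair (m : Base d Th) (c : Cen d) (r : Rh d L ρ) (s : IsStandardSubgroup L) (nz : NoZ d L ρ)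
    (h0 : ∀ g r κ, Pr L g r κ → Iso d L ρ g r κ) (p : Pair L g r₀) :
    ∃ g' r', Pair L g' r' ∧ ρ r' ∈ Jc d.L (ρ r') := by
  obtain ⟨g, r₀, p, hL⟩ : ∃ g' r', Pair L g' r' ∧ ρ r' ∈ d.L := by
    by_cases h : ρ r₀ ∈ d.L
    · exact ⟨g, r₀, p, h⟩
    obtain ⟨κ, q⟩ := pair_pr s p
    obtain ⟨g', r', p', h'⟩ := conv m c r s nz p (h0 _ _ _ q) (c.out _ (r.mem _ p.norm) h (pair_iv r s p).1)
    exact ⟨g', r', p', (Jc_le _ _ h').1⟩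
  by_cases h : ρ r₀ ∈ Jc d.L (ρ r₀)
  · exact ⟨g, r₀, p, h⟩
  obtain ⟨κ, q⟩ := pair_pr s p
  have I := h0 _ _ _ q
  obtain ⟨g', r', p', h'⟩ := conv m c r s nz p I
    ((c.bad _ hL (pair_iv r s p) h).conv.imp fun _ e => ⟨e.1, .inl e.2.1, e.2.2⟩)
  obtain ⟨a, ha, e⟩ := (bad_iso c I hL (pair_iv r s p) h).one _ h' (pair_iv r s p')
  exact ⟨g', r', p', by rw [e, Jc_conj (le_normalizer ha)]; exact conj_mem_cj a c.z_J⟩

theorem no_bad (c : Cen d) (r : Rh d L ρ) (s : IsStandardSubgroup L) {a t : G} (ht : t ∈ 𝒞(L)) (it : Iv t)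
    (hl : a * t * a⁻¹ ∈ L) (p : Pair L a (a * t * a⁻¹)) (I : Iso d L ρ a (a * t * a⁻¹) t)
    (h : ρ (a * t * a⁻¹) ∉ Jc d.L (ρ (a * t * a⁻¹))) : 4 ∣ Nat.card 𝒞(L) := by
  have et : a⁻¹ * (a * t * a⁻¹) * a = t := by group
  generalize a * t * a⁻¹ = l at hl p I h et
  obtain ⟨w₀, hw, u₀, hu, w2, wJ, e⟩ := (c.bad _ (r.memL l hl) (pair_iv r s p) h).ws
  obtain ⟨w, hwL, rfl⟩ := r.surj w₀ hw.1
  obtain ⟨u, huL, rfl⟩ := r.surj u₀ hu.1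
  have cw : w * l = l * w := r.comm_of (Rho.L_le hwL) hl (mem_cent1.1 hw.2)
  have cu : u * l = l * u := r.comm_of (Rho.L_le huL) hl (mem_cent1.1 hu.2)
  have q : w * w = 1 := r.eq_of (mul_mem hwL hwL) (one_mem _) (by rw [r.mulL w hwL w hwL, w2, r.mul.one])
  have e1 : ⁅u, w⁆ = l := r.eq_of (comm_le_self L (commutator_mem_commutator huL hwL)) hl
    ((r.mulL.comm huL hwL).trans e)
  have cj' : ∀ {x y : G}, x * y = y * x → a⁻¹ * x * a * (a⁻¹ * y * a) = a⁻¹ * y * a * (a⁻¹ * x * a) := fun {x y} k => by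
    rw [show a⁻¹ * x * a * (a⁻¹ * y * a) = a⁻¹ * (x * y) * a by group, k]; group
  have nw := pair_norm s p cw
  have nu := pair_norm s p cu
  have h1 : ρ (a⁻¹ * w * a) ∈ d.L := (bad_iso c I (r.memL l hl) (pair_iv r s p) h).cen _ (r.mem _ nw)
    (mem_cent.2 fun y hy => by
      obtain ⟨x, hx, hJ, rfl⟩ := I.surj y hy
      exact r.mul.mul_comm (pair_norm s p (r.comm_of (Rho.L_le hx) hl (mem_cent1.1 (Jc_le _ _ hJ).2))) nw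
        (cj' (r.comm_of (Rho.L_le hx) hwL (mem_cent.1 wJ _ hJ))))
  obtain ⟨w₁, hw₁, k, hk, -, k2, e2⟩ := r.decomp_inv nw h1
    (by rw [show a⁻¹ * w * a * (a⁻¹ * w * a) = a⁻¹ * (w * w) * a by group, q]; group)
  have e3 : ⁅a⁻¹ * u * a, a⁻¹ * w * a⁆ = t := by rw [← et, ← e1]; simp only [commutatorElement_def]; group
  have c1 := cj' cw
  have c2 := cj' cu
  rw [et] at c1 c2
  rw [e2] at e3 c1
  generalize a⁻¹ * u * a = v at nu e3 c2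
  have hv : v * k * v⁻¹ * k⁻¹ ∈ 𝒞(L) := mul_mem (conj_mem (s.2.2.2 ▸ nu) hk) (inv_mem hk)
  have e4 : v * w₁ * v⁻¹ * w₁⁻¹ * (v * k * v⁻¹ * k⁻¹) = t := by
    rw [mul_assoc _ w₁⁻¹, mem_cent.1 hv _ (inv_mem hw₁), ← e3, commutatorElement_def]; group
  rw [r.inj _ (mul_mem (conj_mem nu hw₁) (inv_mem hw₁)) ((mul_mem_cancel_right hv).1 (e4 ▸ ht)), one_mul] at e4
  refine four_dvd ht hk it ⟨k2, fun k1 => it.2 ?_⟩ (fun k1 => it.2 ?_) ?_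
  · rw [← e4, k1]; group
  · rw [← e4, k1, c2]; group
  · rw [← mul_assoc, ← mem_cent.1 ht w₁ hw₁, mul_assoc, mul_assoc] at c1
    exact (mul_left_cancel c1).symm

end B3Aux

open B3Aux in
theorem b3 (h0 : B0.{u}) (h2 : B2.{u}) : B3.{u} := by
  intro Γ _ _ d Th G _ _ L ρ m c r s nz ⟨g₀, r₀, a1, a2, a3, a4, a5⟩
  have h0' : ∀ g r κ, Pr L g r κ → Iso d L ρ g r κ := fun g r' κ => h0 d Th L ρ g r' κ m c r s nz
  obtain ⟨g, r₁, p, hJ⟩ := good_pair m c r s nz h0' ⟨a1, mem_cj.1 a2, a3, a4, a5⟩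
  obtain ⟨l, hl, t, ht, l2, t2, rfl⟩ := r.decomp_inv p.norm (Jc_le _ _ hJ).1 p.sq
  have el : ρ (l * t) = ρ l := by rw [r.mul _ (Rho.L_le hl) _ (cent_le_norm L ht), r.eq_one ht, mul_one]
  have l1 : l ≠ 1 := fun e => (pair_iv r s p).2 (by rw [el, e, r.mul.one])
  rw [el] at hJ
  obtain ⟨t1, h4, x, ex, hx⟩ := h2 d Th L ρ g l t m c r s nz p.not hl ⟨l2, l1⟩ hJ ht t2 (mem_cj.2 p.mem)
  refine ⟨t, ⟨r.toRho, t2, t1, ht, cen_le s ht t2 t1, h4, fun a ha => ?_, l, hl, l1, l2,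
    (isConj_iff.2 ⟨x, ex⟩).symm⟩, r.inj, l, hl, ⟨l2, l1⟩, hJ, x, ex, hx⟩
  have il := Iv.conj ⟨t2, t1⟩ a
  have na : a ∉ 𝒩(L) := fun k => il.2 (r.inj _ ha (conj_mem (s.2.2.2 ▸ k) ht))
  by_cases k : ρ (a * t * a⁻¹) ∈ Jc d.L (ρ (a * t * a⁻¹))
  · exact (h2 d Th L ρ a _ 1 m c r s nz na ha il k (one_mem _) (mul_one 1)
      (by rw [mul_one]; exact conj_mem_cj a ht)).1 rfl
  · exact h4 (no_bad c r s ht ⟨t2, t1⟩ ha ⟨na, mem_cj.1 (conj_mem_cj a ht), Rho.L_le ha, il.1, il.2⟩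
      (h0' _ _ _ ⟨na, conj_mem_cj a ht, il, ht, ⟨t2, t1⟩, mem_cent.1 ht _ ha⟩) k)

end CL.NS.V2
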