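/-
Project NS3 (second version), job E2c: `t` is not conjugate to an element with two outer components.
-/
import Cfsg.Agent.NS3.V0
import Cfsg.Agent.Wr.E1b
import Cfsg.Agent.Wr.P6d
import Cfsg.Agent.Odd.FT

set_option autoImplicit false
set_option linter.unusedSectionVars false
open Cfsg Subgroup CL.Even CL.Grp CL.Wr
open scoped commutatorElement

namespace CL.NS.V2

universe u

namespace E2c

variable {G : Type*} [Group G] {Γ : Type*} [Group Γ]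

theorem comm_le2 {P B : Subgroup G} (h0 : ∀ a ∈ P, ∀ b ∈ P, a ∉ B → b ∉ B → a * b ∈ B) : ⁅P, P⁆ ≤ B :=
  commutator_le.2 fun a ha b hb => by
    have s : ∀ x ∈ P, x * x ∈ B := fun x hx => (em (x ∈ B)).elim (fun c => mul_mem c c) fun c => h0 x hx x hx c c
    have : ⁅a, b⁆ = a * b * (a * b) * (b⁻¹ * a⁻¹ * b * (b⁻¹ * a⁻¹ * b)) * (b⁻¹ * b⁻¹) := by
      rw [commutatorElement_def]; group
    rw [this]
    exact mul_mem (mul_mem (s _ (mul_mem ha hb)) (s _ (mul_mem (mul_mem (inv_mem hb) (inv_mem ha)) hb))) (s _ (inv_mem hb))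

theorem card2 {N H : Subgroup G} {p q : G → Γ} (hp : MulOn N p) (hq : MulOn N q) (h : H ≤ N) :
    Nat.card H = Nat.card (hp.img H) * (Nat.card (hq.img (H ⊓ hp.pre ⊥)) *
      Nat.card (H ⊓ hp.pre ⊥ ⊓ hq.pre ⊥ : Subgroup G)) := by
  rw [hp.card_img h, hq.card_img (inf_le_left.trans h)]

variable [Finite G] [Finite Γ] {d : Dat Γ} {Th : Subgroup Γ} {t : G} {G₀ M₀ S₀ : Subgroup G} {p : G → Γ}
  (c : Cfg d Th t G₀ M₀ S₀ p) (m : Base d Th)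
include c m

/-- perfect subgroups of `C(t)` -/
theorem card_dvd {P : Subgroup G} (hP : P ≤ ⁅P, P⁆) (h : P ≤ centralizer {t}) :
    Nat.card P ∣ Nat.card d.L * Nat.card (P ⊓ 𝒞(P) : Subgroup G) := by
  have h1 : P ≤ M₀ := hP.trans ((commutator_mono h h).trans (comm_le2 fun a ha b hb a1 b1 => by
    have := mul_mem ((c.cent a (mem_cent1.1 ha)).resolve_left a1) ((c.cent b (mem_cent1.1 hb)).resolve_left b1)
    rwa [mul_assoc, ← mul_assoc t, ← mem_cent1.1 hb, mul_assoc b, c.t_sq, mul_one] at this))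
  have h2 : c.mul.img P ≤ d.L := by
    have e : c.mul.img P ≤ d.C := c.mul.img_le fun x _ hx => c.mem x hx
    refine (c.mul.img_mono hP).trans ?_
    rw [c.mul.img_comm h1 h1]
    exact (commutator_mono e e).trans m.comm_le
  have h3 : ∀ x ∈ P, t * x * t⁻¹ = x := fun x hx => by rw [← mem_cent1.1 (h hx), mul_inv_cancel_right]
  have hs : Group.IsSolvable (c.mul.pre ⊥ ⊓ c.mulq.pre ⊥ : Subgroup G) := CL.Odd.feit_thompson (by
    by_contra e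
    have := Fact.mk Nat.prime_two
    obtain ⟨x, hx⟩ := exists_prime_orderOf_dvd_card' 2 (even_iff_two_dvd.1 (Nat.not_odd_iff_even.1 e))
    have := c.ker x (c.mul.mem_pre.1 x.2.1).1 (c.mul.mem_pre.1 x.2.1).2 (c.mulq.mem_pre.1 x.2.2).2
    rw [orderOf_coe, hx] at this
    exact absurd this (by decide))
  have h4 : P ≤ G₀ := E1bA.le_of_sol hP hs (fun x hx => c.G_norm (c.mul.mem_pre.1 hx.1).1) fun x hx => by
    have hx' := h2 (c.mul.mem_img_of hx (h1 hx))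
    obtain ⟨v, hv, e1, e2⟩ := c.G_surj _ hx' _ hx'
    have n := mul_mem (inv_mem (c.G_le hv)) (h1 hx)
    rw [← mul_inv_cancel_left v x]
    exact mul_mem (mem_sup_left hv) (mem_sup_right ⟨c.mul.mem_pre.2 ⟨n, (c.mul.eq_iff (c.G_le hv) (h1 hx)).1 e1⟩,
      c.mulq.mem_pre.2 ⟨n, (c.mulq.eq_iff (c.G_le hv) (h1 hx)).1 (by rw [h3 x hx]; exact e2)⟩⟩)
  rw [c.mul.card_img h1]
  refine mul_dvd_mul (card_dvd_of_le h2) (card_dvd_of_le fun x hx => ⟨hx.1, cent_mono h4 ?_⟩)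
  have e := (c.mul.mem_pre.1 hx.2).2
  exact c.ker_cen x (h1 hx.1) e (by rw [h3 x hx.1]; exact e)

end E2c

open E2c in
theorem e2cB : E2cB.{u} := by
  intro Γ _ _ d Th G _ _ t G₀ M₀ S₀ p m k c y hy y1 y2 e
  obtain ⟨g, hg⟩ := isConj_iff.1 e.symm
  have yy : y * y = 1 := by
    have := c.t_sq
    rw [← hg, conj_mul] at this
    exact conj_eq_one_iff.1 this
  have hp := c.mul
  have hq := c.mulq
  set q : G → Γ := fun x => p (t * x * t⁻¹) with hqd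
  have a1 : p y ∈ d.C := c.mem y hy
  have b1 : q y ∈ d.C := c.mem _ (c.tM hy)
  have a2 : Iv (p y) := ⟨hp.sq hy yy, fun h => y1 (h ▸ one_mem _)⟩
  have b2 : Iv (q y) := ⟨hq.sq hy yy, fun h => y2 (by change q y ∈ _; rw [h]; exact one_mem _)⟩
  let P₀ := G₀ ⊓ hp.pre (Jc d.L (p y)) ⊓ hq.pre (Jc d.L (q y))
  have mP : ∀ {x}, x ∈ P₀ ↔ x ∈ G₀ ∧ p x ∈ Jc d.L (p y) ∧ q x ∈ Jc d.L (q y) :=
    ⟨fun h => ⟨h.1.1, (hp.mem_pre.1 h.1.2).2, (hq.mem_pre.1 h.2).2⟩,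
      fun h => ⟨⟨h.1, hp.mem_pre.2 ⟨c.G_le h.1, h.2.1⟩⟩, hq.mem_pre.2 ⟨c.G_le h.1, h.2.2⟩⟩⟩
  have g0 : P₀ ≤ G₀ := fun x hx => (mP.1 hx).1
  have n0 : P₀ ≤ M₀ := g0.trans c.G_le
  have i1 : hp.img P₀ = Jc d.L (p y) := le_antisymm (hp.img_le fun x hx _ => (mP.1 hx).2.1) fun a ha => by
    obtain ⟨x, hx, e1, e2⟩ := c.G_surj a (Jc_le _ _ ha).1 1 (one_mem _)
    exact hp.mem_img.2 ⟨x, mP.2 ⟨hx, e1 ▸ ha, by change p _ ∈ _; rw [e2]; exact one_mem _⟩, c.G_le hx, e1⟩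
  have i2 : hq.img (P₀ ⊓ hp.pre ⊥) = Jc d.L (q y) := le_antisymm (hq.img_le fun x hx _ => (mP.1 hx.1).2.2) fun a ha => by
    obtain ⟨x, hx, e1, e2⟩ := c.G_surj 1 (one_mem _) a (Jc_le _ _ ha).1
    exact hq.mem_img.2 ⟨x, ⟨mP.2 ⟨hx, e1 ▸ one_mem _, by change p _ ∈ _; rw [e2]; exact ha⟩,
      hp.mem_pre.2 ⟨c.G_le hx, e1⟩⟩, c.G_le hx, e2⟩
  have l0 := comm_le_self P₀
  have i3 : hp.img ⁅P₀, P₀⁆ = Jc d.L (p y) := by
    rw [hp.img_comm n0 n0, i1]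
    exact le_antisymm (comm_le_self _) (k.perf _ a1 a2)
  have i4 : hq.img (⁅P₀, P₀⁆ ⊓ hp.pre ⊥) = Jc d.L (q y) := by
    refine le_antisymm (i2 ▸ hq.img_mono (inf_le_inf_right _ l0)) ((k.perf _ b1 b2).trans ?_)
    rw [← i2, ← hq.img_comm (inf_le_left.trans n0) (inf_le_left.trans n0)]
    exact hq.img_mono (le_inf (commutator_mono inf_le_left inf_le_left)
      ((commutator_mono inf_le_right inf_le_right).trans (comm_le_self _)))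
  have pf : ⁅P₀, P₀⁆ ≤ ⁅⁅P₀, P₀⁆, ⁅P₀, P₀⁆⁆ := P6da.comm_le g0 (l0.trans g0) fun x hx => by
    obtain ⟨a, ha, a3, a4⟩ := hp.mem_img.1 (i3.ge (mP.1 hx).2.1)
    have h1 := mul_mem (inv_mem (l0 ha)) hx
    obtain ⟨b, hb, b3, b4⟩ := hq.mem_img.1 (i4.ge (mP.1 h1).2.2)
    refine ⟨a * b, mul_mem ha hb.1, ?_⟩
    rw [mul_inv_rev, mul_assoc]
    exact c.ker_cen _ (mul_mem (inv_mem b3) (n0 h1)) ((hp.eq_iff b3 (n0 h1)).1
      ((hp.mem_pre.1 hb.2).2.trans ((hp.eq_iff a3 (n0 hx)).1 a4).symm)) ((hq.eq_iff b3 (n0 h1)).1 b4)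
  have f1 : ∀ x ∈ P₀, p (y * x * y⁻¹) = p x ∧ q (y * x * y⁻¹) = q x := fun x hx => ⟨by
    rw [hp.conj hy (n0 hx), ← mem_cent1.1 (Jc_le _ _ (mP.1 hx).2.1).2, mul_inv_cancel_right], by
    rw [hq.conj hy (n0 hx), ← mem_cent1.1 (Jc_le _ _ (mP.1 hx).2.2).2, mul_inv_cancel_right]⟩
  have ny : y ∈ 𝒩(P₀) := mem_norm_of fun x hx =>
    mP.2 ⟨conj_mem (c.G_norm hy) (g0 hx), (f1 x hx).1 ▸ (mP.1 hx).2.1, (f1 x hx).2 ▸ (mP.1 hx).2.2⟩
  have ny' : y ∈ 𝒩(⁅P₀, P₀⁆) := le_norm_commutator le_rfl le_rfl ny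
  generalize ⁅P₀, P₀⁆ = P at l0 i3 i4 pf ny'
  have nP := l0.trans n0
  have cy : y ∈ 𝒞(P) := mem_cent_of_perfect pf fun x hx => by
    have h1 := conj_mem ny' hx
    have h2 : y * x * y⁻¹ * x⁻¹ ∈ P := mul_mem h1 (inv_mem hx)
    refine ⟨h2, cent_mono (l0.trans g0) (c.ker_cen _ (nP h2) ?_ ?_)⟩
    · rw [hp _ (nP h1) _ (inv_mem (nP hx)), hp.inv (nP hx), (f1 x (l0 hx)).1, mul_inv_cancel]
    · change q _ = 1
      rw [hq _ (nP h1) _ (inv_mem (nP hx)), hq.inv (nP hx), (f1 x (l0 hx)).2, mul_inv_cancel]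
  have c1 := card2 hp hq nP
  rw [i3, i4] at c1
  have c2 : Nat.card (P ⊓ 𝒞(P) : Subgroup G) ∣ Nat.card (ZJ d.L (p y)) * (Nat.card (ZJ d.L (q y)) *
      Nat.card (P ⊓ hp.pre ⊥ ⊓ hq.pre ⊥ : Subgroup G)) := by
    rw [card2 hp hq (inf_le_left.trans nP)]
    refine mul_dvd_mul (card_dvd_of_le (hp.img_le fun x hx x1 => ⟨(mP.1 (l0 hx.1)).2.1, fun a ha => ?_⟩))
      (mul_dvd_mul (card_dvd_of_le (hq.img_le fun x hx x1 => ⟨(mP.1 (l0 hx.1.1)).2.2, fun a ha => ?_⟩))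
        (card_dvd_of_le (inf_le_inf_right _ (inf_le_inf_right _ inf_le_left))))
    · obtain ⟨b, hb, b3, rfl⟩ := hp.mem_img.1 (i3.ge ha)
      exact hp.mul_comm b3 x1 (hx.2 b hb)
    · obtain ⟨b, hb, b3, rfl⟩ := hq.mem_img.1 (i4.ge ha)
      exact hq.mul_comm b3 x1 (hx.1.2 b hb.1)
  have c3 := card_dvd c m (P := cj g P) (by rw [← cj_commutator]; exact cj_mono g pf) (by
    rintro _ ⟨x, hx, rfl⟩
    rw [mem_cent1, ← hg]
    exact (Commute.conj (cy x hx) g).eq)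
  rw [← cj_cent, ← cj_inf, card_cj, card_cj, c1] at c3
  refine k.num3 _ a1 _ b1 y1 y2 a2.1 b2.1 (Nat.dvd_of_mul_dvd_mul_right
    (Nat.card_pos (α := (P ⊓ hp.pre ⊥ ⊓ hq.pre ⊥ : Subgroup G))) ?_)
  have := c3.trans (mul_dvd_mul_left _ c2)
  rwa [← mul_assoc, ← mul_assoc (Nat.card (ZJ _ _)), ← mul_assoc, mul_comm (Nat.card d.L)] at this

end CL.NS.V2
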