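/-
Project NS3, job Z0: the normaliser of `Jc z`, the element `w`, and the wreath product from a clique.
-/
import Cfsg.Agent.NS3.Defs2
import Cfsg.Agent.Wr.P5

set_option autoImplicit false
set_option linter.unusedSectionVars false
open Cfsg Subgroup CL.Even CL.Grp CL.Wr
open scoped commutatorElement

namespace CL.NS

universe u

namespace Z0a

theorem perf_range {Γ H : Type*} [Group Γ] [Group H] {J : Subgroup Γ} (h : J ≤ ⁅J, J⁆) (f : J →* H) :
    f.range ≤ ⁅f.range, f.range⁆ := by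
  rw [MonoidHom.range_eq_map, ← map_commutator]
  refine map_mono ((map_le_map_iff_of_injective J.subtype_injective).1 ?_)
  rwa [map_commutator, ← MonoidHom.range_eq_map, range_subtype]

theorem cmj {G : Type*} [Group G] {a b : G} (x : G) (h : a * b = b * a) :
    x * a * x⁻¹ * (x * b * x⁻¹) = x * b * x⁻¹ * (x * a * x⁻¹) := by rw [conj_mul, h, conj_mul]

variable {G Γ : Type*} [Group G] [Group Γ] [Finite Γ] {d : Dat Γ} {Th A : Subgroup Γ} {t : G} {L : Subgroup G}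
  {π : G → Γ} {s k : Γ → G} {σ e g : Γ}

/-- a perfect subgroup of `C(t)` -/
theorem pj (m : Base d Th) (c : Sec d t L π s) {J : Subgroup Γ} (hJ : J ≤ d.L) (hp : J ≤ ⁅J, J⁆) {x y : G}
    (hy : y ∈ centralizer {t}) (h1 : ∀ j ∈ J, x * s j * x⁻¹ * t = t * (x * s j * x⁻¹))
    (h2 : ∀ j ∈ J, x * s j * x⁻¹ * y = y * (x * s j * x⁻¹)) :
    ∃ ψ : J →* Γ, Function.Injective ψ ∧ ψ.range ≤ Jc d.L (π y) ∧ ∀ j : J, x * s j * x⁻¹ = s (ψ j) := by
  let f : J →* G := MonoidHom.mk' (fun j => x * s j * x⁻¹) fun a b => by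
    rw [conj_mul, ← c.s_mul (hJ a.2) (hJ b.2)]; rfl
  have hf : ∀ j, f j ∈ centralizer {t} := fun j => mem_cent1.2 (h1 j j.2)
  let ψ : J →* Γ := MonoidHom.mk' (fun j => π (f j)) fun a b => by rw [map_mul, c.mul _ (hf a) _ (hf b)]
  have k1 : ψ.range ≤ d.C := by rintro _ ⟨j, rfl⟩; exact c.mem _ (hf j)
  have k2 : ψ.range ≤ d.L := (perf_range hp ψ).trans ((commutator_mono k1 k1).trans m.comm_le)
  have k3 : f.range ≤ L := (perf_range hp f).trans (commutator_le.2 (by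
    rintro _ ⟨a, rfl⟩ _ ⟨b, rfl⟩
    have l : s (π (f b)) ∈ L := c.s_mem _ (k2 ⟨b, rfl⟩)
    have := mul_mem (conj_mem (c.norm (hf a)) l) (inv_mem l)
    rcases c.lift (hf b) (k2 ⟨b, rfl⟩) with e | e <;> rw [e, commutatorElement_def]
    · exact this
    · rw [← mul_assoc, mem_cent1.1 (hf a), mul_inv_rev]
      simpa only [mul_assoc] using conj_mem (c.norm c.t_mem) this))
  have k4 : ∀ j : J, x * s j * x⁻¹ = s (ψ j) := fun j => (c.s_π (k3 ⟨j, rfl⟩)).symm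
  refine ⟨ψ, (injective_iff_map_eq_one _).2 fun j e => ?_, le_Jc (le_inf k2 ?_) (perf_range hp ψ), k4⟩
  · have := k4 j
    rw [e, c.s_one, conj_eq_one_iff, ← c.s_one] at this
    exact Subtype.ext (c.s_inj (hJ j.2) (one_mem _) this)
  · rintro _ ⟨j, rfl⟩
    exact mem_cent1.2 ((c.mul _ (hf j) _ hy).symm.trans ((congrArg π (h2 j j.2)).trans (c.mul _ hy _ (hf j))))

theorem JL {j : Γ} (h : j ∈ Jc d.L d.z) : j ∈ d.L := (Jc_le _ _ h).1

theorem Jz {j : Γ} (h : j ∈ Jc d.L d.z) : j * d.z = d.z * j := mem_cent1.1 (Jc_le _ _ h).2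

theorem zz (m : Base d Th) (c : Sec d t L π s) : s d.z * s d.z = 1 := by rw [← c.s_mul m.z_L m.z_L, m.z_sq, c.s_one]

theorem z1 (m : Base d Th) (c : Sec d t L π s) : s d.z ≠ 1 := fun e =>
  m.z_ne (c.s_inj m.z_L (one_mem _) (e.trans c.s_one.symm))

theorem nj (m : Base d Th) (n : Cen d) (f : ZF d A σ e g) (c : Sec d t L π s) {x : G}
    (h : ∀ j ∈ Jc d.L d.z, x * s j * x⁻¹ * t = t * (x * s j * x⁻¹) ∧
      x * s j * x⁻¹ * s d.z = s d.z * (x * s j * x⁻¹)) :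
    ∃ c ∈ d.C, ∀ j ∈ Jc d.L d.z, c * j * c⁻¹ ∈ Jc d.L d.z ∧ x * s j * x⁻¹ = s (c * j * c⁻¹) := by
  obtain ⟨ψ, h1, h2, h3⟩ := pj m c (fun _ => JL) (n.perf _ (m.L_le m.z_L) m.z_iv) (c.s_cen m.z_L)
    (fun j hj => (h j hj).1) fun j hj => (h j hj).2
  rw [c.π_s _ m.z_L] at h2
  let φ := ψ.codRestrict _ fun j => h2 ⟨j, rfl⟩
  obtain ⟨a, ha, h4⟩ := f.aut (MulEquiv.ofBijective φ (Finite.injective_iff_bijective.1 fun a b e =>
    h1 (congrArg Subtype.val e)))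
  have h5 : ∀ j : Jc d.L d.z, ψ j = a * j * a⁻¹ := h4
  exact ⟨a, ha, fun j hj => ⟨h5 ⟨j, hj⟩ ▸ h2 ⟨_, rfl⟩, h5 ⟨j, hj⟩ ▸ h3 ⟨j, hj⟩⟩⟩

/-- an element which moves `t` to `t z` and fixes `z` -/
theorem ex (m : Base d Th) (n : Cen d) (f : ZF d A σ e g) (c : Sec d t L π s) :
    ∃ x, x * t * x⁻¹ = t * s d.z ∧ x * s d.z * x⁻¹ = s d.z := by
  obtain ⟨l, hl, ⟨l2, l1⟩, hJ, hc⟩ := c.fus
  obtain ⟨a, ha, e1⟩ := f.good _ (c.memL l hl) ⟨by rw [← c.mul _ (c.L_le hl) _ (c.L_le hl), l2, c.π_one],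
    fun e => l1 (by rw [← c.s_π hl, e, c.s_one])⟩ hJ
  have tc : ∀ a ∈ d.L, t * s (a * d.z * a⁻¹) = s a * (t * s d.z) * (s a)⁻¹ := fun a ha => by
    rw [c.s_cj ha m.z_L, ← mul_assoc (s a), c.s_t ha]; group
  rw [← c.s_π hl, e1, tc a ha] at hc
  obtain ⟨x, hx⟩ := isConj_iff.1 (hc.trans (isConj_iff.2 ⟨s a, rfl⟩).symm).symm
  have tz : t * (t * s d.z) = t * s d.z * t := by rw [mul_assoc, c.s_t m.z_L]
  have hy : x * t * x⁻¹ ∈ centralizer {t} := mem_cent1.2 (by simpa only [hx] using cmj x tz)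
  obtain ⟨ψ, h1, h2, -⟩ := pj m c (fun _ => JL) (n.perf _ (m.L_le m.z_L) m.z_iv) hy (x := x) (fun j hj => by
      simpa only [hx] using cmj x (Commute.mul_right (c.s_t (JL hj)) (c.s_comm (JL hj) m.z_L (Jz hj))).eq)
    fun j hj => cmj x (c.s_t (JL hj))
  have h3 := n.num1 _ (c.mem _ hy) ⟨by rw [← c.mul _ hy _ hy, conj_mul, c.t_sq, mul_one, mul_inv_cancel, c.π_one],
    fun e => (c.ker _ hy e).elim (fun e => c.noL x (e ▸ one_mem _)) fun e => z1 m c (by simpa using hx.trans e.symm)⟩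
    (dvd_mul_of_dvd_right (Nat.card_congr (MonoidHom.ofInjective h1).toEquiv ▸ card_dvd_of_le h2) _)
  have h4 := (c.lift hy (m.cl_mem h3)).resolve_left fun e => c.noL x (e ▸ c.s_mem _ (m.cl_mem h3))
  obtain ⟨b, hb, e2⟩ := h3
  rw [e2, tc b hb] at h4
  have h5 : (s b)⁻¹ * x * t * ((s b)⁻¹ * x)⁻¹ = t * s d.z := by
    calc _ = (s b)⁻¹ * (x * t * x⁻¹) * s b := by group
      _ = _ := by rw [h4]; group
  refine ⟨_, h5, mul_left_cancel (a := t * s d.z) ?_⟩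
  calc _ = (s b)⁻¹ * (x * (t * s d.z) * x⁻¹) * s b := by nth_rw 1 [← h5]; group
    _ = _ := by rw [hx, mul_assoc, ← c.s_t hb, mul_assoc t, zz m c]; group

/-- `y` acts on `A` as `τ` -/
def Ac (s : Γ → G) (A : Subgroup Γ) (y : G) (τ : Γ) : Prop := τ ∈ 𝒩(A) ∧ ∀ a ∈ A, y * s a * y⁻¹ = s (τ * a * τ⁻¹)

theorem Ac.mul {y y' : G} {τ τ' : Γ} (h : Ac s A y τ) (h' : Ac s A y' τ') : Ac s A (y * y') (τ * τ') :=
  ⟨mul_mem h.1 h'.1, fun a ha => by
    rw [show τ * τ' * a * (τ * τ')⁻¹ = τ * (τ' * a * τ'⁻¹) * τ⁻¹ by group, ← h.2 _ (conj_mem h'.1 ha), ← h'.2 a ha]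
    group⟩

theorem Ac.inv {y : G} {τ : Γ} (h : Ac s A y τ) : Ac s A y⁻¹ τ⁻¹ :=
  ⟨inv_mem h.1, fun a ha => by
    have := h.2 _ (conj_mem (inv_mem h.1) ha)
    rw [show τ * (τ⁻¹ * a * τ⁻¹⁻¹) * τ⁻¹ = a by group] at this
    rw [← this]; group⟩

theorem z0 (m : Base d Th) (n : Cen d) (f : ZF d A σ e g) (c : Sec d t L π s) : ∃ w, W0 d t s w := by
  obtain ⟨x, x1, x2⟩ := ex m n f c
  have x3 : x * (t * s d.z) * x⁻¹ = t := by rw [← conj_mul, x1, x2, mul_assoc, zz m c, mul_one]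
  obtain ⟨a, ha, h⟩ := nj m n f c (x := x) fun j hj => by
    have := c.s_comm (JL hj) m.z_L (Jz hj)
    exact ⟨by simpa only [x3] using cmj x (Commute.mul_right (c.s_t (JL hj)) this).eq,
      by simpa only [x2] using cmj x this⟩
  have az : a * d.z * a⁻¹ = d.z := c.s_inj (m.conj_L ha m.z_L) m.z_L ((h _ n.z_J).2.symm.trans x2)
  by_cases h1 : ∃ b ∈ centralizer {t}, π b = a
  · obtain ⟨b, hb, rfl⟩ := h1
    refine ⟨b⁻¹ * x, ?_, fun j hj => mul_inv_eq_iff_eq_mul.1 ?_⟩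
    · calc _ = b⁻¹ * (x * t * x⁻¹) * b := by group
        _ = b⁻¹ * (t * b) * s d.z := by nth_rw 1 [x1, ← az, ← c.conj hb m.z_L]; group
        _ = _ := by rw [← mem_cent1.1 hb]; group
    · calc _ = b⁻¹ * (x * s j * x⁻¹) * b := by group
        _ = _ := by rw [(h j hj).2, ← c.conj hb (JL hj)]; group
  have aL : a ∉ d.L := fun k => h1 ⟨s a, c.s_cen k, c.π_s a k⟩
  have hL : ∀ b ∈ centralizer {t}, π b ∈ d.L := fun b hb => by
    by_contra k
    have := m.mul_mem_L _ ha _ (inv_mem (c.mem b hb)) aL (mt inv_mem_iff.1 k)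
    exact h1 ⟨s (a * (π b)⁻¹) * b, mul_mem (c.s_cen this) hb, by
      rw [c.mul _ (c.s_cen this) _ hb, c.π_s _ this, inv_mul_cancel_right]⟩
  have hh := inv_mem (m.mul_mem_L _ ha _ (inv_mem f.σ_mem) aL (mt inv_mem_iff.1 f.σ_not))
  have AL : A ≤ d.L := fun _ k => JL (f.A_le k)
  obtain ⟨y, y1, y2⟩ : ∃ y, y * t * y⁻¹ = t * s d.z ∧ Ac s A y σ := by
    refine ⟨s (a * σ⁻¹)⁻¹ * x, ?_, f.σ_A, fun b hb => ?_⟩
    · calc _ = s (a * σ⁻¹)⁻¹ * (x * t * x⁻¹) * (s (a * σ⁻¹)⁻¹)⁻¹ := by group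
        _ = _ := by
          rw [x1, mul_inv_eq_iff_eq_mul]
          refine Commute.mul_right (c.s_t hh) (c.s_comm hh m.z_L ?_)
          exact (Commute.mul_left (mul_inv_eq_iff_eq_mul.1 az) (Commute.inv_left f.σ_z)).inv_left
    · calc _ = s (a * σ⁻¹)⁻¹ * (x * s b * x⁻¹) * (s (a * σ⁻¹)⁻¹)⁻¹ := by group
        _ = _ := by rw [(h b (f.A_le hb)).2, ← c.s_cj hh (m.conj_L ha (AL hb))]; congr 1; group
  have eL := AL f.e_mem
  have y3 : y * (t * s e) * y⁻¹ = t * s e := by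
    rw [← conj_mul, y1, y2.2 e f.e_mem, f.σ_e, Jz (f.A_le f.e_mem), c.s_mul m.z_L eL, mul_assoc, ← mul_assoc (s d.z),
      zz m c, one_mul]
  have g1 : Ac s A (s g) g := ⟨f.g_A, fun b hb => (c.s_cj f.g_mem (AL hb)).symm⟩
  have y4 : s g * y * (s g)⁻¹ * t * (s g * y * (s g)⁻¹)⁻¹ = t * s e := by
    calc _ = s g * (y * ((s g)⁻¹ * (t * s g)) * y⁻¹) * (s g)⁻¹ := by group
      _ = _ := by
        rw [← c.s_t f.g_mem, inv_mul_cancel_left, y1, ← mul_assoc, c.s_t f.g_mem, ← f.g_z, c.s_cj f.g_mem m.z_L]; group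
  have y5 := (g1.mul y2).mul g1.inv
  have gC := m.L_le f.g_mem
  have sC := mul_mem (mul_mem gC f.σ_mem) (inv_mem gC)
  generalize s g * y * (s g)⁻¹ = y', g * σ * g⁻¹ = σ' at y4 y5 sC
  have y6 := (y5.inv.mul y2).mul y5
  have y7 : y'⁻¹ * y * y' ∈ centralizer {t} := mem_cent1.2 (mul_inv_eq_iff_eq_mul.1 (by
    calc _ = y'⁻¹ * (y * (y' * t * y'⁻¹) * y⁻¹) * y' := by group
      _ = _ := by rw [y4, y3, ← y4]; group))
  have s2 := mul_mem (mul_mem (inv_mem sC) f.σ_mem) sC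
  have y8 := f.cenA _ (mul_mem (inv_mem (c.mem _ y7)) s2) (mem_cent.2 fun b hb => by
    have := c.s_inj (m.conj_L (c.mem _ y7) (AL hb)) (m.conj_L s2 (AL hb)) ((c.conj y7 (AL hb)).symm.trans (y6.2 b hb))
    generalize π (y'⁻¹ * y * y') = p, σ'⁻¹ * σ * σ' = q at this
    calc b * (p⁻¹ * q) = p⁻¹ * (p * b * p⁻¹) * q := by group
      _ = _ := by rw [this]; group)
  have y9 := m.conj_L sC ((mul_mem_cancel_left (inv_mem (hL _ y7))).1 y8)
  rw [show σ' * (σ'⁻¹ * σ * σ') * σ'⁻¹ = σ by group] at y9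
  exact absurd y9 f.σ_not

section Fin

variable (m : Base d Th) (c : Sec d t L π s) (p : Cmp d t s k)
include m c p

omit m c in
theorem kc {x h : Γ} (hx : cl d x) (hh : h ∈ d.L) (e : h * x = x * h) : s h * k x = k x * s h := by
  have := p.eqv x hx h hh
  rw [e, mul_inv_cancel_right] at this
  exact mul_inv_eq_iff_eq_mul.1 this.symm

theorem tk {x : Γ} (hx : cl d x) : t * k x * t⁻¹ = k x * s x := by
  rw [mul_inv_eq_iff_eq_mul, mul_assoc, c.s_t (m.cl_mem hx), ← p.tc x hx, ← mul_assoc, ← mul_assoc, p.sq x hx, one_mul]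

omit m in
theorem gd_conj {x y a : Γ} (hx : cl d x) (hy : cl d y) (ha : a ∈ d.L)
    (h : Commute (k (a * x * a⁻¹)) (t * k (a * y * a⁻¹) * t⁻¹)) : Commute (k x) (t * k y * t⁻¹) := by
  rw [p.eqv x hx a ha, p.eqv y hy a ha, show t * (s a * k y * (s a)⁻¹) * t⁻¹ = t * s a * k y * (t * s a)⁻¹ by group,
    ← c.s_t ha, show s a * t * k y * (s a * t)⁻¹ = s a * (t * k y * t⁻¹) * (s a)⁻¹ by group] at h
  exact (Commute.conj_iff _).1 h

theorem uniq (H : CenH d) {v : G} (v2 : v * v = 1) (vt : v * t * v = t * s d.z)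
    (vc : ∀ h ∈ d.L, h * d.z = d.z * h → s h * v = v * s h) : v = k d.z ∨ v = t * k d.z * t⁻¹ := by
  have k2 := p.sq _ (cl_z d)
  have kt := p.tc _ (cl_z d)
  have kz := kc p (cl_z d) m.z_L rfl
  have hj : k d.z * v ∈ centralizer {t} := mem_cent1.2 (mul_inv_eq_iff_eq_mul.1 (by
    rw [mul_inv_rev, inv_eq_of_sq v2, inv_eq_of_sq k2]
    calc _ = k d.z * (v * t * v) * k d.z := by group
      _ = k d.z * t * k d.z * s d.z := by rw [vt, mul_assoc, mul_assoc, kz]; group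
      _ = _ := by rw [kt, mul_assoc, zz m c, mul_one]))
  have h1 := H _ (c.mem _ hj) (c.π_cent hj inf_le_left fun h hh => (Commute.mul_right
    (kc p (cl_z d) hh.1 (mem_cent1.1 hh.2)) (vc h hh.1 (mem_cent1.1 hh.2))).symm)
  have h2 : ∀ {j}, k d.z * v = j → v = k d.z * j := fun e => by rw [← e, ← mul_assoc, k2, one_mul]
  have h3 : k d.z * t * (k d.z * t) = s d.z := by
    rw [← mul_assoc, kt, mul_assoc, c.s_t m.z_L, ← mul_assoc, c.t_sq, one_mul]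
  rcases h1 with e | e <;> rcases c.lift hj (by rw [e]; first | exact one_mem _ | exact m.z_L) with e' | e' <;>
    rw [e] at e' <;> have e1 := h2 e'
  · exact .inl (by rw [e1, c.s_one, mul_one])
  · rw [e1, c.s_one, mul_one, h3] at v2
    exact absurd v2 (z1 m c)
  · exact .inr (by rw [e1, tk m c p (cl_z d)])
  · rw [e1, ← mul_assoc _ t, Commute.mul_mul_mul_comm (Commute.mul_right kz (c.s_t m.z_L)), h3, zz m c, mul_one] at v2
    exact absurd v2 (z1 m c)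

open P5a in
theorem fin [Finite G] {S : Set Γ} {y y' : Γ} (H : CenH d) (q : Clq d S y y') (gd : Gd s k y y') :
    ∃ L₁, Wrt t L L₁ := by
  have sy : ∀ {a b : G}, Commute a (t * b * t⁻¹) → Commute b (t * a * t⁻¹) := fun {a b} h => by
    have := cmj t h.eq
    rw [show t * (t * b * t⁻¹) * t⁻¹ = t * t * b * (t * t)⁻¹ by group, c.t_sq, one_mul, inv_one, mul_one] at this
    exact this.symm
  have cm : Cm t (closure (k '' S)) := cm_closure (by
    rintro _ ⟨x, hx, rfl⟩ _ ⟨x', hx', rfl⟩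
    have c1 := q.mem x hx
    have c2 := q.mem x' hx'
    rcases q.pair x hx x' hx' with rfl | ⟨a, ha, rfl, rfl⟩ | ⟨a, ha, rfl, rfl⟩
    · rw [tk m c p c1]
      exact (Commute.refl _).mul_right (kc p c1 (m.cl_mem c1) rfl).symm
    · exact gd_conj c p c1 c2 ha (by rw [tk m c p (c2.conj ha)]; exact gd)
    · exact sy (gd_conj c p c2 c1 ha (by rw [tk m c p (c1.conj ha)]; exact gd)))
  have dgen : ∀ x, cl d x → dg t (k x) = s x := fun x hx => by
    rw [dg, tk m c p hx, ← mul_assoc, p.sq x hx, one_mul]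
  have h1 : ∀ x ∈ closure (k '' S), dg t x ∈ L := fun x hx => by
    induction hx using closure_induction with
    | mem x hx =>
      obtain ⟨a, ha, rfl⟩ := hx
      rw [dgen a (q.mem a ha)]; exact c.s_mem _ (m.cl_mem (q.mem a ha))
    | one => rw [dg_one]; exact one_mem _
    | mul x y hx hy h1 h2 => rw [cm.mul hx hy]; exact mul_mem h1 h2
    | inv x hx h1 => rw [cm.inv hx]; exact inv_mem h1
  let sH : d.L →* G := MonoidHom.mk' (fun x => s x) fun a b => c.s_mul a.2 b.2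
  have hr : sH.range = L := le_antisymm (by rintro _ ⟨a, rfl⟩; exact c.s_mem _ a.2)
    fun l hl => ⟨⟨_, c.memL l hl⟩, c.s_π hl⟩
  have h2 : ∀ l ∈ L, ∃ x ∈ closure (k '' S), dg t x = l := fun l hl => by
    have : closure S ≤ (cm.im.comap sH).map d.L.subtype := (closure_le _).2 fun a ha =>
      ⟨⟨a, m.cl_mem (q.mem a ha)⟩, ⟨k a, subset_closure ⟨a, ha, rfl⟩, dgen a (q.mem a ha)⟩, rfl⟩
    obtain ⟨a, ⟨x, hx, e1⟩, e2⟩ := this (q.gen (c.memL l hl))
    exact ⟨x, hx, e1.trans ((congrArg s e2).trans (c.s_π hl))⟩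
  have h3 : ∀ l ∈ L, l ∈ 𝒩(closure (k '' S)) := fun l hl => mem_norm_of fun y hy => by
    obtain ⟨x, hx, rfl⟩ := h2 l hl
    rw [cm.conj hx hy]; exact mul_mem (mul_mem hx hy) (inv_mem hx)
  have h4 : ∀ x, cl d x → k x ∈ closure (k '' S) := by
    obtain ⟨x, hx⟩ : S.Nonempty := by
      rw [Set.nonempty_iff_ne_empty]
      rintro rfl
      exact m.z_ne (mem_bot.1 (Subgroup.closure_empty (G := Γ) ▸ q.gen m.z_L))
    obtain ⟨a, ha, rfl⟩ := q.mem x hx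
    rintro _ ⟨b, hb, rfl⟩
    have := conj_mem' (h3 _ (c.s_mem a ha)) (subset_closure ⟨_, hx, rfl⟩)
    rw [p.eqv _ (cl_z d) a ha, show (s a)⁻¹ * (s a * k d.z * (s a)⁻¹) * s a = k d.z by group] at this
    rw [p.eqv _ (cl_z d) b hb]
    exact conj_mem (h3 _ (c.s_mem b hb)) this
  have h5 : ∀ n ∈ centralizer {t}, n * k d.z * n⁻¹ ∈ closure (k '' S) → n ∈ 𝒩(closure (k '' S)) := fun n hn e =>
    mem_norm_of fun y hy => (closure_le ((closure (k '' S)).comap (MulAut.conj n).toMonoidHom)).2 (by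
      rintro _ ⟨x, hx, rfl⟩
      obtain ⟨a, ha, rfl⟩ := q.mem x hx
      have := conj_mem (h3 _ (conj_mem (c.norm hn) (c.s_mem a ha))) e
      rwa [conj_inv, conj_mul, conj_mul, ← p.eqv _ (cl_z d) a ha] at this) hy
  refine ⟨_, cm.wrt h1 h2 (hr ▸ perf_range m.perf sH) fun b hb => ?_⟩
  have hb' := mem_cent1.2 hb
  have bC := c.mem b hb'
  have cz := m.cl_conj (cl_z d) bC
  have h6 := h4 _ cz
  rcases uniq m c p H (v := b⁻¹ * k (π b * d.z * (π b)⁻¹) * b) (by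
      calc _ = b⁻¹ * (k (π b * d.z * (π b)⁻¹) * k (π b * d.z * (π b)⁻¹)) * b := by group
        _ = _ := by rw [p.sq _ cz]; group) (by
      calc _ = b⁻¹ * (k (π b * d.z * (π b)⁻¹) * (b * t * b⁻¹) * k (π b * d.z * (π b)⁻¹)) * b := by group
        _ = b⁻¹ * (t * b) * s d.z := by rw [hb, mul_inv_cancel_right, p.tc _ cz, ← c.conj hb' m.z_L]; group
        _ = _ := by rw [← hb]; group) (fun h hh e => by
      have := kc p cz (m.conj_L bC hh) (cmj _ e)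
      rw [← c.conj hb' hh] at this
      calc _ = b⁻¹ * (b * s h * b⁻¹ * k (π b * d.z * (π b)⁻¹)) * b := by group
        _ = _ := by rw [this]; group) with e | e
  · exact .inl (h5 b hb' (by rw [← e]; simpa [mul_assoc] using h6))
  · refine .inr (h5 _ (mul_mem (inv_mem c.t_mem) hb') ?_)
    rw [c.t_inv, ← hb, show b * t * k d.z * (b * t)⁻¹ = b * (t * k d.z * t⁻¹) * b⁻¹ by group, ← e]
    simpa [mul_assoc] using h6

end Fin

end Z0a

theorem njB : NJB.{u} := fun _ _ _ _ _ _ _ _ _ _ _ _ _ _ m n f c h => Z0a.nj m n f c h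

theorem z0B : Z0B.{u} := fun _ _ _ _ _ _ _ _ _ _ _ _ _ m n f c => Z0a.z0 m n f c

theorem finB : FinB.{u} := fun _ _ _ _ _ _ _ _ _ _ _ _ _ m H q c p gd => Z0a.fin m c p H q gd

end CL.NS
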